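import Cfsg.Agent.Lib.Lin.GenRank

/-!
# Generic Jordan type of endo-permutation modules

The main result `exists_hom_of_endoperm` is the splitting theorem of Dade and Puig for the central
extension attached to a capped endo-permutation module of an elementary abelian `p`-group.
-/

set_option autoImplicit false
set_option linter.unusedSectionVars false
set_option linter.style.haveILetI false

namespace LG

open Module
open scoped Kronecker

universe u

section Chain

variable {K : Type*} [Field K] {W : Type*} [AddCommGroup W] [Module K W] [FiniteDimensional K W]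

/-- Linear maps compatible with two chains of subspaces. -/
def chainHom {V : Type*} [AddCommGroup V] [Module K V] (F : ℕ → Submodule K V)
    (G : ℕ → Submodule K W) : Submodule K (V →ₗ[K] W) where
  carrier := {f | ∀ i, ∀ v ∈ F i, f v ∈ G i}
  add_mem' := fun hf hg i v hv => add_mem (hf i v hv) (hg i v hv)
  zero_mem' := fun i _ _ => zero_mem (G i)
  smul_mem' := fun c _ hf i v hv => (G i).smul_mem c (hf i v hv)

theorem finrank_chainHom (q : ℕ) : ∀ (V : Type u) [AddCommGroup V] [Module K V]
    [FiniteDimensional K V] (F : ℕ → Submodule K V) (G : ℕ → Submodule K W), Antitone F →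
    Antitone G → F 0 = ⊤ → F q = ⊥ → finrank K (chainHom F G) =
      ∑ i ∈ Finset.range q, (finrank K (F i) - finrank K (F (i + 1))) * finrank K (G i) := by
  induction q with
  | zero =>
    intro V _ _ _ F G _ _ h0 hq
    haveI : Subsingleton V := (Submodule.subsingleton_iff K).1
      (subsingleton_of_top_le_bot (h0.symm.trans hq).le)
    rw [Finset.sum_range_zero]
    exact Module.finrank_zero_of_subsingleton
  | succ q ih =>
    intro V _ _ _ F G hF hG h0 hq
    let F' : ℕ → Submodule K (F 1) := fun i => (F (i + 1)).comap (F 1).subtype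
    have hF' : ∀ i, finrank K (F' i) = finrank K (F (i + 1)) := fun i =>
      (Submodule.comapSubtypeEquivOfLe (hF (Nat.le_add_left 1 i))).finrank_eq
    have h1 := ih (F 1) F' (fun i => G (i + 1))
      (fun i j h => Submodule.comap_mono (hF (Nat.succ_le_succ h)))
      (fun i j h => hG (Nat.succ_le_succ h)) (Submodule.comap_subtype_self _)
      (by simp only [F', hq]; exact Submodule.ker_subtype _)
    simp only [hF'] at h1
    let ρ : chainHom F G →ₗ[K] chainHom F' fun i => G (i + 1) :=
      (LinearMap.domRestrict₁₂ (LinearMap.id.flip) (F 1) ⊤).flip.comp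
        (LinearMap.codRestrict ⊤ (chainHom F G).subtype fun _ => trivial) |>.codRestrict _
        fun f i v hv => f.2 (i + 1) v hv
    have hρ : ∀ (f : chainHom F G) (v : F 1), (ρ f).1 v = f.1 v := fun _ _ => rfl
    obtain ⟨C, hC⟩ := (F 1).exists_isCompl
    have h2 : LinearMap.range ρ = ⊤ := by
      rw [LinearMap.range_eq_top]
      intro g
      refine ⟨⟨g.1.comp ((F 1).projectionOnto C hC), fun i v hv => ?_⟩, ?_⟩
      · rcases i with _ | i
        · exact hG (Nat.zero_le 1) (g.2 0 _ ((F 1).projectionOnto C hC v).2)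
        · have hv1 : v ∈ F 1 := hF (Nat.le_add_left 1 i) hv
          have : (F 1).projectionOnto C hC v = ⟨v, hv1⟩ :=
            Submodule.projectionOnto_apply_left hC ⟨v, hv1⟩
          rw [LinearMap.comp_apply, this]
          exact g.2 i _ hv
      · refine Subtype.ext (LinearMap.ext fun v => ?_)
        rw [hρ, LinearMap.comp_apply, Submodule.projectionOnto_apply_left]
    let μ : ((V ⧸ F 1) →ₗ[K] G 0) →ₗ[K] chainHom F G :=
      ((LinearMap.lcomp K W (F 1).mkQ).comp (LinearMap.llcomp K _ _ W (G 0).subtype)).codRestrict _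
        fun f i v hv => by
          rcases i with _ | i
          · exact (f _).2
          · have hv1 : (F 1).mkQ v = 0 :=
              (Submodule.Quotient.mk_eq_zero _).2 (hF (Nat.le_add_left 1 i) hv)
            change ((f ((F 1).mkQ v) : G 0) : W) ∈ _
            rw [hv1, map_zero]
            exact zero_mem _
    have hμ : ∀ f v, (μ f).1 v = f ((F 1).mkQ v) := fun _ _ => rfl
    have h3 : Function.Injective μ := by
      rw [injective_iff_map_eq_zero]
      intro f hf
      refine LinearMap.ext fun x => ?_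
      obtain ⟨v, rfl⟩ := (F 1).mkQ_surjective x
      exact Subtype.ext ((hμ f v).symm.trans (by rw [hf]; rfl))
    have h4 : LinearMap.range μ = LinearMap.ker ρ := by
      ext f
      constructor
      · rintro ⟨g, rfl⟩
        refine Subtype.ext (LinearMap.ext fun v => ?_)
        rw [hρ, hμ, Submodule.mkQ_apply, (Submodule.Quotient.mk_eq_zero _).2 v.2, map_zero]
        rfl
      · intro hf
        have h5 : F 1 ≤ LinearMap.ker (f.1.codRestrict (G 0) fun v => f.2 0 v (h0 ▸ trivial)) :=
          fun v hv => Subtype.ext ((hρ f ⟨v, hv⟩).symm.trans (by rw [LinearMap.mem_ker.1 hf]; rfl))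
        exact ⟨(F 1).liftQ _ h5, Subtype.ext (LinearMap.ext fun v => rfl)⟩
    have h5 := LinearMap.finrank_range_add_finrank_ker ρ
    rw [h2, finrank_top, ← h4, LinearMap.finrank_range_of_inj h3, Module.finrank_linearMap,
      h1] at h5
    have h6 := Submodule.finrank_quotient_add_finrank (F 1)
    rw [Finset.sum_range_succ', ← h5, h0, finrank_top, zero_add, ← h6, Nat.add_sub_cancel]

/-- Lower bound for the dimension of the centraliser of a nilpotent endomorphism. -/
theorem sum_sq_le_finrank_centralizer {V : Type u} [AddCommGroup V] [Module K V]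
    [FiniteDimensional K V] {f : End K V} {q : ℕ} (hf : f ^ q = 0) :
    ∑ i ∈ Finset.range q, (finrank K (LinearMap.range (f ^ i)) -
      finrank K (LinearMap.range (f ^ (i + 1)))) ^ 2 ≤
      finrank K (LinearMap.ker (LinearMap.mulLeft K f - LinearMap.mulRight K f)) := by
  let F : ℕ → Submodule K V := fun i => LinearMap.range (f ^ i)
  have hF : Antitone F := antitone_nat_of_succ_le fun i => by
    simp only [F]
    rw [pow_succ, Module.End.mul_eq_comp]
    exact LinearMap.range_comp_le_range _ _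
  have h0 : F 0 = ⊤ := by simp only [F]; rw [pow_zero, Module.End.one_eq_id, LinearMap.range_id]
  have hq : F q = ⊥ := by simp only [F]; rw [hf, LinearMap.range_zero]
  have h1 := finrank_chainHom q V F F hF hF h0 hq
  have h2 := finrank_chainHom q V F (fun i => F (i + 1)) hF
    (fun i j h => hF (Nat.succ_le_succ h)) h0 hq
  set D := LinearMap.mulLeft K f - LinearMap.mulRight K f
  have h3 := LinearMap.finrank_range_add_finrank_ker (D.domRestrict (chainHom F F))
  have h4 : LinearMap.range (D.domRestrict (chainHom F F)) ≤ chainHom F fun i => F (i + 1) := by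
    rintro _ ⟨g, rfl⟩ i v hv
    have a1 : ∀ x ∈ F i, f x ∈ F (i + 1) := by
      rintro _ ⟨x, rfl⟩
      exact ⟨x, by rw [pow_succ', Module.End.mul_apply]⟩
    exact sub_mem (a1 _ (g.2 i v hv)) (g.2 (i + 1) _ (a1 v hv))
  have h5 : finrank K (LinearMap.ker (D.domRestrict (chainHom F F))) ≤
      finrank K (LinearMap.ker D) := by
    rw [LinearMap.ker_domRestrict, ← Submodule.finrank_map_subtype_eq]
    exact Submodule.finrank_mono (Submodule.map_comap_le _ _)
  have h6 := Submodule.finrank_mono h4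
  have h7 : ∑ i ∈ Finset.range q, (finrank K (F i) - finrank K (F (i + 1))) * finrank K (F i) =
      ∑ i ∈ Finset.range q, (finrank K (F i) - finrank K (F (i + 1))) * finrank K (F (i + 1)) +
        ∑ i ∈ Finset.range q, (finrank K (F i) - finrank K (F (i + 1))) ^ 2 := by
    rw [← Finset.sum_add_distrib]
    refine Finset.sum_congr rfl fun i _ => ?_
    obtain ⟨t, ht⟩ := Nat.exists_eq_add_of_le (Submodule.finrank_mono (hF (Nat.le_succ i)))
    rw [Nat.succ_eq_add_one] at ht
    rw [ht, Nat.add_sub_cancel_left]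
    ring
  change ∑ i ∈ Finset.range q, (finrank K (F i) - finrank K (F (i + 1))) ^ 2 ≤ _
  rw [h7, ← h2] at h1
  exact Nat.le_of_add_le_add_left (h1.symm.trans_le (h3.symm.trans_le (Nat.add_le_add h6 h5)))

end Chain

theorem not_forall_dvd_of_sum_sq_le {p q d : ℕ} {t : ℕ → ℕ} (hq : 2 ≤ q) (hd : ¬ p ∣ d)
    (hs : ∑ i ∈ Finset.range p, t i = d)
    (h : p * ∑ i ∈ Finset.range p, t i ^ 2 + 1 ≤ d ^ 2 + p) : ¬ ∀ i < p, q ∣ t i := by
  intro hdvd
  have h1 : ∑ i ∈ Finset.range p, ∑ j ∈ Finset.range p, ((t i : ℤ) - t j) ^ 2 =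
      2 * (p * ∑ i ∈ Finset.range p, (t i : ℤ) ^ 2 - (d : ℤ) ^ 2) := by
    rw [← hs]
    simp only [sub_sq, Finset.sum_add_distrib, Finset.sum_sub_distrib, Finset.sum_const,
      Finset.card_range, nsmul_eq_mul, ← Finset.mul_sum, ← Finset.sum_mul, Nat.cast_sum]
    ring
  have h2 : ∀ i ∈ Finset.range p, (q : ℤ) ^ 2 ≤ ∑ j ∈ Finset.range p, ((t i : ℤ) - t j) ^ 2 := by
    intro i hi
    obtain ⟨j, hj, hij⟩ : ∃ j ∈ Finset.range p, t j ≠ t i := by
      by_contra hn
      push Not at hn
      rw [Finset.sum_congr rfl hn, Finset.sum_const, Finset.card_range, smul_eq_mul] at hs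
      exact hd ⟨_, hs.symm⟩
    refine le_trans ?_ (Finset.single_le_sum (f := fun j => ((t i : ℤ) - t j) ^ 2)
      (fun _ _ => sq_nonneg _) hj)
    have h3 : (q : ℤ) ∣ (t i : ℤ) - t j :=
      dvd_sub (Int.natCast_dvd_natCast.2 (hdvd i (Finset.mem_range.1 hi)))
        (Int.natCast_dvd_natCast.2 (hdvd j (Finset.mem_range.1 hj)))
    exact Int.le_of_dvd (by
      have : (t i : ℤ) - t j ≠ 0 := sub_ne_zero.2 (by exact_mod_cast hij.symm)
      positivity) (pow_dvd_pow_of_dvd h3 2)
  have h3 := Finset.sum_le_sum h2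
  rw [h1, Finset.sum_const, Finset.card_range, nsmul_eq_mul] at h3
  have h4 : (p : ℤ) * ∑ i ∈ Finset.range p, (t i : ℤ) ^ 2 + 1 ≤ (d : ℤ) ^ 2 + p := by
    exact_mod_cast h
  have h5 : (4 : ℤ) ≤ (q : ℤ) ^ 2 := by
    have : (2 : ℤ) ≤ q := by exact_mod_cast hq
    nlinarith
  have h6 : (0 : ℤ) ≤ p := Nat.cast_nonneg p
  nlinarith

section Plucker

theorem exists_primitive_fun {R α : Type*} [CommRing R] [IsDomain R] [WfDvdMonoid R] (F : α → R)
    {a₀ : α} (h : F a₀ ≠ 0) :
    ∃ (g : R) (F₀ : α → R), (∀ a, F a = g * F₀ a) ∧ ∀ x, (∀ a, x ∣ F₀ a) → IsUnit x := by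
  obtain ⟨_, ⟨g, F₀, h1, rfl⟩, h2⟩ := (wellFounded_dvdNotUnit (α := R)).has_min
    {c | ∃ (g : R) (F₀ : α → R), (∀ a, F a = g * F₀ a) ∧ F₀ a₀ = c}
    ⟨F a₀, 1, F, fun a => (one_mul _).symm, rfl⟩
  refine ⟨g, F₀, h1, fun x hx => by_contra fun hn => ?_⟩
  choose F₁ hF₁ using hx
  refine h2 (F₁ a₀) ⟨g * x, F₁, fun a => by rw [h1, hF₁, mul_assoc], rfl⟩
    ⟨fun h0 => h (by rw [h1, hF₁, h0, mul_zero, mul_zero]), x, hn, by rw [hF₁, mul_comm]⟩

theorem dvd_of_primitive_fun {R α : Type*} [CommRing R] [IsDomain R] [UniqueFactorizationMonoid R]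
    {F : α → R} (hF : ∀ x, (∀ a, x ∣ F a) → IsUnit x) {a b : R} (ha : a ≠ 0)
    (h : ∀ x, a ∣ b * F x) : a ∣ b := by
  obtain ⟨a', b', c, hc, rfl, rfl⟩ := UniqueFactorizationMonoid.exists_reduced_factors a ha b
  have hc0 : c ≠ 0 := left_ne_zero_of_mul ha
  refine mul_dvd_mul_left c (IsUnit.dvd (hF a' fun x => ?_))
  have := h x
  rw [mul_assoc, mul_dvd_mul_iff_left hc0] at this
  exact hc.dvd_of_dvd_mul_left this

variable {k : Type*} [Field k] {Γ : Type*} [Group Γ] {X : Type*} [MulAction Γ X]
  {d : Type*} [Fintype d] [DecidableEq d]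

open MvPolynomial in
/-- A semi-invariant matrix over the polynomial ring gives a linear character extending the
`r`-th power of the central character, `r` its generic rank. -/
theorem exists_hom_pow_rank (σ : Γ →* Matrix d d k) (N : Matrix d d (MvPolynomial X k))
    (hN : ∀ γ : Γ, (σ γ).map C * N.map (rename (γ • ·)) = N * (σ γ).map C)
    {K : Type*} [Field K] {g : MvPolynomial X k →+* K} (hg : Function.Injective g) :
    ∃ ψ : Γ →* kˣ, ∀ (γ : Γ) (c : k), (∀ x : X, γ • x = x) → σ γ = c • 1 →
      (ψ γ : k) = c ^ (N.map g).rank := by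
  set r := (N.map g).rank with hr
  let c₀ : k →+* MvPolynomial X k := C
  change ∀ γ : Γ, (σ γ).map c₀ * N.map (rename (γ • ·)) = N * (σ γ).map c₀ at hN
  let G : Matrix (Fin r) d k → Matrix d (Fin r) k → MvPolynomial X k := fun Q D =>
    (Q.map c₀ * N * D.map c₀).det
  obtain ⟨B, C', hBC, -⟩ := exists_rank_factorization _ hr.symm
  have hG : ∀ Q D, g (G Q D) = ((Q.map c₀).map g * B).det * (C' * (D.map c₀).map g).det := by
    intro Q D
    rw [RingHom.map_det, RingHom.mapMatrix_apply, Matrix.map_mul, Matrix.map_mul, hBC,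
      ← Matrix.det_mul]
    simp only [Matrix.mul_assoc]
  have hG2 : ∀ Q D Q' D', G Q D * G Q' D' = G Q D' * G Q' D := fun Q D Q' D' => hg (by
    simp only [map_mul, hG]; ring)
  obtain ⟨ι, κ, h0⟩ := exists_minor_ne_zero _ hr.symm
  let Q₀ : Matrix (Fin r) d k := (1 : Matrix d d k).submatrix ι id
  let D₀ : Matrix d (Fin r) k := (1 : Matrix d d k).submatrix id κ
  have h1 : G Q₀ D₀ ≠ 0 := by
    intro h
    apply h0
    have e : Q₀.map c₀ * N * D₀.map c₀ = N.submatrix ι κ := by
      ext i j : 2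
      simp [Q₀, D₀, Matrix.mul_apply, Matrix.one_apply, apply_ite c₀]
    rw [Matrix.submatrix_map, ← RingHom.mapMatrix_apply, ← RingHom.map_det, ← e]
    exact (congrArg g h).trans (map_zero g)
  obtain ⟨a, F, hF, hprim⟩ := exists_primitive_fun (fun Q => G Q D₀) h1
  have ha : a ≠ 0 := left_ne_zero_of_mul (hF Q₀ ▸ h1)
  have hF0 : F Q₀ ≠ 0 := right_ne_zero_of_mul (hF Q₀ ▸ h1)
  let ρ : Γ → MvPolynomial X k →ₐ[k] MvPolynomial X k := fun γ => rename (γ • ·)
  have hρ : ∀ γ δ x, ρ γ (ρ δ x) = ρ (γ * δ) x := fun γ δ x => by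
    simp only [ρ, rename_rename]
    exact congrArg (fun f => rename f x) (funext fun y => (mul_smul γ δ y).symm)
  have hρ1 : ∀ γ, (∀ x : X, γ • x = x) → ∀ x, ρ γ x = x := fun γ h x => by
    simp only [ρ, h]
    exact rename_id_apply x
  have hρ0 : ∀ γ x, ρ γ x = 0 → x = 0 := fun γ x h => by
    rw [← hρ1 1 (one_smul Γ) x, ← inv_mul_cancel γ, ← hρ, h, map_zero]
  have h2 : ∀ γ (Q : Matrix (Fin r) d k), ρ γ (G (Q * σ γ) D₀) = G Q (σ γ * D₀) := by
    intro γ Q
    have e : ((Q * σ γ).map c₀).map (ρ γ) = (Q * σ γ).map c₀ := by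
      generalize Q * σ γ = Y
      ext i j : 2
      simp [ρ, c₀]
    have e2 : (D₀.map c₀).map (ρ γ) = D₀.map c₀ := by
      ext i j : 2
      simp [ρ, c₀]
    simp only [G]
    rw [AlgHom.map_det, AlgHom.mapMatrix_apply, Matrix.map_mul, Matrix.map_mul, e, e2,
      Matrix.map_mul, Matrix.map_mul, Matrix.mul_assoc (Q.map c₀), hN]
    simp only [Matrix.mul_assoc]
  have key : ∀ γ, ∃ c : kˣ, ∀ Q : Matrix (Fin r) d k, ρ γ (F (Q * σ γ)) = C (c : k) * F Q := by
    intro γ
    have h3 : ∀ Q : Matrix (Fin r) d k,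
        F Q₀ * ρ γ (F (Q * σ γ)) = ρ γ (F (Q₀ * σ γ)) * F Q := fun Q => by
      have := hG2 Q (σ γ * D₀) Q₀ D₀
      rw [← h2 γ Q, ← h2 γ Q₀, hF, hF, hF, hF, map_mul, map_mul] at this
      refine mul_left_cancel₀ (mul_ne_zero ha (mt (hρ0 γ a) ha)) ?_
      linear_combination this
    have h4 : ∀ x, (∀ Q : Matrix (Fin r) d k, x ∣ ρ γ (F (Q * σ γ))) → IsUnit x := fun x hx => by
      have : IsUnit (ρ γ⁻¹ x) := hprim _ fun Q => by
        have := map_dvd (ρ γ⁻¹) (hx (Q * σ γ⁻¹))
        rwa [hρ, inv_mul_cancel, hρ1 1 (one_smul Γ), Matrix.mul_assoc Q, ← map_mul, inv_mul_cancel,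
          map_one, Matrix.mul_one] at this
      have := this.map (ρ γ)
      rwa [hρ, mul_inv_cancel, hρ1 1 (one_smul Γ)] at this
    have h5 : ρ γ (F (Q₀ * σ γ)) ≠ 0 := fun h => not_isUnit_zero (h4 0 fun Q => by
      have := h3 Q
      rw [h, zero_mul] at this
      rw [(mul_eq_zero.1 this).resolve_left hF0])
    obtain ⟨u, hu⟩ := associated_of_dvd_dvd
      (dvd_of_primitive_fun hprim hF0 fun Q => ⟨_, (h3 Q).symm⟩)
      (dvd_of_primitive_fun h4 h5 fun Q => ⟨_, h3 Q⟩)
    obtain ⟨c, hc, hc'⟩ := isUnit_iff_eq_C_of_isReduced.1 u.isUnit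
    refine ⟨hc.unit, fun Q => mul_left_cancel₀ hF0 ?_⟩
    rw [h3, ← hu, hc', IsUnit.unit_spec, mul_assoc]
  choose ψ hψ using key
  refine ⟨MonoidHom.mk' ψ fun γ δ => Units.ext (C_injective X k (mul_right_cancel₀ hF0 ?_)),
    fun γ c hγ hc => C_injective X k (mul_right_cancel₀ (mul_ne_zero ha hF0) ?_)⟩
  · rw [← hψ, ← hρ, map_mul σ, ← Matrix.mul_assoc, hψ, map_mul, hψ, Units.val_mul, map_mul]
    simp only [ρ, rename_C]
    ring
  · have := hψ γ Q₀
    rw [hρ1 γ hγ, hc, Matrix.mul_smul, Matrix.mul_one] at this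
    rw [MonoidHom.mk'_apply, mul_left_comm, ← this, ← hF, ← hF]
    have e : (c • Q₀).map c₀ = c₀ c • Q₀.map c₀ := by
      ext i j : 2
      simp
    simp only [G]
    rw [e, Matrix.smul_mul, Matrix.smul_mul, Matrix.det_smul, Fintype.card_fin, map_pow]

end Plucker

section Perm

variable {p : ℕ} [hp : Fact p.Prime] {k : Type*} [Field k] [CharP k p] {X : Type*} [Fintype X]

theorem comb_pow_char {n K : Type*} [Fintype n] [DecidableEq n] [Field K] [Algebra k K]
    (y : X → K) {a : X → Matrix n n k} (hc : ∀ x x', Commute (a x) (a x'))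
    (ha : ∀ x, a x ^ p = 0) : comb y a ^ p = 0 := by
  classical
  cases isEmpty_or_nonempty n
  · exact Subsingleton.elim _ _
  haveI : CharP K p := charP_of_injective_algebraMap (algebraMap k K).injective p
  let φ : Matrix n n k →+* Matrix n n K := (algebraMap k K).mapMatrix
  have key : ∀ s : Finset X, (∑ x ∈ s, y x • φ (a x)) ^ p = 0 := by
    intro s
    induction s using Finset.induction_on with
    | empty => rw [Finset.sum_empty, zero_pow hp.out.ne_zero]
    | insert x s hx ih =>
      rw [Finset.sum_insert hx, add_pow_char_of_commute p (Commute.sum_right _ _ _ fun x' _ =>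
        (((hc x x').map φ).smul_left _).smul_right _), ih, smul_pow, ← map_pow, ha, map_zero,
        smul_zero, add_zero]
  exact key Finset.univ

theorem sub_one_pow_char {n : Type*} [Fintype n] [DecidableEq n] {T : Matrix n n k}
    (h : T ^ p = 1) : (T - 1) ^ p = 0 := by
  cases isEmpty_or_nonempty n
  · exact Subsingleton.elim _ _
  rw [sub_pow_char_of_commute p (Commute.one_right T), h, one_pow, sub_self]

theorem comb_mul_eq {m n K : Type*} [Fintype m] [Fintype n] [CommRing K] [Algebra k K]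
    (y : X → K) {a : X → Matrix m m k} {b : X → Matrix n n k} {B : Matrix m n k}
    (h : ∀ x, a x * B = B * b x) :
    comb y a * B.map (algebraMap k K) = B.map (algebraMap k K) * comb y b := by
  simp only [comb, Matrix.sum_mul, Matrix.mul_sum, Matrix.smul_mul, Matrix.mul_smul,
    ← Matrix.map_mul, h]

theorem pow_mul_eq_mul_pow {m n K : Type*} [Fintype m] [Fintype n] [DecidableEq m] [DecidableEq n]
    [CommRing K] {A : Matrix m m K} {A' : Matrix n n K} {B : Matrix m n K} (h : A * B = B * A')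
    (i : ℕ) : A ^ i * B = B * A' ^ i := by
  induction i with
  | zero => simp
  | succ i ih => rw [pow_succ, Matrix.mul_assoc, h, ← Matrix.mul_assoc, ih, Matrix.mul_assoc,
      ← pow_succ]

theorem mul_finrank_ker_perm_le {S : Type*} [Fintype S] [DecidableEq S] {τ : Equiv.Perm S}
    (hτ : τ ^ p = 1) (h : ∀ s, τ s ≠ s) :
    p * finrank k (LinearMap.ker (Matrix.permMatrixHom τ - 1 : Matrix S S k).mulVecLin) ≤
      Fintype.card S := by
  classical
  let G := Subgroup.zpowers τ
  have hG : IsPGroup p G := by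
    rintro ⟨_, n, rfl⟩
    exact ⟨1, Subtype.ext (by
      rw [pow_one, SubmonoidClass.coe_pow]
      change (τ ^ n) ^ p = 1
      rw [← zpow_natCast, ← zpow_mul, mul_comm, zpow_mul, zpow_natCast, hτ, one_zpow])⟩
  let Q := MulAction.orbitRel.Quotient G S
  haveI : Fintype Q := Fintype.ofFinite Q
  have h1 : finrank k (LinearMap.ker (Matrix.permMatrixHom τ - 1 : Matrix S S k).mulVecLin) ≤
      Fintype.card Q := by
    rw [← Module.finrank_fintype_fun_eq_card k]
    refine LinearMap.finrank_le_finrank_of_injective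
      (f := (LinearMap.funLeft k k (Quotient.out : Q → S)).comp (Submodule.subtype _)) ?_
    rw [injective_iff_map_eq_zero]
    rintro ⟨v, hv⟩ h0
    have h2 : ∀ s, v (τ s) = v s := fun s => by
      have := congrFun (LinearMap.mem_ker.1 hv) (τ s)
      rw [Matrix.mulVecLin_apply, Matrix.sub_mulVec, Matrix.permMatrixHom_apply,
        Matrix.permMatrix_mulVec, Matrix.one_mulVec] at this
      exact ((sub_eq_zero.1 this).symm.trans (by simp))
    have h3 : ∀ g ∈ G, ∀ s, v (g s) = v s := by
      intro g hg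
      obtain ⟨n, rfl⟩ := (mem_powers_iff_mem_zpowers.2 hg : ∃ n : ℕ, τ ^ n = g)
      clear hg
      induction n with
      | zero => intro s; rfl
      | succ n ih =>
        intro s
        beta_reduce at ih ⊢
        rw [pow_succ', Equiv.Perm.mul_apply, h2, ih]
    refine Subtype.ext (funext fun s => ?_)
    obtain ⟨g, hg⟩ : s ∈ MulAction.orbit G (Quotient.out (Quotient.mk'' s : Q)) :=
      MulAction.orbitRel_apply.1 (Quotient.exact' (Quotient.out_eq' _).symm)
    rw [← hg]
    exact (h3 g g.2 _).trans (congrFun h0 _)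
  refine (Nat.mul_le_mul_left p h1).trans ?_
  rw [Fintype.card_congr (MulAction.selfEquivSigmaOrbits G S), Fintype.card_sigma, mul_comm,
    ← Finset.card_univ, ← smul_eq_mul, ← Finset.sum_const]
  refine Finset.sum_le_sum fun ω _ => ?_
  obtain ⟨n, hn⟩ := hG.card_orbit ω.out
  rw [← Nat.card_eq_fintype_card, hn]
  refine Nat.le_self_pow ?_ p
  rintro rfl
  have : Subsingleton (MulAction.orbit G ω.out) := (Nat.card_eq_one_iff_unique.1 hn).1
  exact h _ (congrArg Subtype.val (this.elim
    ⟨_, MulAction.mem_orbit _ (⟨τ, Subgroup.mem_zpowers τ⟩ : G)⟩ ⟨_, MulAction.mem_orbit_self _⟩))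

/-- The generic element acts freely on a permutation module on which one of the generators has no
fixed point. -/
theorem ker_comb_perm_le {S K : Type*} [Fintype S] [DecidableEq S] [Field K] [Algebra k K]
    {g : MvPolynomial X k →ₐ[k] K} (hg : Function.Injective g) {τ : X → Equiv.Perm S}
    (hc : ∀ x x', Commute (τ x) (τ x')) (hτ : ∀ x, τ x ^ p = 1) {x₀ : X} (h : ∀ s, τ x₀ s ≠ s)
    {U : Matrix S S K}
    (hU : U = comb (fun x => g (MvPolynomial.X x))
      fun x => (Matrix.permMatrixHom (τ x) : Matrix S S k) - 1) :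
    LinearMap.ker U.toLin' ≤ LinearMap.range (U.toLin' ^ (p - 1)) := by
  classical
  have hp1 : p - 1 + 1 = p := Nat.sub_add_cancel hp.out.one_le
  refine ker_le_range_pow ?_ ?_
  · rw [hp1, ← Matrix.toLin'_pow, hU, comb_pow_char _ (fun x x' =>
      (((hc x x').map (Matrix.permMatrixHom (R := k))).sub_right (Commute.one_right _)).sub_left (Commute.one_left _))
      (fun x => sub_one_pow_char (T := (Matrix.permMatrixHom (τ x) : Matrix S S k))
        (by rw [← map_pow, hτ, map_one])), map_zero]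
  · have h1 := rank_comb_le hg (Pi.single x₀ (1 : k))
      fun x => (Matrix.permMatrixHom (τ x) - 1 : Matrix S S k)
    rw [← hU, comb, Finset.sum_eq_single x₀ (fun x _ hx => by simp [hx]) (by simp),
      Pi.single_eq_same, one_smul, Algebra.algebraMap_self, RingHom.coe_id, Matrix.map_id] at h1
    have h2 := mul_finrank_ker_perm_le (k := k) (hτ x₀) h
    have h3 := LinearMap.finrank_range_add_finrank_ker U.toLin'
    have h4 := LinearMap.finrank_range_add_finrank_ker
      (Matrix.permMatrixHom (τ x₀) - 1 : Matrix S S k).mulVecLin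
    rw [Module.finrank_fintype_fun_eq_card] at h3 h4 ⊢
    rw [hp1]
    refine le_trans (Nat.mul_le_mul_left p ?_) h2
    change finrank k (LinearMap.range _) ≤ finrank K (LinearMap.range U.toLin') at h1
    omega

end Perm

section Main

variable {p : ℕ} [hp : Fact p.Prime] {k : Type*} [Field k] [CharP k p] {X : Type*} [Fintype X]
  {d : Type*} [Fintype d] [DecidableEq d] {Ω : Type*} [Fintype Ω]

theorem kronecker_transpose_mulVec {K : Type*} [CommRing K] (x y A : Matrix d d K) :
    (x ⊗ₖ y.transpose).mulVec (fun ij => A ij.1 ij.2) = fun ij => (x * A * y) ij.1 ij.2 := by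
  funext ij
  simp only [Matrix.mulVec, dotProduct, Matrix.kroneckerMap_apply, Matrix.transpose_apply,
    Matrix.mul_apply, Fintype.sum_prod_type, Finset.sum_mul]
  rw [Finset.sum_comm]
  exact Finset.sum_congr rfl fun _ _ => Finset.sum_congr rfl fun _ _ => by ring

/-- The matrix algebra `Matrix d d k`, acted on by conjugation with commuting matrices `v x` of
order `p`, is a direct summand of a permutation module, with one-dimensional Brauer quotient. -/
structure EndoPerm (p : ℕ) (v w : X → Matrix d d k) (τ : X → Equiv.Perm Ω) (Ψ : Ω → Matrix d d k)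
    (Φ : Matrix d d k →ₗ[k] Ω → k) : Prop where
  comm : ∀ x x', Commute (v x) (v x')
  pow : ∀ x, v x ^ p = 1
  inv : ∀ x, w x * v x = 1
  commτ : ∀ x x', Commute (τ x) (τ x')
  powτ : ∀ x, τ x ^ p = 1
  equiv : ∀ x ω, Ψ (τ x ω) = v x * Ψ ω * w x
  equiv' : ∀ x A ω, Φ (v x * A * w x) (τ x ω) = Φ A ω
  sec : ∀ A, ∑ ω, Φ A ω • Ψ ω = A
  fix : ∀ ω, (∀ x, τ x ω = ω) → ∃ c : k, Ψ ω = c • 1

namespace EndoPerm

variable {v w : X → Matrix d d k} {τ : X → Equiv.Perm Ω} {Ψ : Ω → Matrix d d k}
  {Φ : Matrix d d k →ₗ[k] Ω → k} (h : EndoPerm p v w τ Ψ Φ)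
include h

theorem eq_pow (x : X) : w x = v x ^ (p - 1) := by
  have := h.pow x
  rw [← Nat.sub_add_cancel hp.out.one_le, pow_succ'] at this
  rw [← mul_one (w x), ← this, ← mul_assoc, h.inv, one_mul]

theorem finrank_ker_ad {K : Type*} [Field K] [Algebra k K] {g : MvPolynomial X k →ₐ[k] K}
    (hg : Function.Injective g) {U : Matrix (d × d) (d × d) K}
    (hU : U = comb (fun x => g (MvPolynomial.X x)) fun x => v x ⊗ₖ (w x).transpose - 1) :
    p * finrank K (LinearMap.ker U.toLin') + 1 ≤ Fintype.card d ^ 2 + p := by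
  classical
  let ty : Ω → Finset X := fun ω => Finset.univ.filter fun x => τ x ω = ω
  have hty : ∀ x ω, ty (τ x ω) = ty ω := fun x ω => Finset.filter_congr fun x' _ => by
    rw [← Equiv.Perm.mul_apply, (h.commτ x' x).eq, Equiv.Perm.mul_apply,
      (τ x).apply_eq_iff_eq]
  let τ' : ∀ T : Finset X, X → Equiv.Perm {ω // ty ω = T} := fun T x =>
    (τ x).subtypePerm fun ω => by rw [hty]
  let Ψ' : ∀ T : Finset X, Matrix (d × d) {ω // ty ω = T} k := fun T =>
    Matrix.of fun ij s => Ψ s ij.1 ij.2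
  let Φ' : ∀ T : Finset X, Matrix {ω // ty ω = T} (d × d) k := fun T =>
    Matrix.of fun s ij => Φ (Matrix.single ij.1 ij.2 1) s
  have hΦ : ∀ A ω, Φ A ω = ∑ ij : d × d, Φ (Matrix.single ij.1 ij.2 1) ω * A ij.1 ij.2 := by
    intro A ω
    conv_lhs => rw [Matrix.matrix_eq_sum_single A]
    simp only [map_sum, Finset.sum_apply, Fintype.sum_prod_type]
    refine Finset.sum_congr rfl fun i _ => Finset.sum_congr rfl fun j _ => ?_
    rw [← mul_one (A i j), ← smul_eq_mul, ← Matrix.smul_single, map_smul]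
    simp [mul_comm]
  have h1 : ∀ T x, (v x ⊗ₖ (w x).transpose - 1) * Ψ' T =
      Ψ' T * ((Matrix.permMatrixHom (τ' T x) : Matrix _ _ k) - 1) := by
    intro T x
    rw [Matrix.sub_mul, Matrix.mul_sub, Matrix.one_mul, Matrix.mul_one, sub_left_inj]
    ext ij s
    have e1 := congrFun (kronecker_transpose_mulVec (v x) (w x) (Ψ s)) ij
    have e2 := congrFun (Matrix.vecMul_permMatrix (σ := (τ' T x)⁻¹)
      (v := fun s : {ω // ty ω = T} => Ψ s ij.1 ij.2)) s
    rw [← h.equiv] at e1
    exact e1.trans e2.symm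
  have h2 : ∀ T x, ((Matrix.permMatrixHom (τ' T x) : Matrix _ _ k) - 1) * Φ' T =
      Φ' T * (v x ⊗ₖ (w x).transpose - 1) := by
    intro T x
    rw [Matrix.sub_mul, Matrix.mul_sub, Matrix.one_mul, Matrix.mul_one, sub_left_inj]
    ext s ij
    have e2 := congrFun (Matrix.permMatrix_mulVec (σ := (τ' T x)⁻¹)
      (v := fun s : {ω // ty ω = T} => Φ (Matrix.single ij.1 ij.2 1) s)) s
    refine e2.trans ?_
    have e1 := h.equiv' x (Matrix.single ij.1 ij.2 1) ((τ x)⁻¹ s)
    rw [show τ x ((τ x)⁻¹ s) = s from (τ x).apply_symm_apply s, hΦ] at e1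
    refine e1.symm.trans (Finset.sum_congr rfl fun kl _ => ?_)
    simp [Φ', Matrix.mul_apply, Matrix.single_apply, ite_and]
  have h3 : ∑ T, Ψ' T * Φ' T = 1 := by
    ext ij kl
    have := congrFun (congrFun (h.sec (Matrix.single kl.1 kl.2 1)) ij.1) ij.2
    rw [Matrix.sum_apply, ← Fintype.sum_fiberwise ty] at this
    rw [Matrix.sum_apply]
    simp only [Matrix.mul_apply, Ψ', Φ', Matrix.of_apply]
    simp only [Matrix.smul_apply, smul_eq_mul, mul_comm (Φ _ _)] at this
    rw [this, Matrix.single_apply, Matrix.one_apply]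
    exact if_congr (by rw [Prod.ext_iff, eq_comm, eq_comm (a := kl.2)]) rfl rfl
  let φ := algebraMap k K
  let e : d × d → K := fun ij => (1 : Matrix d d K) ij.1 ij.2
  have h4 : LinearMap.ker U.toLin' ≤ (K ∙ e) ⊔ LinearMap.range (U.toLin' ^ (p - 1)) := by
    intro z hz
    have a1 : z = ∑ T, ((Ψ' T).map φ).mulVec (((Φ' T).map φ).mulVec z) := by
      simp only [Matrix.mulVec_mulVec, ← Matrix.map_mul]
      simp only [← RingHom.mapMatrix_apply]
      rw [← Matrix.sum_mulVec, ← map_sum, h3, map_one, Matrix.one_mulVec]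
    rw [a1]
    refine Submodule.sum_mem _ fun T _ => ?_
    by_cases hT : T = Finset.univ
    · refine Submodule.mem_sup_left ?_
      rw [Matrix.mulVec_eq_sum]
      refine Submodule.sum_mem _ fun s _ => ?_
      obtain ⟨c, hc⟩ := h.fix s fun x => (Finset.mem_filter.1
        ((s.2.trans hT).ge (Finset.mem_univ x))).2
      refine Submodule.mem_span_singleton.2 ⟨φ c * ((Φ' T).map φ).mulVec z s, funext fun ij => ?_⟩
      simp [e, Ψ', hc, Matrix.one_apply, apply_ite φ]
    · obtain ⟨x₀, hx₀⟩ : ∃ x, x ∉ T := by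
        by_contra hn
        push Not at hn
        exact hT (Finset.eq_univ_of_forall hn)
      have a2 := comb_mul_eq (fun x => g (MvPolynomial.X x)) (h1 T)
      have a3 := comb_mul_eq (fun x => g (MvPolynomial.X x)) (h2 T)
      rw [← hU] at a2 a3
      obtain ⟨z', hz'⟩ := ker_comb_perm_le (p := p) hg (τ := τ' T) (x₀ := x₀)
        (fun x x' => Equiv.ext fun s => Subtype.ext (congrArg (fun f => f s.1) (h.commτ x x').eq))
        (fun x => Equiv.ext fun s => Subtype.ext (by
          rw [Equiv.Perm.subtypePerm_pow]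
          exact congrArg (fun f => f s.1) (h.powτ x)))
        (fun s hs => hx₀ (s.2 ▸ Finset.mem_filter.2
          ⟨Finset.mem_univ _, congrArg Subtype.val hs⟩)) rfl
        (x := ((Φ' T).map φ).mulVec z) (by
          rw [LinearMap.mem_ker, Matrix.toLin'_apply, Matrix.mulVec_mulVec, a3,
            ← Matrix.mulVec_mulVec, ← Matrix.toLin'_apply U, LinearMap.mem_ker.1 hz,
            Matrix.mulVec_zero])
      refine Submodule.mem_sup_right ⟨((Ψ' T).map φ).mulVec z', ?_⟩
      rw [← hz', ← Matrix.toLin'_pow, ← Matrix.toLin'_pow, Matrix.toLin'_apply,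
        Matrix.toLin'_apply, Matrix.mulVec_mulVec, Matrix.mulVec_mulVec, pow_mul_eq_mul_pow a2]
  have hp1 : p - 1 + 1 = p := Nat.sub_add_cancel hp.out.one_le
  have hw : ∀ x x', Commute (w x) (w x') := fun x x' => by
    rw [h.eq_pow, h.eq_pow]; exact (h.comm x x').pow_pow _ _
  have h5 : U.toLin' ^ (p - 1 + 1) = 0 := by
    rw [hp1, ← Matrix.toLin'_pow, hU, comb_pow_char (p := p) _ (fun x x' => ?_)
      (fun x => sub_one_pow_char ?_), map_zero]
    · refine Commute.sub_left (Commute.sub_right ?_ (Commute.one_right _)) (Commute.one_left _)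
      rw [Commute, SemiconjBy, ← Matrix.mul_kronecker_mul, ← Matrix.mul_kronecker_mul,
        ← Matrix.transpose_mul, ← Matrix.transpose_mul, (h.comm x x').eq, (hw x x').eq]
    · have : ∀ n : ℕ, (v x ⊗ₖ (w x).transpose) ^ n = (v x ^ n) ⊗ₖ (w x ^ n).transpose := by
        intro n
        induction n with
        | zero => simp
        | succ n ih => rw [pow_succ, ih, ← Matrix.mul_kronecker_mul, ← Matrix.transpose_mul,
            ← pow_succ, ← pow_succ']
      rw [this, h.eq_pow, ← pow_mul, mul_comm, pow_mul, h.pow, one_pow, Matrix.transpose_one,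
        Matrix.one_kronecker_one]
  have h6 := mul_finrank_range_pow_le h5
  have h7 := (Submodule.finrank_mono h4).trans (Submodule.finrank_add_le_finrank_add_finrank _ _)
  have h8 : finrank K (K ∙ e) ≤ 1 := (finrank_span_le_card _).trans (by simp)
  rw [Module.finrank_fintype_fun_eq_card, Fintype.card_prod, ← sq] at h6
  obtain ⟨q, rfl⟩ : ∃ q, p = q + 1 := ⟨p - 1, hp1.symm⟩
  rw [Nat.add_sub_cancel] at h6 h7
  nlinarith [Nat.mul_le_mul_left q (h7.trans (Nat.add_le_add_right h8 _))]

theorem finrank_centralizer {K : Type*} [Field K] [Algebra k K] {g : MvPolynomial X k →ₐ[k] K}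
    (hg : Function.Injective g) {U : Matrix d d K}
    (hU : U = comb (fun x => g (MvPolynomial.X x)) fun x => v x - 1) :
    p * finrank K (LinearMap.ker (LinearMap.mulLeft K U.toLin' - LinearMap.mulRight K U.toLin')) +
      1 ≤ Fintype.card d ^ 2 + p := by
  refine le_trans ?_ (h.finrank_ker_ad hg rfl)
  have hvw : ∀ x x', Commute (v x) (w x') := fun x x' => by
    rw [h.eq_pow]; exact (h.comm x x').pow_right _
  have hw : ∀ x x', Commute (w x) (w x') := fun x x' => by
    rw [h.eq_pow, h.eq_pow]; exact (h.comm x x').pow_pow _ _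
  have hk : ∀ {a b a' b' : Matrix d d k}, Commute a a' → Commute b b' →
      Commute (a ⊗ₖ b.transpose) (a' ⊗ₖ b'.transpose) := fun h1 h2 => by
    rw [Commute, SemiconjBy, ← Matrix.mul_kronecker_mul, ← Matrix.mul_kronecker_mul,
      ← Matrix.transpose_mul, ← Matrix.transpose_mul, h1.eq, h2.eq]
  let a : X → Matrix (d × d) (d × d) k := fun x =>
    v x ⊗ₖ (1 : Matrix d d k).transpose - (1 : Matrix d d k) ⊗ₖ (v x).transpose
  let c : X → Matrix (d × d) (d × d) k := fun x => (1 : Matrix d d k) ⊗ₖ (w x).transpose - 1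
  have h1 := rank_comb_mul_le (p := p) (a := a) (c := c)
    (fun x x' => ((hk (Commute.one_right _) (Commute.one_left _)).sub_left
      (hk (Commute.one_right _) (hvw x x'))).sub_right (Commute.one_right _))
    (fun x x' => ((hk (Commute.one_right _) (hw x x')).sub_left (Commute.one_left _)).sub_right
      (Commute.one_right _))
    (fun x => sub_one_pow_char (by
      have : ∀ n : ℕ, ((1 : Matrix d d k) ⊗ₖ (w x).transpose) ^ n =
          (1 : Matrix d d k) ⊗ₖ (w x ^ n).transpose := by
        intro n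
        induction n with
        | zero => simp
        | succ n ih => rw [pow_succ, ih, ← Matrix.mul_kronecker_mul, ← Matrix.transpose_mul,
            ← pow_succ', mul_one]
      rw [this, h.eq_pow, ← pow_mul, mul_comm, pow_mul, h.pow, one_pow, Matrix.transpose_one,
        Matrix.one_kronecker_one]))
    (fun L _ _ y => rank_comb_le hg y a) K fun x => g (MvPolynomial.X x)
  have h2 : (fun x => a x * (1 + c x)) = fun x => v x ⊗ₖ (w x).transpose - 1 := funext fun x => by
    simp only [a, c]
    rw [add_sub_cancel, sub_mul, ← Matrix.mul_kronecker_mul, ← Matrix.mul_kronecker_mul,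
      ← Matrix.transpose_mul, ← Matrix.transpose_mul, h.inv]
    simp
  rw [h2] at h1
  set y := fun x => g (MvPolynomial.X x)
  have h3 : comb y a = U ⊗ₖ (1 : Matrix d d K).transpose - (1 : Matrix d d K) ⊗ₖ U.transpose := by
    ext ij kl
    simp only [hU, comb, a, Matrix.sum_apply, Matrix.sub_apply, Matrix.smul_apply,
      Matrix.map_apply, Matrix.kroneckerMap_apply, Matrix.transpose_apply, Matrix.one_apply,
      smul_eq_mul, map_sub, map_mul, apply_ite (algebraMap k K), map_one, map_zero,
      Finset.sum_mul, Finset.mul_sum, ← Finset.sum_sub_distrib]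
    exact Finset.sum_congr rfl fun x _ => by ring
  have h4 : finrank K (LinearMap.ker (LinearMap.mulLeft K U.toLin' -
      LinearMap.mulRight K U.toLin')) ≤ finrank K (LinearMap.ker (comb y a).toLin') := by
    let e : End K (d → K) →ₗ[K] (d × d → K) :=
      (LinearMap.pi fun ij => Matrix.entryLinearMap K K ij.1 ij.2).comp
        LinearMap.toMatrix'.toLinearMap
    have he : ∀ f, e f = fun ij => LinearMap.toMatrix' f ij.1 ij.2 := fun _ => rfl
    refine LinearMap.finrank_le_finrank_of_injective (f := e.restrict fun f hf => ?_) ?_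
    · have hf' : U.toLin' * f = f * U.toLin' := sub_eq_zero.1 (LinearMap.mem_ker.1 hf)
      have := congrArg LinearMap.toMatrix' hf'
      rw [LinearMap.toMatrix'_mul, LinearMap.toMatrix'_mul, LinearMap.toMatrix'_toLin'] at this
      rw [LinearMap.mem_ker, Matrix.toLin'_apply, h3, he, Matrix.sub_mulVec,
        kronecker_transpose_mulVec, kronecker_transpose_mulVec, mul_one, one_mul, this, sub_self]
    · intro f f' hf
      refine Subtype.ext (LinearMap.toMatrix'.injective (Matrix.ext fun i j => ?_))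
      exact congrFun (congrArg Subtype.val hf) (i, j)
  have h5 := LinearMap.finrank_range_add_finrank_ker (comb y a).toLin'
  have h6 := LinearMap.finrank_range_add_finrank_ker
    (comb y fun x => v x ⊗ₖ (w x).transpose - 1).toLin'
  refine Nat.add_le_add_right (Nat.mul_le_mul_left p (h4.trans ?_)) 1
  exact Nat.le_of_add_le_add_left ((h5.trans h6.symm).le.trans (Nat.add_le_add_right h1 _))

/-- The splitting theorem of Dade and Puig (elementary abelian case). -/
theorem exists_hom (hd : ¬ p ∣ Fintype.card d) {Γ : Type*} [Group Γ] [MulAction Γ X]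
    (σ : Γ →* Matrix d d k) (hσ : ∀ γ x, σ γ * v x = v (γ • x) * σ γ) :
    ∃ ψ : Γ →* kˣ, ∀ (γ : Γ) (c : kˣ), (∀ x : X, γ • x = x) → σ γ = (c : k) • 1 → ψ γ = c := by
  let I : Ideal ℤ :=
    { carrier := {a | ∃ ψ : Γ →* kˣ, ∀ (γ : Γ) (c : kˣ), (∀ x : X, γ • x = x) →
        σ γ = (c : k) • 1 → ψ γ = c ^ a}
      zero_mem' := ⟨1, fun _ _ _ _ => by simp⟩
      add_mem' := by
        rintro a b ⟨φ, h1⟩ ⟨ψ, h2⟩
        exact ⟨φ * ψ, fun γ c h3 h4 => by
          rw [MonoidHom.mul_apply, h1 γ c h3 h4, h2 γ c h3 h4, zpow_add]⟩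
      smul_mem' := by
        rintro n a ⟨φ, h1⟩
        exact ⟨φ ^ n, fun γ c h3 h4 => by
          rw [MonoidHom.zpow_apply, h1 γ c h3 h4, ← zpow_mul, smul_eq_mul, mul_comm]⟩ }
  suffices (1 : ℤ) ∈ I by
    obtain ⟨ψ, hψ⟩ := this
    exact ⟨ψ, fun γ c h1 h2 => by rw [hψ γ c h1 h2, zpow_one]⟩
  let R := MvPolynomial X k
  let K := FractionRing R
  let g : R →ₐ[k] K := IsScalarTower.toAlgHom k R K
  have hg : Function.Injective g := IsFractionRing.injective R K
  let N : Matrix d d R := comb MvPolynomial.X fun x => v x - 1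
  let U : Matrix d d K := N.map g
  have hU : U = comb (fun x => g (MvPolynomial.X x)) fun x => v x - 1 := comb_map _ _ _
  have h1 : ∀ i : ℕ, ((U ^ i).rank : ℤ) ∈ I := by
    intro i
    obtain ⟨ψ, hψ⟩ := exists_hom_pow_rank σ (N ^ i) (fun γ => by
      have e : ((σ γ).map MvPolynomial.C : Matrix d d R) * N.map (MvPolynomial.rename (γ • ·)) =
          N * (σ γ).map MvPolynomial.C := by
        simp only [N]
        rw [comb_map, comb, comb, ← Equiv.sum_comp (MulAction.toPerm γ)
          fun x => (MvPolynomial.X x : R) • (v x - 1).map (algebraMap k R), Finset.mul_sum,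
          Finset.sum_mul]
        refine Finset.sum_congr rfl fun x _ => ?_
        rw [MvPolynomial.rename_X, Matrix.mul_smul, Matrix.smul_mul, MvPolynomial.algebraMap_eq,
          ← Matrix.map_mul, ← Matrix.map_mul, mul_sub, sub_mul, hσ, mul_one, one_mul]
        rfl
      rw [← AlgHom.mapMatrix_apply, map_pow, AlgHom.mapMatrix_apply]
      exact (pow_mul_eq_mul_pow e.symm i).symm) (g := g.toRingHom) hg
    refine ⟨ψ, fun γ c h2 h3 => Units.ext ?_⟩
    rw [hψ γ c h2 h3, zpow_natCast, Units.val_pow_eq_pow_val, ← RingHom.mapMatrix_apply, map_pow]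
    rfl
  have h2 := h.finrank_centralizer hg hU
  have h3 : U.toLin' ^ p = 0 := by
    rw [← Matrix.toLin'_pow, hU, comb_pow_char _ (fun x x' => Commute.sub_left
      (Commute.sub_right (h.comm x x') (Commute.one_right _)) (Commute.one_left _))
      (fun x => sub_one_pow_char (h.pow x)), map_zero]
  have h4 := sum_sq_le_finrank_centralizer h3
  have h5 : ∀ i, finrank K (LinearMap.range (U.toLin' ^ i)) = (U ^ i).rank := fun i => by
    rw [← Matrix.toLin'_pow]; rfl
  simp only [h5] at h4
  have h6 : Antitone fun i => (U ^ i).rank := antitone_nat_of_succ_le fun i => by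
    rw [pow_succ]; exact Matrix.rank_mul_le_left _ _
  have h7 : ∑ i ∈ Finset.range p, ((U ^ i).rank - (U ^ (i + 1)).rank) = Fintype.card d := by
    have : ∀ n, ∑ i ∈ Finset.range n, ((U ^ i).rank - (U ^ (i + 1)).rank) + (U ^ n).rank =
        Fintype.card d := by
      intro n
      induction n with
      | zero => simp
      | succ n ih =>
        have : (U ^ (n + 1)).rank ≤ (U ^ n).rank := h6 (Nat.le_succ n)
        rw [Finset.sum_range_succ]
        omega
    have := this p
    rwa [← h5 p, h3, LinearMap.range_zero, finrank_bot] at this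
  obtain ⟨m, hm⟩ := (IsPrincipalIdealRing.principal I).principal
  rw [hm, Ideal.submodule_span_eq, Ideal.mem_span_singleton, ← isUnit_iff_dvd_one,
    Int.isUnit_iff_natAbs_eq]
  by_contra hn
  obtain ⟨q, hq, hqm⟩ := Nat.exists_prime_and_dvd hn
  have h8 : ∀ i, q ∣ (U ^ i).rank := fun i => by
    have := h1 i
    rw [hm, Ideal.submodule_span_eq, Ideal.mem_span_singleton] at this
    exact hqm.trans (Int.natAbs_dvd_natAbs.2 this)
  exact not_forall_dvd_of_sum_sq_le hq.two_le hd h7
    (le_trans (Nat.add_le_add_right (Nat.mul_le_mul_left p h4) 1) h2)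
    fun i _ => Nat.dvd_sub (h8 i) (h8 (i + 1))

end EndoPerm

end Main

end LG
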