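import Mathlib

/-!
# Alternating bilinear maps with surjective contractions; graded Lie data of class three and four
-/

set_option autoImplicit false
set_option linter.unusedSectionVars false
set_option linter.style.haveILetI false

namespace LG

open Module

open Matrix in
theorem isSquare_det_of_alt {K : Type*} [Field K] (m : ℕ) : ∀ (n : Type) [Fintype n]
    [DecidableEq n] (M : Matrix n n K), Fintype.card n = m → (∀ i j, M j i = -M i j) →
      (∀ i, M i i = 0) → IsSquare M.det := by
  induction m using Nat.strong_induction_on with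
  | _ m ih =>
  intro n _ _ M hm h1 h2
  by_cases h0 : M = 0
  · subst h0
    rcases isEmpty_or_nonempty n with hn | hn
    · simp
    · simp
  obtain ⟨i, j, hij⟩ : ∃ i j, M i j ≠ 0 := by
    by_contra h
    push Not at h
    exact h0 (Matrix.ext h)
  have hne : i ≠ j := fun h => hij (h ▸ h2 i)
  let f : Fin 2 ⊕ {k // k ≠ i ∧ k ≠ j} → n := Sum.elim ![i, j] Subtype.val
  have hf : Function.Bijective f := by
    refine ⟨?_, fun k => ?_⟩
    · rintro (a | a) (b | b) h
      · fin_cases a <;> fin_cases b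
        exacts [rfl, absurd h hne, absurd h.symm hne, rfl]
      · fin_cases a
        exacts [absurd h.symm b.2.1, absurd h.symm b.2.2]
      · fin_cases b
        exacts [absurd h a.2.1, absurd h a.2.2]
      · exact congrArg _ (Subtype.ext h)
    · by_cases h : k = i
      · exact ⟨.inl 0, h.symm⟩
      by_cases h' : k = j
      · exact ⟨.inl 1, h'.symm⟩
      exact ⟨.inr ⟨k, h, h'⟩, rfl⟩
  set M' := M.submatrix f f with hM'
  have hA : M'.toBlocks₁₁ = !![0, M i j; -M i j, 0] := by
    ext a b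
    fin_cases a <;> fin_cases b <;> simp [hM', f, toBlocks₁₁, h2, h1 i j]
  letI : Invertible M'.toBlocks₁₁ :=
    invertibleOfRightInverse _ !![0, -(M i j)⁻¹; (M i j)⁻¹, 0] (by
      rw [hA]
      ext a b
      fin_cases a <;> fin_cases b <;> simp [hij])
  have hI : ⅟M'.toBlocks₁₁ = !![0, -(M i j)⁻¹; (M i j)⁻¹, 0] := rfl
  have hd : M'.det = M.det := det_submatrix_equiv_self (Equiv.ofBijective f hf) M
  rw [← hd, ← fromBlocks_toBlocks M', det_fromBlocks₁₁, hI]
  refine IsSquare.mul ⟨M i j, by simp [hA, det_fin_two]⟩ (ih _ ?_ _ _ rfl (fun a b => ?_) fun a => ?_)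
  · rw [← hm, ← Fintype.card_of_bijective hf]
    simp
  · simp [hM', f, toBlocks₂₂, toBlocks₂₁, toBlocks₁₂, mul_apply, h1 a.1 b.1, h1 a.1 i, h1 a.1 j,
      h1 b.1 i, h1 b.1 j]
    ring
  · simp [hM', f, toBlocks₂₂, toBlocks₂₁, toBlocks₁₂, mul_apply, h2, h1 a.1 i, h1 a.1 j]
    ring

variable {k : Type*} [Field k] {V W : Type*} [AddCommGroup V] [Module k V] [AddCommGroup W]
  [Module k W] [FiniteDimensional k V] [FiniteDimensional k W]

omit [FiniteDimensional k V] [FiniteDimensional k W] in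
theorem neg_of_alt {b : V →ₗ[k] V →ₗ[k] W} (hb : ∀ x, b x x = 0) (x y : V) : b y x = -b x y := by
  have := hb (x + y)
  simp only [map_add, LinearMap.add_apply, hb, zero_add, add_zero] at this
  exact eq_neg_of_add_eq_zero_left this

open Matrix MvPolynomial in
theorem two_mul_finrank_le_of_alt [Finite k] [Nontrivial V] {b : V →ₗ[k] V →ₗ[k] W}
    (hb : ∀ x, b x x = 0) (hs : ∀ x, x ≠ 0 → Function.Surjective (b x)) :
    2 * finrank k W ≤ finrank k V := by
  classical
  let bV := finBasis k V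
  let bW := finBasis k W
  let M : Matrix (Fin (finrank k V)) (Fin (finrank k V)) (MvPolynomial (Fin (finrank k W)) k) :=
    of fun i j => ∑ t, C (bW.repr (b (bV i) (bV j)) t) * X t
  have h1 : ∀ i j, M j i = -M i j := fun i j => by simp [M, neg_of_alt hb (bV i) (bV j)]
  obtain ⟨g, hg⟩ := isSquare_det_of_alt _ _
    (M.map (algebraMap _ (FractionRing (MvPolynomial (Fin (finrank k W)) k)))) rfl
    (fun i j => by rw [map_apply, h1 i j, map_neg, map_apply]) (fun i => by simp [M, hb])
  rw [← RingHom.mapMatrix_apply, ← RingHom.map_det, ← sq] at hg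
  obtain ⟨f, rfl⟩ := IsIntegrallyClosed.exists_algebraMap_eq_of_isIntegral_pow
    (R := MvPolynomial (Fin (finrank k W)) k) two_pos (hg ▸ isIntegral_algebraMap)
  rw [← map_pow, (IsFractionRing.injective _ _).eq_iff, sq] at hg
  have hd : M.det.totalDegree ≤ finrank k V := by
    rw [det_apply']
    refine totalDegree_finsetSum_le fun σ _ => (totalDegree_mul _ _).trans ?_
    rw [← map_intCast (C : k →+* _), totalDegree_C, zero_add]
    refine (totalDegree_finsetProd _ _).trans ((Finset.sum_le_card_nsmul _ _ 1 fun i _ => ?_).trans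
      (by simp))
    simp only [M, of_apply]
    exact totalDegree_finsetSum_le fun t _ => (totalDegree_mul _ _).trans (by simp)
  have hz : ∀ μ, eval μ f = 0 ↔ μ = 0 := fun μ => by
    rw [← mul_self_eq_zero, ← map_mul, ← hg, RingHom.map_det, ← exists_vecMul_eq_zero_iff]
    refine ⟨fun ⟨v, hv, h⟩ => ?_, fun h => ?_⟩
    · let l : W →ₗ[k] k := ∑ t, μ t • bW.coord t
      have h2 : l ∘ₗ b (bV.equivFun.symm v) = 0 := bV.ext fun j => by
        have := congrFun h j
        simp only [vecMul, dotProduct, M, RingHom.mapMatrix_apply, map_apply, map_sum, map_mul,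
          eval_C, eval_X, Finset.mul_sum, Pi.zero_apply, of_apply] at this
        simp only [l, Basis.equivFun_symm_apply, map_sum, map_smul, LinearMap.comp_apply,
          LinearMap.sum_apply, LinearMap.smul_apply, Basis.coord_apply, smul_eq_mul,
          LinearMap.zero_apply, Finset.mul_sum, ← this, mul_comm (μ _)]
      funext t
      obtain ⟨y, hy⟩ := hs (bV.equivFun.symm v) (bV.equivFun.symm.map_ne_zero_iff.2 hv) (bW t)
      have h3 := LinearMap.congr_fun h2 y
      rw [LinearMap.comp_apply, hy] at h3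
      simpa [l, Finsupp.single_apply] using h3
    · haveI : Nonempty (Fin (finrank k V)) := ⟨⟨0, finrank_pos⟩⟩
      exact ⟨1, one_ne_zero, by ext j; simp [h, M, vecMul, dotProduct]⟩
  haveI := Fintype.ofFinite k
  by_contra hlt
  by_cases hf : f = 0
  · have : (fun _ => 1 : Fin (finrank k W) → k) = 0 := (hz _).1 (by simp [hf])
    exact one_ne_zero (congrFun this ⟨0, by omega⟩)
  rw [hg, totalDegree_mul_of_isDomain hf hf] at hd
  obtain ⟨p, hp⟩ := CharP.exists k
  have h4 := char_dvd_card_solutions p (f := f) (by rw [Fintype.card_fin]; omega)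
  simp only [hz, Fintype.card_subtype_eq, Nat.dvd_one] at h4
  exact CharP.char_ne_one k p h4

/-- The right kernel of a bilinear pairing. -/
theorem finrank_ker_flip_add {β : W →ₗ[k] V →ₗ[k] k} :
    finrank k (LinearMap.ker β.flip) + finrank k W = finrank k V + finrank k (LinearMap.ker β) := by
  have h1 : LinearMap.ker β.flip = (LinearMap.range β).dualCoannihilator := by
    ext x
    simp [Submodule.mem_dualCoannihilator, LinearMap.ext_iff]
  have h2 : finrank k (LinearMap.range β) + _ = _ :=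
    Subspace.finrank_add_finrank_dualCoannihilator_eq (LinearMap.range β)
  have h3 := β.finrank_range_add_finrank_ker
  rw [h1]
  omega

theorem two_mul_finrank_add_le {e : V →ₗ[k] V →ₗ[k] k} (he : ∀ x, e x x = 0) {I : Submodule k V}
    (h1 : ∀ x ∈ I, ∀ y ∈ I, e x y = 0) (h2 : Disjoint I (LinearMap.ker e)) :
    2 * finrank k I + finrank k (LinearMap.ker e) ≤ finrank k V := by
  have h3 := finrank_ker_flip_add (β := e ∘ₗ I.subtype)
  have h4 : LinearMap.ker (e ∘ₗ I.subtype) = ⊥ := by
    rwa [LinearMap.ker_comp, ← Submodule.disjoint_iff_comap_eq_bot]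
  have h5 : I ⊔ LinearMap.ker e ≤ LinearMap.ker (e ∘ₗ I.subtype).flip :=
    sup_le (fun y hy => LinearMap.ext fun x => h1 x x.2 y hy) fun y hy => LinearMap.ext fun x => by
      simp [neg_of_alt he y, LinearMap.mem_ker.1 hy]
  have h6 := Submodule.finrank_mono h5
  have h7 := Submodule.finrank_sup_add_finrank_inf_eq I (LinearMap.ker e)
  rw [h2.eq_bot, finrank_bot] at h7
  rw [h4, finrank_bot] at h3
  omega

variable {Y : Type*} [AddCommGroup Y] [Module k Y] [FiniteDimensional k Y]

/-- The first three layers of a graded Lie algebra with surjective contractions. -/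
structure Lie3 (b : V →ₗ[k] V →ₗ[k] W) (c : W →ₗ[k] V →ₗ[k] Y) : Prop where
  alt : ∀ x, b x x = 0
  jac : ∀ u v w, c (b u v) w + c (b v w) u + c (b w u) v = 0
  surj₁ : ∀ x, x ≠ 0 → Function.Surjective (b x)
  surj₂ : ∀ z, z ≠ 0 → Function.Surjective (c z)
  bound : 2 * finrank k W ≤ finrank k V
  pos : 0 < finrank k W

namespace Lie3

open LinearMap

variable {b : V →ₗ[k] V →ₗ[k] W} {c : W →ₗ[k] V →ₗ[k] Y} (h : Lie3 b c)
include h

theorem finrank_ker {x : V} (hx : x ≠ 0) : finrank k (ker (b x)) + finrank k W = finrank k V := by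
  rw [← (b x).finrank_range_add_finrank_ker, range_eq_top.2 (h.surj₁ x hx), finrank_top, add_comm]

theorem ker_compr₂ {μ : Dual k Y} (hμ : μ ≠ 0) : ker (c.compr₂ μ) = ⊥ :=
  ker_eq_bot'.2 fun z hz => by
    by_contra h0
    refine hμ (LinearMap.ext fun y => ?_)
    obtain ⟨v, rfl⟩ := h.surj₂ z h0 y
    exact LinearMap.congr_fun hz v

theorem finrank_ker_flip {μ : Dual k Y} (hμ : μ ≠ 0) :
    finrank k (ker (c.compr₂ μ).flip) + finrank k W = finrank k V := by
  rw [finrank_ker_flip_add, h.ker_compr₂ hμ, finrank_bot, add_zero]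

theorem isotropic {μ : Dual k Y} (hμ : μ ≠ 0) {x y : V} (hx : x ∈ ker (c.compr₂ μ).flip)
    (hy : y ∈ ker (c.compr₂ μ).flip) : b x y = 0 :=
  (h.ker_compr₂ hμ).le (LinearMap.ext fun u => by
    have h1 := congrArg μ (h.jac x y u)
    have h2 : μ (c (b y u) x) = 0 := LinearMap.congr_fun hx _
    have h3 : μ (c (b u x) y) = 0 := LinearMap.congr_fun hy _
    simpa [h2, h3] using h1)

theorem ker_eq {μ : Dual k Y} (hμ : μ ≠ 0) {x : V} (hx : x ∈ ker (c.compr₂ μ).flip) (h0 : x ≠ 0) :
    ker (b x) = ker (c.compr₂ μ).flip :=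
  (Submodule.eq_of_le_of_finrank_eq (fun _ hy => h.isotropic hμ hx hy) (by
    have := h.finrank_ker h0
    have := h.finrank_ker_flip hμ
    omega)).symm

theorem finrank_eq [Nontrivial Y] : finrank k V = 2 * finrank k W := by
  obtain ⟨μ, hμ⟩ := exists_ne (0 : Dual k Y)
  haveI := finrank_pos_iff.1 h.pos
  obtain ⟨l, hl⟩ := exists_ne (0 : Dual k W)
  have h1 := two_mul_finrank_add_le (e := b.compr₂ l) (fun x => by simp [h.alt])
    (I := ker (c.compr₂ μ).flip) (fun x hx y hy => by simp [h.isotropic hμ hx hy])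
    (Submodule.disjoint_def.2 fun x _ hx => by
      by_contra h0
      refine hl (LinearMap.ext fun y => ?_)
      obtain ⟨v, rfl⟩ := h.surj₁ x h0 y
      exact LinearMap.congr_fun hx v)
  have := h.finrank_ker_flip hμ
  have := h.bound
  omega

omit h in
theorem exists_dual {x : V} (hx : range (c.flip x) ≠ ⊤) :
    ∃ μ : Dual k Y, μ ≠ 0 ∧ x ∈ ker (c.compr₂ μ).flip := by
  obtain ⟨μ, h1, h2⟩ := (range (c.flip x)).exists_le_ker_of_lt_top hx.lt_top
  exact ⟨μ, h1, LinearMap.ext fun z => h2 ⟨z, rfl⟩⟩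

theorem isotropic_ker {x : V} (h0 : x ≠ 0) (hx : range (c.flip x) ≠ ⊤) {s t : V}
    (hs : b x s = 0) (ht : b x t = 0) : b s t = 0 := by
  obtain ⟨μ, h1, h2⟩ := exists_dual hx
  exact h.isotropic h1 ((h.ker_eq h1 h2 h0).le hs) ((h.ker_eq h1 h2 h0).le ht)

theorem ker_eq_ker {x : V} (h0 : x ≠ 0) (hx : range (c.flip x) ≠ ⊤) {t : V}
    (ht : b x t = 0) (ht0 : t ≠ 0) : ker (b t) = ker (b x) := by
  obtain ⟨μ, h1, h2⟩ := exists_dual hx
  rw [h.ker_eq h1 h2 h0, h.ker_eq h1 ((h.ker_eq h1 h2 h0).le ht) ht0]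

theorem range_le {x : V} (h0 : x ≠ 0) {t : V} (ht : b x t = 0) :
    range (c.flip t) ≤ range (c.flip x) := by
  rintro _ ⟨z, rfl⟩
  rw [← Subspace.forall_mem_dualAnnihilator_apply_eq_zero_iff]
  intro μ hμ
  by_cases h1 : μ = 0
  · simp [h1]
  have h2 : x ∈ ker (c.compr₂ μ).flip := LinearMap.ext fun z =>
    (Submodule.mem_dualAnnihilator _).1 hμ _ ⟨z, rfl⟩
  exact LinearMap.congr_fun ((h.ker_eq h1 h2 h0).le ht) z

/-- There is no fourth layer. -/
theorem false_of_four [Nontrivial Y] {d : Y →ₗ[k] V →ₗ[k] k} {e : W →ₗ[k] W →ₗ[k] k}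
    (he : ∀ z, e z z = 0) (hj : ∀ z u v, d (c z u) v - d (c z v) u = e z (b u v))
    (hd : ker d = ⊥)
    (h5 : ∀ x, x ≠ 0 → 2 * finrank k Y ≤ 2 * finrank k (range (c.flip x)) + finrank k W)
    (h2 : (2 : k) ≠ 0 ∨ ∀ x, range (c.flip x) = ⊤ ∨ c.flip x = 0) : False := by
  have hV := h.finrank_eq
  have hW := h.pos
  have hS := finrank_ker_flip_add (β := d)
  rw [hd, finrank_bot] at hS
  set S := ker d.flip
  have hS' : ∀ s ∈ S, ∀ y, d y s = 0 := fun s hs y => LinearMap.congr_fun hs y
  have hr : ∀ x, finrank k (range (c.flip x)) + finrank k (ker (c.flip x)) = finrank k W :=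
    fun x => (c.flip x).finrank_range_add_finrank_ker
  have hA : ∀ s ∈ S, ∀ z u, e z (b s u) = d (c z s) u := fun s hs z u => by
    rw [← hj, hS' s hs, sub_zero]
  have hk : ∀ s ∈ S, s ≠ 0 → ker (c.flip s) = ker e := fun s hs h0 => by
    ext z
    refine ⟨fun hz => LinearMap.ext fun w => ?_, fun hz => hd.le (LinearMap.ext fun u => ?_)⟩
    · obtain ⟨u, rfl⟩ := h.surj₁ s h0 w
      rw [hA s hs, show c z s = 0 from hz, map_zero, LinearMap.zero_apply, LinearMap.zero_apply]
    · rw [flip_apply, ← hA s hs, show e z = 0 from hz, LinearMap.zero_apply, LinearMap.zero_apply]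
  obtain ⟨μ, hμ⟩ := exists_ne (0 : Dual k Y)
  have hT := h.finrank_ker_flip hμ
  obtain ⟨s, hs, hs0⟩ : ∃ s ∈ S, s ≠ 0 := S.exists_mem_ne_zero_of_ne_bot fun h0 => by
    haveI : Nontrivial V := finrank_pos_iff.1 (by omega : 0 < finrank k V)
    obtain ⟨x, hx⟩ := exists_ne (0 : V)
    have := h5 x hx
    have := hr x
    rw [h0, finrank_bot] at hS
    omega
  have hs5 := h5 s hs0
  have hsr := hr s
  rw [hk s hs hs0] at hsr
  have htop : ker e ≠ ⊤ := fun h0 => by
    have h3 : S ≤ ker (c.compr₂ μ).flip := fun t ht => LinearMap.ext fun z => by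
      by_cases ht0 : t = 0
      · simp [ht0]
      · simp [show c z t = 0 from ((hk t ht ht0).trans h0).ge trivial]
    have := Submodule.finrank_mono h3
    rw [h0, finrank_top] at hsr
    omega
  rcases h2 with h2 | h2
  swap
  · obtain ⟨x, hx, hx0⟩ := (ker (c.compr₂ μ).flip).exists_mem_ne_zero_of_ne_bot fun h0 => by
      rw [h0, finrank_bot] at hT
      omega
    have h3 : ∀ t ∈ ker (c.compr₂ μ).flip, c.flip t = 0 := fun t ht => (h2 t).resolve_left fun h3 =>
      hμ (LinearMap.ext fun y => by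
        obtain ⟨z, rfl⟩ := h3.ge (Submodule.mem_top (x := y))
        exact LinearMap.congr_fun ht z)
    have h4 := h5 x hx0
    rw [h3 x hx, range_zero, finrank_bot] at h4
    obtain ⟨t, ht, ht0⟩ := (S ⊓ ker (c.compr₂ μ).flip).exists_mem_ne_zero_of_ne_bot fun h0 => by
      have := Submodule.finrank_sup_add_finrank_inf_eq S (ker (c.compr₂ μ).flip)
      have := (S ⊔ ker (c.compr₂ μ).flip).finrank_le
      rw [h0, finrank_bot] at *
      omega
    exact htop (by rw [← hk t ht.1 ht0, h3 t ht.2, ker_zero])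
  have key : ∀ (I : Submodule k V) (u : V), I ≤ S → (∀ s ∈ I, ∀ t ∈ I, b s t = 0) →
      (∀ s ∈ I, e (b u s) = 0 → s = 0) → 2 * finrank k I + finrank k (ker e) ≤ finrank k W := by
    intro I u h3 h4 h6
    have h7 : finrank k (I.map (b u)) = finrank k I := by
      rw [← range_domRestrict]
      exact finrank_range_of_inj (ker_eq_bot.1 (ker_eq_bot'.2 fun t ht =>
        Subtype.ext (h6 t t.2 (by rw [show b u t = 0 from ht, map_zero]))))
    rw [← h7]
    refine two_mul_finrank_add_le he ?_ (Submodule.disjoint_def.2 ?_)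
    · rintro _ ⟨s, hs, rfl⟩ _ ⟨t, ht, rfl⟩
      have h8 := h.jac u s t
      rw [h4 s hs t ht, neg_of_alt h.alt u t] at h8
      have h9 := hA t (h3 ht) (b u s) u
      have h10 := hA s (h3 hs) (b u t) u
      rw [neg_of_alt h.alt u] at h9 h10
      simp only [map_zero, LinearMap.zero_apply, add_zero, map_neg, LinearMap.neg_apply, add_neg_eq_zero] at h8 h9 h10
      rw [h8, ← h10, neg_of_alt he, neg_neg, eq_neg_iff_add_eq_zero, ← two_mul] at h9
      rw [neg_of_alt he, (mul_eq_zero.1 h9).resolve_left h2, neg_zero]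
    · rintro _ ⟨s, hs, rfl⟩ h8
      rw [h6 s hs h8, map_zero]
  have hSS : ∀ t ∈ S, e (b s t) = 0 := fun t ht => LinearMap.ext fun z => by
    rw [neg_of_alt he, hA s hs, hS' t ht, neg_zero, LinearMap.zero_apply]
  by_cases h3 : range (c.flip s) = ⊤
  · rw [h3, finrank_top] at hsr
    have h4 : S ⊓ ker (c.compr₂ μ).flip = ⊥ := (Submodule.eq_bot_iff _).2 fun t ht => by
      by_contra ht0
      have h4 := hr t
      rw [hk t ht.1 ht0] at h4
      refine hμ (LinearMap.ext fun y => ?_)
      obtain ⟨z, rfl⟩ := (Submodule.eq_top_of_finrank_eq (S := range (c.flip t)) (by omega)).ge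
        (Submodule.mem_top (x := y))
      exact LinearMap.congr_fun ht.2 z
    have h6 := Submodule.finrank_sup_add_finrank_inf_eq S (ker (c.compr₂ μ).flip)
    have h7 := (S ⊔ ker (c.compr₂ μ).flip).finrank_le
    rw [h4, finrank_bot] at h6
    have h8 : ker e = ⊥ := Submodule.finrank_eq_zero.1 (by omega)
    have h9 : ∀ s ∈ S, ∀ t ∈ S, b s t = 0 := fun s hs t ht => h8.le (LinearMap.ext fun z => by
      rw [neg_of_alt he, hA s hs, hS' t ht, neg_zero, LinearMap.zero_apply])
    obtain ⟨u, hu⟩ : ∃ u, u ∉ S := by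
      by_contra h0
      push Not at h0
      have h10 : finrank k S = finrank k V := by rw [Submodule.eq_top_iff'.2 h0, finrank_top]
      omega
    have := key S u le_rfl h9 fun t ht h0 => by
      by_contra ht0
      have h10 := h.finrank_ker ht0
      refine hu ((Submodule.eq_of_le_of_finrank_eq (S₁ := S) (S₂ := ker (b t)) (h9 t ht)
        (by omega)).ge ?_)
      rw [mem_ker, neg_of_alt h.alt, show b u t = 0 from h8.le h0, neg_zero]
    omega
  obtain ⟨w, hw⟩ : ∃ w, w ∉ ker e := by
    by_contra h0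
    push Not at h0
    exact htop (Submodule.eq_top_iff'.2 h0)
  obtain ⟨u, rfl⟩ := h.surj₁ s hs0 w
  have h4 := key (S ⊓ ker (b s)) u inf_le_left
    (fun t ht t' ht' => h.isotropic_ker hs0 h3 ht.2 ht'.2) fun t ht h0 => by
      by_contra ht0
      refine hw (LinearMap.ext fun z => ?_)
      obtain ⟨z', hz'⟩ := h.range_le ht0 (t := s) (by
        rw [neg_of_alt h.alt, show b s t = 0 from ht.2, neg_zero]) ⟨z, rfl⟩
      rw [flip_apply, flip_apply] at hz'
      rw [neg_of_alt he, hA s hs, ← hz', ← hA t ht.1, neg_of_alt he, neg_of_alt h.alt, map_neg, h0]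
      simp
  have h6 := (b s).domRestrict S |>.finrank_range_add_finrank_ker
  have h7 : finrank k (range ((b s).domRestrict S)) ≤ finrank k (ker e) :=
    Submodule.finrank_mono (by rintro _ ⟨t, rfl⟩; exact hSS t t.2)
  have h8 : finrank k (ker ((b s).domRestrict S)) = finrank k ↥(S ⊓ ker (b s)) := by
    rw [ker_domRestrict, ← Submodule.finrank_map_subtype_eq, Submodule.map_comap_subtype]
  haveI := finrank_pos_iff.1 h.pos
  obtain ⟨z, hz⟩ := exists_ne (0 : W)
  have h9 := (c z).finrank_range_add_finrank_ker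
  rw [range_eq_top.2 (h.surj₂ z hz), finrank_top] at h9
  obtain ⟨x, hx, hx0⟩ := (ker (c z)).exists_mem_ne_zero_of_ne_bot fun h0 => by
    rw [h0, finrank_bot] at h9
    omega
  have h10 := h5 x hx0
  have h11 := hr x
  have h12 : finrank k (ker (c.flip x)) ≠ 0 := fun h0 =>
    hz ((Submodule.finrank_eq_zero.1 h0).le (show z ∈ ker (c.flip x) from hx))
  omega

end Lie3

end LG
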