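import Cfsg.Agent.Lib.Lin.Unitary
import Cfsg.Agent.Lib.Block.Trace

/-!
# Brauer's refinement of Burnside's `p^a q^b` theorem
-/

set_option autoImplicit false

namespace LG

open Cfsg CT BT
open scoped ComplexConjugate

variable {G : Type*} [Group G] [Finite G]

theorem exists_principal_not_dvd {p : ℕ} [Fact p.Prime] {M : Ideal AlgInt} (hM : IsPModular p M)
    {y : G} (hy : p ∣ orderOf y) {q : ℕ} (hq : q.Prime) :
    ∃ χ ∈ principalBlock M G, χ ≠ irrOne G ∧ ¬ q ∣ charDegree χ.1 := by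
  classical
  by_contra! h
  obtain ⟨Q, hQ⟩ := exists_isPModular hq
  have h0 := weak_block_orthogonality hM (isPBlock_principalBlock (G := G)) GT.isPRegular_one hy
  rw [← Finset.add_sum_erase _ _ (a := irrOne G)
    (by simpa using irrOne_mem_principalBlock hM)] at h0
  refine one_not_mem_locIdeal hQ ?_
  have e : (1 : ℂ) = -∑ χ ∈ (Finset.univ.filter (· ∈ principalBlock M G)).erase (irrOne G),
      χ.1 1 * conj (χ.1 y) := by
    rw [eq_neg_iff_add_eq_zero, ← h0]; simp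
  rw [e]
  refine neg_mem (sum_mem fun χ hχ => ?_)
  rw [Finset.mem_erase, Finset.mem_filter] at hχ
  rw [irr_apply_one, ← χ.2.isCharacter.apply_inv]
  exact mul_mem_locIdeal_right hQ ((natCast_mem_locIdeal_iff hQ _).2 (h χ hχ.2.2 hχ.1))
    (mem_locRing_of_isIntegral hQ (irr_isIntegral χ _))

theorem sum_range_pow_eq_ite {p : ℕ} {z : ℂ} (hz : z ^ p = 1) :
    ∑ k ∈ Finset.range p, z ^ k = if z = 1 then (p : ℂ) else 0 := by
  split_ifs with h
  · simp [h]
  · rw [geom_sum_eq h, hz, sub_self, zero_div]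

theorem degree_dvd_mul_card_of_mem_principal {p : ℕ} [hp : Fact p.Prime] {M : Ideal AlgInt}
    (hM : IsPModular p M) {χ : IrrCharacter G} (hχ : χ ∈ principalBlock M G) {y : G}
    (hy : orderOf y = p) {ι : Type*} [Fintype ι] {ε : ι → ℂ} (h1 : ∀ i, ε i ^ p = 1)
    (h2 : ∀ k : ℕ, χ.1 (y ^ k) = ∑ i, ε i ^ k) {ζ : ℂ} (hζ : ζ ^ p = 1) :
    charDegree χ.1 ∣ (Subgroup.centralizer ({y} : Set G)).index *
      (Finset.univ.filter (ε · = ζ)).card := by
  classical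
  set m := (Subgroup.centralizer ({y} : Set G)).index
  set a := (Finset.univ.filter (ε · = ζ)).card
  set f := charDegree χ.1
  have hf : (f : ℂ) ≠ 0 := Nat.cast_ne_zero.2 (irr_degree_pos χ).ne'
  have hζ0 : ζ ≠ 0 := ne_zero_of_pow_eq_one' hp.1.ne_zero hζ
  have hζ' : ζ⁻¹ ^ p = 1 := by rw [inv_pow, hζ, inv_one]
  have hζi : ∀ k, IsIntegral ℤ (ζ⁻¹ ^ k) := fun k =>
    (CT.isIntegral_of_pow_eq_one hp.1.ne_zero hζ').pow k
  have ht : ∀ k ∈ Finset.range p, IsIntegral ℤ (m * χ.1 (y ^ k) / f) ∧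
      m - m * χ.1 (y ^ k) / f ∈ locIdeal hM := fun k hk => by
    rcases Nat.eq_zero_or_pos k with rfl | hk0
    · rw [pow_zero, irr_apply_one, mul_div_cancel_right₀ _ hf, sub_self]
      exact ⟨isIntegral_natCast _, zero_mem _⟩
    have hc : Subgroup.centralizer ({y ^ k} : Set G) = Subgroup.centralizer {y} := by
      rw [← Subgroup.centralizer_closure, ← Subgroup.zpowers_eq_closure,
        ← Subgroup.centralizer_closure {y}, ← Subgroup.zpowers_eq_closure]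
      congr 2
      refine le_antisymm (Subgroup.zpowers_le.2 (pow_mem (Subgroup.mem_zpowers y) k))
        (Subgroup.zpowers_le.2 (mem_zpowers_pow_iff.2 ?_))
      rw [hy]
      exact (Nat.coprime_of_lt_prime hk0.ne' (Finset.mem_range.1 hk) hp.1).symm
    have e1 := isIntegral_centralChar χ (y ^ k)
    have e2 := hχ (y ^ k)
    simp only [centralChar, hc, irr_apply_one, mul_one, div_one] at e1 e2
    exact ⟨e1, e2⟩
  set S := ∑ k ∈ Finset.range p, m * χ.1 (y ^ k) / f * ζ⁻¹ ^ k with hS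
  have hS1 : S = ((m * p * a / f : ℚ) : ℂ) := by
    have : ∀ i, ∑ k ∈ Finset.range p, ε i ^ k * ζ⁻¹ ^ k = if ε i = ζ then (p : ℂ) else 0 :=
      fun i => by
      simp only [← mul_pow]
      rw [sum_range_pow_eq_ite (by rw [mul_pow, h1, hζ', one_mul])]
      simp only [mul_inv_eq_one₀ hζ0]
    have e : ∑ k ∈ Finset.range p, χ.1 (y ^ k) * ζ⁻¹ ^ k = a * p := by
      simp only [h2, Finset.sum_mul]
      rw [Finset.sum_comm]
      simp only [this, ← Finset.sum_filter, Finset.sum_const, nsmul_eq_mul, a]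
    have e' : S = m / f * ∑ k ∈ Finset.range p, χ.1 (y ^ k) * ζ⁻¹ ^ k := by
      rw [Finset.mul_sum]; exact Finset.sum_congr rfl fun k _ => by ring
    rw [e', e]; push_cast; ring
  have hS2 : IsIntegral ℤ S := IsIntegral.sum _ fun k hk => (ht k hk).1.mul (hζi k)
  have hS3 : S ∈ locIdeal hM := by
    have e : S = m * ∑ k ∈ Finset.range p, ζ⁻¹ ^ k -
        ∑ k ∈ Finset.range p, (m - m * χ.1 (y ^ k) / f) * ζ⁻¹ ^ k := by
      rw [Finset.mul_sum, ← Finset.sum_sub_distrib]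
      exact Finset.sum_congr rfl fun k _ => by ring
    rw [e, sum_range_pow_eq_ite hζ']
    refine sub_mem (mul_mem_locIdeal_left hM (natCast_mem _ _) ?_) (sum_mem fun k hk =>
      mul_mem_locIdeal_right hM (ht k hk).2 (mem_locRing_of_isIntegral hM (hζi k)))
    split_ifs
    exacts [p_mem_locIdeal hM, zero_mem _]
  rw [hS1, ← eq_ratCast (algebraMap ℚ ℂ), isIntegral_algebraMap_iff (algebraMap ℚ ℂ).injective,
    IsIntegrallyClosed.isIntegral_iff] at hS2
  obtain ⟨s, hs⟩ := hS2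
  rw [hS1, ← hs, eq_intCast, Rat.cast_intCast, intCast_mem_locIdeal_iff] at hS3
  obtain ⟨s, rfl⟩ := hS3
  have hf' : (f : ℚ) ≠ 0 := by exact_mod_cast hf
  have hp' : (p : ℚ) ≠ 0 := Nat.cast_ne_zero.2 hp.1.ne_zero
  rw [← Int.natCast_dvd_natCast]
  refine ⟨s, Rat.intCast_injective ?_⟩
  rw [eq_intCast, eq_div_iff hf'] at hs
  push_cast at hs ⊢
  exact mul_left_cancel₀ hp' (by linear_combination -hs)

/-- Blichfeldt's theorem together with the pigeonhole principle. -/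
theorem exists_pow_mem_center_of_lt (χ : IrrCharacter G) {y : G} {p : ℕ}
    (hN : ∀ d, 0 < d → d < p → Subgroup.normalClosure {y ^ d} = ⊤) {ι : Type*} [Fintype ι]
    {ε : ι → ℂ} (h1 : ∀ i, ‖ε i‖ = 1) (h2 : ∀ k : ℕ, χ.1 (y ^ k) = ∑ i, ε i ^ k)
    (hlt : 6 ^ ((Finset.univ.image ε).card - 1) < p) :
    ∃ d, 0 < d ∧ d < p ∧ y ^ d ∈ center χ.1 := by
  classical
  obtain ⟨W, _, _, _, ρ, hρ, hirr, hχ⟩ := irr_exists_unitary χ
  have h0 : ∀ i, ε i ≠ 0 := fun i h => by simpa [h] using h1 i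
  obtain ⟨i₀⟩ : Nonempty ι := by
    by_contra! h
    exact irr_apply_one_ne_zero χ (by simpa using h2 0)
  obtain ⟨box, hbox⟩ := exists_arc_box (m := 6) (by norm_num)
  suffices H : ∀ k l : Fin p, l < k → (∀ s : (Finset.univ.image ε).erase (ε i₀),
      box ((s / ε i₀) ^ (k : ℕ)) = box ((s / ε i₀) ^ (l : ℕ))) →
      ∃ d, 0 < d ∧ d < p ∧ y ^ d ∈ center χ.1 by
    obtain ⟨k, l, hne, h⟩ := Fintype.exists_ne_map_eq_of_card_lt
      (fun (k : Fin p) (s : (Finset.univ.image ε).erase (ε i₀)) => box ((s / ε i₀) ^ (k : ℕ)))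
      (by simpa [Finset.card_erase_of_mem] using hlt)
    rcases lt_or_gt_of_ne hne with h' | h'
    exacts [H l k h' (congrFun h.symm), H k l h' (congrFun h)]
  intro k l hlk h
  obtain ⟨d, hd⟩ := Nat.exists_eq_add_of_lt hlk
  have hdp : d + 1 < p := by have := k.2; omega
  refine ⟨d + 1, d.succ_pos, hdp, ?_⟩
  have hk : ∀ k : ℕ, 0 < k → ρ.character ((y ^ (d + 1)) ^ k) = ∑ i, (ε i ^ (d + 1)) ^ k :=
    fun k _ => by simp only [hχ, ← pow_mul, h2]
  have hδ : ∀ i, ε i ^ (d + 1) ≠ 0 := fun i => pow_ne_zero _ (h0 i)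
  obtain ⟨b, ε', hb, -, hb'⟩ := exists_eigenbasis_of_power_sums ρ _ hδ hk
  obtain ⟨j, hj⟩ := hb' i₀
  rw [← hχ, rep_mem_center_iff]
  refine ⟨_, hρ.eq_smul_of_near hirr (hN _ d.succ_pos hdp) (b.ne_zero j) (hb j) fun v => ?_⟩
  refine (hρ.norm_sub_smul_le hδ hk zero_le_one (fun i => ?_) v).trans_eq (one_mul _)
  rw [hj]
  by_cases hi : ε i = ε i₀
  · simp [hi]
  have hn : ∀ k : ℕ, ‖(ε i / ε i₀) ^ k‖ = 1 := fun k => by simp [h1]
  have h3 := hbox _ _ (hn k) (hn l) (h ⟨ε i, by simpa using hi⟩)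
  rw [hd, add_assoc, pow_add, mul_comm (_ ^ (l : ℕ)),
    mul_inv_cancel_right₀ (pow_ne_zero _ (div_ne_zero (h0 i) (h0 i₀))),
    show 2 * Real.pi / ((6 : ℕ) : ℝ) = Real.pi / 3 by push_cast; ring, Real.cos_pi_div_three] at h3
  have h4 := norm_sub_ofReal_sq (hn (d + 1)) 1
  have h5 : ε i ^ (d + 1) - ε i₀ ^ (d + 1) =
      ((ε i / ε i₀) ^ (d + 1) - (1 : ℝ)) * ε i₀ ^ (d + 1) := by
    rw [div_pow, sub_mul, div_mul_cancel₀ _ (hδ i₀)]; simp
  rw [h5, norm_mul, norm_pow, h1, one_pow, mul_one]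
  exact (sq_le_one_iff₀ (norm_nonneg _)).1 (by linarith)

end LG
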