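import Cfsg.Agent.Lib.Lin.ModLift
import Cfsg.Agent.Lib.Lin.PrimeIrr
import Cfsg.Agent.Lib.Lin.BrauerSimple
import Cfsg.Agent.Lib.Char.UnifCent
import Cfsg.Agent.Lib.Grp.ZsigSmall
import Cfsg.Agent.Lib.Grp.DoubleCover
import Cfsg.Agent.S4473
import Cfsg.Agent.S4503
import Cfsg.Agent.S4504

/-!
# Class numbers of transitive linear `p'`-groups
-/

set_option autoImplicit false
set_option linter.unusedSectionVars false
set_option linter.style.haveILetI false

namespace BT

open Cfsg CT GT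
open scoped MonoidAlgebra ComplexConjugate

variable {p : ℕ} [Fact p.Prime] {M : Ideal AlgInt} (hM : IsPModular p M)
variable {G : Type*} [Group G] [Finite G]

attribute [local irreducible] instFieldResF

theorem exists_irr_of_algebra (hG : ¬ p ∣ Nat.card G) {L : Type*} [Field L]
    [Algebra (ResF hM) L] {n : ℕ} (hn : 0 < n) (r : G →* Matrix (Fin n) (Fin n) L) :
    ∃ χ : IrrCharacter G, charDegree χ.1 ≤ n ∧
      ∃ E : Matrix (Fin n) (Fin n) L, E ≠ 0 ∧ ∀ g ∈ ker χ.1, r g * E = E := by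
  classical
  have := Fintype.ofFinite G
  haveI : Nonempty (Fin n) := ⟨⟨0, hn⟩⟩
  let π : (ResF hM)[G] →ₐ[ResF hM] Matrix (Fin n) (Fin n) L := MonoidAlgebra.lift _ _ _ r
  have hπ : ∀ g, π (MonoidAlgebra.single g 1) = r g := fun g => by simp [π]
  have hi := isInt_setIdem_of_not_dvd hM hG
  have hsum : ∀ B : Set (IrrCharacter G), setIdem B = ∑ χ ∈ bset B, setIdem {χ} := fun B =>
    ga_ext fun g => by
      simp only [coeff_sum_apply, coeff_setIdem, blockCoeff_singleton]
      rw [blockCoeff_eq_sum_bset, Finset.mul_sum]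
  have h2 : ∑ χ ∈ bset Set.univ, π (idem hM {χ}) = 1 := by
    rw [← map_sum, ← map_one π, ← idem_univ hM, idem, hsum, redA_sum hM _ _ fun χ _ => hi _]
    rfl
  obtain ⟨χ, -, hχ⟩ := Finset.exists_ne_zero_of_sum_ne_zero (h2.trans_ne one_ne_zero)
  refine ⟨χ, ?_, _, hχ, fun g hg => ?_⟩
  swap
  · have h2 := congrArg (redA hM) (single_mul_setIdem_of_mem_ker χ hg)
    rw [redA_mul hM (isInt_single hM g (one_mem _)) (hi _), redA_single, red_one] at h2
    rw [← hπ, ← map_mul]
    exact congrArg π h2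
  have h1 : ∃ S : Matrix (Fin n × Fin n) G L, ∀ x y : G,
      algebraMap (ResF hM) L (red hM (blockCoeff {χ} (x⁻¹ * y))) =
        ∑ ij : Fin n × Fin n, r x ij.1 ij.2 * S ij y := by
    obtain ⟨a, b, hab⟩ : ∃ a b, π (idem hM {χ}) a b ≠ 0 := by
      by_contra h
      push Not at h
      exact hχ (Matrix.ext h)
    have ht : (χ.1 1 / Nat.card G) ^ 2 ∈ locRing hM := pow_mem (div_eq_mul_inv (χ.1 1) _ ▸
      mul_mem (mem_locRing_of_isIntegral hM (irr_isIntegral χ 1))
        (inv_natCast_mem_locRing hM hG)) 2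
    refine ⟨fun ij y => algebraMap (ResF hM) L (red hM ((χ.1 1 / Nat.card G) ^ 2)) *
      (∑ h, r (h * y⁻¹) a ij.1 * (r h⁻¹ * π (idem hM {χ})) ij.2 b) / π (idem hM {χ}) a b,
      fun x y => ?_⟩
    have hs : IsInt hM (∑ h : G, MonoidAlgebra.single (h * (y⁻¹ * x) * h⁻¹) (1 : ℂ)) :=
      (intAlg hM G).sum_mem fun h _ => isInt_single hM _ (one_mem _)
    have h2 := congrArg (fun z => π (redA hM z) a b) (sum_single_conj_mul_setIdem χ (y⁻¹ * x))
    simp only [mul_inv_rev, inv_inv] at h2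
    rw [redA_smul hM ht (hs.mul hM (hi _)), redA_smul hM (c := blockCoeff _ _) (hi _ _) (hi _),
      redA_mul hM hs (hi _),
      redA_sum hM _ _ fun h _ => isInt_single hM _ (one_mem _)] at h2
    simp only [redA_single, red_one, map_smul, map_mul, map_sum, hπ, Matrix.smul_apply,
      Finset.sum_mul, Matrix.sum_apply] at h2
    rw [Algebra.smul_def, Algebra.smul_def] at h2
    simp only [← mul_div_assoc, ← Finset.sum_div]
    rw [eq_div_iff hab]
    refine h2.symm.trans ?_
    simp only [mul_left_comm (r x _ _), ← Finset.mul_sum]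
    congr 1
    simp only [Finset.mul_sum]
    rw [Finset.sum_comm]
    refine Finset.sum_congr rfl fun h _ => ?_
    rw [← mul_assoc (r h), ← map_mul, mul_assoc, mul_assoc, Matrix.mul_apply,
      Fintype.sum_prod_type]
    refine Finset.sum_congr rfl fun i _ => ?_
    rw [Matrix.mul_apply, Finset.mul_sum]
    exact Finset.sum_congr rfl fun j _ => mul_left_comm _ _ _
  obtain ⟨S, hS⟩ := h1
  have h2 : (Matrix.of fun x y : G => red hM (blockCoeff {χ} (x⁻¹ * y))).map
      (algebraMap (ResF hM) L) = (Matrix.of fun x (ij : Fin n × Fin n) => r x ij.1 ij.2) * S := by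
    ext x y
    exact hS x y
  have h3 := rank_map_field (algebraMap (ResF hM) L)
    (Matrix.of fun x y : G => red hM (blockCoeff {χ} (x⁻¹ * y)))
  rw [rank_setIdem_matrix hM (hi {χ}), h2] at h3
  have h4 := (Matrix.rank_mul_le_left _ _).trans (Matrix.rank_le_card_width
    (Matrix.of fun x (ij : Fin n × Fin n) => r x ij.1 ij.2)) |>.trans_eq' h3
  rw [Fintype.card_prod, Fintype.card_fin] at h4
  have h5 := (Finset.single_le_sum (f := fun ψ : IrrCharacter G => charDegree ψ.1 ^ 2)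
    (fun _ _ => Nat.zero_le _) (mem_bset.2 (Set.mem_singleton χ))).trans h4
  rw [← sq] at h5
  exact (Nat.pow_le_pow_iff_left two_ne_zero).1 h5

end BT

namespace LG

open Cfsg CT GT Subgroup Matrix
open scoped ComplexConjugate commutatorElement

variable {K : Type*} [Group K] [Finite K]

theorem card_le_card_conjClasses_mul_sq {A : Subgroup K} (hA : ∀ a ∈ A, ∀ b ∈ A, a * b = b * a) :
    Nat.card K ≤ Nat.card (ConjClasses K) * A.index ^ 2 := by
  rw [← sum_irr_degree_sq, ← card_irr_eq_card_conjClasses, Nat.card_eq_fintype_card, ← smul_eq_mul]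
  exact Finset.sum_le_card_nsmul _ _ _ fun χ _ =>
    Nat.pow_le_pow_left (irr_degree_le_index_of_comm χ A hA) 2

theorem prime_le_card_conjClasses_mul {χ : K → ℂ} (hχ : IsCharacter K χ) (hk : ker χ = ⊥) {r : ℕ}
    (hr : r.Prime) (hd : r ∣ Nat.card K) : r ≤ Nat.card (ConjClasses K) * charDegree χ := by
  classical
  haveI := Fact.mk hr
  obtain ⟨x, hx⟩ := exists_prime_orderOf_dvd_card' r hd
  obtain ⟨ε, h1, h2, -⟩ := hχ.exists_eigenvalues x
  rw [hx] at h1
  obtain ⟨i₀, hi₀⟩ : ∃ i, ε i ≠ 1 := by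
    by_contra h
    push Not at h
    have h3 : χ x = χ 1 := by
      rw [← pow_one x, h2, ← pow_zero x, h2]
      simp [h]
    have h4 := hχ.ker_eq_bot_iff.1 hk x h3
    rw [h4, orderOf_one] at hx
    exact hr.one_lt.ne hx
  have hp : IsPrimitiveRoot (ε i₀) r := by
    rw [← orderOf_eq_prime (h1 i₀) hi₀]
    exact IsPrimitiveRoot.orderOf _
  have hne : ∀ i a, ε i ^ a ≠ 0 := fun i a => pow_ne_zero _ (ne_zero_of_pow_eq_one' hr.ne_zero (h1 i))
  have key : ∀ a b : ℕ, IsConj (x ^ a) (x ^ b) → ∃ i, ε i ^ b = ε i₀ ^ a := by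
    intro a b hab
    by_contra h
    push Not at h
    have h3 : ∀ c : ℕ, ∑ k ∈ Finset.range r, χ ((x ^ c) ^ k) * ((ε i₀ ^ a)⁻¹) ^ k =
        ∑ i, if ε i ^ c = ε i₀ ^ a then (r : ℂ) else 0 := fun c => by
      simp only [← pow_mul x, h2, Finset.sum_mul]
      rw [Finset.sum_comm]
      refine Finset.sum_congr rfl fun i _ => ?_
      simp only [pow_mul (ε i), ← mul_pow]
      rw [sum_range_pow_eq_ite]
      · simp only [mul_inv_eq_one₀ (hne _ _)]
      rw [mul_pow, inv_pow, ← pow_mul, ← pow_mul, mul_comm c, mul_comm a, pow_mul, pow_mul, h1, h1]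
      simp
    have h4 := h3 a
    rw [Finset.sum_congr rfl fun k _ => by
      rw [hχ.isClassFunction.of_isConj (hab.pow k)], h3 b,
      Finset.sum_eq_zero fun i _ => if_neg (h i), ← Finset.sum_filter, Finset.sum_const,
      nsmul_eq_mul, eq_comm, mul_eq_zero, Nat.cast_eq_zero, Nat.cast_eq_zero,
      Finset.card_eq_zero] at h4
    rcases h4 with h4 | h4
    · exact Finset.ne_empty_of_mem (a := i₀) (by simp) h4
    · exact hr.ne_zero h4
  let b : ConjClasses K → ℕ := fun c => if h : ∃ a : ℕ, ConjClasses.mk (x ^ a) = c then h.choose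
    else 0
  have hb : ∀ a : ℕ, IsConj (x ^ a) (x ^ b (ConjClasses.mk (x ^ a))) := fun a => by
    have h : ∃ a' : ℕ, ConjClasses.mk (x ^ a') = ConjClasses.mk (x ^ a) := ⟨a, rfl⟩
    simp only [b, dif_pos h]
    exact ConjClasses.mk_eq_mk_iff_isConj.1 h.choose_spec.symm
  choose f hf using fun a => key a _ (hb a)
  have h5 := Nat.card_le_card_of_injective
    (fun a : Fin r => (ConjClasses.mk (x ^ (a : ℕ)), f a)) fun a a' h => by
      obtain ⟨h6, h7⟩ := Prod.ext_iff.1 h
      have h8 := hf a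
      simp only at h6 h7
      rw [h6, h7, hf a'] at h8
      exact Fin.ext (hp.pow_inj a'.2 a.2 h8).symm
  simpa using h5

theorem exists_sq_add_sq {ι : Type*} (s : Finset ι) (f : ι → ℕ) (h : s.card ≤ 3) :
    ∃ a b c : ℕ, ∑ i ∈ s, f i ^ 2 = a ^ 2 + b ^ 2 + c ^ 2 ∧ (s.card ≤ 2 → c = 0) := by
  classical
  obtain h | h | h | h : s.card = 0 ∨ s.card = 1 ∨ s.card = 2 ∨ s.card = 3 := by omega
  · rw [Finset.card_eq_zero] at h
    exact ⟨0, 0, 0, by simp [h], fun _ => rfl⟩
  · obtain ⟨a, rfl⟩ := Finset.card_eq_one.1 h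
    exact ⟨f a, 0, 0, by simp, fun _ => rfl⟩
  · obtain ⟨a, b, hab, rfl⟩ := Finset.card_eq_two.1 h
    exact ⟨f a, f b, 0, by simp [hab], fun _ => rfl⟩
  · obtain ⟨a, b, c, h1, h2, h3, rfl⟩ := Finset.card_eq_three.1 h
    exact ⟨f a, f b, f c, by simp [h1, h2, h3, add_assoc], fun h' => by omega⟩

theorem sq_add_sq_cases {a b c m : ℕ} (h : m = a ^ 2 + b ^ 2 + c ^ 2) :
    m ≠ 23 ∧ m ≠ 60 ∧ (c = 0 → m ≠ 12 ∧ m ≠ 24) := by
  by_cases hm : m < 64
  · have ha : a < 8 := by nlinarith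
    have hb : b < 8 := by nlinarith
    have hc : c < 8 := by nlinarith
    have key : ∀ a ∈ List.range 8, ∀ b ∈ List.range 8, ∀ c ∈ List.range 8,
        a ^ 2 + b ^ 2 + c ^ 2 ∉ [23, 60] ∧ a ^ 2 + b ^ 2 ∉ [12, 24] := by decide +kernel
    have := key a (List.mem_range.2 ha) b (List.mem_range.2 hb) c (List.mem_range.2 hc)
    simp only [List.mem_cons, List.not_mem_nil, or_false, not_or] at this
    refine ⟨by omega, by omega, ?_⟩
    rintro rfl
    omega
  · omega

theorem card_conjClasses_ge_of_center {c c₁ : ℕ}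
    (h : ∀ s : Finset (IrrCharacter K), ∑ χ ∈ s, charDegree χ.1 ^ 2 = (Subgroup.center K).index →
      c ≤ s.card ∧ (irrOne K ∈ s → c₁ ≤ s.card)) :
    c₁ + c * (Nat.card (Subgroup.center K) - 1) ≤ Nat.card (ConjClasses K) := by
  classical
  have hd : ∀ θ : IrrCharacter (Subgroup.center K), charDegree θ.1 = 1 :=
    irr_charDegree_eq_one_of_comm fun a b => Subtype.ext (mem_center_iff.1 b.2 a)
  have h1 : ∀ θ : IrrCharacter (Subgroup.center K),
      ∑ χ ∈ irrOver (Subgroup.center K) θ.1, charDegree χ.1 ^ 2 = (Subgroup.center K).index := fun θ => by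
    rw [sum_irrOver_degree_sq_of_invariant fun g => conjSmul_of_le_center le_rfl g θ, hd,
      one_pow, mul_one]
  have h2 : Fintype.card (IrrCharacter (Subgroup.center K)) = Nat.card (Subgroup.center K) := by
    rw [← sum_irr_degree_sq]
    simp [hd]
  have h3 : ∑ θ : IrrCharacter (Subgroup.center K), (irrOver (Subgroup.center K) θ.1).card ≤
      Nat.card (ConjClasses K) := by
    rw [← card_irr_eq_card_conjClasses, Nat.card_eq_fintype_card, ← Finset.card_biUnion]
    · exact Finset.card_le_univ _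
    intro θ _ φ _ hne
    refine Finset.disjoint_left.2 fun χ h4 h5 => hne ?_
    obtain ⟨g, hg⟩ := (mem_irrOver.1 h5).mem_orbit (mem_irrOver.1 h4)
    exact hg.symm.trans (conjSmul_of_le_center le_rfl g φ)
  refine le_trans ?_ h3
  rw [← Finset.add_sum_erase _ _ (Finset.mem_univ (irrOne _))]
  refine add_le_add ((h _ (h1 _)).2 (mem_irrOver.2 ?_)) ?_
  · exact (ip_irr_self (irrOne (Subgroup.center K))).trans_ne one_ne_zero
  · have := Finset.card_nsmul_le_sum (Finset.univ.erase (irrOne (Subgroup.center K))) _ c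
      fun θ _ => (h _ (h1 θ)).1
    rwa [Finset.card_erase_of_mem (Finset.mem_univ _), Finset.card_univ, h2, smul_eq_mul,
      mul_comm] at this

/-- A `p'`-subgroup of `GL_n(p)` acting transitively on the nonzero vectors. -/
structure TL (p : ℕ) {n : ℕ} (ρ : K →* Matrix (Fin n) (Fin n) (ZMod p)) : Prop where
  inj : Function.Injective ρ
  cop : ¬ p ∣ Nat.card K
  pos : 0 < n
  trans : ∀ v w : Fin n → ZMod p, v ≠ 0 → w ≠ 0 → ∃ g, ρ g *ᵥ v = w

namespace TL

variable {p n : ℕ} [hp : Fact p.Prime] {ρ : K →* Matrix (Fin n) (Fin n) (ZMod p)} (T : TL p ρ)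
include T

theorem exists_index_eq {v : Fin n → ZMod p} (hv : v ≠ 0) :
    ∃ S : Subgroup K, (∀ g, g ∈ S ↔ ρ g *ᵥ v = v) ∧ S.index = p ^ n - 1 := by
  classical
  letI : MulAction K (Fin n → ZMod p) := MulAction.compHom _ ρ
  have hs : ∀ (g : K) (w : Fin n → ZMod p), g • w = ρ g *ᵥ w := fun _ _ => rfl
  refine ⟨MulAction.stabilizer K v, fun g => Iff.rfl, ?_⟩
  have h1 : MulAction.orbit K v = {0}ᶜ := by
    ext w
    refine ⟨?_, fun hw => T.trans v w hv hw⟩
    rintro ⟨g, rfl⟩ h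
    apply hv
    have h2 : g • v = 0 := h
    rw [← inv_smul_smul g v, h2, hs, mulVec_zero]
  rw [MulAction.index_stabilizer, h1, Set.ncard_compl, Set.ncard_singleton]
  simp

theorem exists_ne_zero : ∃ v : Fin n → ZMod p, v ≠ 0 :=
  ⟨fun _ => 1, fun h => one_ne_zero (congrFun h ⟨0, T.pos⟩)⟩

theorem dvd_card : p ^ n - 1 ∣ Nat.card K := by
  obtain ⟨v, hv⟩ := T.exists_ne_zero
  obtain ⟨S, -, h⟩ := T.exists_index_eq hv
  exact h ▸ S.index_dvd_card

theorem eq_one_of_card (h : Nat.card K = p ^ n - 1) {g : K} {v : Fin n → ZMod p} (hv : v ≠ 0)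
    (hg : ρ g *ᵥ v = v) : g = 1 := by
  obtain ⟨S, h1, h2⟩ := T.exists_index_eq hv
  have h3 := S.card_mul_index
  rw [h2, ← h, mul_eq_right₀ Nat.card_pos.ne', card_eq_one] at h3
  exact mem_bot.1 (h3 ▸ (h1 g).2 hg)

theorem eq_bot_of_normal {N : Subgroup K} [hN : N.Normal] {v : Fin n → ZMod p} (hv : v ≠ 0)
    (h : ∀ g ∈ N, ρ g *ᵥ v = v) : N = ⊥ := by
  refine eq_bot_iff.2 fun g hg => T.inj ?_
  rw [map_one, Matrix.ext_iff_mulVec]
  intro w
  by_cases hw : w = 0
  · simp [hw]
  obtain ⟨k, rfl⟩ := T.trans v w hv hw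
  rw [one_mulVec, mulVec_mulVec, ← map_mul, show g * k = k * (k⁻¹ * g * k) by group, map_mul,
    ← mulVec_mulVec, h _ (hN.conj_mem' g hg k)]

theorem exists_irr : ∃ χ : IrrCharacter K, ker χ.1 = ⊥ ∧ charDegree χ.1 ≤ n := by
  classical
  obtain ⟨M, hM⟩ := BT.exists_isPModular hp.out
  obtain ⟨ι⟩ := BT.nonempty_ringHom_resF hM (AlgebraicClosure (ZMod p))
  letI := ι.toAlgebra
  let φ := (algebraMap (ZMod p) (AlgebraicClosure (ZMod p))).mapMatrix (m := Fin n)
  obtain ⟨χ, h1, E, hE, h2⟩ := BT.exists_irr_of_algebra hM T.cop T.pos (φ.toMonoidHom.comp ρ)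
  refine ⟨χ, ?_, h1⟩
  haveI := Fintype.ofFinite (ker χ.1)
  let A := ∑ g : ker χ.1, ρ g
  have h3 : A ≠ 0 := fun h => by
    have h4 : φ A * E = (Nat.card (ker χ.1) : AlgebraicClosure (ZMod p)) • E := by
      rw [map_sum, Finset.sum_mul, 
        Finset.sum_congr rfl fun (g : ker χ.1) _ => show φ (ρ g) * E = E from h2 g g.2]
      simp [Nat.cast_smul_eq_nsmul]
    rw [h, map_zero, zero_mul, eq_comm, smul_eq_zero, CharP.cast_eq_zero_iff _ p] at h4
    exact h4.elim (fun h => T.cop (h.trans (card_subgroup_dvd_card _))) hE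
  obtain ⟨w, hw⟩ : ∃ w, A *ᵥ w ≠ 0 := by
    by_contra h
    push Not at h
    exact h3 (Matrix.ext_iff_mulVec.2 fun w => by rw [h, zero_mulVec])
  refine T.eq_bot_of_normal hw fun g hg => ?_
  rw [mulVec_mulVec, Finset.mul_sum]
  congr 1
  exact Fintype.sum_equiv (Equiv.mulLeft ⟨g, hg⟩) _ _ fun x => (map_mul ρ _ _).symm

theorem le_of_three_le (h5 : 5 ≤ p) (hn : 3 ≤ n) : p ≤ Nat.card (ConjClasses K) := by
  classical
  obtain ⟨χ, hk, hd⟩ := T.exists_irr
  have hχ := irr_isCharacter χ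
  by_contra hlt
  push Not at hlt
  have hsm : ∀ r : ℕ, r.Prime → r ∣ p ^ n - 1 → r ≤ (p - 1) * n := fun r hr h =>
    (prime_le_card_conjClasses_mul hχ hk hr (h.trans T.dvd_card)).trans
      (Nat.mul_le_mul (by omega) hd)
  have key := eq_of_zsigmondy_small hp.out h5 hn fun r hr h1 h2 => ?_
  · obtain ⟨rfl, rfl | rfl⟩ := key
    · exact absurd (hsm 31 (by norm_num) (by norm_num)) (by norm_num)
    · exact absurd (hsm 307 (by norm_num) (by norm_num)) (by norm_num)
  haveI := Fact.mk hr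
  have hrK := h1.trans T.dvd_card
  have hrp : ¬ r ∣ Nat.card (ZMod p) := fun h => by
    rw [Nat.card_zmod, Nat.prime_dvd_prime_iff_eq hr hp.out] at h
    exact T.cop (h ▸ hrK)
  have hcm := fun (x : K) (hx : orderOf x = r) => commutant_of_prime (ρ x) hr
    (by rw [← map_pow, ← hx, pow_orderOf_eq_one, map_one])
    (fun h => by
      rw [T.inj (h.trans (map_one ρ).symm), orderOf_one] at hx
      exact hr.one_lt.ne hx) hrp (by simpa using h2)
  have hab : ∀ x : K, orderOf x = r → ∀ a ∈ centralizer ({x} : Set K),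
      ∀ b ∈ centralizer ({x} : Set K), a * b = b * a := fun x hx a ha b hb => T.inj (by
    rw [map_mul, map_mul]
    refine (hcm x hx).1 _ _ ?_ ?_ <;> rw [← map_mul, ← map_mul]
    exacts [congrArg ρ (mem_centralizer_singleton_iff.1 ha),
      congrArg ρ (mem_centralizer_singleton_iff.1 hb)])
  obtain ⟨R⟩ : Nonempty (Sylow r K) := inferInstance
  have hR : (R : Subgroup K) ≠ ⊥ := R.ne_bot_of_dvd_card hrK
  haveI := (nontrivial_iff_ne_bot _).2 hR
  haveI := R.isPGroup'.center_nontrivial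
  obtain ⟨z, hz⟩ := exists_prime_orderOf_dvd_card' (G := Subgroup.center R) r
    ((R.isPGroup'.to_subgroup _).card_eq_or_dvd.resolve_left Finite.one_lt_card.ne')
  have hzo : orderOf ((z : R) : K) = r := by rw [orderOf_coe, orderOf_coe, hz]
  have hRz : (R : Subgroup K) ≤ centralizer {((z : R) : K)} := fun y hy =>
    mem_centralizer_singleton_iff.2 (congrArg Subtype.val (mem_center_iff.1 z.2 ⟨y, hy⟩))
  have hU : UnifCent (R : Subgroup K) := fun x hx hx1 => by
    refine le_antisymm ?_ (centralizer_le (Set.singleton_subset_iff.2 hx))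
    obtain ⟨y, hy, hyo⟩ : ∃ y ∈ zpowers x, orderOf y = r := by
      obtain ⟨y, hy⟩ := exists_prime_orderOf_dvd_card' (G := zpowers x) r
        (by rw [Nat.card_zpowers]; exact (isPElt_of_mem_sylow R hx).dvd_orderOf hx1)
      exact ⟨y, y.2, by rw [orderOf_coe, hy]⟩
    intro c hc u hu
    refine hab y hyo u (mem_centralizer_singleton_iff.2 (hab _ hzo _ (hRz hu) _
      (hRz (zpowers_le.2 hx hy)))) c (mem_centralizer_singleton_iff.2 ?_)
    exact (commute_of_mem_zpowers hy (mem_centralizer_singleton_iff.1 hc).symm).symm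
  have hnn : ¬ (R : Subgroup K).Normal := fun hN => by
    haveI := Fintype.ofFinite K
    have h3 := (hcm _ hzo).2 ((Finset.univ.filter (IsConj ((z : R) : K))).image ρ) fun y hy => by
      obtain ⟨g, hg, rfl⟩ := Finset.mem_image.1 hy
      obtain ⟨c, rfl⟩ := isConj_iff.1 (Finset.mem_filter.1 hg).2
      refine ⟨?_, ?_⟩
      · rw [map_mul, charpoly_mul_comm, ← map_mul, ← mul_assoc, inv_mul_cancel, one_mul]
      · rw [← map_mul, ← map_mul]
        exact congrArg ρ (mem_centralizer_singleton_iff.1 (hRz (hN.conj_mem _ (z : R).2 c)))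
    rw [Finset.card_image_of_injective _ T.inj, ← Fintype.card_subtype, ← Nat.card_eq_fintype_card,
      card_conj_eq_index, Fintype.card_fin] at h3
    have h4 := (Nat.le_of_dvd Nat.card_pos T.dvd_card).trans
      ((card_le_card_conjClasses_mul_sq (hab _ hzo)).trans
        (Nat.mul_le_mul (show _ ≤ p - 1 by omega) (Nat.pow_le_pow_left h3 2)))
    obtain ⟨m, rfl⟩ := Nat.exists_eq_add_of_le hn
    have h6 : (3 + m) ^ 2 ≤ p ^ (2 + m) := by
      refine le_trans ?_ (Nat.pow_le_pow_left h5 _)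
      clear * -
      induction m with
      | zero => norm_num
      | succ m ih => rw [← add_assoc, ← add_assoc, pow_succ 5]; nlinarith [Nat.zero_le m]
    have h7 : p ^ (3 + m) = p * p ^ (2 + m) := by ring
    obtain ⟨q, rfl⟩ := Nat.exists_eq_add_of_le' hp.out.one_le
    rw [Nat.add_sub_cancel] at h4
    have h8 : 9 ≤ (3 + m) ^ 2 := by nlinarith
    have h9 := Nat.mul_le_mul_left (q + 1) h6
    rw [← h7, add_mul] at h9
    omega
  have hn1 : n ∣ r - 1 := by
    have h3 : ∀ j, r ∣ p ^ j - 1 ↔ (p : ZMod r) ^ j = 1 := fun j => by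
      rw [← ZMod.natCast_eq_zero_iff, Nat.cast_sub (Nat.one_le_pow _ _ hp.out.pos), sub_eq_zero]
      simp
    have h4 : orderOf (p : ZMod r) = n := (orderOf_eq_iff (by omega)).2
      ⟨(h3 n).1 h1, fun m hm hm0 h => h2 m hm0 hm ((h3 m).2 h)⟩
    rw [← h4]
    refine ZMod.orderOf_dvd_card_sub_one fun h => ?_
    rw [h, orderOf_zero] at h4
    omega
  obtain ⟨t, ht⟩ := hn1
  have hr2 := hr.two_le
  have ht0 : t ≠ 0 := by rintro rfl; omega
  have hsq : ¬ r ^ 2 ∣ Nat.card K := fun h => by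
    refine hnn (UnifCent.normal_of_faithful K hU hχ hk ?_)
    have h3 := Nat.le_of_dvd Nat.card_pos (R.pow_dvd_card_of_pow_dvd_card h)
    have h4 : n + 1 ≤ r := by
      have := Nat.le_mul_of_pos_right n (Nat.pos_of_ne_zero ht0)
      omega
    have h5 := Nat.pow_le_pow_left h4 2
    have h6 := Nat.pow_le_pow_left hd 2
    nlinarith
  refine ⟨?_, fun h => hsq (h.trans T.dvd_card)⟩
  have h3 := Cfsg.Agent.S4503.result r hr hrK hsq (fun H hH hc => hnn (by
    have h4 := pCore_le_sylow R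
    have h5 : H ≤ pCore r K := le_pCore (IsPGroup.of_card (hc.trans (pow_one r).symm))
    have h6 : Nat.card R ≤ Nat.card H := by
      rw [hc, R.card_eq_multiplicity]
      refine (Nat.pow_le_pow_right hr.pos ?_).trans_eq (pow_one r)
      have := mt (hr.pow_dvd_iff_le_factorization Nat.card_pos.ne').2 hsq
      omega
    exact eq_of_le_of_card_ge (h5.trans h4) h6 ▸ hH)) χ.1 hχ (hχ.ker_eq_bot_iff.1 hk)
  have h4 : t ≤ 2 := by
    by_contra h
    have := Nat.mul_le_mul_left n (show 3 ≤ t by omega)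
    omega
  interval_cases t <;> omega

theorem eq_of_mul_self (h : Nat.card K = p ^ n - 1) {x y : K} (hx : x * x = 1) (hy : y * y = 1)
    (hx1 : x ≠ 1) (hy1 : y ≠ 1) : x = y := by
  have key : ∀ x : K, x * x = 1 → x ≠ 1 → ρ x = -1 := fun x hx hx1 =>
    Matrix.ext_iff_mulVec.2 fun w => by
      rw [neg_mulVec, one_mulVec, eq_neg_iff_add_eq_zero]
      by_contra h1
      refine hx1 (T.eq_one_of_card h h1 ?_)
      rw [mulVec_add, mulVec_mulVec, ← map_mul, hx, map_one, one_mulVec, add_comm]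
  exact T.inj ((key x hx hx1).trans (key y hy hy1).symm)

theorem le_or_of_eq_two (h5 : 5 ≤ p) (hn : n = 2) : p ≤ Nat.card (ConjClasses K) ∨
    (p = 11 ∧ Nat.card K = 120 ∧ Nonempty (K ≃* SpecialLinearGroup (Fin 2) (ZMod 5))) := by
  classical
  obtain ⟨χ, hk, hd⟩ := T.exists_irr
  have hχ := irr_isCharacter χ
  refine or_iff_not_imp_left.2 fun hlt => ?_
  push Not at hlt
  have hdv := T.dvd_card
  have hle := Nat.le_of_dvd Nat.card_pos hdv
  subst hn
  obtain ⟨q, rfl⟩ := Nat.exists_eq_add_of_le' hp.out.one_le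
  have hq : (q + 1) ^ 2 - 1 = q * (q + 2) := by
    rw [show (q + 1) ^ 2 = q * (q + 2) + 1 by ring, Nat.add_sub_cancel]
  rw [hq] at hle
  have hA : ∀ A : Subgroup K, ⁅A, A⁆ = ⊥ → ¬ A.index ≤ 2 := fun A hA h => by
    have h1 := (card_le_card_conjClasses_mul_sq (A := A) fun a ha b hb =>
      commutatorElement_eq_one_iff_mul_comm.1 (mem_bot.1 (hA ▸ commutator_mem_commutator ha hb))).trans
      (Nat.mul_le_mul (show _ ≤ q by omega) (Nat.pow_le_pow_left h 2))
    nlinarith
  have h2 : charDegree χ.1 = 2 := by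
    have h1 := irr_degree_pos χ
    have h3 : charDegree χ.1 ≠ 1 := fun h => hA ⊤ (le_bot_iff.1
      (hk ▸ commutator_le_ker_of_degree_one hχ h)) (by simp)
    omega
  have hpr : IsPrimitiveChar χ.1 := fun H hH θ hθ h => by
    have h1 := charDegree_ind hθ
    rw [h, h2] at h1
    have h3 : H.index ≠ 1 := by rwa [Ne, index_eq_one]
    have h4 : H.index = 2 := ((Nat.dvd_prime Nat.prime_two).1 ⟨_, h1⟩).resolve_left h3
    rw [h4] at h1
    haveI := normal_of_index_eq_two h4
    refine hA H (le_bot_iff.1 ?_) h4.le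
    rw [← hk, ← h]
    refine le_ker_ind_of_normal (commutator_le_left H H) (le_trans ?_
      (commutator_le_ker_of_degree_one hθ (by omega)))
    rw [← map_subtype_commutator, subgroupOf, comap_map_eq_self_of_injective H.subtype_injective]
  haveI := Fintype.ofFinite K
  have hm := Cfsg.Agent.S4473.result χ (hχ.ker_eq_bot_iff.1 hk) h2 fun H hH θ hθ h =>
    hpr H hH θ hθ (by rw [h, indFun_eq_ind])
  have hZ := (Subgroup.center K).card_mul_index
  have hz := Nat.card_pos (α := Subgroup.center K)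
  have hs : ∀ (s : Finset (IrrCharacter K)) (m : ℕ), ∑ χ ∈ s, charDegree χ.1 ^ 2 = m →
      (m = 23 ∨ m = 60 → 4 ≤ s.card) ∧ (m = 12 ∨ m = 24 → 3 ≤ s.card) := fun s m hs => by
    by_cases h : s.card ≤ 3
    · obtain ⟨a, b, c, h1, h3⟩ := exists_sq_add_sq s (fun χ => charDegree χ.1) h
      have := sq_add_sq_cases (hs.symm.trans h1)
      omega
    · omega
  rcases hm with hm | hm | hm
  · have h1 := card_conjClasses_ge_of_center (K := K) (c := 3) (c₁ := 3) fun s h =>
      have := (hs s _ h).2 (Or.inl hm); ⟨this, fun _ => this⟩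
    rw [hm] at hZ
    have h3 : 3 * Nat.card (Subgroup.center K) ≤ q := by omega
    nlinarith
  · have h1 := card_conjClasses_ge_of_center (K := K) (c := 3) (c₁ := 5) fun s h =>
      ⟨(hs s _ h).2 (Or.inr hm), fun h1 => by
        rw [← Finset.add_sum_erase _ _ h1, charDegree_irrOne, hm] at h
        have := (hs (s.erase (irrOne K)) 23 (by omega)).1 (Or.inl rfl)
        rw [Finset.card_erase_of_mem h1] at this
        omega⟩
    rw [hm] at hZ
    have h3 : 3 * Nat.card (Subgroup.center K) + 2 ≤ q := by omega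
    nlinarith
  have h1 := card_conjClasses_ge_of_center (K := K) (c := 4) (c₁ := 4) fun s h =>
    have := (hs s _ h).1 (Or.inr hm); ⟨this, fun _ => this⟩
  rw [hm] at hZ
  have h3 : 4 * Nat.card (Subgroup.center K) ≤ q := by omega
  have h4 : q ≤ 13 := by nlinarith
  have h6 := T.cop
  have h7 := hp.out
  obtain ⟨rfl, h8⟩ : q = 10 ∧ Nat.card (Subgroup.center K) = 2 := by
    rw [← hZ] at hdv h6
    generalize Nat.card (Subgroup.center K) = z at *
    have : z ≤ 3 := by omega
    clear * - hdv h6 h7 this hz h3 h4 h5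
    interval_cases q <;> interval_cases z <;> simp_all (decide := true)
  have h9 : Nat.card K = 120 := by omega
  refine ⟨rfl, h9, ?_⟩
  obtain ⟨e⟩ := Cfsg.Agent.S4504.result 5 (by norm_num) (by rw [h9]; norm_num)
    (by rw [h9]; norm_num) (fun H hH hc => by
      haveI : Fact (Nat.Prime 5) := ⟨by norm_num⟩
      haveI := isCyclic_of_prime_card hc
      have := card_dvd_of_le (hpr.le_center_of_comm_of_faithful hk H fun a ha b hb =>
        congrArg Subtype.val (IsCyclic.commGroup.mul_comm (⟨a, ha⟩ : H) ⟨b, hb⟩))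
      rw [hc, h8] at this
      omega) χ.1 hχ (hχ.ker_eq_bot_iff.1 hk) (by omega)
  obtain ⟨z, hz1, hz2⟩ := (Nat.card_eq_two_iff' (1 : Subgroup.center K)).1 h8
  have hzz : ∀ x : Subgroup.center K, x.1 * x.1 = 1 := fun x => by
    rw [← sq, ← h8, ← coe_pow, pow_card_eq_one', coe_one]
  have hu : ∀ x : K, x * x = 1 → x = 1 ∨ x = z := fun x hx => or_iff_not_imp_left.2 fun h =>
    T.eq_of_mul_self h9 hx (hzz z) h fun h' => hz1 (Subtype.ext h')
  refine DCov.nonempty_mulEquiv_sl25 (f := e.toMonoidHom.comp (QuotientGroup.mk' _)) (z := z)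
    ⟨e.surjective.comp (QuotientGroup.mk'_surjective _), fun h => hz1 (Subtype.ext h),
      fun x => ?_, hu⟩
  simp only [MonoidHom.comp_apply, MulEquiv.coe_toMonoidHom, EmbeddingLike.map_eq_one_iff,
    QuotientGroup.mk'_apply, QuotientGroup.eq_one_iff]
  refine ⟨fun h => hu x (hzz ⟨x, h⟩), ?_⟩
  rintro (rfl | rfl)
  exacts [one_mem _, z.2]

end TL

end LG
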