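import Cfsg.Agent.Lib.Lin.HallPi
import Cfsg.Agent.Lib.Lin.TransLin
import Cfsg.Agent.Lib.Block.FeitTI
import Cfsg.Agent.S4704

/-!
# Blichfeldt's bound for primitive linear groups, and linear groups of small degree
-/

set_option autoImplicit false
set_option linter.unusedSectionVars false
set_option linter.style.haveILetI false

namespace LG

open Cfsg CT GT BT Subgroup
open scoped commutatorElement InnerProductSpace

universe u

variable {G : Type u} [Group G] [Finite G]

theorem center_smul_eq {c : ℂ} (hc : c ≠ 0) (θ : G → ℂ) : center (c • θ) = center θ := by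
  ext g
  simp only [mem_center_def, Pi.smul_apply, smul_eq_mul]
  refine exists_congr fun a => forall_congr' fun x => ?_
  rw [mul_left_comm, mul_right_inj' hc]

/-- Blichfeldt's lemma for primitive characters. -/
theorem mem_center_of_near {χ : IrrCharacter G} (hχ : IsPrimitiveChar χ.1) {x : G} {ι : Type*}
    [Fintype ι] {δ : ι → ℂ} (hδ : ∀ i, δ i ≠ 0)
    (hk : ∀ k : ℕ, 0 < k → χ.1 (x ^ k) = ∑ i, δ i ^ k) (i₀ : ι)
    (hn : ∀ i, ‖δ i - δ i₀‖ ≤ 1) : x ∈ center χ.1 := by
  classical
  obtain ⟨V, _, _, _, ρ, hρ, hirr, he⟩ := irr_exists_unitary χ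
  rw [← he] at hk
  obtain ⟨b, ε, hb, -, hb'⟩ := exists_eigenbasis_of_power_sums ρ _ hδ hk
  obtain ⟨j, hj⟩ := hb' i₀
  obtain ⟨W, hW, h1, y, hy, h2⟩ := hρ.exists_invariant_of_near (b.ne_zero j) (hb j) fun v =>
    (hρ.norm_sub_smul_le hδ hk zero_le_one (fun i => hj ▸ hn i) v).trans_eq (one_mul _)
  set N := normalClosure ({x} : Set G) with hN
  have hinv : ∀ g ∈ N, ∀ w ∈ W, ρ g w ∈ W := fun g hg => by
    replace hg : g ∈ Submonoid.closure (Group.conjugatesOfSet ({x} : Set G)) := by
      rw [← Subgroup.closure_toSubmonoid_of_finite]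
      exact hg
    induction hg using Submonoid.closure_induction with
    | mem z hz =>
      obtain ⟨a, rfl, ha⟩ := Group.mem_conjugatesOfSet_iff.1 hz
      exact h1 z ha
    | one => intro w hw; rwa [map_one]
    | mul a b _ _ ha hb => intro w hw; rw [map_mul]; exact ha _ (hb _ hw)
  let σ : Representation ℂ N V := ρ.comp N.subtype
  let A : Subrepresentation σ := ⟨W, fun g v hv => hinv g g.2 v hv⟩
  let B : Subrepresentation σ := ⟨Wᗮ, fun g v hv => by
    rw [Submodule.mem_orthogonal] at hv ⊢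
    intro w hw
    have := hρ.inner_map_left (g : G)⁻¹ w v
    rw [inv_inv] at this
    exact this.symm.trans (hv _ (hinv _ (N.inv_mem g.2) w hw))⟩
  have h3 := character_eq_add_of_isCompl σ A B (Submodule.isCompl_orthogonal W)
  obtain ⟨θ, e, he0, -, h4⟩ := hχ.exists_res_eq_smul N
  have h5 : σ.character = res N χ.1 := by rw [← he]; rfl
  have hA := isCharacter_of_rep A.toRepresentation
  have hB := isCharacter_of_rep B.toRepresentation
  have h6 : A.toRepresentation.character = (mult A.toRepresentation.character θ.1 : ℂ) • θ.1 := by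
    nth_rewrite 1 [hA.eq_sum_mult]
    refine Finset.sum_eq_single θ (fun η _ hη => ?_) (by simp)
    have h7 : ip σ.character η.1 = 0 := by
      rw [h5, h4, ip_smul_left, ip_irr_ne hη.symm, mul_zero]
    rw [h3, ip_add_left, hA.ip_eq_mult η.2.isCharacter, hB.ip_eq_mult η.2.isCharacter,
      ← Nat.cast_add, Nat.cast_eq_zero, Nat.add_eq_zero_iff] at h7
    rw [h7.1]; simp
  have hm : (mult A.toRepresentation.character θ.1 : ℂ) ≠ 0 := fun h => by
    rw [h, zero_smul] at h6
    have h7 := charDegree_rep A.toRepresentation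
    rw [h6, charDegree_eq_of_apply_one (n := 0) (by simp)] at h7
    exact hW (Submodule.finrank_eq_zero.1 h7.symm)
  have hyN : y ∈ N := conjugatesOfSet_subset_normalClosure
    (Group.mem_conjugatesOfSet_iff.2 ⟨x, rfl, hy⟩)
  have h7 : (⟨y, hyN⟩ : N) ∈ center A.toRepresentation.character :=
    (rep_mem_center_iff _ _).2 ⟨_, LinearMap.ext fun w => Subtype.ext (h2 w w.2)⟩
  rw [h6, center_smul_eq hm, ← center_smul_eq (c := (e : ℂ)) (by exact_mod_cast he0.ne'), ← h4,
    (irr_isCharacter χ).center_res, mem_subgroupOf] at h7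
  obtain ⟨g, rfl⟩ := isConj_iff.1 hy
  simpa [mul_assoc] using (irr_center_normal χ).conj_mem _ h7 g⁻¹

/-- Blichfeldt's bound for abelian subgroups of primitive groups. -/
theorem relIndex_center_le_of_comm {χ : IrrCharacter G} (hχ : IsPrimitiveChar χ.1)
    {A : Subgroup G} (hA : ∀ x ∈ A, ∀ y ∈ A, x * y = y * x) :
    (center χ.1).relIndex A ≤ 6 ^ (charDegree χ.1 - 1) := by
  classical
  have hd : charDegree (res A χ.1) = charDegree χ.1 := rfl
  obtain ⟨lam, hlam, -⟩ := ((irr_isCharacter χ).res A).exists_sum_monoidHom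
    fun a b => Subtype.ext (hA a a.2 b b.2)
  obtain ⟨box, hbox⟩ := exists_arc_box (m := 6) (by norm_num)
  let i₀ : Fin (charDegree (res A χ.1)) := ⟨0, irr_degree_pos χ⟩
  have h0 : ∀ i a, lam i a ≠ 0 := fun i a h => by
    have := monoidHom_norm_eq_one (lam i) a
    rw [h, norm_zero] at this
    exact zero_ne_one this
  refine (index_le_of_fibers _ (fun a (i : {i // i ≠ i₀}) => box (lam i a / lam i₀ a))
    fun x y e => ?_).trans (by
      rw [Nat.card_fun, Nat.card_eq_fintype_card, Nat.card_eq_fintype_card, Fintype.card_fin]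
      simp [hd])
  refine mem_center_of_near hχ (δ := fun i => lam i (x⁻¹ * y)) (fun i => h0 i _)
    (fun k _ => ?_) i₀ fun i => ?_
  · simp only [← map_pow]
    exact hlam ((x⁻¹ * y) ^ k)
  by_cases hi : i = i₀
  · simp [hi]
  have hn : ∀ a, ‖lam i a / lam i₀ a‖ = 1 := fun a => by
    rw [norm_div, monoidHom_norm_eq_one, monoidHom_norm_eq_one, div_one]
  have h3 := hbox _ _ (hn y) (hn x) (congrFun e ⟨i, hi⟩).symm
  have h4 : ∀ j, lam j (x⁻¹ * y) = (lam j x)⁻¹ * lam j y := fun j => by
    rw [map_mul, eq_inv_of_mul_eq_one_left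
      (by rw [← map_mul, inv_mul_cancel, map_one] : lam j x⁻¹ * lam j x = 1)]
  have h5 : lam i y / lam i₀ y * (lam i x / lam i₀ x)⁻¹ = lam i (x⁻¹ * y) / lam i₀ (x⁻¹ * y) := by
    rw [h4, h4]
    have := h0 i x; have := h0 i₀ x; have := h0 i₀ y
    field_simp
  rw [h5, show 2 * Real.pi / ((6 : ℕ) : ℝ) = Real.pi / 3 by push_cast; ring,
    Real.cos_pi_div_three] at h3
  have h6 := norm_sub_ofReal_sq (hn (x⁻¹ * y)) 1
  have h7 : lam i (x⁻¹ * y) - lam i₀ (x⁻¹ * y) =
      (lam i (x⁻¹ * y) / lam i₀ (x⁻¹ * y) - (1 : ℝ)) * lam i₀ (x⁻¹ * y) := by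
    rw [sub_mul, div_mul_cancel₀ _ (h0 i₀ _)]; simp
  rw [h7, norm_mul, monoidHom_norm_eq_one, mul_one]
  exact (sq_le_one_iff₀ (norm_nonneg _)).1 (by linarith)

/-- The theorem of Feit and Thompson on linear groups. -/
theorem sylow_normal_of_two_mul_lt {χ : G → ℂ} (hχ : IsCharacter G χ) (hk : ker χ = ⊥) {r : ℕ}
    [hr : Fact r.Prime] (hd : 2 * charDegree χ + 1 < r) (R : Sylow r G) :
    (R : Subgroup G).Normal := by
  by_cases h : r ∣ (pCore r G).index
  · obtain ⟨S, ι, ψ, W⟩ := exists_linCore hχ hk (by omega) h (feit_not_sq_dvd hχ hk (by omega))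
    have := W.big
    have := hχ.degree_le_of_ip_ne_zero ψ W.mem
    omega
  · have h1 : pCore r G = R := (((isPGroup_pCore r G).toSylow h).is_maximal' R.isPGroup'
      (pCore_le_sylow R)).symm
    exact h1 ▸ inferInstance

theorem index_center_dvd_of_primitive {χ : IrrCharacter G} (hχ : IsPrimitiveChar χ.1)
    (hk : ker χ.1 = ⊥) (hd : charDegree χ.1 ≤ 4) : (center G).index ∣ 217728000 := by
  have hc := irr_isCharacter χ
  have hZ := irr_center_eq_of_faithful χ hk
  rw [← Nat.factorization_prime_le_iff_dvd index_ne_zero_of_finite (by norm_num)]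
  intro r hr
  haveI := Fact.mk hr
  obtain ⟨R⟩ := (inferInstance : Nonempty (Sylow r G))
  have e := ordProj_index_eq_relIndex (center G) R
  rw [← hr.pow_dvd_iff_le_factorization (by norm_num)]
  by_cases h7 : 7 ≤ r
  · have hO : pCore r G ≤ center G := hχ.le_center_of_comm_of_faithful hk _
      (comm_of_isPGroup_of_lt hc hk (by omega) (isPGroup_pCore r G))
    have h1 := feit_not_sq_dvd (p := r) hc hk (by omega)
    have h2 : (center G).index.factorization r ≤ 1 := by
      have := mt (fun h => ((hr.pow_dvd_iff_le_factorization index_ne_zero_of_finite).2 h).trans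
        (index_dvd_of_le hO)) h1
      omega
    rcases h7.eq_or_lt with rfl | h8
    · exact (pow_dvd_pow _ h2).trans (by norm_num)
    have h9 : 10 < r := by
      by_contra h
      have : r ≤ 10 := by omega
      interval_cases r <;> revert hr <;> decide
    haveI := sylow_normal_of_two_mul_lt hc hk (by omega) R
    rw [e, relIndex_eq_one.2 ((le_pCore R.isPGroup').trans hO)]
    exact one_dvd _
  obtain ⟨B, -, h1, h2⟩ := exists_normal_index_dvd_factorial (isMGroup_of_isPGroup R.isPGroup') _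
    _ (hc.res R) rfl
  rw [hc.ker_res, hk, bot_subgroupOf, le_bot_iff, commutator_eq_bot_iff_le_centralizer] at h1
  have h3 := relIndex_center_le_of_comm hχ (A := B.map (R : Subgroup G).subtype) (by
    rintro _ ⟨x, hx, rfl⟩ _ ⟨y, hy, rfl⟩
    exact congrArg Subtype.val (h1 hy x hx))
  rw [hZ] at h3
  replace h3 := h3.trans (Nat.pow_le_pow_right (by norm_num) (show _ ≤ 3 by omega))
  replace h2 : B.index ∣ 24 := h2.trans (Nat.factorial_dvd_factorial hd)
  obtain ⟨k, hk'⟩ := R.isPGroup'.index B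
  obtain ⟨l, hl⟩ := (R.isPGroup'.to_le (map_subtype_le B)).index
    ((center G).subgroupOf (B.map (R : Subgroup G).subtype))
  have h5 := relIndex_dvd_of_le_left (L := R)
    (inf_le_left : center G ⊓ B.map (R : Subgroup G).subtype ≤ center G)
  rw [← relIndex_mul_relIndex _ _ _ inf_le_right (map_subtype_le B), inf_relIndex_right,
    show (B.map (R : Subgroup G).subtype).relIndex R = B.index from
      congrArg index (comap_map_eq_self_of_injective (R : Subgroup G).subtype_injective B)] at h5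
  rw [e]
  refine h5.trans ?_
  rw [relIndex, hl] at h3
  rw [relIndex, hl, hk']
  rw [hk'] at h2
  have hk4 : k < 5 := (Nat.pow_lt_pow_iff_right hr.one_lt).1 ((Nat.le_of_dvd (by norm_num) h2).trans_lt
    (lt_of_lt_of_le (by norm_num) (Nat.pow_le_pow_left hr.two_le 5)))
  have hl8 : l < 8 := (Nat.pow_lt_pow_iff_right hr.one_lt).1 (h3.trans_lt
    (lt_of_lt_of_le (by norm_num) (Nat.pow_le_pow_left hr.two_le 8)))
  have key : ∀ r ∈ [2, 3, 5], ∀ k ∈ List.range 5, ∀ l ∈ List.range 8, r ^ k ∣ 24 → r ^ l ≤ 6 ^ 3 →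
      r ^ l * r ^ k ∣ 217728000 := by decide +kernel
  refine key r ?_ k (List.mem_range.2 hk4) l (List.mem_range.2 hl8) h2 h3
  have : ∀ r < 7, r.Prime → r ∈ [2, 3, 5] := by decide
  exact this r (by omega) hr

theorem index_center_le_of_primitive_two {ψ : IrrCharacter G} (hψ : IsPrimitiveChar ψ.1)
    (hd : charDegree ψ.1 = 2) : (center ψ.1).index ≤ 60 := by
  obtain ⟨η, h1, h2, h3⟩ := exists_faithful_quotient (irr_isCharacter ψ) (ker ψ.1) rfl
  have h4 : IsIrrCharacter _ η := by
    rw [h1.isIrr_iff_ip_self, ← ip_comp_of_surjective _ (QuotientGroup.mk'_surjective _)]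
    exact h3 ▸ ip_irr_self ψ
  have h5 : IsPrimitiveChar η := IsPrimitiveChar.of_comp_surjective
    (QuotientGroup.mk'_surjective _) (h3 ▸ hψ)
  haveI := Fintype.ofFinite (G ⧸ ker ψ.1)
  have h6 := Cfsg.Agent.S4473.result ⟨η, h4⟩ (h1.ker_eq_bot_iff.1 h2)
    (charDegree_eq_of_apply_one (by
      have := congrFun h3 1
      rw [irr_apply_one, hd] at this
      exact this.symm)) fun H hH θ hθ h => h5 H hH θ hθ (by rw [← indFun_eq_ind]; exact h.symm)
  rw [irr_center_eq_comap, index_comap_of_surjective _ (QuotientGroup.mk'_surjective _)]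
  omega

theorem exists_comm_of_monomial {χ : IrrCharacter G} (hk : ker χ.1 = ⊥) {L : Subgroup G}
    {ψ : IrrCharacter L} (h1 : charDegree ψ.1 = 1) (he : ind L ψ.1 = χ.1) :
    ∃ A : Subgroup G, (∀ a ∈ A, ∀ b ∈ A, a * b = b * a) ∧
      A.index ∣ (charDegree χ.1).factorial := by
  have hKi : L.index = charDegree χ.1 := by rw [← he, charDegree_ind ψ.2.isCharacter, h1, mul_one]
  refine ⟨L.normalCore, fun a ha b hb => ?_, hKi ▸ index_normalCore_dvd_factorial L⟩
  have h2 := le_ker_ind_of_normal ((commutator_le_left _ _).trans L.normalCore_le)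
    ((commutator_subgroupOf_le_commutator L.normalCore_le).trans
      ((irr_commutator_le_ker_iff ψ).2 h1))
  rw [he, hk] at h2
  exact commutatorElement_eq_one_iff_mul_comm.1 (h2 (commutator_mem_commutator ha hb))

theorem primitive_or_exists_ind (χ : IrrCharacter G) : IsPrimitiveChar χ.1 ∨
    ∃ (L : Subgroup G) (ψ : IrrCharacter L), 2 ≤ L.index ∧ IsPrimitiveChar ψ.1 ∧
      ind L ψ.1 = χ.1 ∧ charDegree χ.1 = L.index * charDegree ψ.1 := by
  obtain ⟨L, ψ, h1, h2⟩ := exists_primitive_ind χ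
  by_cases h : L = ⊤
  · subst h
    left
    have h3 := h1.comp_of_surjective (f := (topEquiv (G := G)).symm.toMonoidHom)
      topEquiv.symm.surjective
    rw [← h2]
    convert h3 using 2 with g
    exact ind_top (irr_isClassFunction _) g
  · refine Or.inr ⟨L, ψ, ?_, h1, h2, h2 ▸ charDegree_ind ψ.2.isCharacter⟩
    have := mt index_eq_one.1 h
    have : L.index ≠ 0 := index_ne_zero_of_finite
    omega

theorem exists_comm_of_degree_le_two {χ : IrrCharacter G} (hk : ker χ.1 = ⊥)
    (hd : charDegree χ.1 ≤ 2) :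
    ∃ A : Subgroup G, (∀ a ∈ A, ∀ b ∈ A, a * b = b * a) ∧ A.index ≤ 60 := by
  have h0 := irr_degree_pos χ
  rcases primitive_or_exists_ind χ with h | ⟨L, ψ, h1, -, h2, h3⟩
  · refine ⟨center G, fun a ha b _ => (mem_center_iff.1 ha b).symm, ?_⟩
    rw [← irr_center_eq_of_faithful χ hk]
    rcases hd.eq_or_lt with h4 | h4
    · exact index_center_le_of_primitive_two h h4
    · rw [(irr_center_eq_top_iff χ).2 (by omega), index_top]
      norm_num
  · have h5 := irr_degree_pos ψ
    obtain ⟨A, h6, h7⟩ := exists_comm_of_monomial hk (ψ := ψ) (by nlinarith) h2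
    exact ⟨A, h6, (Nat.le_of_dvd (by norm_num) (h7.trans (Nat.factorial_dvd_factorial hd))).trans
      (by norm_num [Nat.factorial])⟩

theorem cases_of_degree_le_four {χ : IrrCharacter G} (hk : ker χ.1 = ⊥)
    (hd : charDegree χ.1 ≤ 4) :
    (∃ A : Subgroup G, (∀ a ∈ A, ∀ b ∈ A, a * b = b * a) ∧ A.index ≤ 60) ∨
      (∃ B : Subgroup G, B.index ≤ 7200 ∧ ∀ b ∈ B, (centralizer ({b} : Set G)).index ≤ 2) ∨
      (center G).index ∣ 217728000 := by
  rcases primitive_or_exists_ind χ with h | ⟨L, ψ, h1, h4, h2, h3⟩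
  · exact Or.inr (Or.inr (index_center_dvd_of_primitive h hk hd))
  have h5 := irr_degree_pos ψ
  by_cases h6 : charDegree ψ.1 = 1
  · obtain ⟨A, h6, h7⟩ := exists_comm_of_monomial hk h6 h2
    exact Or.inl ⟨A, h6, (Nat.le_of_dvd (by norm_num)
      (h7.trans (Nat.factorial_dvd_factorial hd))).trans (by norm_num [Nat.factorial])⟩
  have h7 : charDegree ψ.1 = 2 := by nlinarith [show 2 ≤ charDegree ψ.1 by omega]
  have h8 : L.index = 2 := by rw [h7] at h3; omega
  haveI := normal_of_index_eq_two h8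
  obtain ⟨g, hg⟩ := index_eq_two_iff.1 h8
  set D := (center ψ.1).map L.subtype with hD
  have hDL : D ≤ L := map_subtype_le _
  have hDn : ∀ l ∈ L, ∀ d ∈ D, l * d * l⁻¹ ∈ D := by
    rintro l hl _ ⟨d, hd, rfl⟩
    exact ⟨_, (irr_center_normal ψ).conj_mem d hd ⟨l, hl⟩, rfl⟩
  have hB : D.normalCore = D ⊓ D.comap (MulAut.conj g).toMonoidHom := by
    refine le_antisymm (le_inf D.normalCore_le fun x hx => hx g) fun x hx y => ?_
    rcases hg (y * g⁻¹) with h | h
    · have := hDn _ h.1 _ hx.1
      simpa using this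
    · by_cases hy : y * g⁻¹ ∈ L
      · have := hDn _ hy _ hx.2
        simpa [mul_assoc] using this
      · exact absurd h.1 hy
  have h9 : D.relIndex L ≤ 60 := by
    rw [relIndex, subgroupOf, hD, comap_map_eq_self_of_injective L.subtype_injective]
    exact index_center_le_of_primitive_two h4 h7
  have h10 : (D.comap (MulAut.conj g).toMonoidHom).relIndex L = D.relIndex L := by
    rw [relIndex_comap]
    congr 1
    exact conj_smul_eq_iff_mem_normalizer.2 (le_normalizer_of_normal (mem_top g))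
  refine Or.inr (Or.inl ⟨D.normalCore, ?_, fun b hb => ?_⟩)
  · rw [← relIndex_mul_index (D.normalCore_le.trans hDL), hB, h8]
    have := (relIndex_inf_le (H := D) (K := D.comap (MulAut.conj g).toMonoidHom) (L := L)).trans
      (Nat.mul_le_mul h9 (h10 ▸ h9))
    omega
  · have h11 := le_ker_ind_of_normal (θ := ψ.1) (commutator_le_right D.normalCore L) (by
      rw [← map_le_map_iff_of_injective L.subtype_injective, subgroupOf_map_subtype]
      refine inf_le_left.trans (commutator_le.2 fun a ha l hl => ?_)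
      obtain ⟨d, hd, rfl⟩ := D.normalCore_le ha
      exact ⟨_, ψ.2.isCharacter.commutator_mem_ker_of_mem_center hd ⟨l, hl⟩, rfl⟩)
    rw [h2, hk] at h11
    rw [← h8]
    refine index_antitone fun l hl => mem_centralizer_singleton_iff.2 ?_
    exact (commutatorElement_eq_one_iff_mul_comm.1 (h11 (commutator_mem_commutator hb hl))).symm

theorem card_le_mul_card_conjClasses {B : Subgroup G} {j : ℕ}
    (h : ∀ b ∈ B, (centralizer ({b} : Set G)).index ≤ j) :
    Nat.card B ≤ j * Nat.card (ConjClasses G) := by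
  classical
  haveI := Fintype.ofFinite G
  haveI := Fintype.ofFinite (ConjClasses G)
  rw [Nat.card_eq_fintype_card, Nat.card_eq_fintype_card, ← Finset.card_univ, ← Finset.card_univ]
  refine Finset.card_le_mul_card_image_of_maps_to (f := fun b : B => ConjClasses.mk (b : G))
    (fun _ _ => Finset.mem_univ _) j fun c _ => ?_
  rcases (Finset.univ.filter fun b : B => ConjClasses.mk (b : G) = c).eq_empty_or_nonempty with
    h1 | ⟨b, hb⟩
  · simp [h1]
  refine le_trans ?_ (h b b.2)
  rw [← card_conj_eq_index, ← Fintype.card_subtype, ← Nat.card_eq_fintype_card]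
  refine Nat.card_le_card_of_injective (fun x => ⟨x.1, ConjClasses.mk_eq_mk_iff_isConj.1
    ((Finset.mem_filter.1 hb).2.trans x.2.symm)⟩) fun x y e => ?_
  exact Subtype.ext (Subtype.ext (congrArg (fun z => z.1) e))

theorem card_le_of_sylow_prime {χ : IrrCharacter G} (hk : ker χ.1 = ⊥) {r : ℕ} [hr : Fact r.Prime]
    (h7 : 7 < r) (R : Sylow r G) (hR : Nat.card R = r) (hnn : ¬ (R : Subgroup G).Normal)
    (hd : 3 * charDegree χ.1 + 2 ≤ 2 * r) :
    r ≤ 2 * charDegree χ.1 + 1 ∧ Nat.card G ≤ Nat.card (ConjClasses G) * r ^ 4 := by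
  rcases Cfsg.Agent.S4704.result r h7 R hR hnn χ.1 χ.2 ((irr_isCharacter χ).ker_eq_bot_iff.1 hk)
    _ rfl with ⟨⟨F, _, _, hF, ⟨e⟩⟩, h, -⟩ | h | ⟨h, -⟩
  · refine ⟨by omega, ?_⟩
    rw [← (center G).card_mul_index]
    refine Nat.mul_le_mul ((card_le_mul_card_conjClasses (j := 1) fun b hb => ?_).trans_eq
      (one_mul _)) ?_
    · rw [centralizer_eq_top_iff_subset.2 (Set.singleton_subset_iff.2 hb), index_top]
    · rw [index_eq_card, Nat.card_congr e.toEquiv]
      refine (Nat.card_le_card_of_surjective _ (QuotientGroup.mk'_surjective _)).trans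
        ((Nat.card_le_card_of_injective _ Subtype.val_injective).trans ?_)
      simp [Matrix, hF, ← pow_mul]
  · omega
  · exfalso
    have h1 : (3 * charDegree χ.1 + 2 : ℝ) ≤ 2 * r := by exact_mod_cast hd
    have h2 : (7 : ℝ) < r := by exact_mod_cast h7
    have h3 : Real.sqrt ((r : ℝ) + 5 / 4) < r / 3 + 2 := by
      rw [Real.sqrt_lt' (by positivity)]
      nlinarith
    linarith

end LG
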