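import Cfsg.Agent.Lib.Lin.InvSysOrth
import Cfsg.Agent.Lib.Grp.InvSysFour

/-!
# Composition algebras, the doubling process, and Sylow `2`-subgroups of `G₂(q)`
-/

set_option autoImplicit false
set_option linter.unusedSectionVars false

namespace LG

open Cfsg GT Subgroup Module

variable {F V : Type*} [Field F] [AddCommGroup V] [Module F V] [FiniteDimensional F V]

/-- A composition algebra in characteristic not two. -/
structure CompAlg (m : V →ₗ[F] V →ₗ[F] V) (e : V) (B : LinearMap.BilinForm F V) (N : V → F)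
    (c : V →ₗ[F] V) : Prop where
  two : (2 : F) ≠ 0
  e_ne : e ≠ 0
  one_mul : ∀ x, m e x = x
  mul_one : ∀ x, m x e = x
  symm : ∀ x y, B x y = B y x
  nondeg : ∀ x, (∀ y, B x y = 0) → x = 0
  self : ∀ x, B x x = 2 * N x
  N_one : N e = 1
  conj : ∀ x, c x = B x e • e - x
  left : ∀ x y w, m x (m (c y) w) + m y (m (c x) w) = B x y • w
  right : ∀ x w, m (m w x) (c x) = N x • w
  adj : ∀ x y w, B (m x y) w = B x (m w (c y))
  conj_mul : ∀ x y, c (m x y) = m (c y) (c x)

namespace CompAlg

variable {m : V →ₗ[F] V →ₗ[F] V} {e : V} {B : LinearMap.BilinForm F V} {N : V → F}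
  {c : V →ₗ[F] V} (h : CompAlg m e B N c)
include h

theorem left' (x w : V) : m x (m (c x) w) = N x • w := by
  have := h.left x x w
  rw [h.self, mul_smul, ← two_smul F] at this
  exact smul_right_injective V h.two this

theorem B_one : B e e = 2 := by rw [h.self, h.N_one, _root_.mul_one]

theorem cc (x : V) : c (c x) = x := by
  rw [h.conj, h.conj x]
  simp only [map_sub, map_smul, LinearMap.sub_apply, LinearMap.smul_apply, h.B_one, smul_eq_mul]
  module

theorem c_one : c e = e := by rw [h.conj, h.B_one]; module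

theorem N_conj (x : V) : N (c x) = N x := by
  apply mul_left_cancel₀ h.two
  rw [← h.self, ← h.self, h.conj]
  simp only [map_sub, map_smul, LinearMap.sub_apply, LinearMap.smul_apply, h.B_one, smul_eq_mul,
    h.symm e x]
  ring

theorem left'' (x w : V) : m (c x) (m x w) = N x • w := by
  have := h.left' (c x) w
  rwa [h.cc, h.N_conj] at this

theorem right' (x w : V) : m (m w (c x)) x = N x • w := by
  have := h.right (c x) w
  rwa [h.cc, h.N_conj] at this

theorem mul_conj (x : V) : m x (c x) = N x • e := by rw [← h.right x e, h.one_mul]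

theorem polar (x y : V) : B x y = N (x + y) - N x - N y := by
  apply mul_left_cancel₀ h.two
  rw [mul_sub, mul_sub, ← h.self, ← h.self, ← h.self]
  simp only [map_add, LinearMap.add_apply, h.symm y x]
  ring

theorem mul_right_cancel {v x y : V} (hv : N v ≠ 0) (e : m x v = m y v) : x = y :=
  smul_right_injective V hv (by simp only [← h.right v, e])

section Aut

variable {f : End F V} (hf : Function.Injective f) (hm : ∀ x y, f (m x y) = m (f x) (f y))
include hf hm

theorem aut_one : f e = e := by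
  obtain ⟨y, hy⟩ := LinearMap.injective_iff_surjective.1 hf e
  have := hm e y
  rw [h.one_mul, hy, h.mul_one] at this
  exact this.symm

theorem aut_trace_N (x : V) : B (f x) e = B x e ∧ N (f x) = N x := by
  have h1 : ∀ x, m x x = B x e • x - N x • e := fun x => by
    have := h.mul_conj x
    rw [h.conj, map_sub, map_smul, h.mul_one] at this
    rw [← this]; abel
  have h2 := hm x x
  rw [h1, h1, map_sub, map_smul, map_smul, h.aut_one hf hm] at h2
  have h3 : B (f x) e = B x e := by
    by_contra hne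
    have hne' : B x e - B (f x) e ≠ 0 := fun e => hne (sub_eq_zero.1 e).symm
    have h4 : f x = ((N x - N (f x)) / (B x e - B (f x) e)) • e := by
      apply smul_right_injective V hne'
      simp only [smul_smul, mul_div_cancel₀ _ hne']
      linear_combination (norm := module) h2
    have h5 : x = f x := hf (by conv_rhs => rw [h4, map_smul, h.aut_one hf hm, ← h4])
    exact hne (by rw [← h5])
  refine ⟨h3, ?_⟩
  rw [h3, sub_right_inj] at h2
  exact (smul_left_injective F h.e_ne h2).symm

theorem aut_B (x y : V) : B (f x) (f y) = B x y := by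
  rw [h.polar, h.polar, ← map_add, (h.aut_trace_N hf hm _).2, (h.aut_trace_N hf hm _).2,
    (h.aut_trace_N hf hm _).2]

theorem aut_conj (x : V) : f (c x) = c (f x) := by
  rw [h.conj, h.conj, map_sub, map_smul, h.aut_one hf hm, (h.aut_trace_N hf hm _).1]

end Aut

section Doubling

variable {T : End F V} (hT : ∀ x, T (T x) = x) (hm : ∀ x y, T (m x y) = m (T x) (T y))
include hT hm

theorem inv_orth {a w : V} (ha : T a = a) (hw : T w = -w) : B a w = 0 := by
  have := h.aut_B (Function.LeftInverse.injective hT) hm a w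
  rw [ha, hw, map_neg] at this
  exact eq_zero_of_add_self h.two _ (by linear_combination -this)

theorem fix_one : T e = e := h.aut_one (Function.LeftInverse.injective hT) hm

theorem fix_conj {a : V} (ha : T a = a) : T (c a) = c a := by
  rw [h.aut_conj (Function.LeftInverse.injective hT) hm, ha]

omit h hT in
theorem fix_mul {a b : V} (ha : T a = a) (hb : T b = b) : T (m a b) = m a b := by rw [hm, ha, hb]

omit h hT in
theorem neg_mul' {a w : V} (ha : T a = a) (hw : T w = -w) : T (m a w) = -m a w := by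
  rw [hm, ha, hw, map_neg]

theorem conj_neg {w : V} (hw : T w = -w) : c w = -w := by
  rw [h.conj, h.symm, h.inv_orth hT hm (h.fix_one hT hm) hw, zero_smul, zero_sub]

theorem dbl0 {a w : V} (ha : T a = a) (hw : T w = -w) : m w a = m (c a) w := by
  have := h.conj_mul (c a) w
  rw [h.conj_neg hT hm (neg_mul' hm (h.fix_conj hT hm ha) hw), h.conj_neg hT hm hw, h.cc, map_neg,
    LinearMap.neg_apply] at this
  exact (neg_injective this).symm

theorem dbl1 {a b v : V} (ha : T a = a) (hb : T b = b) (hv : T v = -v) :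
    m a (m b v) = m (m b a) v := by
  have := h.left a v (c b)
  have hb' := h.fix_conj hT hm hb
  rw [h.inv_orth hT hm ha hv, zero_smul, h.conj_neg hT hm hv, map_neg, LinearMap.neg_apply, map_neg,
    h.dbl0 hT hm hb' hv, h.dbl0 hT hm (fix_mul hm (h.fix_conj hT hm ha) hb') hv, h.conj_mul, h.cc,
    h.cc] at this
  linear_combination (norm := abel) -this

theorem dbl2 {a b v : V} (ha : T a = a) (hb : T b = b) (hv : T v = -v) :
    m (m a v) b = m (m a (c b)) v := by
  rw [h.dbl0 hT hm hb (neg_mul' hm ha hv), h.dbl1 hT hm (h.fix_conj hT hm hb) ha hv]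

theorem B_mul_mul (a b v : V) : B (m a v) (m b v) = N v * B a b := by
  rw [h.adj, h.right, map_smul, smul_eq_mul]

theorem dbl3 {a b v : V} (ha : T a = a) (hb : T b = b) (hv : T v = -v) :
    m (m a v) (m b v) = -(N v • m (c b) a) := by
  have hb' := h.fix_conj hT hm hb
  have h1 := h.left (m a v) v (c b)
  have h2 : B (m a v) v = N v * B a e := by
    conv_lhs => rw [← h.one_mul v, h.one_mul, show B (m a v) v = B (m a v) (m e v) by
      rw [h.one_mul], h.B_mul_mul hT hm]
  have h3 : m v (m (m a b) v) = -(N v • m (c b) (c a)) := by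
    rw [← h.conj_mul, ← h.left' v, h.conj_neg hT hm hv, map_neg, LinearMap.neg_apply, map_neg,
      neg_neg, h.dbl0 hT hm (h.fix_conj hT hm (fix_mul hm ha hb)) hv, h.cc]
  rw [h.conj_neg hT hm hv, h.conj_neg hT hm (neg_mul' hm ha hv), map_neg, map_neg,
    LinearMap.neg_apply, LinearMap.neg_apply, map_neg, map_neg, h.dbl0 hT hm hb' hv, h.cc,
    h.dbl2 hT hm ha hb' hv, h.cc, h2, h3, h.conj a, map_sub, map_smul, h.mul_one] at h1
  linear_combination (norm := module) -h1

theorem assoc {v : V} (hv : T v = -v) (hN : N v ≠ 0) {a b d : V} (ha : T a = a) (hb : T b = b)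
    (hd : T d = d) : m (m a b) d = m a (m b d) := by
  have hb' := h.fix_conj hT hm hb
  have h1 := h.left d (m a v) (c b)
  rw [h.inv_orth hT hm hd (neg_mul' hm ha hv), zero_smul, h.conj_neg hT hm (neg_mul' hm ha hv),
    map_neg, LinearMap.neg_apply, map_neg, h.dbl2 hT hm ha hb' hv, h.cc,
    h.dbl1 hT hm hd (fix_mul hm ha hb) hv,
    h.dbl2 hT hm ha (fix_mul hm (h.fix_conj hT hm hd) hb') hv, h.conj_mul, h.cc, h.cc] at h1
  exact h.mul_right_cancel hN (by linear_combination (norm := abel) -h1)

theorem exists_neg_eq {v : V} (hv : T v = -v) (hN : N v ≠ 0) {w : V} (hw : T w = -w) :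
    ∃ b, T b = b ∧ w = m b v := by
  refine ⟨(N v)⁻¹ • m w (c v), ?_, ?_⟩
  · rw [map_smul, hm, hw, h.conj_neg hT hm hv, map_neg]; simp [hv]
  · rw [map_smul, LinearMap.smul_apply, h.right', smul_smul, inv_mul_cancel₀ hN, one_smul]

theorem decomp {v : V} (hv : T v = -v) (hN : N v ≠ 0) (x : V) :
    ∃ a b, T a = a ∧ T b = b ∧ x = a + m b v := by
  obtain ⟨b, hb, e⟩ := h.exists_neg_eq hT hm hv hN (w := (2 : F)⁻¹ • (x - T x))
    (by rw [map_smul, map_sub, hT, ← smul_neg, neg_sub])
  refine ⟨(2 : F)⁻¹ • (x + T x), b, by rw [map_smul, map_add, hT, add_comm], hb, ?_⟩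
  rw [← e, ← smul_add, add_add_sub_cancel, ← two_smul F, smul_smul, inv_mul_cancel₀ h.two, one_smul]

theorem exists_aut {v : V} (hv : T v = -v) (hN : N v ≠ 0) {k : V} (hk : T k = k) (hk0 : N k ≠ 0) :
    ∃ φ : End F V, Function.Injective φ ∧ (∀ x y, φ (m x y) = m (φ x) (φ y)) ∧
      (∀ x, T (φ x) = φ (T x)) ∧ ∀ b, T b = b → φ (m b v) = (N k)⁻¹ • m (m (m k b) k) v := by
  have h2 := h.two
  have hk' := h.fix_conj hT hm hk
  let α : End F V := (N k)⁻¹ • (m.flip k ∘ₗ m (c k))
  let β : End F V := (N k)⁻¹ • (m.flip k ∘ₗ m k)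
  have hα : ∀ x, α x = (N k)⁻¹ • m (m (c k) x) k := fun x => rfl
  have hβ : ∀ x, β x = (N k)⁻¹ • m (m k x) k := fun x => rfl
  have fα : ∀ x, T x = x → T (α x) = α x := fun x hx => by
    rw [hα, map_smul, fix_mul hm (fix_mul hm hk' hx) hk]
  have fβ : ∀ x, T x = x → T (β x) = β x := fun x hx => by
    rw [hβ, map_smul, fix_mul hm (fix_mul hm hk hx) hk]
  let φ : End F V := α ∘ₗ ((2 : F)⁻¹ • (1 + T)) +
    m.flip v ∘ₗ β ∘ₗ ((N v)⁻¹ • m.flip (c v)) ∘ₗ ((2 : F)⁻¹ • (1 - T))
  have hφ : ∀ a b, T a = a → T b = b → φ (a + m b v) = α a + m (β b) v := fun a b ha hb => by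
    have e1 : ((2 : F)⁻¹ • (1 + T) : End F V) (a + m b v) = a := by
      simp only [LinearMap.smul_apply, LinearMap.add_apply, End.one_apply, map_add, ha,
        neg_mul' hm hb hv]
      match_scalars <;> field_simp <;> ring
    have e2 : ((2 : F)⁻¹ • (1 - T) : End F V) (a + m b v) = m b v := by
      simp only [LinearMap.smul_apply, LinearMap.sub_apply, End.one_apply, map_add, ha,
        neg_mul' hm hb hv]
      match_scalars <;> field_simp <;> ring
    have e3 : ((N v)⁻¹ • m.flip (c v) : End F V) (m b v) = b := by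
      rw [LinearMap.smul_apply, LinearMap.flip_apply, h.right, smul_smul, inv_mul_cancel₀ hN,
        one_smul]
    simp only [φ, LinearMap.add_apply, LinearMap.comp_apply, e1, e2, e3, LinearMap.flip_apply]
  have as := fun {a b d : V} => h.assoc hT hm hv hN (a := a) (b := b) (d := d)
  have fm := fun {a b : V} => fix_mul hm (a := a) (b := b)
  have m1 : ∀ a b, T a = a → T b = b → m (α a) (α b) = α (m a b) := fun a b ha hb => by
    simp only [hα, map_smul, LinearMap.smul_apply]
    rw [as (fm hk' ha) hk (fm (fm hk' hb) hk), as hk' hb hk, h.left', map_smul, smul_smul _ (N k),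
      inv_mul_cancel₀ hk0, one_smul, ← as (fm hk' ha) hb hk, as hk' ha hb]
  have m2 : ∀ a b, T a = a → T b = b → m (β a) (α b) = β (m a b) := fun a b ha hb => by
    simp only [hα, hβ, map_smul, LinearMap.smul_apply]
    rw [as (fm hk ha) hk (fm (fm hk' hb) hk), as hk' hb hk, h.left', map_smul, smul_smul _ (N k),
      inv_mul_cancel₀ hk0, one_smul, ← as (fm hk ha) hb hk, as hk ha hb]
  have m3 : ∀ a, T a = a → c (α a) = α (c a) := fun a ha => by
    simp only [hα, map_smul, h.conj_mul, h.cc]
    rw [as hk' (h.fix_conj hT hm ha) hk]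
  have m4 : ∀ a b, T a = a → T b = b → m (c (β a)) (β b) = α (m (c a) b) := fun a b ha hb => by
    have ha' := h.fix_conj hT hm ha
    simp only [hα, hβ, map_smul, LinearMap.smul_apply, h.conj_mul]
    rw [← as hk' ha' hk', as (fm hk' ha') hk' (fm (fm hk hb) hk), as hk hb hk, h.left'', map_smul,
      smul_smul _ (N k), inv_mul_cancel₀ hk0, one_smul, ← as (fm hk' ha') hb hk, as hk' ha' hb]
  refine ⟨φ, ?_, fun x y => ?_, fun x => ?_, fun b hb => ?_⟩
  · rw [injective_iff_map_eq_zero]
    intro x hx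
    obtain ⟨a, b, ha, hb, rfl⟩ := h.decomp hT hm hv hN x
    rw [hφ a b ha hb] at hx
    have e1 := congrArg T hx
    rw [map_add, fα a ha, neg_mul' hm (fβ b hb) hv, map_zero] at e1
    have e2 : α a = 0 := eq_zero_of_add_self h2 _ (by linear_combination (norm := abel) hx + e1)
    have e3 : β b = 0 := h.mul_right_cancel hN (by
      rw [e2, zero_add] at hx; rw [hx, map_zero, LinearMap.zero_apply])
    rw [hα, smul_eq_zero] at e2
    rw [hβ, smul_eq_zero] at e3
    have e4 : m (c k) a = 0 := h.mul_right_cancel hk0 (by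
      rw [e2.resolve_left (inv_ne_zero hk0), map_zero, LinearMap.zero_apply])
    have e5 : m k b = 0 := h.mul_right_cancel hk0 (by
      rw [e3.resolve_left (inv_ne_zero hk0), map_zero, LinearMap.zero_apply])
    have e6 := h.left' k a
    have e7 := h.left'' k b
    rw [e4, map_zero] at e6
    rw [e5, map_zero] at e7
    rw [(smul_eq_zero.1 e6.symm).resolve_left hk0, (smul_eq_zero.1 e7.symm).resolve_left hk0]
    simp
  · obtain ⟨a, b, ha, hb, rfl⟩ := h.decomp hT hm hv hN x
    obtain ⟨a', b', ha', hb', rfl⟩ := h.decomp hT hm hv hN y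
    have key : ∀ a b a' b', T a = a → T b = b → T a' = a' → T b' = b' →
        m (a + m b v) (a' + m b' v) =
          (m a a' - N v • m (c b') b) + m (m b' a + m b (c a')) v := by
      intro a b a' b' ha hb ha' hb'
      simp only [map_add, LinearMap.add_apply]
      rw [h.dbl1 hT hm ha hb' hv, h.dbl2 hT hm hb ha' hv, h.dbl3 hT hm hb hb' hv]
      abel
    rw [hφ a b ha hb, hφ a' b' ha' hb', key a b a' b' ha hb ha' hb',
      key _ _ _ _ (fα a ha) (fβ b hb) (fα a' ha') (fβ b' hb'), hφ, m1 a a' ha ha',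
      m4 b' b hb' hb, m2 b' a hb' ha, m3 a' ha', m2 b _ hb (h.fix_conj hT hm ha'), map_sub,
      map_smul, map_add β]
    · rw [map_sub, map_smul, fm ha ha', fm (h.fix_conj hT hm hb') hb]
    · rw [map_add, fm hb' ha, fm hb (h.fix_conj hT hm ha')]
  · obtain ⟨a, b, ha, hb, rfl⟩ := h.decomp hT hm hv hN x
    have : T (a + m b v) = a + m (-b) v := by rw [map_add, ha, neg_mul' hm hb hv]; simp
    rw [this, hφ a b ha hb, hφ a (-b) ha (by rw [map_neg, hb]), map_add, fα a ha,
      neg_mul' hm (fβ b hb) hv]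
    simp
  · have := hφ 0 b (map_zero T) hb
    rw [zero_add, map_zero, zero_add, hβ, map_smul, LinearMap.smul_apply] at this
    exact this

theorem refl_formula (a x : V) : m (m a (c x)) a = B a x • a - N a • x := by
  have h1 := h.left a x e
  rw [h.mul_one, h.mul_one] at h1
  have h2 := congrArg (fun y => m y a) h1
  simp only [map_add, LinearMap.add_apply, map_smul, LinearMap.smul_apply, h.one_mul,
    h.right'] at h2
  rw [← h2]; abel

end Doubling

end CompAlg

/-- The group of invertible isometries of a bilinear form. -/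
def isoGrp (B : LinearMap.BilinForm F V) : Subgroup (End F V)ˣ where
  carrier := {g | ∀ v w, B (g.1 v) (g.1 w) = B v w}
  mul_mem' := fun {a b} ha hb v w => by
    rw [Units.val_mul, End.mul_apply, End.mul_apply, ha, hb]
  one_mem' := fun _ _ => rfl
  inv_mem' := fun {a} ha v w => by
    have e : ∀ x, a.1 (a⁻¹.1 x) = x := fun x => by
      rw [← End.mul_apply, Units.mul_inv, End.one_apply]
    rw [← ha, e, e]

theorem isoRep_isoGrp (h2 : (2 : F) ≠ 0) (B : LinearMap.BilinForm F V) :
    IsoRep B ((Units.coeHom (End F V)).comp (isoGrp B).subtype) where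
  two := h2
  inj := fun _ _ e => Subtype.ext (Units.ext e)
  iso g := g.2
  ex f hf hiso :=
    ⟨⟨((LinearMap.isUnit_iff_ker_eq_bot f).2 (LinearMap.ker_eq_bot.2 hf)).unit, hiso⟩, rfl⟩

theorem IsoRep.exists_hom {G K : Type*} [Group G] [Group K] {B : LinearMap.BilinForm F V}
    {ρ : G →* End F V} (h : IsoRep B ρ) (σ : K →* End F V)
    (hσ : ∀ g v w, B (σ g v) (σ g w) = B v w) : ∃ f : K →* G, ∀ g, ρ (f g) = σ g := by
  have : ∀ g, ∃ x, ρ x = σ g := fun g => h.ex _ (Function.LeftInverse.injective (g := σ g⁻¹)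
    fun x => by rw [← End.mul_apply, ← map_mul, inv_mul_cancel, map_one, End.one_apply]) (hσ g)
  choose f hf using this
  exact ⟨MonoidHom.mk' f fun a b => h.inj (by rw [map_mul, hf, hf, hf, map_mul]), hf⟩

theorem sq_mem_commutator_of_le {G : Type*} [Group G] [Finite G] (P : Sylow 2 G) {C : Subgroup G}
    (hPC : (P : Subgroup G) ≤ C)
    (h : ∀ x : ((P.subtype hPC : Sylow 2 C) : Subgroup C),
      x ^ 2 ∈ commutator ((P.subtype hPC : Sylow 2 C) : Subgroup C)) :
    ∀ x : (P : Subgroup G), x ^ 2 ∈ commutator (P : Subgroup G) := by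
  intro x
  let φ : ((P.subtype hPC : Sylow 2 C) : Subgroup C) ≃* (P : Subgroup G) :=
    subgroupOfEquivOfLe hPC
  have := mem_map_of_mem φ.toMonoidHom (h (φ.symm x))
  rw [commutator_def, map_commutator] at this
  simp only [MulEquiv.toMonoidHom_eq_coe, map_pow, MonoidHom.coe_coe,
    MulEquiv.apply_symm_apply] at this
  exact commutator_mono le_top le_top this

theorem CompAlg.sq_mem_commutator [Finite V]
    {m : V →ₗ[F] V →ₗ[F] V} {e : V} {B : LinearMap.BilinForm F V} {N : V → F}
    {c : V →ₗ[F] V} (h : CompAlg m e B N c) (h8 : finrank F V = 8)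
    {G : Type*} [Group G] [Finite G] (ρ : G →* End F V) (hρ : Function.Injective ρ)
    (hm : ∀ g x y, ρ g (m x y) = m (ρ g x) (ρ g y))
    (hex : ∀ f : End F V, Function.Injective f → (∀ x y, f (m x y) = m (f x) (f y)) →
      ∃ g, ρ g = f) (P : Sylow 2 G) :
    ∀ x : (P : Subgroup G), x ^ 2 ∈ commutator (P : Subgroup G) := by
  have : Fact (Nat.Prime 2) := ⟨Nat.prime_two⟩
  by_cases hP : (P : Subgroup G) = ⊥
  · intro x
    have : x = 1 := Subtype.ext (by simpa [hP] using x.2)
    rw [this, one_pow]; exact one_mem _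
  obtain ⟨z, hz, hz1, hzz⟩ := exists_mem_pow_eq_one (dvd_card_of_isPGroup_of_ne_bot
    P.isPGroup'.to_inf_left
    (inf_centralizer_ne_bot_of_isPGroup P.isPGroup' P.isPGroup' hP le_normalizer))
  have hPC : (P : Subgroup G) ≤ centralizer {z} := fun g hg =>
    mem_centralizer_singleton_iff.2 (hz.2 g hg)
  refine sq_mem_commutator_of_le P hPC ?_
  have hinj : ∀ g, Function.Injective (ρ g) := fun g => Function.LeftInverse.injective (g := ρ g⁻¹)
    fun x => by rw [← End.mul_apply, ← map_mul, inv_mul_cancel, map_one, End.one_apply]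
  have hT : ∀ x, ρ z (ρ z x) = x := fun x => by
    rw [← End.mul_apply, ← map_mul, ← pow_two, hzz, map_one, End.one_apply]
  let W : Submodule F V := LinearMap.ker (ρ z + 1)
  have hW : ∀ x, x ∈ W ↔ ρ z x = -x := fun x => by
    simp only [W, LinearMap.mem_ker, LinearMap.add_apply, End.one_apply, add_eq_zero_iff_eq_neg]
  have hcomm : ∀ g : centralizer ({z} : Set G), ∀ x, ρ z (ρ g x) = ρ g (ρ z x) := fun g x => by
    rw [← End.mul_apply, ← map_mul, ← mem_centralizer_singleton_iff.1 g.2, map_mul, End.mul_apply]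
  have hres : ∀ g : centralizer ({z} : Set G), ∀ x ∈ W, ρ g x ∈ W := fun g x hx => by
    rw [hW, hcomm, (hW x).1 hx, map_neg]
  let σ : centralizer ({z} : Set G) →* End F W :=
    { toFun := fun g => (ρ g).restrict (hres g)
      map_one' := by ext x; simp
      map_mul' := fun a b => by ext x; simp }
  have hσ : ∀ g (x : W), (σ g x : V) = ρ g x := fun _ _ => rfl
  let B' : LinearMap.BilinForm F W := B.restrict W
  have hB' : ∀ x y : W, B' x y = B x y := fun _ _ => rfl
  have hs : ∀ x y : W, B' x y = B' y x := fun x y => h.symm x y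
  have hfix : ∀ x, ρ z (x + ρ z x) = x + ρ z x := fun x => by rw [map_add, hT, add_comm]
  have hneg : ∀ x, ρ z (x - ρ z x) = -(x - ρ z x) := fun x => by rw [map_sub, hT, neg_sub]
  have hn : ∀ x : W, (∀ y, B' x y = 0) → x = 0 := fun x hx => Subtype.ext (h.nondeg x fun y => by
    have e1 := hx ⟨_, (hW _).2 (hneg y)⟩
    have e2 := h.inv_orth hT (hm z) (hfix y) ((hW x).1 x.2)
    rw [h.symm] at e2
    rw [hB'] at e1
    simp only [map_add, map_sub] at e1 e2
    apply mul_left_cancel₀ h.two
    linear_combination e1 + e2)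
  obtain ⟨v, hv, hN⟩ : ∃ v, ρ z v = -v ∧ N v ≠ 0 := by
    by_contra hc
    push Not at hc
    refine hz1 (hρ (LinearMap.ext fun x => ?_))
    have : (⟨_, (hW _).2 (hneg x)⟩ : W) = 0 := hn _ fun y => by
      rw [hB', h.polar, hc _ ((hW _).1 (add_mem ((hW _).2 (hneg x)) y.2)), hc _ (hneg x),
        hc _ ((hW _).1 y.2)]
      simp
    rw [map_one, End.one_apply]
    exact (sub_eq_zero.1 (congrArg Subtype.val this)).symm
  have hrank : finrank F W = 4 := by
    have e1 := LinearMap.finrank_range_add_finrank_ker (ρ z + 1)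
    have e2 : W = (LinearMap.range (ρ z + 1)).map (m.flip v) := by
      ext x
      constructor
      · intro hx
        obtain ⟨b, hb, rfl⟩ := h.exists_neg_eq hT (hm z) hv hN ((hW x).1 hx)
        refine ⟨b, ⟨(2 : F)⁻¹ • b, ?_⟩, rfl⟩
        rw [map_smul, LinearMap.add_apply, hb, End.one_apply, ← two_smul F, smul_smul,
          inv_mul_cancel₀ h.two, one_smul]
      · rintro ⟨_, ⟨y, rfl⟩, rfl⟩
        exact (hW _).2 (CompAlg.neg_mul' (hm z) (by
          rw [LinearMap.add_apply, End.one_apply, add_comm, hfix]) hv)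
    have e3 : finrank F W = finrank F (LinearMap.range (ρ z + 1)) := by
      rw [e2]
      exact (Submodule.equivMapOfInjective _ (fun x y e => h.mul_right_cancel hN e) _).finrank_eq.symm
    change _ + finrank F W = _ at e1
    omega
  have : Finite (End F W) := Finite.of_injective _ DFunLike.coe_injective
  have hI := isoRep_isoGrp h.two B'
  obtain ⟨f, hf⟩ := hI.exists_hom σ fun g x y => by
    rw [hB', hB', hσ, hσ, h.aut_B (hinj _) (hm _)]
  have hfinj : Function.Injective f := by
    rw [injective_iff_map_eq_one]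
    intro g hg
    have e1 : ∀ x ∈ W, ρ g x = x := fun x hx => by
      rw [← hσ g ⟨x, hx⟩, ← hf, hg, map_one, End.one_apply]
    refine Subtype.ext (hρ (LinearMap.ext fun x => ?_))
    obtain ⟨a, b, ha, hb, rfl⟩ := h.decomp hT (hm z) hv hN x
    have e2 : ρ g a = a := h.mul_right_cancel hN (by
      conv_lhs => rw [← e1 v ((hW v).2 hv), ← hm, e1 _ ((hW _).2 (CompAlg.neg_mul' (hm z) ha hv))])
    rw [map_add, e2, e1 _ ((hW _).2 (CompAlg.neg_mul' (hm z) hb hv))]
    simp
  obtain ⟨z', hz', -, hH, hrk⟩ := hI.exists_neg_one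
  refine sq_mem_commutator_of_range f hfinj _ fun S hS => ?_
  refine (hI.hasRefl_orth hs hn).inf_le_sqN_of_four (hI.orth_rk_one hn) (hI.orth_rk_two hs hn)
    hz' hH (hrk.trans hrank) hS _ fun r r' hr hr' => ?_
  have hvv : B' ⟨v, (hW v).2 hv⟩ ⟨v, (hW v).2 hv⟩ ≠ 0 := by
    rw [hB', h.self]; exact mul_ne_zero h.two hN
  obtain ⟨r₀, hr₀⟩ := hI.exists_isReflIn hs hvv
  have key : ∀ r, hI.sys.Refl r → r * r₀ ∈ f.range := by
    intro r hr
    obtain ⟨w, hw, -⟩ := hI.exists_isReflIn_of_refl hn hr
    obtain ⟨a, ha, hwa⟩ := h.exists_neg_eq hT (hm z) hv hN ((hW w).1 w.2)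
    have hww : B' w w = N v * (2 * N a) := by rw [hB', hwa, h.B_mul_mul hT (hm z), h.self]
    have ha0 : N a ≠ 0 := fun e0 => hw.1 (by rw [hww, e0, mul_zero, mul_zero])
    obtain ⟨φ, hφ1, hφ2, hφ3, hφ4⟩ := h.exists_aut hT (hm z) hv hN ha ha0
    obtain ⟨g, hg⟩ := hex φ hφ1 hφ2
    have hgC : g ∈ centralizer ({z} : Set G) := mem_centralizer_singleton_iff.2 (hρ (by
      ext x
      rw [map_mul, map_mul, End.mul_apply, End.mul_apply, hg, hφ3]))
    refine ⟨⟨g, hgC⟩, hI.inj ?_⟩
    rw [hf, map_mul]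
    ext x
    obtain ⟨b, hb, hxb⟩ := h.exists_neg_eq hT (hm z) hv hN ((hW x).1 x.2)
    rw [hσ, End.mul_apply, hw.2, hr₀.2, hww]
    simp only [Submodule.coe_sub, Submodule.coe_smul, hB', map_sub, map_smul, smul_eq_mul]
    have e1 : B v (m b v) = N v * B e b := by
      conv_lhs => rw [← h.one_mul v, h.one_mul, show B v (m b v) = B (m e v) (m b v) by
        rw [h.one_mul], h.B_mul_mul hT (hm z)]
    have e2 : B (m a v) v = N v * B a e := by
      conv_lhs => rw [← h.one_mul v, h.one_mul, show B (m a v) v = B (m a v) (m e v) by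
        rw [h.one_mul], h.B_mul_mul hT (hm z)]
    have e3 := h.refl_formula hT (hm z) a (c b)
    rw [h.cc, h.conj b] at e3
    rw [hg, hxb, hwa, hφ4 b hb, e3, h.B_mul_mul hT (hm z), h.self, e1, e2]
    have h2 := h.two
    simp only [map_sub, map_smul, LinearMap.sub_apply, LinearMap.smul_apply, h.one_mul,
      smul_eq_mul, h.symm e b]
    match_scalars <;> field_simp <;> ring
  have : r * r' = (r * r₀) * (r' * r₀)⁻¹ := by
    conv_lhs => rw [← inv_eq_of_mul_self hr'.1]
    group
  rw [this]
  exact mul_mem (key r hr) (inv_mem (key r' hr'))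

end LG
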