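import Mathlib

/-!
# Generic ranks of matrices

Minors, specialisation, and the Friedlander–Pevtsova–Suslin inequality: perturbing the
coefficients of a linear combination of commuting matrices by commuting nilpotent matrices does
not increase the rank beyond the generic rank.
-/

set_option autoImplicit false
set_option linter.unusedSectionVars false
set_option linter.style.haveILetI false

namespace LG

open Module Polynomial

universe w

section Minor

variable {L : Type*} [Field L] {m n : Type*} [Fintype m] [Fintype n]

theorem exists_cols_linearIndependent (A : Matrix m n L) {r : ℕ} (h : A.rank = r) :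
    ∃ κ : Fin r → n, LinearIndependent L fun j => A.col (κ j) := by
  obtain ⟨ι, a, ha, hs, hl⟩ := exists_linearIndependent' L A.col
  haveI : Finite ι := Finite.of_injective a ha
  haveI := Fintype.ofFinite ι
  have hc : Fintype.card ι = r := by
    rw [← finrank_span_eq_card hl, ← h, Matrix.rank_eq_finrank_span_cols]
    exact congrArg (fun S : Submodule L (m → L) => finrank L S) hs
  let e : Fin r ≃ ι := (Fintype.equivFinOfCardEq hc).symm
  exact ⟨a ∘ e, hl.comp e e.injective⟩

theorem exists_minor_ne_zero (A : Matrix m n L) {r : ℕ} (h : A.rank = r) :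
    ∃ (ι : Fin r → m) (κ : Fin r → n), (A.submatrix ι κ).det ≠ 0 := by
  obtain ⟨κ, hκ⟩ := exists_cols_linearIndependent A h
  have h1 : ((A.submatrix id κ).transpose).rank = r := by
    rw [LinearIndependent.rank_matrix (M := (A.submatrix id κ).transpose) hκ, Fintype.card_fin]
  obtain ⟨ι, hι⟩ := exists_cols_linearIndependent _ h1
  refine ⟨ι, κ, ?_⟩
  have h2 : IsUnit (A.submatrix ι κ) := Matrix.linearIndependent_rows_iff_isUnit.1 hι
  exact ((Matrix.isUnit_iff_isUnit_det _).1 h2).ne_zero

theorem le_rank_of_minor {R : Type*} [CommRing R] [IsDomain R] (A : Matrix m n R) {r : ℕ}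
    {ι : Fin r → m} {κ : Fin r → n} (h : (A.submatrix ι κ).det ≠ 0) : r ≤ A.rank := by
  have := Matrix.rank_submatrix_le A ι κ
  rwa [Matrix.rank_of_det_ne_zero h, Fintype.card_fin] at this

/-- Specialisation does not increase the rank. -/
theorem rank_map_le_rank_map {R K : Type*} [CommRing R] [CommRing K] [IsDomain K]
    (f : R →+* L) {g : R →+* K} (hg : Function.Injective g) (A : Matrix m n R) :
    (A.map f).rank ≤ (A.map g).rank := by
  obtain ⟨ι, κ, h⟩ := exists_minor_ne_zero (A.map f) rfl
  refine le_rank_of_minor (A.map g) (ι := ι) (κ := κ) fun h0 => h ?_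
  rw [Matrix.submatrix_map, ← RingHom.mapMatrix_apply, ← RingHom.map_det] at h0 ⊢
  rw [hg (h0.trans (map_zero g).symm), map_zero]

/-- Rank factorisation over a principal ideal domain. -/
theorem exists_rank_factorization {R : Type*} [CommRing R] [IsDomain R] [IsPrincipalIdealRing R]
    (A : Matrix m n R) {r : ℕ} (h : A.rank = r) :
    ∃ (B : Matrix m (Fin r) R) (C : Matrix (Fin r) n R), A = B * C ∧
      LinearIndependent R B.col ∧ ∃ D : Matrix n (Fin r) R, B = A * D := by
  classical
  let S := LinearMap.range A.mulVecLin
  let b : Basis (Fin r) R S := Module.finBasisOfFinrankEq R S h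
  have hc : ∀ j, A.col j ∈ S := fun j => ⟨Pi.single j 1, by simp⟩
  choose d hd using fun k => (b k).2
  refine ⟨Matrix.of fun i k => (b k : m → R) i, Matrix.of fun k j => b.repr ⟨_, hc j⟩ k, ?_,
    b.linearIndependent.map' S.subtype S.ker_subtype, Matrix.of fun j k => d k j, ?_⟩
  · ext i j
    have := congrArg (fun v : S => (v : m → R) i) (b.sum_repr ⟨_, hc j⟩)
    simp only [Submodule.coe_sum, Submodule.coe_smul, Finset.sum_apply, Pi.smul_apply,
      smul_eq_mul] at this
    rw [Matrix.mul_apply]
    simp only [Matrix.of_apply]
    rw [← show A.col j i = A i j from rfl, ← this]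
    exact Finset.sum_congr rfl fun k _ => mul_comm _ _
  · ext i k
    have := congrFun (hd k) i
    simp only [Matrix.of_apply]
    rw [← this]
    rfl

theorem rank_le_rank_map_fractionRing {R K : Type*} [CommRing R] [IsDomain R]
    [IsPrincipalIdealRing R] [Field K] [Algebra R K] [IsFractionRing R K] (A : Matrix m n R) :
    A.rank ≤ (A.map (algebraMap R K)).rank := by
  obtain ⟨B, -, -, hB, D, hD⟩ := exists_rank_factorization A rfl
  have h1 : LinearIndependent K (B.map (algebraMap R K)).col := by
    rw [← LinearIndependent.iff_fractionRing R K]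
    exact hB.map' ((Algebra.linearMap R K).compLeft m) (LinearMap.ker_eq_bot.2
      fun v w h => funext fun i => IsFractionRing.injective R K (congrFun h i))
  have h2 : (B.map (algebraMap R K)).rank = A.rank := by
    rw [← Matrix.rank_transpose, LinearIndependent.rank_matrix
      (M := (B.map (algebraMap R K)).transpose) h1, Fintype.card_fin]
  rw [← h2, hD, Matrix.map_mul]
  exact Matrix.rank_mul_le_left _ _

end Minor

section Nil

variable {K W : Type*} [Field K] [AddCommGroup W] [Module K W] [FiniteDimensional K W]

theorem finrank_le_of_sup_eq_top {f : End K W} {q : ℕ} (hf : f ^ q = 0) {R T : Submodule K W}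
    (hR : R.map f ≤ R) (h : R ⊔ LinearMap.range f ⊔ T = ⊤) :
    finrank K W ≤ finrank K R + q * finrank K T := by
  have key : ∀ j : ℕ, ∃ S : Submodule K W, finrank K S ≤ j * finrank K T ∧
      R ⊔ LinearMap.range (f ^ j) ⊔ S = ⊤ := by
    intro j
    induction j with
    | zero => exact ⟨⊥, by simp, by simp [Module.End.one_eq_id]⟩
    | succ j ih =>
      obtain ⟨S, h1, h2⟩ := ih
      refine ⟨S ⊔ T.map (f ^ j), ?_, ?_⟩
      · have := Submodule.finrank_add_le_finrank_add_finrank S (T.map (f ^ j))
        have := Submodule.finrank_map_le (f ^ j) T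
        rw [Nat.succ_mul]
        omega
      · have hRj : R.map (f ^ j) ≤ R := by
          clear h2 h1
          induction j with
          | zero => simp [Module.End.one_eq_id]
          | succ j ih =>
            rw [pow_succ', Module.End.mul_eq_comp, Submodule.map_comp]
            exact (Submodule.map_mono ih).trans hR
        have h3 : LinearMap.range (f ^ j) ≤ R ⊔ LinearMap.range (f ^ (j + 1)) ⊔ T.map (f ^ j) := by
          rw [LinearMap.range_eq_map, ← h, Submodule.map_sup, Submodule.map_sup, pow_succ,
            Module.End.mul_eq_comp, LinearMap.range_comp]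
          exact sup_le_sup_right (sup_le_sup_right hRj _) _
        rw [eq_top_iff, ← h2]
        refine sup_le (sup_le (le_sup_left.trans le_sup_left) (h3.trans ?_))
          (le_sup_left.trans le_sup_right)
        exact sup_le le_sup_left (le_sup_right.trans le_sup_right)
  obtain ⟨S, h1, h2⟩ := key q
  rw [hf, LinearMap.range_zero, sup_bot_eq] at h2
  have := Submodule.finrank_add_le_finrank_add_finrank R S
  rw [h2, finrank_top] at this
  omega

theorem finrank_le_finrank_range_pow (f : End K W) (j : ℕ) :
    finrank K W ≤ finrank K (LinearMap.range (f ^ j)) + j * finrank K (LinearMap.ker f) := by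
  induction j with
  | zero => rw [pow_zero, Module.End.one_eq_id, LinearMap.range_id, finrank_top]; omega
  | succ j ih =>
    have h1 := LinearMap.finrank_range_add_finrank_ker
      (f.domRestrict (LinearMap.range (f ^ j)))
    have h2 : LinearMap.range (f.domRestrict (LinearMap.range (f ^ j))) =
        LinearMap.range (f ^ (j + 1)) := by
      rw [LinearMap.range_domRestrict, pow_succ', Module.End.mul_eq_comp, LinearMap.range_comp]
    have h3 : finrank K (LinearMap.ker (f.domRestrict (LinearMap.range (f ^ j)))) ≤
        finrank K (LinearMap.ker f) := by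
      rw [LinearMap.ker_domRestrict, ← Submodule.finrank_map_subtype_eq]
      exact Submodule.finrank_mono (Submodule.map_comap_le _ _)
    rw [h2] at h1
    rw [Nat.succ_mul]
    omega

/-- Freeness over `K[u]/(u^q)` from the dimension of the kernel. -/
theorem ker_le_range_pow {f : End K W} {q : ℕ} (hf : f ^ (q + 1) = 0)
    (h : (q + 1) * finrank K (LinearMap.ker f) ≤ finrank K W) :
    LinearMap.ker f ≤ LinearMap.range (f ^ q) := by
  have h1 : LinearMap.range (f ^ q) ≤ LinearMap.ker f := by
    rw [LinearMap.range_le_ker_iff, ← Module.End.mul_eq_comp, ← pow_succ', hf]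
  have h2 := finrank_le_finrank_range_pow f q
  refine (Submodule.eq_of_le_of_finrank_le h1 ?_).ge
  rw [Nat.succ_mul] at h
  omega

theorem mul_finrank_range_pow_le {f : End K W} {q : ℕ} (hf : f ^ (q + 1) = 0) :
    q * finrank K (LinearMap.range (f ^ q)) + finrank K (LinearMap.ker f) ≤ finrank K W := by
  have key : ∀ j ≤ q, j * finrank K (LinearMap.range (f ^ q)) ≤
      finrank K (LinearMap.range (f ^ (q + 1 - j))) := by
    intro j
    induction j with
    | zero => simp
    | succ j ih =>
      intro hj
      have h0 := ih (by omega)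
      obtain ⟨i, hi⟩ : ∃ i, q = i + j + 1 := ⟨q - j - 1, by omega⟩
      have e1 : q + 1 - j = i + 1 + 1 := by omega
      have e2 : q + 1 - (j + 1) = i + 1 := by omega
      rw [e1] at h0
      rw [e2]
      have h1 := LinearMap.finrank_range_add_finrank_ker
        (f.domRestrict (LinearMap.range (f ^ (i + 1))))
      have h2 : LinearMap.range (f.domRestrict (LinearMap.range (f ^ (i + 1)))) =
          LinearMap.range (f ^ (i + 1 + 1)) := by
        rw [LinearMap.range_domRestrict, pow_succ' f (i + 1), Module.End.mul_eq_comp,
          LinearMap.range_comp]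
      have h3 : LinearMap.range (f ^ q) ≤ LinearMap.range (f ^ (i + 1)) := by
        rw [show q = i + 1 + j by omega, pow_add, Module.End.mul_eq_comp]
        exact LinearMap.range_comp_le_range _ _
      have h4 : LinearMap.range (f ^ q) ≤ LinearMap.ker f := by
        rw [LinearMap.range_le_ker_iff, ← Module.End.mul_eq_comp, ← pow_succ', hf]
      have h5 : finrank K (LinearMap.range (f ^ q)) ≤
          finrank K (LinearMap.ker (f.domRestrict (LinearMap.range (f ^ (i + 1))))) := by
        rw [LinearMap.ker_domRestrict, ← Submodule.finrank_map_subtype_eq,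
          Submodule.map_comap_subtype]
        exact Submodule.finrank_mono (le_inf h3 h4)
      rw [h2] at h1
      rw [Nat.succ_mul]
      omega
  have h1 := key q le_rfl
  rw [show q + 1 - q = 1 by omega, pow_one] at h1
  have := LinearMap.finrank_range_add_finrank_ker f
  omega

end Nil

section FPS

variable {p : ℕ} [hp : Fact p.Prime] {n : Type*} [Fintype n] [DecidableEq n]

theorem rank_add_mul_le_rank_polynomial {L : Type*} [Field L] [CharP L p] {α β γ : Matrix n n L}
    (hα : Commute α γ) (hβ : Commute β γ) (hγ : γ ^ p = 0) :
    (α + β * γ).rank ≤ (α.map C + (X : L[X]) • β.map C).rank := by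
  cases isEmpty_or_nonempty n
  · exact (Matrix.rank_le_card_width _).trans (by simp)
  set r := (α.map C + (X : L[X]) • β.map C).rank with hr
  obtain ⟨B, C', hBC, -⟩ := exists_rank_factorization _ hr.symm
  have hX : (X ^ p : L[X]) ≠ 0 := pow_ne_zero _ X_ne_zero
  let D := AdjoinRoot (X ^ p : L[X])
  haveI : FiniteDimensional L D := (AdjoinRoot.powerBasis hX).finite
  have hD : finrank L D = p := by
    rw [(AdjoinRoot.powerBasis hX).finrank, AdjoinRoot.powerBasis_dim, natDegree_X_pow]
  haveI : Nontrivial D := Module.nontrivial_of_finrank_pos (R := L) (by rw [hD]; exact hp.out.pos)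
  haveI : CharP D p := charP_of_injective_algebraMap (algebraMap L D).injective p
  let s : D := AdjoinRoot.root _
  have hs : s ^ p = 0 := by
    have := AdjoinRoot.mk_self (f := (X ^ p : L[X]))
    rwa [map_pow, AdjoinRoot.mk_X] at this
  let c : Matrix n n L →+* Matrix n n D := (algebraMap L D).mapMatrix
  let ℓ : Matrix n n D →+* End L (n → D) :=
    { toFun := fun Y => (Matrix.toLin' Y).restrictScalars L
      map_one' := by ext; simp
      map_mul' := fun Y Z => by rw [Matrix.toLin'_mul]; rfl
      map_zero' := by ext; simp
      map_add' := fun Y Z => by rw [map_add]; rfl }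
  have hℓ : ∀ Y v, ℓ Y v = Y.mulVec v := fun Y v => Matrix.toLin'_apply Y v
  let κ : (n → L) →ₗ[L] (n → D) := (Algebra.linearMap L D).compLeft n
  have hκ : ∀ (Y : Matrix n n L) v, κ (Y.mulVec v) = (c Y).mulVec (κ v) := fun Y v => by
    funext i
    exact RingHom.map_mulVec (algebraMap L D) Y v i
  set A := c α + s • c β with hA
  set F : Matrix n n D := s • 1 - c γ with hF
  have hAF : Commute A F :=
    ((Commute.one_right A).smul_right s).sub_right
      ((hα.map c).add_left ((hβ.map c).smul_left s))
  have hβF : Commute (c β) F := ((Commute.one_right _).smul_right s).sub_right (hβ.map c)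
  have hFp : F ^ p = 0 := by
    rw [hF, sub_pow_char_of_commute p ((Commute.one_left _).smul_left s), _root_.smul_pow, hs, ← map_pow,
      hγ, zero_smul, map_zero, sub_zero]
  obtain ⟨V, hV⟩ := (LinearMap.range (α + β * γ).mulVecLin).exists_isCompl
  have h1 := finrank_le_of_sup_eq_top (f := ℓ F) (q := p) (by rw [← map_pow, hFp, map_zero])
    (R := LinearMap.range (ℓ A)) (T := V.map κ) ?_ ?_
  · have h2 : finrank L (n → D) = Fintype.card n * p := by
      rw [Module.finrank_pi_fintype, Finset.sum_const, hD, Finset.card_univ, smul_eq_mul]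
    have h3 : finrank L (LinearMap.range (ℓ A)) ≤ r * p := by
      let π : L[X] →+* D := AdjoinRoot.mk _
      have e : A = B.map π * C'.map π := by
        rw [← Matrix.map_mul, ← hBC]
        ext i j
        have e1 : π X = s := AdjoinRoot.mk_X
        have e2 : ∀ z, π (C z) = algebraMap L D z := fun z => rfl
        simp [hA, c, e1, e2, mul_comm s]
      have h4 : LinearMap.range (ℓ A) ≤
          LinearMap.range ((B.map π).mulVecLin.restrictScalars L) := by
        rintro _ ⟨v, rfl⟩
        exact ⟨(C'.map π).mulVec v, by rw [hℓ, e, ← Matrix.mulVec_mulVec]; rfl⟩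
      refine (Submodule.finrank_mono h4).trans ((LinearMap.finrank_range_le _).trans (le_of_eq ?_))
      rw [Module.finrank_pi_fintype, Finset.sum_const, hD, Finset.card_univ, smul_eq_mul,
        Fintype.card_fin]
    have h4 := Submodule.finrank_map_le κ V
    have h5 := Submodule.finrank_add_eq_of_isCompl hV
    rw [Module.finrank_fintype_fun_eq_card] at h5
    have h6 : Fintype.card n * p ≤ (r + finrank L V) * p := by
      have := Nat.mul_le_mul_left p h4
      nlinarith
    have h7 := Nat.le_of_mul_le_mul_right h6 hp.out.pos
    change finrank L (LinearMap.range (α + β * γ).mulVecLin) ≤ r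
    omega
  · rintro _ ⟨_, ⟨v, rfl⟩, rfl⟩
    exact ⟨ℓ F v, by rw [← Module.End.mul_apply, ← Module.End.mul_apply, ← map_mul, ← map_mul,
      hAF.eq]⟩
  · set U := LinearMap.range (ℓ A) ⊔ LinearMap.range (ℓ F) ⊔ V.map κ
    have a1 : ∀ x, A.mulVec x ∈ U := fun x =>
      Submodule.mem_sup_left (Submodule.mem_sup_left ⟨x, hℓ _ _⟩)
    have a2 : ∀ x, F.mulVec x ∈ U := fun x =>
      Submodule.mem_sup_left (Submodule.mem_sup_right ⟨x, hℓ _ _⟩)
    have a3 : ∀ v, κ v ∈ U := fun v => by
      have hv : v ∈ LinearMap.range (α + β * γ).mulVecLin ⊔ V := hV.sup_eq_top ▸ Submodule.mem_top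
      obtain ⟨_, ⟨w, rfl⟩, v', hv', rfl⟩ := Submodule.mem_sup.1 hv
      rw [map_add]
      refine add_mem ?_ (Submodule.mem_sup_right ⟨v', hv', rfl⟩)
      have e : c (α + β * γ) = A - F * c β := by
        rw [← hβF.eq, hF, hA, map_add, map_mul, mul_sub, Matrix.mul_smul, mul_one]
        abel
      rw [Matrix.mulVecLin_apply, hκ, e, Matrix.sub_mulVec, ← Matrix.mulVec_mulVec]
      exact sub_mem (a1 _) (a2 _)
    have a4 : ∀ (i : ℕ) v, s ^ i • κ v ∈ U := by
      intro i
      induction i with
      | zero => intro v; rw [pow_zero, one_smul]; exact a3 v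
      | succ i ih =>
        intro v
        have e : s ^ (i + 1) • κ v = F.mulVec (s ^ i • κ v) + s ^ i • κ (γ.mulVec v) := by
          rw [hκ, hF, Matrix.mulVec_smul, Matrix.sub_mulVec, Matrix.smul_mulVec, Matrix.one_mulVec,
            ← smul_add, sub_add_cancel, smul_smul, pow_succ]
        rw [e]
        exact add_mem (a2 _) (ih _)
    have a5 : ∀ (d : D) v, d • κ v ∈ U := by
      intro d v
      induction d using AdjoinRoot.induction_on with
      | ih q =>
        induction q using Polynomial.induction_on' with
        | add q q' h h' => rw [map_add, add_smul]; exact add_mem h h'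
        | monomial i a =>
          rw [← C_mul_X_pow_eq_monomial, map_mul, map_pow, AdjoinRoot.mk_X, AdjoinRoot.mk_C,
            ← AdjoinRoot.algebraMap_eq, mul_smul, algebraMap_smul]
          exact U.smul_mem a (a4 i v)
    rw [eq_top_iff]
    intro x _
    rw [pi_eq_sum_univ x]
    refine Submodule.sum_mem _ fun j _ => ?_
    convert a5 (x j) (fun i => if j = i then 1 else 0) using 2
    funext i
    change _ = algebraMap L D (if j = i then 1 else 0)
    split_ifs <;> simp

variable {k : Type*} [Field k] {ι : Type*} [Fintype ι]

/-- The linear combination `∑ y x • a x` over an extension ring. -/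
noncomputable def comb {m m' : Type*} {L : Type*} [CommRing L] [Algebra k L] (y : ι → L)
    (a : ι → Matrix m m' k) : Matrix m m' L :=
  ∑ x, y x • (a x).map (algebraMap k L)

theorem comb_map {m m' : Type*} {L L' : Type*} [CommRing L] [Algebra k L] [CommRing L']
    [Algebra k L'] (f : L →ₐ[k] L') (y : ι → L) (a : ι → Matrix m m' k) :
    (comb y a).map f = comb (fun x => f (y x)) a := by
  ext i j
  simp [comb, Matrix.sum_apply]

/-- The generic combination has maximal rank. -/
theorem rank_comb_le {m m' : Type*} [Fintype m] [Fintype m'] {L K : Type*} [Field L] [Algebra k L]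
    [CommRing K] [IsDomain K] [Algebra k K] {g : MvPolynomial ι k →ₐ[k] K}
    (hg : Function.Injective g) (y : ι → L) (a : ι → Matrix m m' k) :
    (comb y a).rank ≤ (comb (fun x => g (MvPolynomial.X x)) a).rank := by
  have := rank_map_le_rank_map (MvPolynomial.aeval y).toRingHom (g := g.toRingHom) hg
    (comb MvPolynomial.X a)
  have e1 := comb_map (MvPolynomial.aeval y : MvPolynomial ι k →ₐ[k] L) MvPolynomial.X a
  have e2 := comb_map g MvPolynomial.X a
  simp only [MvPolynomial.aeval_X] at e1
  rw [← e1, ← e2]
  exact this

/-- The Friedlander–Pevtsova–Suslin inequality. -/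
theorem rank_comb_mul_le [CharP k p] {a c : ι → Matrix n n k} (hac : ∀ x y, Commute (a x) (c y))
    (hcc : ∀ x y, Commute (c x) (c y)) (hc : ∀ x, c x ^ p = 0) {r : ℕ}
    (hr : ∀ (L : Type w) [Field L] [Algebra k L] (y : ι → L), (comb y a).rank ≤ r)
    (L : Type w) [Field L] [Algebra k L] (y : ι → L) :
    (comb y fun x => a x * (1 + c x)).rank ≤ r := by
  classical
  have key : ∀ (s : Finset ι) (L : Type w) [Field L] [Algebra k L] (y : ι → L),
      (comb y a + ∑ x ∈ s, y x • (a x * c x).map (algebraMap k L)).rank ≤ r := by
    intro s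
    induction s using Finset.induction_on with
    | empty => intro L _ _ y; simpa using hr L y
    | insert x₀ s hx ih =>
      intro L _ _ y
      haveI : CharP L p := charP_of_injective_algebraMap (algebraMap k L).injective p
      let φ : Matrix n n k →+* Matrix n n L := (algebraMap k L).mapMatrix
      have hφ : ∀ Y : Matrix n n k, Y.map (algebraMap k L) = φ Y := fun _ => rfl
      have h1 := rank_add_mul_le_rank_polynomial
        (α := comb y a + ∑ x ∈ s, y x • (a x * c x).map (algebraMap k L))
        (β := φ (a x₀)) (γ := y x₀ • φ (c x₀)) ?_ (((hac _ _).map φ).smul_right _)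
        (by rw [_root_.smul_pow, ← map_pow, hc, map_zero, smul_zero])
      · rw [Finset.sum_insert hx, add_comm (y x₀ • _), ← add_assoc, hφ (a x₀ * c x₀), map_mul,
          ← Matrix.mul_smul]
        let K := FractionRing L[X]
        refine h1.trans ((rank_le_rank_map_fractionRing (K := K) _).trans ?_)
        have h2 := ih K (fun x => algebraMap L K (y x) +
          if x = x₀ then algebraMap L[X] K X else 0)
        refine le_of_eq_of_le (congrArg Matrix.rank ?_) h2
        have e : ∀ z : L, algebraMap L[X] K (C z) = algebraMap L K z := fun z =>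
          (IsScalarTower.algebraMap_apply L L[X] K z).symm
        have e' : ∀ z : k, algebraMap L K (algebraMap k L z) = algebraMap k K z := fun z =>
          (IsScalarTower.algebraMap_apply k L K z).symm
        ext i j
        simp only [comb, Matrix.map_apply, Matrix.add_apply, Matrix.smul_apply, Matrix.sum_apply,
          smul_eq_mul, map_add, map_mul, map_sum, e, e', add_mul, Finset.sum_add_distrib, ite_mul,
          zero_mul, Finset.sum_ite_eq', Finset.mem_univ, if_true, hx, if_false, add_zero, φ,
          RingHom.mapMatrix_apply]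
        ring
      · refine (Commute.add_left (Commute.sum_left _ _ _ fun x _ => ?_)
          (Commute.sum_left _ _ _ fun x _ => ?_)).smul_right _
        · exact ((hac _ _).map φ).smul_left _
        · exact (((hac _ _).mul_left (hcc _ _)).map φ).smul_left _
  convert key Finset.univ L y using 2
  simp only [comb, mul_add, mul_one, Matrix.map_add _ (map_add _), smul_add, Finset.sum_add_distrib]

end FPS

end LG
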