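import Cfsg.Agent.Lib.Grp.InvSysThm

/-!
# The system of involutions of an isometry group in odd characteristic
-/

set_option autoImplicit false
set_option linter.unusedSectionVars false

namespace LG

open Cfsg GT Subgroup Module

section Ring

variable {R : Type*} [Ring R] (h2 : ∀ x : R, x + x = 0 → x = 0)
include h2

theorem isys_le_left {T U X : R} (h1 : (1 + T) * U = 1 + T) (h3 : (1 + U) * X = 1 + U) :
    (1 + T) * X = 1 + T := by
  refine sub_eq_zero.1 (h2 _ ?_)
  linear_combination (norm := noncomm_ring) (1 + T) * h3 - h1 * X + h1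

theorem isys_le_right {T U X : R} (h1 : U * (1 + T) = 1 + T) (h3 : X * (1 + U) = 1 + U) :
    X * (1 + T) = 1 + T := by
  refine sub_eq_zero.1 (h2 _ ?_)
  linear_combination (norm := noncomm_ring) h3 * (1 + T) - X * h1 + h1

theorem isys_orth {T U A B : R} (hT : T * T = 1) (hA : A * (1 + U) = 1 + U)
    (hB : (1 + T * U) * B = 1 + T * U) (hB' : (1 + T) * B = 1 + T) : (A - 1) * (B - 1) = 0 := by
  have e1 : U * (B - 1) = B - 1 := by
    linear_combination (norm := noncomm_ring) T * hB - hB' - hT * (U * (B - 1))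
  refine h2 _ ?_
  linear_combination (norm := noncomm_ring) hA * (B - 1) - (A - 1) * e1

theorem isys_orth' {T U A B : R} (hT : T * T = 1) (hA : (1 + U) * A = 1 + U)
    (hB : B * (1 + U * T) = 1 + U * T) (hB' : B * (1 + T) = 1 + T) : (B - 1) * (A - 1) = 0 := by
  have e1 : (B - 1) * U = B - 1 := by
    linear_combination (norm := noncomm_ring) hB * T - hB' - ((B - 1) * U) * hT
  refine h2 _ ?_
  linear_combination (norm := noncomm_ring) (B - 1) * hA - e1 * (A - 1)

end Ring

variable {F V : Type*} [Field F] [AddCommGroup V] [Module F V] [FiniteDimensional F V]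
  {G : Type*} [Group G] [Finite G]

/-- `ρ` identifies `G` with the group of invertible isometries of the bilinear form `B`. -/
structure IsoRep (B : LinearMap.BilinForm F V) (ρ : G →* End F V) : Prop where
  two : (2 : F) ≠ 0
  inj : Function.Injective ρ
  iso : ∀ g v w, B (ρ g v) (ρ g w) = B v w
  ex : ∀ f : End F V, Function.Injective f → (∀ v w, B (f v) (f w) = B v w) → ∃ g, ρ g = f

theorem eq_zero_of_add_self {M : Type*} [AddCommGroup M] [Module F M] (h : (2 : F) ≠ 0) (x : M)
    (hx : x + x = 0) : x = 0 := by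
  rw [← two_smul F] at hx
  exact (smul_eq_zero.1 hx).resolve_left h

/-- The elements acting trivially on the fixed space of `t` and preserving the `-1`-space. -/
def isysH (ρ : G →* End F V) (t : G) : Subgroup G where
  carrier := {g | (1 + ρ t) * ρ g = 1 + ρ t ∧ ρ g * (1 + ρ t) = 1 + ρ t}
  mul_mem' := by
    rintro a b ⟨ha, ha'⟩ ⟨hb, hb'⟩
    exact ⟨by rw [map_mul, ← mul_assoc, ha, hb], by rw [map_mul, mul_assoc, hb', ha']⟩
  one_mem' := ⟨by simp, by simp⟩
  inv_mem' := by
    rintro a ⟨ha, ha'⟩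
    constructor
    · conv_lhs => rw [← ha, mul_assoc, ← map_mul, mul_inv_cancel, map_one, mul_one]
    · conv_lhs => rw [← ha', ← mul_assoc, ← map_mul, inv_mul_cancel, map_one, one_mul]

theorem finrank_range_add {A B : End F V} (h : (2 : F) ≠ 0) (hA : A * A = A + A)
    (hB : B * B = B + B) (hAB : A * B = 0) (hBA : B * A = 0) :
    finrank F (LinearMap.range (A + B)) =
      finrank F (LinearMap.range A) + finrank F (LinearMap.range B) := by
  have h1 : LinearMap.range (A + B) = LinearMap.range A ⊔ LinearMap.range B := by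
    refine le_antisymm ?_ (sup_le ?_ ?_)
    · rintro _ ⟨x, rfl⟩
      exact Submodule.add_mem_sup ⟨x, rfl⟩ ⟨x, rfl⟩
    · rintro _ ⟨x, rfl⟩
      refine ⟨(2 : F)⁻¹ • A x, ?_⟩
      have e1 : A (A x) = A x + A x := congrArg (fun f : End F V => f x) hA
      have e2 : B (A x) = 0 := congrArg (fun f : End F V => f x) hBA
      rw [map_smul, LinearMap.add_apply, e1, e2, add_zero, ← two_smul F, smul_smul,
        inv_mul_cancel₀ h, one_smul]
    · rintro _ ⟨x, rfl⟩
      refine ⟨(2 : F)⁻¹ • B x, ?_⟩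
      have e1 : B (B x) = B x + B x := congrArg (fun f : End F V => f x) hB
      have e2 : A (B x) = 0 := congrArg (fun f : End F V => f x) hAB
      rw [map_smul, LinearMap.add_apply, e1, e2, zero_add, ← two_smul F, smul_smul,
        inv_mul_cancel₀ h, one_smul]
  have h3 : LinearMap.range A ⊓ LinearMap.range B = ⊥ := by
    rw [eq_bot_iff]
    rintro _ ⟨⟨x, rfl⟩, ⟨y, hy⟩⟩
    have e1 : A (A x) = A x + A x := congrArg (fun f : End F V => f x) hA
    have e2 : A (B y) = 0 := congrArg (fun f : End F V => f y) hAB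
    rw [hy, e1] at e2
    exact eq_zero_of_add_self h _ e2
  rw [h1, ← Submodule.finrank_sup_add_finrank_inf_eq, h3, finrank_bot, add_zero]

namespace IsoRep

variable {B : LinearMap.BilinForm F V} {ρ : G →* End F V} (h : IsoRep B ρ)
include h

theorem two_end (x : End F V) (hx : x + x = 0) : x = 0 := eq_zero_of_add_self h.two x hx

theorem sq {t : G} (ht : t * t = 1) : ρ t * ρ t = 1 := by rw [← map_mul, ht, map_one]

theorem sq_apply {t : G} (ht : t * t = 1) (x : V) : ρ t (ρ t x) = x :=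
  congrArg (fun f : End F V => f x) (h.sq ht)

theorem comm {t g : G} (hg : g ∈ isysH ρ t) : Commute g t := by
  apply h.inj
  rw [map_mul, map_mul]
  linear_combination (norm := noncomm_ring) hg.2 - hg.1

theorem le {t u : G} (hu : u ∈ isysH ρ t) : isysH ρ u ≤ isysH ρ t := fun _ hg =>
  ⟨isys_le_left h.two_end hu.1 hg.1, isys_le_right h.two_end hu.2 hg.2⟩

theorem self_mem {t : G} (ht : t * t = 1) : t ∈ isysH ρ t :=
  ⟨by rw [add_mul, h.sq ht, one_mul, add_comm], by rw [mul_add, h.sq ht, mul_one, add_comm]⟩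

theorem orth {t u a b : G} (ht : t * t = 1) (hu : u ∈ isysH ρ t) (ha : a ∈ isysH ρ u)
    (hb : b ∈ isysH ρ (t * u)) : (ρ a - 1) * (ρ b - 1) = 0 ∧ (ρ b - 1) * (ρ a - 1) = 0 := by
  have hb' := h.le (mul_mem (h.self_mem ht) hu) hb
  refine ⟨isys_orth h.two_end (h.sq ht) ha.2 (by rw [← map_mul]; exact hb.1) hb'.1,
    isys_orth' h.two_end (h.sq ht) ha.1 (by rw [← map_mul, (h.comm hu).eq]; exact hb.2) hb'.2⟩

theorem orth_eigen {u : G} {x y : V} (hx : ρ u x = x) (hy : ρ u y = -y) :
    B x y = 0 ∧ B y x = 0 := by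
  constructor
  · have := h.iso u x y
    rw [hx, hy, map_neg] at this
    exact eq_zero_of_add_self h.two _ (by linear_combination -this)
  · have := h.iso u y x
    rw [hx, hy, map_neg, LinearMap.neg_apply] at this
    exact eq_zero_of_add_self h.two _ (by linear_combination -this)

theorem exists_part {u g : G} (hu : u * u = 1) (hc : Commute g u) :
    ∃ a, ρ a + ρ a = (1 + ρ u) + (1 - ρ u) * ρ g := by
  have hU := h.sq_apply hu
  have hc' : ∀ x, ρ u (ρ g x) = ρ g (ρ u x) := fun x => by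
    have := congrArg (fun k => ρ k x) hc.eq
    simpa using this.symm
  obtain ⟨a, ha⟩ := h.ex ((2 : F)⁻¹ • ((1 + ρ u) + (1 - ρ u) * ρ g)) (by
    rw [injective_iff_map_eq_zero]
    intro x hx
    rw [LinearMap.smul_apply, smul_eq_zero] at hx
    have hx := hx.resolve_left (inv_ne_zero h.two)
    simp only [LinearMap.add_apply, End.mul_apply, LinearMap.sub_apply, End.one_apply] at hx
    have hx' := congrArg (ρ u) hx
    simp only [map_add, map_sub, hU, map_zero] at hx'
    have e1 : x + ρ u x = 0 := eq_zero_of_add_self h.two _ (by linear_combination (norm := abel) hx + hx')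
    have e2 : ρ g (x - ρ u x) = 0 := by
      rw [map_sub, ← hc']; linear_combination (norm := abel) hx - e1
    have e3 : x - ρ u x = 0 := by
      have := congrArg (ρ g⁻¹) e2
      rwa [← End.mul_apply, ← map_mul, inv_mul_cancel, map_one, End.one_apply, map_zero] at this
    exact eq_zero_of_add_self h.two _ (by linear_combination (norm := abel) e1 + e3)) (by
    intro v w
    have hp : ∀ x, ρ u (x + ρ u x) = x + ρ u x := fun x => by rw [map_add, hU, add_comm]
    have hm : ∀ x, ρ u (x - ρ u x) = -(x - ρ u x) := fun x => by rw [map_sub, hU, neg_sub]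
    have hm' : ∀ x, ρ u (ρ g (x - ρ u x)) = -ρ g (x - ρ u x) := fun x => by
      rw [hc', hm, map_neg]
    have e : ∀ x, ((2 : F)⁻¹ • ((1 + ρ u) + (1 - ρ u) * ρ g) : End F V) x =
        (2 : F)⁻¹ • ((x + ρ u x) + ρ g (x - ρ u x)) := fun x => by
      simp [hc']
    have e' : ∀ x, x = (2 : F)⁻¹ • ((x + ρ u x) + (x - ρ u x)) := fun x => by
      rw [add_add_sub_cancel, ← two_smul F, smul_smul, inv_mul_cancel₀ h.two, one_smul]
    conv_rhs => rw [e' v, e' w]
    rw [e, e]
    generalize hv1 : v + ρ u v = v1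
    generalize hv2 : v - ρ u v = v2
    generalize hw1 : w + ρ u w = w1
    generalize hw2 : w - ρ u w = w2
    have a1 : B v1 (ρ g w2) = 0 := (h.orth_eigen (hv1 ▸ hp v) (hw2 ▸ hm' w)).1
    have a2 : B (ρ g v2) w1 = 0 := (h.orth_eigen (hw1 ▸ hp w) (hv2 ▸ hm' v)).2
    have a3 : B v1 w2 = 0 := (h.orth_eigen (hv1 ▸ hp v) (hw2 ▸ hm w)).1
    have a4 : B v2 w1 = 0 := (h.orth_eigen (hw1 ▸ hp w) (hv2 ▸ hm v)).2
    simp only [map_smul, map_add, LinearMap.smul_apply, LinearMap.add_apply, a1, a2, a3, a4, h.iso])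
  exact ⟨a, by rw [ha, ← two_smul F, smul_smul, mul_inv_cancel₀ h.two, one_smul]⟩

/-- The system of involutions of an isometry group. -/
noncomputable def sys : InvSys G where
  H := isysH ρ
  rk t := finrank F (LinearMap.range (1 - ρ t))
  self_mem _ ht := h.self_mem ht
  comm _ _ hg := h.comm hg
  le _ _ hu := h.le hu
  commute t u a b ht _ hu ha hb := by
    obtain ⟨e1, e2⟩ := h.orth ht hu ha hb
    apply h.inj
    rw [map_mul, map_mul]
    linear_combination (norm := noncomm_ring) e1 - e2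
  disj t u a ht _ hu ha hb := by
    have hb' := h.le (mul_mem (h.self_mem ht) hu) hb
    have e1 := hb.1
    rw [map_mul] at e1
    apply h.inj
    rw [map_one]
    refine sub_eq_zero.1 (h.two_end _ ?_)
    linear_combination (norm := noncomm_ring) ha.1 - ρ t * e1 + hb'.1 +
      h.sq ht * (ρ u * (ρ a - 1))
  split t u g ht huu hu hg hc := by
    obtain ⟨a, ha⟩ := h.exists_part huu hc
    have hU := h.sq huu
    have hT := h.sq ht
    have hc' : ρ g * ρ u = ρ u * ρ g := by rw [← map_mul, hc.eq, map_mul]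
    have hau : a ∈ isysH ρ u := by
      constructor
      · refine sub_eq_zero.1 (h.two_end _ ?_)
        linear_combination (norm := noncomm_ring) (1 + ρ u) * ha + hU - hU * ρ g
      · refine sub_eq_zero.1 (h.two_end _ ?_)
        linear_combination (norm := noncomm_ring) ha * (1 + ρ u) + hU + (1 - ρ u) * hc' - hU * ρ g
    refine ⟨a, hau, a⁻¹ * g, ?_, by rw [mul_inv_cancel_left]⟩
    have e1 : ρ g * (1 + ρ t * ρ u) = ρ a * (1 + ρ t * ρ u) := by
      have hc2 : ρ u * ρ t = ρ t * ρ u := by rw [← map_mul, (h.comm hu).eq, map_mul]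
      refine sub_eq_zero.1 (h.two_end _ ?_)
      linear_combination (norm := noncomm_ring) -ha * (1 + ρ t * ρ u) - hc' * (1 + ρ t * ρ u) +
        hg.2 * (1 + ρ u) + (ρ g - 1) * hc2 * ρ u + (ρ g - 1) * ρ t * hU
    have e2 : ρ (a⁻¹ * g) * (1 + ρ (t * u)) = 1 + ρ (t * u) := by
      rw [map_mul, map_mul, mul_assoc, e1, ← mul_assoc, ← map_mul, inv_mul_cancel, map_one, one_mul]
    have e3 : Commute (a⁻¹ * g) (t * u) :=
      (((h.comm (h.le hu hau)).mul_right (h.comm hau)).inv_left).mul_left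
        ((h.comm hg).mul_right hc)
    refine ⟨?_, e2⟩
    have e4 : ρ (a⁻¹ * g) * ρ (t * u) = ρ (t * u) * ρ (a⁻¹ * g) := by
      rw [← map_mul, e3.eq, map_mul]
    linear_combination (norm := noncomm_ring) e2 - e4
  conj u g a ha := by
    have e : ∀ x, ρ (g * x * g⁻¹) = ρ g * ρ x * ρ g⁻¹ := fun x => by rw [map_mul, map_mul]
    have e1 : ρ g⁻¹ * ρ g = 1 := by rw [← map_mul, inv_mul_cancel, map_one]
    have e2 : ρ g * ρ g⁻¹ = 1 := by rw [← map_mul, mul_inv_cancel, map_one]
    constructor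
    · rw [e, e]
      linear_combination (norm := noncomm_ring) ρ g * ha.1 * ρ g⁻¹ + e2 +
        ρ g * ρ u * e1 * ρ a * ρ g⁻¹
    · rw [e, e]
      linear_combination (norm := noncomm_ring) ρ g * ha.2 * ρ g⁻¹ + e2 +
        ρ g * ρ a * e1 * ρ u * ρ g⁻¹
  rk_mul t u a b ht _ hu ha hb haa hbb := by
    obtain ⟨e1, e2⟩ := h.orth ht hu ha hb
    rw [← finrank_range_add h.two]
    · rw [show 1 - ρ (a * b) = (1 - ρ a) + (1 - ρ b) by
        rw [map_mul]; linear_combination (norm := noncomm_ring) -e1]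
    · linear_combination (norm := noncomm_ring) h.sq haa
    · linear_combination (norm := noncomm_ring) h.sq hbb
    · linear_combination (norm := noncomm_ring) e1
    · linear_combination (norm := noncomm_ring) e2
  rk_conj u g := by
    have e1 : ∀ x, ρ g⁻¹ (ρ g x) = x := fun x => by
      rw [← End.mul_apply, ← map_mul, inv_mul_cancel, map_one, End.one_apply]
    have e2 : ∀ x, ρ g (ρ g⁻¹ x) = x := fun x => by
      rw [← End.mul_apply, ← map_mul, mul_inv_cancel, map_one, End.one_apply]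
    have : LinearMap.range (1 - ρ (g * u * g⁻¹)) = (LinearMap.range (1 - ρ u)).map (ρ g) := by
      ext x
      constructor
      · rintro ⟨y, rfl⟩
        exact ⟨_, ⟨ρ g⁻¹ y, rfl⟩, by simp [e2]⟩
      · rintro ⟨_, ⟨y, rfl⟩, rfl⟩
        exact ⟨ρ g y, by simp [e1]⟩
    rw [this]
    exact (Submodule.equivMapOfInjective _ (Function.LeftInverse.injective e1) _).finrank_eq.symm
  rk_eq_zero u hu := by
    rw [Submodule.finrank_eq_zero, LinearMap.range_eq_bot, sub_eq_zero] at hu
    exact h.inj (by rw [map_one, hu])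

theorem sys_H (t : G) : h.sys.H t = isysH ρ t := rfl

theorem sys_rk (t : G) : h.sys.rk t = finrank F (LinearMap.range (1 - ρ t)) := rfl

theorem mem_H_iff {t g : G} : g ∈ h.sys.H t ↔
    (∀ x, ρ g x + ρ t (ρ g x) = x + ρ t x) ∧ ∀ x, ρ g (x + ρ t x) = x + ρ t x := by
  refine and_congr ⟨fun e x => ?_, fun e => LinearMap.ext fun x => ?_⟩
    ⟨fun e x => ?_, fun e => LinearMap.ext fun x => ?_⟩
  · simpa using congrArg (fun f : End F V => f x) e
  · simpa using e x
  · simpa using congrArg (fun f : End F V => f x) e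
  · simpa using e x

theorem half (x y : V) : x = (2 : F)⁻¹ • (x + y) + (2 : F)⁻¹ • (x - y) := by
  rw [← smul_add, add_add_sub_cancel, ← two_smul F, smul_smul, inv_mul_cancel₀ h.two, one_smul]

theorem mem_range_iff {t : G} (ht : t * t = 1) {x : V} :
    x ∈ LinearMap.range (1 - ρ t) ↔ ρ t x = -x := by
  constructor
  · rintro ⟨y, rfl⟩
    simp [h.sq_apply ht]
  · intro e
    refine ⟨(2 : F)⁻¹ • x, ?_⟩
    rw [map_smul, LinearMap.sub_apply, e, End.one_apply, sub_neg_eq_add, ← two_smul F, smul_smul,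
      inv_mul_cancel₀ h.two, one_smul]

theorem neg_of_mem {t u : G} (hu : u ∈ h.sys.H t) {x : V} (hx : ρ u x = -x) : ρ t x = -x := by
  have := (h.mem_H_iff.1 hu).1 x
  rw [hx, map_neg] at this
  have e : x + ρ t x = 0 := eq_zero_of_add_self h.two _ (by linear_combination (norm := abel) -this)
  exact eq_neg_of_add_eq_zero_right e

theorem comm_apply {t g : G} (hc : Commute g t) (x : V) : ρ g (ρ t x) = ρ t (ρ g x) := by
  simpa using congrArg (fun k => ρ k x) hc.eq

theorem neg_map {t g : G} (hg : g ∈ h.sys.H t) {x : V} (hx : ρ t x = -x) :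
    ρ t (ρ g x) = -ρ g x := by
  rw [← h.comm_apply (h.comm hg), hx, map_neg]

theorem eq_one_of_fix {t g : G} (ht : t * t = 1) (hg : g ∈ h.sys.H t)
    (hx : ∀ x, ρ t x = -x → ρ g x = x) : g = 1 := by
  apply h.inj
  ext x
  rw [map_one, End.one_apply]
  conv_lhs => rw [h.half x (ρ t x)]
  rw [map_add, map_smul, map_smul, (h.mem_H_iff.1 hg).2, hx _ (by simp [h.sq_apply ht]),
    ← h.half]

theorem exists_neg {t : G} (ht : t * t = 1) (ht1 : t ≠ 1) : ∃ v, v ≠ 0 ∧ ρ t v = -v := by
  by_contra hn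
  push Not at hn
  refine ht1 (h.eq_one_of_fix ht (h.self_mem ht) fun x hx => ?_)
  by_cases h0 : x = 0
  · rw [h0, map_zero]
  · exact absurd hx (hn x h0)

theorem exists_neg_one : ∃ z, z * z = 1 ∧ ρ z = -1 ∧ h.sys.H z = ⊤ ∧ h.sys.rk z = finrank F V := by
  obtain ⟨z, hz⟩ := h.ex (-1) (fun x y e => by simpa using e) (fun v w => by simp)
  have hzz : z * z = 1 := h.inj (by rw [map_mul, hz, map_one]; simp)
  refine ⟨z, hzz, hz, eq_top_iff.2 fun g _ => h.mem_H_iff.2 (by simp [hz]), ?_⟩
  have : LinearMap.range (1 - ρ z) = ⊤ :=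
    eq_top_iff.2 fun x _ => (h.mem_range_iff hzz).2 (by simp [hz])
  rw [sys_rk, this, finrank_top]

theorem mem_H_of_eq {t g : G} {v w : V} {f f' : V →ₗ[F] F} (hv : ρ t v = -v) (hw : ρ t w = -w)
    (hf : ∀ x, f (x + ρ t x) = 0) (hf' : ∀ x, f' (x + ρ t x) = 0)
    (e : ∀ x, ρ g x = x + f x • v + f' x • w) : g ∈ h.sys.H t :=
  h.mem_H_iff.2 ⟨fun x => by rw [e]; simp only [map_add, map_smul, hv, hw, smul_neg]; abel,
    fun x => by rw [e, hf, hf', zero_smul, zero_smul, add_zero, add_zero]⟩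

theorem refl_of_eq {r : G} {v : V} {f : V →ₗ[F] F} (hf : f v = 2)
    (e : ∀ x, ρ r x = x - f x • v) : h.sys.Refl r := by
  have hv : v ≠ 0 := fun h0 => h.two (by rw [← hf, h0, map_zero])
  constructor
  · apply h.inj
    ext x
    rw [map_mul, End.mul_apply, e, e, map_one, End.one_apply, map_sub, map_smul, hf, smul_eq_mul]
    module
  · suffices LinearMap.range (1 - ρ r) = Submodule.span F {v} by
      rw [sys_rk, this, finrank_span_singleton hv]
    refine le_antisymm ?_ ((Submodule.span_singleton_le_iff_mem _ _).2 ⟨(2 : F)⁻¹ • v, ?_⟩)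
    · rintro _ ⟨x, rfl⟩
      exact Submodule.mem_span_singleton.2 ⟨f x, by simp [e]⟩
    · simp [e, hf, smul_smul, h.two]

theorem exists_span_of_refl {r : G} (hr : h.sys.Refl r) :
    ∃ v, v ≠ 0 ∧ ρ r v = -v ∧ ∀ x, ρ r x = -x → ∃ c : F, x = c • v := by
  obtain ⟨⟨v, hv⟩, hv0, hv1⟩ := finrank_eq_one_iff'.1 hr.2
  refine ⟨v, fun e => hv0 (Subtype.ext e), (h.mem_range_iff hr.1).1 hv, fun x hx => ?_⟩
  obtain ⟨c, hc⟩ := hv1 ⟨x, (h.mem_range_iff hr.1).2 hx⟩
  exact ⟨c, (congrArg Subtype.val hc).symm⟩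

theorem exists_eq_of_mem {t g : G} (hg : g ∈ h.sys.H t) {v : V} (hv : v ≠ 0)
    (hv1 : ∀ x, ρ t x = -x → ∃ c : F, x = c • v) :
    ∃ f : V →ₗ[F] F, ∀ x, ρ g x = x + f x • v := by
  obtain ⟨l, hl⟩ := Module.Projective.exists_dual_eq_one F hv
  refine ⟨l ∘ₗ (ρ g - 1), fun x => ?_⟩
  obtain ⟨c, hc⟩ := hv1 (ρ g x - x) (by
    have := (h.mem_H_iff.1 hg).1 x
    rw [map_sub]; linear_combination (norm := abel) this)
  simp only [LinearMap.comp_apply, LinearMap.sub_apply, End.one_apply, hc, map_smul, hl, smul_eq_mul,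
    mul_one]
  rw [← hc]; abel

end IsoRep

end LG
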