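import Cfsg.Agent.Lib.Lin.InvSysOrth

/-!
# Sylow `2`-subgroups of `Sp(V)` and `SL(V)` in odd characteristic
-/

set_option autoImplicit false
set_option linter.unusedSectionVars false

namespace LG

open Cfsg GT Subgroup Module
open scoped Pointwise

variable {F V : Type*} [Field F] [AddCommGroup V] [Module F V] [FiniteDimensional F V]
  {G : Type*} [Group G] [Finite G]

theorem isPGroup_not_isCyclic_of_inv {i j : G} (hi : IsPElt 2 i) (hj : IsPElt 2 j)
    (e : j * i * j⁻¹ = i⁻¹) (hn : i * i ≠ 1) :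
    IsPGroup 2 (zpowers i ⊔ zpowers j : Subgroup G) ∧
      ¬ IsCyclic (zpowers i ⊔ zpowers j : Subgroup G) := by
  have : Fact (Nat.Prime 2) := ⟨Nat.prime_two⟩
  refine ⟨hi.isPGroup_zpowers.to_sup_of_normal_left' hj.isPGroup_zpowers
    (zpowers_le.2 (mem_normalizer_of_conj_mem fun y hy => ?_)), fun hc => hn ?_⟩
  · obtain ⟨k, rfl⟩ := mem_zpowers_iff.1 hy
    rw [← conj_zpow, e]; exact zpow_mem (inv_mem (mem_zpowers i)) k
  · obtain ⟨a, ha⟩ := isCyclic_iff_exists_zpowers_eq.1 hc
    obtain ⟨k, rfl⟩ := mem_zpowers_iff.1 (ha ▸ mem_sup_left (mem_zpowers i) : i ∈ zpowers a)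
    obtain ⟨l, rfl⟩ := mem_zpowers_iff.1 (ha ▸ mem_sup_right (mem_zpowers j) : j ∈ zpowers a)
    rw [((Commute.refl a).zpow_zpow l k).eq, mul_inv_cancel_right] at e
    nth_rewrite 2 [e]
    exact mul_inv_cancel _

/-- Two vectors with dual functionals. -/
structure Dual2 (v w : V) (l m : V →ₗ[F] F) : Prop where
  lv : l v = 1
  lw : l w = 0
  mv : m v = 0
  mw : m w = 1

/-- The endomorphism acting on `⟨v, w⟩` by a `2 × 2` matrix and trivially on the complement. -/
def mat2 (v w : V) (l m : V →ₗ[F] F) (a b c d : F) : End F V :=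
  1 + l.smulRight ((a - 1) • v + c • w) + m.smulRight (b • v + (d - 1) • w)

theorem mat2_apply (v w : V) (l m : V →ₗ[F] F) (a b c d : F) (x : V) :
    mat2 v w l m a b c d x = x + l x • ((a - 1) • v + c • w) + m x • (b • v + (d - 1) • w) := rfl

theorem mat2_one (v w : V) (l m : V →ₗ[F] F) : mat2 v w l m 1 0 0 1 = 1 := by
  ext x; simp [mat2_apply]

variable {v w : V} {l m : V →ₗ[F] F}

theorem Dual2.mat2_mul (h : Dual2 v w l m) (a b c d a' b' c' d' : F) :
    mat2 v w l m a b c d * mat2 v w l m a' b' c' d' =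
      mat2 v w l m (a * a' + b * c') (a * b' + b * d') (c * a' + d * c') (c * b' + d * d') := by
  ext x
  simp only [End.mul_apply, mat2_apply, map_add, map_smul, h.lv, h.lw, h.mv, h.mw]
  module

theorem Dual2.mat2_injective (h : Dual2 v w l m) {a b c d : F} (e : a * d - b * c = 1) :
    Function.Injective (mat2 v w l m a b c d) := by
  have : mat2 v w l m d (-b) (-c) a * mat2 v w l m a b c d = 1 := by
    rw [h.mat2_mul, ← mat2_one v w l m]
    congr 1
    · linear_combination e
    · ring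
    · ring
    · linear_combination e
  exact Function.LeftInverse.injective (g := mat2 v w l m d (-b) (-c) a) fun x =>
    congrArg (fun f : End F V => f x) this

theorem Dual2.det_mat2 (h : Dual2 v w l m) {a b c d : F} (e : a * d - b * c = 1) (hc : c ≠ 0) :
    LinearMap.det (mat2 v w l m a b c d) = 1 := by
  have h1 : ∀ b : F, LinearMap.det (mat2 v w l m 1 b 0 1) = 1 := fun b => by
    have : mat2 v w l m 1 b 0 1 = LinearMap.transvection m (b • v) := by
      ext x; simp [mat2_apply, LinearMap.transvection.apply]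
    rw [this, LinearMap.transvection.det]; simp [h.mv]
  have h2 : LinearMap.det (mat2 v w l m 1 0 c 1) = 1 := by
    have : mat2 v w l m 1 0 c 1 = LinearMap.transvection l (c • w) := by
      ext x; simp [mat2_apply, LinearMap.transvection.apply]
    rw [this, LinearMap.transvection.det]; simp [h.lw]
  have : mat2 v w l m a b c d = mat2 v w l m 1 ((a - 1) / c) 0 1 * mat2 v w l m 1 0 c 1 *
      mat2 v w l m 1 ((d - 1) / c) 0 1 := by
    rw [h.mat2_mul, h.mat2_mul]
    congr 1
    · field_simp; ring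
    · field_simp; linear_combination -e
    · ring
    · field_simp; ring
  rw [this, map_mul, map_mul, h1, h1, h2, one_mul, one_mul]

theorem Dual2.exists_q8 [Fintype F] (hF : Odd (Fintype.card F)) (h : Dual2 v w l m)
    {ρ : G →* End F V} (hρ : Function.Injective ρ) (K : Subgroup G)
    (hK : ∀ a b c d : F, a * d - b * c = 1 → c ≠ 0 → ∃ g ∈ K, ρ g = mat2 v w l m a b c d) :
    ∃ Q ≤ K, IsPGroup 2 Q ∧ ¬ IsCyclic Q := by
  have : Fact (Nat.Prime 2) := ⟨Nat.prime_two⟩
  obtain ⟨a, b, hb, e⟩ : ∃ a b : F, b ≠ 0 ∧ a * a + b * b = -1 := by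
    obtain ⟨x, y, e⟩ := exists_binary_repr hF one_ne_zero one_ne_zero (-1 : F)
    by_cases hy : y = 0
    · refine ⟨y, x, ?_, by linear_combination e⟩
      rintro rfl
      rw [hy] at e; simp at e
    · exact ⟨x, y, hy, by linear_combination e⟩
  obtain ⟨i, hiK, hi⟩ := hK 0 (-1) 1 0 (by ring) one_ne_zero
  obtain ⟨j, hjK, hj⟩ := hK a b b (-a) (by linear_combination -e) hb
  have e1 : ρ (i * i) = mat2 v w l m (-1) 0 0 (-1) := by
    rw [map_mul, hi, h.mat2_mul]; congr 1 <;> ring
  have e2 : ρ (j * j) = mat2 v w l m (-1) 0 0 (-1) := by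
    rw [map_mul, hj, h.mat2_mul]; congr 1
    · ring
    · ring
    · linear_combination e
  have e3 : ∀ g, ρ (g * g) = mat2 v w l m (-1) 0 0 (-1) → IsPElt 2 g := fun g hg =>
    isPElt_of_pow_eq_one (k := 2) (hρ (by
      rw [show g ^ 2 ^ 2 = (g * g) * (g * g) by norm_num [pow_succ, mul_assoc], map_mul, hg,
        h.mat2_mul, map_one, ← mat2_one v w l m]
      congr 1 <;> ring))
  obtain ⟨h1, h2⟩ := isPGroup_not_isCyclic_of_inv (e3 i e1) (e3 j e2) (by
    have : i * j * i = j := hρ (by
      rw [map_mul, map_mul, hi, hj, h.mat2_mul, h.mat2_mul]; congr 1 <;> ring)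
    rw [mul_inv_eq_iff_eq_mul, eq_inv_mul_iff_mul_eq, ← mul_assoc, this]) (fun e => by
      rw [e, map_one] at e1
      have := congrArg (fun f : End F V => l (f v)) e1
      simp only [End.one_apply, mat2_apply, map_add, map_smul, h.lv, h.lw, h.mv, smul_eq_mul] at this
      exact two_ne_zero_of_odd_card hF (by linear_combination this))
  exact ⟨_, sup_le (zpowers_le.2 hiK) (zpowers_le.2 hjK), h1, h2⟩

namespace IsoRep

variable {B : LinearMap.BilinForm F V} {ρ : G →* End F V} (h : IsoRep B ρ)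
include h

theorem mem_of_eq_mat2 {t g : G} (hv : ρ t v = -v) (hw : ρ t w = -w)
    (hl : ∀ x, l (x + ρ t x) = 0) (hm : ∀ x, m (x + ρ t x) = 0) {a b c d : F}
    (e : ρ g = mat2 v w l m a b c d) : g ∈ h.sys.H t :=
  h.mem_H_of_eq (v := (a - 1) • v + c • w) (w := b • v + (d - 1) • w)
    (by rw [map_add, map_smul, map_smul, hv, hw]; module)
    (by rw [map_add, map_smul, map_smul, hv, hw]; module) hl hm fun x => by rw [e, mat2_apply]

/-- Sylow `2`-subgroups of `Sp(V)` have elementary abelian abelianization. -/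
theorem sq_mem_commutator_sp [Fintype F] (hF : Odd (Fintype.card F)) (ha : ∀ v w, B v w = -B w v)
    (hn : ∀ v, (∀ w, B v w = 0) → v = 0) (P : Sylow 2 G) :
    ∀ x : (P : Subgroup G), x ^ 2 ∈ commutator (P : Subgroup G) := by
  obtain ⟨z, hz, -, hH, -⟩ := h.exists_neg_one
  refine sq_mem_commutator_of_range (MonoidHom.id G) Function.injective_id P fun S hS => ?_
  rw [MonoidHom.range_eq_top.2 Function.surjective_id, inf_top_eq]
  refine InvSys.le_sqN_of_noncyclic (X := h.sys) (fun t ht ht1 => ?_) _ z S rfl hz (hH ▸ hS)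
  have h0 : ∀ v, B v v = 0 := fun v => eq_zero_of_add_self h.two _ (by linear_combination ha v v)
  obtain ⟨v, hv0, hv⟩ := h.exists_neg ht ht1
  obtain ⟨y, hy⟩ : ∃ y, B v y ≠ 0 := by
    by_contra hc
    push Not at hc
    exact hv0 (hn v hc)
  have hfix : ∀ x, ρ t (x + ρ t x) = x + ρ t x := fun x => by simp [h.sq_apply ht, add_comm]
  have e1 := (h.orth_eigen (hfix y) hv).2
  set w := (2 * B v y)⁻¹ • (y - ρ t y) with hw
  have htw : ρ t w = -w := by simp [hw, h.sq_apply ht, smul_sub]
  have hvw : B v w = 1 := by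
    have h2 := h.two
    simp only [map_add] at e1
    simp only [hw, map_smul, map_sub, smul_eq_mul]
    field_simp
    linear_combination -e1
  have hD : Dual2 v w (B.flip w) (B v) := ⟨hvw, h0 w, h0 v, hvw⟩
  refine hD.exists_q8 hF h.inj _ fun a b c d e _ => ?_
  obtain ⟨g, hg⟩ := h.ex _ (hD.mat2_injective e) fun x y => by
    simp only [mat2_apply, map_add, map_smul, LinearMap.add_apply, LinearMap.smul_apply,
      smul_eq_mul, LinearMap.BilinForm.flip_apply, h0, hvw, ha w v, ha x v, ha w y]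
    linear_combination (B x w * B v y - B y w * B v x) * e
  exact ⟨g, h.mem_of_eq_mat2 hv htw (fun x => (h.orth_eigen (hfix x) htw).1)
    (fun x => (h.orth_eigen (hfix x) hv).2) hg, hg⟩

end IsoRep

namespace IsoRep

variable {ρ : G →* End F V} (h : IsoRep (0 : LinearMap.BilinForm F V) ρ)
include h

theorem exists_dual {t : G} (ht : t * t = 1) (l : V →ₗ[F] F) :
    ∃ l' : V →ₗ[F] F, (∀ x, l' (x + ρ t x) = 0) ∧ ∀ x, ρ t x = -x → l' x = l x := by
  refine ⟨(2 : F)⁻¹ • l ∘ₗ (1 - ρ t), fun x => by simp [h.sq_apply ht, add_comm], fun x hx => ?_⟩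
  have := h.two
  simp only [LinearMap.smul_apply, LinearMap.comp_apply, LinearMap.sub_apply, End.one_apply, hx,
    map_sub, map_neg, smul_eq_mul]
  field_simp
  ring

theorem hasRefl_lin : h.sys.HasRefl := fun t ht ht1 => by
  obtain ⟨v, hv0, hv⟩ := h.exists_neg ht ht1
  obtain ⟨l, hl⟩ := Module.Projective.exists_dual_eq_one F hv0
  obtain ⟨l', hl1, hl2⟩ := h.exists_dual ht l
  have hl3 : l' v = 1 := by rw [hl2 v hv, hl]
  obtain ⟨r, hr⟩ := h.ex (LinearMap.transvection (-(2 : F) • l') v) (by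
    rw [injective_iff_map_eq_zero]
    intro x hx
    have h1 := congrArg l' hx
    simp only [LinearMap.transvection.apply, map_add, map_smul, hl3, LinearMap.smul_apply,
      smul_eq_mul, map_zero] at h1 hx
    have h2 : l' x = 0 := by linear_combination -h1
    simpa [h2] using hx) fun _ _ => rfl
  refine ⟨r, h.mem_H_of_eq (f := -(2 : F) • l') (f' := 0) hv hv (fun x => by
    rw [LinearMap.smul_apply, hl1, smul_zero]) (fun _ => rfl) fun x => by
      simp [hr, LinearMap.transvection.apply], h.refl_of_eq (v := v) (f := (2 : F) • l')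
    (by simp [hl3]) fun x => by simp [hr, LinearMap.transvection.apply, sub_eq_add_neg]⟩

theorem det_eq_of_mem {t g : G} (ht : h.sys.Refl t) (hg : g ∈ h.sys.H t) :
    ∃ v, v ≠ 0 ∧ ρ t v = -v ∧ (∀ x, ρ t x = -x → ∃ c : F, x = c • v) ∧
      ρ g v = LinearMap.det (ρ g) • v := by
  obtain ⟨v, hv0, hv, hv1⟩ := h.exists_span_of_refl ht
  obtain ⟨f, hf⟩ := h.exists_eq_of_mem hg hv0 hv1
  refine ⟨v, hv0, hv, hv1, ?_⟩
  have : ρ g = LinearMap.transvection f v := LinearMap.ext hf
  rw [hf, this, LinearMap.transvection.det, add_smul, one_smul]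

theorem inf_ker_le_sqN [Fintype F] (hF : Odd (Fintype.card F)) (φ : G →* Fˣ)
    (hφ : ∀ g, (φ g : F) = LinearMap.det (ρ g)) {z : G} (hz : z * z = 1) {S : Subgroup G}
    (hS : IsSylowIn 2 S (h.sys.H z))
    (hc : 4 ∣ Fintype.card F + 1 ∨ (h.sys.Indec S z ∧ 2 ≤ h.sys.rk z)) :
    S ⊓ φ.ker ≤ sqN (S ⊓ φ.ker) := by
  have : Fact (Nat.Prime 2) := ⟨Nat.prime_two⟩
  refine h.hasRefl_lin.inf_ker_le_sqN φ (ε := -1)
    (fun e => h.two (by have := congrArg Units.val e; simp at this; linear_combination -this))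
    (by simp) (fun r hr => ?_) (fun t ht g hg e => ?_) (fun t ht h2 => ?_) _ z S rfl hz hS
    (hc.imp_left fun h4 y hy => ?_)
  · obtain ⟨v, hv0, hv, -, e⟩ := h.det_eq_of_mem hr (h.self_mem hr.1)
    rw [hv, ← neg_one_smul F v] at e
    exact Units.ext (by rw [hφ, ← smul_left_injective F hv0 e]; simp)
  · obtain ⟨v, -, -, hv1, e'⟩ := h.det_eq_of_mem ht hg
    rw [← hφ, e, Units.val_one, one_smul] at e'
    refine h.eq_one_of_fix ht.1 hg fun x hx => ?_
    obtain ⟨c, rfl⟩ := hv1 x hx
    rw [map_smul, e']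
  · obtain ⟨v, hv0, hv⟩ := h.exists_neg ht (InvSys.ne_one_of_rk_pos (X := h.sys) (by omega))
    obtain ⟨w, hw, hwv⟩ : ∃ w, ρ t w = -w ∧ w ∉ Submodule.span F {v} := by
      by_contra hn
      push Not at hn
      have : LinearMap.range (1 - ρ t) ≤ Submodule.span F {v} := fun x hx =>
        hn x ((h.mem_range_iff ht).1 hx)
      have := Submodule.finrank_mono this
      rw [finrank_span_singleton hv0, ← h.sys_rk] at this
      omega
    obtain ⟨m, hm1, hm2⟩ := Submodule.exists_le_ker_of_notMem hwv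
    obtain ⟨l, hl⟩ := Module.Projective.exists_dual_eq_one F hv0
    have hmv : m v = 0 := hm2 (Submodule.mem_span_singleton_self v)
    obtain ⟨l', hl1, hl2⟩ := h.exists_dual ht (l - (l w / m w) • m)
    obtain ⟨m', hm3, hm4⟩ := h.exists_dual ht ((m w)⁻¹ • m)
    have hD : Dual2 v w l' m' :=
      ⟨by simp [hl2 v hv, hl, hmv], by simp [hl2 w hw, hm1], by simp [hm4 v hv, hmv],
        by simp [hm4 w hw, hm1]⟩
    refine hD.exists_q8 hF h.inj _ fun a b c d e hc => ?_
    obtain ⟨g, hg⟩ := h.ex _ (hD.mat2_injective e) fun _ _ => rfl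
    exact ⟨g, ⟨h.mem_of_eq_mat2 hv hw hl1 hm3 hg,
      Units.ext (by rw [hφ, hg, hD.det_mat2 e hc]; rfl)⟩, hg⟩
  · obtain ⟨k, hk⟩ := hy.map φ
    have h1 : orderOf (φ y) ∣ Fintype.card F - 1 := by
      classical
      rw [← Fintype.card_units]; exact orderOf_dvd_card
    have h2 : orderOf (φ y) ∣ 2 := by
      rw [hk] at h1 ⊢
      rcases k with _ | _ | k
      · simp
      · simp
      · exfalso
        have h3 : 4 ∣ Fintype.card F - 1 := (Dvd.intro (2 ^ k) (by ring)).trans h1
        have := Fintype.card_pos (α := F)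
        omega
    have h3 := orderOf_dvd_iff_pow_eq_one.1 h2
    have h5 : (φ y : F) ^ 2 = 1 := by rw [← Units.val_pow_eq_pow_val, h3, Units.val_one]
    rcases sq_eq_one_iff.1 h5 with e | e
    · left; exact Units.ext e
    · right; exact Units.ext e

theorem indec_of_perm {ι : Type*} (b : Basis ι F V) (σ : Equiv.Perm ι) (hσ : IsPElt 2 σ)
    (htr : ∀ i j, ∃ n : ℕ, (σ ^ n) i = j) {z : G} (hz : ρ z = -1) {S : Subgroup G}
    (hS : IsSylowIn 2 S ⊤) : h.sys.Indec S z := by
  classical
  have : Fact (Nat.Prime 2) := ⟨Nat.prime_two⟩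
  let D : Subgroup G :=
    { carrier := {g | ∀ i, ρ g (b i) = b i ∨ ρ g (b i) = -b i}
      mul_mem' := fun {x y} hx hy i => by
        rw [map_mul, End.mul_apply]
        rcases hx i with e | e <;> rcases hy i with e' | e' <;> simp [e, e']
      one_mem' := fun i => by simp
      inv_mem' := fun {x} hx i => by
        have e1 : ∀ y, ρ x⁻¹ (ρ x y) = y := fun y => by
          rw [← End.mul_apply, ← map_mul, inv_mul_cancel, map_one, End.one_apply]
        rcases hx i with e | e
        · left; conv_lhs => rw [← e, e1]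
        · right; conv_rhs => rw [← e1 (b i), e, map_neg, neg_neg] }
  have hD : IsPGroup 2 D := isPGroup_iff_forall_isPElt.2 fun g hg =>
    isPElt_two_of_mul_self (h.inj (b.ext fun i => by
      rw [map_mul, End.mul_apply, map_one]
      rcases hg i with e | e <;> simp [e]))
  obtain ⟨c, hc⟩ := h.ex (b.equiv b σ).toLinearMap (b.equiv b σ).injective fun _ _ => rfl
  have hc1 : ∀ i, ρ c (b i) = b (σ i) := fun i => by simp [hc]
  have hcn : ∀ (n : ℕ) i, ρ (c ^ n) (b i) = b ((σ ^ n) i) := fun n => by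
    induction n with
    | zero => simp
    | succ n ih => intro i; rw [pow_succ, map_mul, End.mul_apply, hc1, ih, pow_succ]; rfl
  have hc2 : IsPElt 2 c := by
    obtain ⟨k, hk⟩ := hσ.exists_pow_eq_one
    exact isPElt_of_pow_eq_one (k := k) (h.inj (b.ext fun i => by rw [hcn, hk]; simp))
  have hcN : c ∈ normalizer (D : Set G) := mem_normalizer_of_conj_mem fun g hg i => by
    have e1 : ρ c⁻¹ (b i) = b (σ.symm i) := by
      conv_lhs => rw [← σ.apply_symm_apply i, ← hc1, ← End.mul_apply, ← map_mul, inv_mul_cancel,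
        map_one, End.one_apply]
    rw [map_mul, map_mul, End.mul_apply, End.mul_apply, e1]
    rcases hg (σ.symm i) with e | e <;> simp [e, hc1]
  obtain ⟨g, -, hg⟩ := hS.exists_conj_le (Q := D ⊔ zpowers c)
    (hD.to_sup_of_normal_left' hc2.isPGroup_zpowers (zpowers_le.2 hcN)) le_top
  intro u _ huu hu
  have hu' : ∀ x ∈ D ⊔ zpowers c, ∀ y, ρ x (ρ (g⁻¹ * u * g) y) = ρ (g⁻¹ * u * g) (ρ x y) :=
    fun x hx => h.comm_apply (by
      have := (hu _ (conj_smul_le_iff.1 hg x hx)).map (MulAut.conj g⁻¹)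
      simpa [mul_assoc] using this)
  set u' := g⁻¹ * u * g with hu'def
  have huu' : u' * u' = 1 := by
    have := conj_mul_self huu g⁻¹
    rwa [inv_inv] at this
  have hdiag : ∀ i, ρ u' (b i) = b.repr (ρ u' (b i)) i • b i := fun i => by
    obtain ⟨d, hd⟩ := h.ex (b.constr F fun j => if j = i then -b j else b j) (by
      refine Function.LeftInverse.injective
        (g := b.constr F fun j => if j = i then -b j else b j) fun x => ?_
      have : (b.constr F fun j => if j = i then -b j else b j) ∘ₗ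
          (b.constr F fun j => if j = i then -b j else b j) = LinearMap.id := b.ext fun j => by
        by_cases e : j = i <;> simp [e]
      exact congrArg (fun f : End F V => f x) this) fun _ _ => rfl
    have hd1 : ∀ j, ρ d (b j) = if j = i then -b j else b j := fun j => by simp [hd]
    have hdD : d ∈ D := fun j => by by_cases e : j = i <;> simp [hd1, e]
    have e1 := hu' d (mem_sup_left hdD) (b i)
    rw [hd1, if_pos rfl, map_neg] at e1
    have e2 : ∀ x, x - ρ d x = (2 * b.repr x i) • b i := fun x => by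
      have : 1 - ρ d = ((2 : F) • b.coord i).smulRight (b i) := b.ext fun j => by
        by_cases e : j = i
        · simp [hd1, e, two_smul, add_smul]
        · simp [hd1, e]
      simpa using congrArg (fun f : End F V => f x) this
    have e3 := e2 (ρ u' (b i))
    rw [e1, sub_neg_eq_add, ← two_smul F, mul_smul] at e3
    exact smul_right_injective V h.two e3
  obtain ⟨μ, hdiag⟩ : ∃ μ : ι → F, ∀ i, ρ u' (b i) = μ i • b i := ⟨_, hdiag⟩
  have hconst : ∀ i j, μ i = μ j := fun i j => by
    obtain ⟨n, rfl⟩ := htr i j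
    have e1 := hu' (c ^ n) (mem_sup_right (pow_mem (mem_zpowers c) n)) (b i)
    rw [hdiag i, map_smul, hcn, hdiag] at e1
    exact smul_left_injective F (b.ne_zero _) e1
  have hsq : ∀ i, μ i ^ 2 = 1 := fun i => by
    have e1 := h.sq_apply huu' (b i)
    rw [hdiag i, map_smul, hdiag i, smul_smul] at e1
    rw [pow_two]
    exact smul_left_injective F (b.ne_zero i) (e1.trans (one_smul F _).symm)
  have hback : u = g * u' * g⁻¹ := by rw [hu'def]; group
  by_cases hall : ∀ i, μ i = 1
  · left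
    have : u' = 1 := h.inj (b.ext fun i => by rw [hdiag, hall]; simp)
    rw [hback, this]; group
  · right
    push Not at hall
    obtain ⟨i, hi⟩ := hall
    have hi' := (sq_eq_one_iff.1 (hsq i)).resolve_left hi
    have : ρ u' = -1 := b.ext fun j => by rw [hdiag, hconst j i, hi']; simp
    apply h.inj
    rw [hback, map_mul, map_mul, this, hz, mul_neg_one, neg_mul, ← map_mul, mul_inv_cancel, map_one]

end IsoRep

theorem isoRep_GL {ι : Type*} [Fintype ι] [DecidableEq ι] [Finite F] (h2 : (2 : F) ≠ 0) :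
    IsoRep (0 : LinearMap.BilinForm F (ι → F))
      ((Matrix.toLinAlgEquiv' : Matrix ι ι F ≃ₐ[F] _).toMonoidHom.comp
        (Units.coeHom (Matrix ι ι F))) where
  two := h2
  inj := fun a b e => Units.ext (Matrix.toLinAlgEquiv'.injective e)
  iso _ _ _ := rfl
  ex f hf _ := by
    have hu : IsUnit (LinearMap.toMatrix' f) := by
      have : IsUnit f := (LinearMap.isUnit_iff_ker_eq_bot f).2 (LinearMap.ker_eq_bot.2 hf)
      exact this.map (LinearMap.toMatrixAlgEquiv' : _ ≃ₐ[F] Matrix ι ι F)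
    exact ⟨hu.unit, Matrix.toLin'_toMatrix' f⟩

/-- Sylow `2`-subgroups of `SL_n(q)` for `q ≡ 3 mod 4`, or `n ≥ 2` a power of two. -/
theorem sq_mem_commutator_SL [Fintype F] (hF : Odd (Fintype.card F)) {n : ℕ}
    (hc : 4 ∣ Fintype.card F + 1 ∨ ∃ j, n = 2 ^ (j + 1))
    (P : Sylow 2 (Matrix.SpecialLinearGroup (Fin n) F)) :
    ∀ x : (P : Subgroup (Matrix.SpecialLinearGroup (Fin n) F)),
      x ^ 2 ∈ commutator (P : Subgroup (Matrix.SpecialLinearGroup (Fin n) F)) := by
  have h := isoRep_GL (ι := Fin n) (two_ne_zero_of_odd_card hF)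
  obtain ⟨z, hz, hz1, hH, hrk⟩ := h.exists_neg_one
  refine sq_mem_commutator_of_range Matrix.SpecialLinearGroup.toGL
    Matrix.SpecialLinearGroup.toGL_injective P fun S hS => ?_
  have : (Matrix.SpecialLinearGroup.toGL : Matrix.SpecialLinearGroup (Fin n) F →* _).range =
      (Matrix.GeneralLinearGroup.det : Matrix.GeneralLinearGroup (Fin n) F →* Fˣ).ker := by
    ext g
    constructor
    · rintro ⟨x, rfl⟩
      exact Units.ext x.2
    · intro hg
      exact ⟨⟨g, congrArg Units.val hg⟩, Units.ext rfl⟩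
  rw [this]
  refine h.inf_ker_le_sqN hF _ (fun g => (LinearMap.det_toLin' _).symm) hz (hH ▸ hS)
    (hc.imp_right ?_)
  rintro ⟨j, hj⟩
  obtain ⟨k, rfl⟩ : ∃ k, n = k + 2 := ⟨n - 2, by
    have : 2 ^ 1 ≤ 2 ^ (j + 1) := Nat.pow_le_pow_right two_pos (by omega)
    omega⟩
  refine ⟨h.indec_of_perm (Pi.basisFun F _) (finRotate (k + 2)) ⟨j + 1, ?_⟩ (fun a b => ?_) hz1 hS,
    by rw [hrk]; simp⟩
  · rw [isCycle_finRotate.orderOf, support_finRotate, ← hj]; simp
  · exact isCycle_finRotate.exists_pow_eq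
      (Equiv.Perm.mem_support.1 (by rw [support_finRotate]; simp))
      (Equiv.Perm.mem_support.1 (by rw [support_finRotate]; simp))

end LG
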