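import Cfsg.Agent.Lib.Lin.InvSysEnd

/-!
# Sylow `2`-subgroups of `Ω(V)` in odd characteristic
-/

set_option autoImplicit false
set_option linter.unusedSectionVars false

namespace LG

open Cfsg GT Subgroup Module

variable {F V : Type*} [Field F] [AddCommGroup V] [Module F V] [FiniteDimensional F V]
  {G : Type*} [Group G] [Finite G]

/-- `r` is the orthogonal reflection in `v`. -/
def IsReflIn (B : LinearMap.BilinForm F V) (ρ : G →* End F V) (r : G) (v : V) : Prop :=
  B v v ≠ 0 ∧ ∀ x, ρ r x = x - (2 * B v x / B v v) • v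

theorem exists_binary_repr [Fintype F] (hF : Odd (Fintype.card F)) {a b : F} (ha : a ≠ 0)
    (hb : b ≠ 0) (c : F) : ∃ x y : F, a * x ^ 2 + b * y ^ 2 = c := by
  obtain ⟨x, y, e⟩ := FiniteField.exists_root_sum_quadratic
    (f := Polynomial.C a * Polynomial.X ^ 2) (g := Polynomial.C b * Polynomial.X ^ 2 - Polynomial.C c)
    (Polynomial.degree_C_mul_X_pow 2 ha) (by
      rw [Polynomial.degree_sub_C] <;> rw [Polynomial.degree_C_mul_X_pow 2 hb]
      · rfl
      · decide) (Nat.odd_iff.1 hF)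
  refine ⟨x, y, ?_⟩
  simp only [Polynomial.eval_mul, Polynomial.eval_C, Polynomial.eval_pow, Polynomial.eval_X,
    Polynomial.eval_sub] at e
  linear_combination e

theorem two_ne_zero_of_odd_card [Fintype F] (hF : Odd (Fintype.card F)) : (2 : F) ≠ 0 := by
  intro h
  have h1 : ringChar F = 2 := by
    have := (ringChar.spec F 2).1 (by exact_mod_cast h)
    rcases (Nat.dvd_prime Nat.prime_two).1 this with e | e
    · exact absurd e CharP.ringChar_ne_one
    · exact e
  have := FiniteField.even_card_of_char_two h1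
  rw [Nat.odd_iff] at hF
  omega

theorem isSquare_mul_of_three [Fintype F] (hF : Odd (Fintype.card F)) {a b c : F} (ha : a ≠ 0)
    (hb : b ≠ 0) (hc : c ≠ 0) : IsSquare (a * b) ∨ IsSquare (a * c) ∨ IsSquare (b * c) := by
  have h1 : ringChar F ≠ 2 := fun e => by
    have := FiniteField.even_card_of_char_two e
    rw [Nat.odd_iff] at hF
    omega
  simp only [FiniteField.isSquare_iff h1 (mul_ne_zero ha hb),
    FiniteField.isSquare_iff h1 (mul_ne_zero ha hc),
    FiniteField.isSquare_iff h1 (mul_ne_zero hb hc), mul_pow]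
  rcases FiniteField.pow_dichotomy h1 ha with e1 | e1 <;>
    rcases FiniteField.pow_dichotomy h1 hb with e2 | e2 <;>
      rcases FiniteField.pow_dichotomy h1 hc with e3 | e3 <;> simp [e1, e2, e3]

namespace IsoRep

variable {B : LinearMap.BilinForm F V} {ρ : G →* End F V} (h : IsoRep B ρ)
  (hs : ∀ v w, B v w = B w v) (hn : ∀ v, (∀ w, B v w = 0) → v = 0)
include h

theorem refl_of_isReflIn {r : G} {v : V} (hr : IsReflIn B ρ r v) : h.sys.Refl r :=
  h.refl_of_eq (v := v) (f := (2 / B v v) • B v) (by simp [hr.1]) fun x => by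
    rw [hr.2]; simp only [LinearMap.smul_apply, smul_eq_mul]; congr 2; ring

theorem mem_of_isReflIn {r t : G} {v : V} (hr : IsReflIn B ρ r v) (ht : t * t = 1)
    (hv : ρ t v = -v) : r ∈ h.sys.H t :=
  h.mem_H_of_eq (f := -(2 / B v v) • B v) (f' := 0) hv hv (fun x => by
    rw [LinearMap.smul_apply, (h.orth_eigen (x := x + ρ t x) (by simp [h.sq_apply ht, add_comm]) hv).2,
      smul_zero]) (fun _ => rfl) fun x => by
    rw [hr.2]; simp only [LinearMap.smul_apply, smul_eq_mul, LinearMap.zero_apply, zero_smul]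
    rw [add_zero, sub_eq_add_neg, ← neg_smul]; congr 2; ring

theorem isReflIn_unique {r r' : G} {v : V} (hr : IsReflIn B ρ r v) (hr' : IsReflIn B ρ r' v) :
    r = r' := h.inj (LinearMap.ext fun x => by rw [hr.2, hr'.2])

theorem isReflIn_conj {r : G} {v : V} (hr : IsReflIn B ρ r v) (g : G) :
    IsReflIn B ρ (g * r * g⁻¹) (ρ g v) := by
  have e2 : ∀ x, ρ g (ρ g⁻¹ x) = x := fun x => by
    rw [← End.mul_apply, ← map_mul, mul_inv_cancel, map_one, End.one_apply]
  refine ⟨by rw [h.iso]; exact hr.1, fun x => ?_⟩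
  rw [map_mul, map_mul, End.mul_apply, End.mul_apply, hr.2, map_sub, map_smul, e2, h.iso,
    ← h.iso g v (ρ g⁻¹ x), e2]

omit h in
theorem isReflIn_smul {r : G} {v : V} (hr : IsReflIn B ρ r v) {c : F} (hc : c ≠ 0) :
    IsReflIn B ρ r (c • v) := by
  have := hr.1
  refine ⟨by simp [hc, hr.1], fun x => ?_⟩
  rw [hr.2, smul_smul]
  simp only [map_smul, LinearMap.smul_apply, smul_eq_mul]
  congr 2
  field_simp

include hs in
theorem exists_isReflIn {v : V} (hv : B v v ≠ 0) : ∃ r, IsReflIn B ρ r v := by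
  have e : ∀ x, LinearMap.transvection (-(2 / B v v) • B v) v x = x - (2 * B v x / B v v) • v :=
    fun x => by
      rw [LinearMap.transvection.apply, sub_eq_add_neg, ← neg_smul]
      simp only [LinearMap.smul_apply, smul_eq_mul]
      congr 2; ring
  obtain ⟨r, hr⟩ := h.ex (LinearMap.transvection (-(2 / B v v) • B v) v) (by
    rw [injective_iff_map_eq_zero]
    intro x hx
    rw [e] at hx
    have h1 := congrArg (B v) hx
    simp only [map_sub, map_smul, smul_eq_mul, map_zero] at h1
    rw [div_mul_cancel₀ _ hv] at h1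
    have h2 : B v x = 0 := by linear_combination -h1
    simpa [h2] using hx) (by
    intro x y
    rw [e, e]
    simp only [map_sub, map_smul, smul_eq_mul, LinearMap.sub_apply, LinearMap.smul_apply, hs x v]
    field_simp
    ring)
  exact ⟨r, hv, fun x => by rw [hr, e]⟩

include hn in
theorem exists_isReflIn_of_refl {r : G} (hr : h.sys.Refl r) :
    ∃ v, IsReflIn B ρ r v ∧ ρ r v = -v ∧ ∀ x, ρ r x = -x → ∃ c : F, x = c • v := by
  obtain ⟨v, hv0, hv, hv1⟩ := h.exists_span_of_refl hr
  have key : ∀ x, ∃ c : F, x - ρ r x = c • v ∧ 2 * B v x = c * B v v := fun x => by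
    obtain ⟨c, hc⟩ := hv1 (x - ρ r x) (by simp [h.sq_apply hr.1])
    refine ⟨c, hc, ?_⟩
    have e1 := (h.orth_eigen (x := x + ρ r x) (by simp [h.sq_apply hr.1, add_comm]) hv).2
    have e2 := congrArg (B v) hc
    simp only [map_add, map_sub, map_smul, smul_eq_mul] at e1 e2
    linear_combination e1 + e2
  have hvv : B v v ≠ 0 := fun h0 => hv0 (hn v fun x => by
    obtain ⟨c, -, hc⟩ := key x
    rw [h0, mul_zero] at hc
    exact (mul_eq_zero.1 hc).resolve_left h.two)
  refine ⟨v, ⟨hvv, fun x => ?_⟩, hv, hv1⟩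
  obtain ⟨c, hc, hc'⟩ := key x
  rw [hc', mul_div_cancel_right₀ _ hvv, ← hc, sub_sub_cancel]

include hs in
theorem isConj_of_eq {r r' : G} {v w : V} (hr : IsReflIn B ρ r v) (hr' : IsReflIn B ρ r' w)
    (e : B v v = B w w) : IsConj r r' := by
  have key : ∀ w, IsReflIn B ρ r' w → B v v = B w w → B (v - w) (v - w) ≠ 0 → IsConj r r' := by
    intro w hr' e h0
    obtain ⟨g, hg⟩ := h.exists_isReflIn hs h0
    have : ρ g v = w := by
      rw [hg.2]
      have : 2 * B (v - w) v / B (v - w) (v - w) = 1 := by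
        rw [div_eq_one_iff_eq h0]
        simp only [map_sub, LinearMap.sub_apply, hs w v]
        linear_combination e
      rw [this, one_smul, sub_sub_cancel]
    exact isConj_iff.2 ⟨g, h.isReflIn_unique (this ▸ h.isReflIn_conj hr g) hr'⟩
  by_cases h0 : B (v - w) (v - w) = 0
  · refine key ((-1 : F) • w) (isReflIn_smul hr' (by simp)) (by simpa using e) fun h1 => hr.1 ?_
    simp only [map_sub, LinearMap.sub_apply, map_smul, LinearMap.smul_apply, smul_eq_mul] at h0 h1
    have : (2 : F) * (2 * B v v) = 0 := by linear_combination h0 + h1 + 2 * e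
    exact (mul_eq_zero.1 ((mul_eq_zero.1 this).resolve_left h.two)).resolve_left h.two
  · exact key w hr' e h0

include hs hn in
theorem exists_aniso {t : G} (ht : t * t = 1) (ht1 : t ≠ 1) : ∃ v, B v v ≠ 0 ∧ ρ t v = -v := by
  by_contra hc
  push Not at hc
  have h0 : ∀ v, ρ t v = -v → B v v = 0 := fun v hv => by
    by_contra h0; exact hc v h0 hv
  obtain ⟨v, hv0, hv⟩ := h.exists_neg ht ht1
  refine hv0 (hn v fun x => ?_)
  have hx : ρ t (x - ρ t x) = -(x - ρ t x) := by simp [h.sq_apply ht]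
  have e1 := (h.orth_eigen (x := x + ρ t x) (by simp [h.sq_apply ht, add_comm]) hv).2
  have e2 := h0 (v + (x - ρ t x)) (by rw [map_add, hv, hx, neg_add])
  rw [map_add, map_add, LinearMap.add_apply, LinearMap.add_apply, h0 v hv, h0 _ hx,
    hs (x - ρ t x) v] at e2
  simp only [map_add, map_sub] at e1 e2
  have : (2 : F) * (2 * B v x) = 0 := by linear_combination 2 * e1 + e2
  exact (mul_eq_zero.1 ((mul_eq_zero.1 this).resolve_left h.two)).resolve_left h.two

include hs hn in
theorem hasRefl_orth : h.sys.HasRefl := fun t ht ht1 => by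
  obtain ⟨v, hv, hv'⟩ := h.exists_aniso hs hn ht ht1
  obtain ⟨r, hr⟩ := h.exists_isReflIn hs hv
  exact ⟨r, h.mem_of_isReflIn hr ht hv', h.refl_of_isReflIn hr⟩

include hn in
theorem orth_rk_one (t : G) (ht : h.sys.Refl t) (g : G) (hg : g ∈ h.sys.H t) : g = 1 ∨ g = t := by
  obtain ⟨v, hr, hv, hv1⟩ := h.exists_isReflIn_of_refl hn ht
  obtain ⟨c, hc⟩ := hv1 _ (h.neg_map hg hv)
  have e := h.iso g v v
  rw [hc] at e
  simp only [map_smul, LinearMap.smul_apply, smul_eq_mul] at e
  have e' : (c - 1) * (c + 1) = 0 := by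
    have := hr.1
    apply mul_right_cancel₀ this
    linear_combination e
  rcases mul_eq_zero.1 e' with e1 | e1
  · left
    refine h.eq_one_of_fix ht.1 hg fun x hx => ?_
    obtain ⟨d, rfl⟩ := hv1 x hx
    rw [map_smul, hc, sub_eq_zero.1 e1, one_smul]
  · right
    have : g * t = 1 := h.eq_one_of_fix ht.1 (mul_mem hg (h.self_mem ht.1)) fun x hx => by
      obtain ⟨d, rfl⟩ := hv1 x hx
      rw [map_smul, map_mul, End.mul_apply, hv, map_neg, hc, eq_neg_of_add_eq_zero_left e1]
      simp
    rw [eq_inv_of_mul_eq_one_left this, inv_eq_of_mul_self ht.1]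

theorem orth_of_pair {t r : G} {v w : V} (hP : h.sys.Pair t r (t * r)) (hr : IsReflIn B ρ r v)
    (hw : ρ (t * r) w = -w) : ρ t w = -w ∧ B v w = 0 := by
  have h1 : ρ t w = -w := h.neg_of_mem hP.mem' hw
  refine ⟨h1, ?_⟩
  rw [← hP.cut.eq, map_mul, End.mul_apply, h1, map_neg, neg_inj, hr.2, sub_eq_self,
    smul_eq_zero] at hw
  rcases hw with e | e
  · rw [div_eq_zero_iff, mul_eq_zero] at e
    exact (e.resolve_right hr.1).resolve_left h.two
  · exact absurd (by rw [e, map_zero]) hr.1

include hs hn in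
theorem orth_rk_two (t : G) (ht : t * t = 1) (h2 : h.sys.rk t = 2) (g : G) (hg : g ∈ h.sys.H t)
    (r : G) (hrt : r ∈ h.sys.H t) (hr : h.sys.Refl r) : h.sys.Refl g ∨ h.sys.Refl (g * r) := by
  have hP : h.sys.Pair t r (t * r) := ⟨ht, hr.1, hrt, rfl⟩
  have hr' : h.sys.Refl (t * r) := ⟨hP.vv, by have := hP.rk_add; have := hr.2; omega⟩
  obtain ⟨v, hv, hv1, -⟩ := h.exists_isReflIn_of_refl hn hr
  obtain ⟨w, hw, hw1, -⟩ := h.exists_isReflIn_of_refl hn hr'
  obtain ⟨htw, hvw⟩ := h.orth_of_pair hP hv hw1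
  have htv : ρ t v = -v := h.neg_of_mem hrt hv1
  have hwv : B w v = 0 := by rw [hs, hvw]
  have hα := hv.1
  have hβ := hw.1
  have hspan : ∀ x, ρ t x = -x → ∃ a b : F, x = a • v + b • w := fun x hx => by
    refine ⟨B v x / B v v, B w x / B w w, ?_⟩
    rw [← hP.mul, map_mul, End.mul_apply, hw.2, hv.2, map_sub, map_smul, hvw, smul_zero,
      sub_zero] at hx
    have : (2 : F) • x = (2 : F) • ((B v x / B v v) • v + (B w x / B w w) • w) := by
      rw [smul_add, smul_smul, smul_smul, ← mul_div_assoc, ← mul_div_assoc, two_smul]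
      linear_combination (norm := abel) hx
    exact smul_right_injective V h.two this
  have hlin : ∀ a b : F, a • v + b • w = 0 → a = 0 ∧ b = 0 := fun a b e => by
    have e1 := congrArg (B v) e
    have e2 := congrArg (B w) e
    simp only [map_add, map_smul, smul_eq_mul, hvw, hwv, map_zero, mul_zero, add_zero, zero_add,
      mul_eq_zero] at e1 e2
    exact ⟨e1.resolve_right hα, e2.resolve_right hβ⟩
  have key : ∀ g ∈ h.sys.H t, ∀ a b c : F, ρ g v = a • v + b • w → ρ g w = c • v + (-a) • w →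
      a * a + b * c = 1 → h.sys.Refl g := by
    intro g hg a b c e1 e2 e3
    have hgg : g * g = 1 := h.eq_one_of_fix ht (mul_mem hg hg) fun x hx => by
      obtain ⟨p, q, rfl⟩ := hspan x hx
      simp only [map_mul, End.mul_apply, map_add, map_smul, e1, e2]
      linear_combination (norm := module) (p * e3) • v + (q * e3) • w
    have hP' : h.sys.Pair t g (t * g) := ⟨ht, hgg, hg, rfl⟩
    have hg1 : g ≠ 1 := by
      rintro rfl
      rw [map_one, End.one_apply] at e1 e2
      have f1 := (hlin (a - 1) b (by linear_combination (norm := module) -e1)).1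
      have f2 := (hlin c (-a - 1) (by linear_combination (norm := module) -e2)).2
      exact h.two (by linear_combination -f1 - f2)
    have hg2 : t * g ≠ 1 := fun e => by
      have : g = t := by rw [eq_inv_of_mul_eq_one_right e, inv_eq_of_mul_self ht]
      rw [this] at e1 e2
      rw [htv] at e1
      rw [htw] at e2
      have f1 := (hlin (a + 1) b (by linear_combination (norm := module) -e1)).1
      have f2 := (hlin c (-a + 1) (by linear_combination (norm := module) -e2)).2
      exact h.two (by linear_combination f1 + f2)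
    have := hP'.rk_add
    have := InvSys.rk_pos (X := h.sys) hg1
    have := InvSys.rk_pos (X := h.sys) hg2
    exact ⟨hgg, by omega⟩
  obtain ⟨a, b, e1⟩ := hspan _ (h.neg_map hg htv)
  obtain ⟨c, d, e2⟩ := hspan _ (h.neg_map hg htw)
  have i1 := h.iso g v v
  have i2 := h.iso g w w
  have i3 := h.iso g v w
  simp only [e1, e2, map_add, map_smul, LinearMap.add_apply, LinearMap.smul_apply, smul_eq_mul,
    hvw, hwv] at i1 i2 i3
  have hD : ((a * d - b * c) - 1) * ((a * d - b * c) + 1) = 0 := by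
    apply mul_right_cancel₀ (mul_ne_zero hα hβ)
    linear_combination (c * c * B v v + d * d * B w w) * i1 + B v v * i2 -
      (a * c * B v v + b * d * B w w) * i3
  have hd : d = a * (a * d - b * c) := by
    apply mul_right_cancel₀ hα
    linear_combination -d * i1 + b * i3
  rcases mul_eq_zero.1 hD with e | e
  · right
    have hda : d = a := by rw [hd, sub_eq_zero.1 e, mul_one]
    refine key _ (mul_mem hg hrt) (-a) (-b) c ?_ ?_ (by rw [hda] at e; linear_combination e)
    · rw [map_mul, End.mul_apply, hv1, map_neg, e1]; module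
    · rw [map_mul, End.mul_apply, hv.2, hvw, mul_zero, zero_div, zero_smul, sub_zero, e2, hda,
        neg_neg]
  · left
    have hda : d = -a := by rw [hd, eq_neg_of_add_eq_zero_left e, mul_neg_one]
    exact key g hg a b c e1 (by rw [e2, hda]) (by rw [hda] at e; linear_combination -e)

include hs hn in
theorem orth_conj_mem [Fintype F] (hF : Odd (Fintype.card F)) (t : G) (ht : t * t = 1)
    (h2 : 2 ≤ h.sys.rk t) (r : G) (hr : h.sys.Refl r) : ∃ g, g * r * g⁻¹ ∈ h.sys.H t := by
  obtain ⟨u, hu, -⟩ := h.exists_isReflIn_of_refl hn hr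
  obtain ⟨v, hv, htv⟩ := h.exists_aniso hs hn ht
    (InvSys.ne_one_of_rk_pos (X := h.sys) (by omega))
  obtain ⟨r₁, hr₁⟩ := h.exists_isReflIn hs hv
  have h1 := h.refl_of_isReflIn hr₁
  have hP : h.sys.Pair t r₁ (t * r₁) := ⟨ht, h1.1, h.mem_of_isReflIn hr₁ ht htv, rfl⟩
  obtain ⟨w, hw, hw1⟩ := h.exists_aniso hs hn hP.vv
    (InvSys.ne_one_of_rk_pos (X := h.sys) (by have := hP.rk_add; have := h1.2; omega))
  obtain ⟨htw, hvw⟩ := h.orth_of_pair hP hr₁ hw1
  obtain ⟨x, y, e⟩ := exists_binary_repr hF hv hw (B u u)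
  have e' : B u u = B (x • v + y • w) (x • v + y • w) := by
    simp only [map_add, map_smul, LinearMap.add_apply, LinearMap.smul_apply, smul_eq_mul, hvw,
      hs w v]
    linear_combination -e
  obtain ⟨r', hr'⟩ := h.exists_isReflIn hs (e' ▸ hu.1)
  obtain ⟨g, hg⟩ := isConj_iff.1 (h.isConj_of_eq hs hu hr' e')
  exact ⟨g, hg ▸ h.mem_of_isReflIn hr' ht (by rw [map_add, map_smul, map_smul, htv, htw]; module)⟩

include hs hn in
theorem isConj_of_isSquare {r r' : G} {v w : V} (hr : IsReflIn B ρ r v) (hr' : IsReflIn B ρ r' w)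
    (e : IsSquare (B v v * B w w)) : IsConj r r' := by
  obtain ⟨s, e⟩ := e
  have hβ := hr'.1
  have hs0 : s ≠ 0 := fun h0 => mul_ne_zero hr.1 hr'.1 (by rw [e, h0, mul_zero])
  refine h.isConj_of_eq hs hr (isReflIn_smul hr' (div_ne_zero hs0 hβ)) ?_
  simp only [map_smul, LinearMap.smul_apply, smul_eq_mul]
  field_simp
  linear_combination e

include hs hn in
/-- Sylow `2`-subgroups of `Ω(V)`, `dim V ≥ 4`, have elementary abelian abelianization. -/
theorem sq_mem_commutator_omega [Fintype F] (hF : Odd (Fintype.card F)) (h4 : 4 ≤ finrank F V)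
    (P : Sylow 2 (commutator G)) :
    ∀ x : (P : Subgroup (commutator G)), x ^ 2 ∈ commutator (P : Subgroup (commutator G)) := by
  obtain ⟨z, hz, -, hH, hrk⟩ := h.exists_neg_one
  refine sq_mem_commutator_of_range (commutator G).subtype (subtype_injective _) P fun S hS => ?_
  rw [range_subtype]
  refine (h.hasRefl_orth hs hn).inf_commutator_le_sqN (h.orth_rk_one hn) (h.orth_rk_two hs hn)
    (h.orth_conj_mem hs hn hF) (fun r₁ r₂ r₃ h₁ h₂ h₃ => ?_) hz hH (hrk ▸ h4) hS
  obtain ⟨v₁, hv₁, -⟩ := h.exists_isReflIn_of_refl hn h₁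
  obtain ⟨v₂, hv₂, -⟩ := h.exists_isReflIn_of_refl hn h₂
  obtain ⟨v₃, hv₃, -⟩ := h.exists_isReflIn_of_refl hn h₃
  exact (isSquare_mul_of_three hF hv₁.1 hv₂.1 hv₃.1).imp (h.isConj_of_isSquare hs hn hv₁ hv₂)
    (Or.imp (h.isConj_of_isSquare hs hn hv₁ hv₃) (h.isConj_of_isSquare hs hn hv₂ hv₃))

end IsoRep

/-- The isometry group of a quadratic form given by a bilinear form. -/
theorem isoRep_isometryGroup {ι : Type} [Fintype ι] [DecidableEq ι] [Finite F] (h2 : (2 : F) ≠ 0)
    {Q : (ι → F) → F} {B : LinearMap.BilinForm F (ι → F)} (hs : ∀ v w, B v w = B w v)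
    (hQ : ∀ v, Q v + Q v = B v v) :
    IsoRep B ((Matrix.toLinAlgEquiv' : Matrix ι ι F ≃ₐ[F] _).toMonoidHom.comp
      ((Units.coeHom (Matrix ι ι F)).comp (isometryGroup F Q).subtype)) where
  two := h2
  inj := fun a b e => Subtype.ext (Units.ext (Matrix.toLinAlgEquiv'.injective e))
  iso g v w := by
    have e : ∀ v, B ((g.1 : Matrix ι ι F).mulVec v) ((g.1 : Matrix ι ι F).mulVec v) = B v v :=
      fun v => by rw [← hQ, ← hQ]; exact congrArg₂ (· + ·) (g.2 v v) (g.2 v v)
    have e1 := e (v + w)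
    rw [Matrix.mulVec_add] at e1
    simp only [map_add, LinearMap.add_apply, e, hs w v] at e1
    rw [hs ((g.1 : Matrix ι ι F).mulVec w)] at e1
    apply mul_left_cancel₀ h2
    show 2 * B ((g.1 : Matrix ι ι F).mulVec v) ((g.1 : Matrix ι ι F).mulVec w) = _
    linear_combination e1
  ex f hf hiso := by
    have hu : IsUnit (LinearMap.toMatrix' f) := by
      have : IsUnit f := (LinearMap.isUnit_iff_ker_eq_bot f).2 (LinearMap.ker_eq_bot.2 hf)
      exact this.map (LinearMap.toMatrixAlgEquiv' : _ ≃ₐ[F] Matrix ι ι F)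
    refine ⟨⟨hu.unit, fun u _ => ?_⟩, ?_⟩
    · apply mul_left_cancel₀ h2
      show 2 * Q ((LinearMap.toMatrix' f).mulVec u) = 2 * Q u
      rw [two_mul, two_mul, hQ, hQ, LinearMap.toMatrix'_mulVec, hiso]
    · exact Matrix.toLin'_toMatrix' f

theorem sq_mem_commutator_Omega {ι : Type} [Fintype ι] [DecidableEq ι] [Fintype F]
    (hF : Odd (Fintype.card F)) {Q : (ι → F) → F} {B : LinearMap.BilinForm F (ι → F)}
    (hs : ∀ v w, B v w = B w v) (hn : ∀ v, (∀ w, B v w = 0) → v = 0)
    (hQ : ∀ v, Q v + Q v = B v v) (h4 : 4 ≤ Fintype.card ι) (P : Sylow 2 (Omega F Q)) :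
    ∀ x : (P : Subgroup (Omega F Q)), x ^ 2 ∈ commutator (P : Subgroup (Omega F Q)) :=
  (isoRep_isometryGroup (two_ne_zero_of_odd_card hF) hs hQ).sq_mem_commutator_omega hs hn hF
    (by rwa [finrank_fintype_fun_eq_card]) P

end LG
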