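import Cfsg.Agent.Lib.Lin.Blich

/-!
# Linear `p'`-groups over the prime field: complex characters of small degree, Zsigmondy primes
-/

set_option autoImplicit false
set_option linter.unusedSectionVars false
set_option linter.style.haveILetI false

namespace LG

open Cfsg CT GT BT Subgroup Module Polynomial
open scoped commutatorElement Matrix

variable {p : ℕ} [hp : Fact p.Prime] {K : Type*} [Group K] [Finite K]
variable {V : Type*} [AddCommGroup V] [Module (ZMod p) V] [Module.Finite (ZMod p) V]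

theorem natCast_card_ne_zero {L : Type*} [Field L] [CharP L p] (hK : ¬ p ∣ Nat.card K)
    (H : Subgroup K) : (Nat.card H : L) ≠ 0 := fun h =>
  hK (((CharP.cast_eq_zero_iff L p _).1 h).trans (card_subgroup_dvd_card H))

theorem sum_apply_fixed (ρ : Representation (ZMod p) K V) (H : Subgroup K) [Fintype H] (w : V)
    {g : K} (hg : g ∈ H) : ρ g ((∑ h : H, ρ h) w) = (∑ h : H, ρ h) w := by
  rw [← Module.End.mul_apply, Finset.mul_sum]
  congr 1
  exact Fintype.sum_equiv (Equiv.mulLeft ⟨g, hg⟩) _ _ fun x => (map_mul ρ _ _).symm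

theorem exists_irr_of_eigen (ρ : Representation (ZMod p) K V) (hK : ¬ p ∣ Nat.card K) {z : K}
    (hz : z ∈ center K) (S : Finset (AlgebraicClosure (ZMod p))) (hS : S.Nonempty)
    (h : ∀ a ∈ S, aeval a (ρ z).charpoly = 0) :
    ∃ ψ : IrrCharacter K, S.card * charDegree ψ.1 ≤ finrank (ZMod p) V ∧
      ∃ v : V, v ≠ 0 ∧ ∀ g ∈ ker ψ.1, ρ g v = v := by
  classical
  let L := AlgebraicClosure (ZMod p)
  let n := finrank (ZMod p) V
  obtain ⟨M, hM⟩ := BT.exists_isPModular hp.out
  obtain ⟨ι⟩ := BT.nonempty_ringHom_resF hM L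
  letI := ι.toAlgebra
  let b := Module.finBasis (ZMod p) V
  let φ : Module.End (ZMod p) V →+* Module.End L (Fin n → L) :=
    (Matrix.toLinAlgEquiv' (R := L) (n := Fin n)).toRingHom.comp
      (((algebraMap (ZMod p) L).mapMatrix (m := Fin n)).comp
        (LinearMap.toMatrixAlgEquiv b).toRingHom)
  have hc : (φ (ρ z)).charpoly = (ρ z).charpoly.map (algebraMap _ L) := by
    rw [← LinearMap.charpoly_toMatrix _ b, ← Matrix.charpoly_map, ← Matrix.charpoly_toLin']
    rfl
  have h0 : (φ (ρ z)).charpoly ≠ 0 := (LinearMap.charpoly_monic _).ne_zero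
  obtain ⟨a, ha, hmin⟩ := S.exists_min_image
    (fun a => finrank L (Module.End.eigenspace (φ (ρ z)) a)) hS
  set U := Module.End.eigenspace (φ (ρ z)) a with hU
  have h1 : S.card * finrank L U ≤ n := by
    have h2 : ∑ a ∈ S, (φ (ρ z)).charpoly.roots.count a ≤ n := by
      refine le_trans ?_ ((card_roots' _).trans_eq ((LinearMap.charpoly_natDegree (φ (ρ z))).trans
        (finrank_fin_fun L)))
      rw [← Multiset.toFinset_sum_count_eq]
      refine Finset.sum_le_sum_of_ne_zero fun x _ hx => ?_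
      exact Multiset.mem_toFinset.2 (Multiset.count_ne_zero.1 hx)
    refine le_trans ?_ h2
    rw [← smul_eq_mul]
    refine Finset.card_nsmul_le_sum _ _ _ fun x hx => (hmin x hx).trans ?_
    rw [count_roots]
    exact LinearMap.finrank_eigenspace_le _ _
  have h2 : U ≠ ⊥ := (Module.End.hasEigenvalue_iff_isRoot_charpoly _ _).2 (by
    rw [hc, IsRoot, eval_map_algebraMap]; exact h a ha)
  let σ : Representation L K (Fin n → L) := φ.toMonoidHom.comp ρ
  let A : Subrepresentation σ := ⟨U, fun g v hv => by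
    rw [hU, Module.End.mem_eigenspace_iff] at hv ⊢
    change φ (ρ z) (φ (ρ g) v) = a • φ (ρ g) v
    rw [← Module.End.mul_apply, ← map_mul, ← map_mul, ← mem_center_iff.1 hz g, map_mul, map_mul,
      Module.End.mul_apply, hv, map_smul]⟩
  let c := Module.finBasis L U
  obtain ⟨ψ, h3, E, hE, h4⟩ := BT.exists_irr_of_algebra hM hK
    (Nat.pos_of_ne_zero fun h => h2 (Submodule.finrank_eq_zero.1 h))
    ((LinearMap.toMatrixAlgEquiv c).toMonoidHom.comp A.toRepresentation)
  refine ⟨ψ, (Nat.mul_le_mul_left _ h3).trans h1, ?_⟩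
  haveI := Fintype.ofFinite (ker ψ.1)
  obtain ⟨F, rfl⟩ := (LinearMap.toMatrixAlgEquiv c).surjective E
  obtain ⟨u, hu⟩ : ∃ u, F u ≠ 0 := by
    by_contra h
    push Not at h
    exact hE (by rw [show F = 0 from LinearMap.ext h, map_zero])
  have h5 : ∀ g ∈ ker ψ.1, φ (ρ g) (F u) = F u := fun g hg => by
    have := h4 g hg
    change LinearMap.toMatrixAlgEquiv c _ * _ = _ at this
    rw [← map_mul, EmbeddingLike.apply_eq_iff_eq] at this
    exact congrArg Subtype.val (LinearMap.congr_fun this u)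
  have h6 : ∑ g : ker ψ.1, ρ g ≠ 0 := fun h => by
    have h7 : φ (∑ g : ker ψ.1, ρ g) (F u) = (Nat.card (ker ψ.1) : L) • (F u : Fin n → L) := by
      rw [map_sum, LinearMap.sum_apply, Finset.sum_congr rfl fun (g : ker ψ.1) _ => h5 g g.2]
      simp [Nat.cast_smul_eq_nsmul]
    rw [h, map_zero, LinearMap.zero_apply, eq_comm, smul_eq_zero] at h7
    exact h7.elim (natCast_card_ne_zero hK _) fun h => hu (Subtype.ext h)
  obtain ⟨w, hw⟩ : ∃ w, (∑ g : ker ψ.1, ρ g) w ≠ 0 := by
    by_contra h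
    push Not at h
    exact h6 (LinearMap.ext h)
  exact ⟨_, hw, fun g hg => sum_apply_fixed ρ _ w hg⟩

theorem exists_irr_fix [Nontrivial V] (ρ : Representation (ZMod p) K V) (hK : ¬ p ∣ Nat.card K) :
    ∃ ψ : IrrCharacter K, charDegree ψ.1 ≤ finrank (ZMod p) V ∧
      ∃ v : V, v ≠ 0 ∧ ∀ g ∈ ker ψ.1, ρ g v = v := by
  simpa using exists_irr_of_eigen ρ hK (one_mem _) {1} (by simp) (by
    simp [LinearMap.charpoly_one, (finrank_pos (R := ZMod p) (M := V)).ne'])

theorem exists_irr_of_not_scalar [Nontrivial V] (ρ : Representation (ZMod p) K V)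
    (hK : ¬ p ∣ Nat.card K) {z : K} (hz : z ∈ center K) (h : ∀ c : ZMod p, ρ z ≠ c • 1) :
    ∃ ψ : IrrCharacter K, 2 * charDegree ψ.1 ≤ finrank (ZMod p) V ∧
      ∃ v : V, v ≠ 0 ∧ ∀ g ∈ ker ψ.1, ρ g v = v := by
  classical
  have hi : IsIntegral (ZMod p) (ρ z) := Algebra.IsIntegral.isIntegral _
  have h1 : minpoly (ZMod p) (ρ z) ∣ X ^ Nat.card K - 1 := minpoly.dvd _ _ (by
    rw [map_sub, map_pow, aeval_X, ← map_pow, pow_card_eq_one', map_one, map_one, sub_self])
  have h2 : (minpoly (ZMod p) (ρ z)).Separable := (X_pow_sub_one_separable_iff.2 (by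
    rwa [Ne, CharP.cast_eq_zero_iff _ p])).of_dvd h1
  have h3 : 2 ≤ (minpoly (ZMod p) (ρ z)).natDegree := by
    have h4 := minpoly.natDegree_pos hi
    by_contra h5
    obtain ⟨c, hc⟩ := minpoly.natDegree_eq_one_iff.1
      (show (minpoly (ZMod p) (ρ z)).natDegree = 1 by omega)
    exact h c (hc.symm.trans (Algebra.algebraMap_eq_smul_one c))
  have h4 := card_rootSet_eq_natDegree (K := AlgebraicClosure (ZMod p)) h2 (IsAlgClosed.splits _)
  rw [← Set.toFinset_card] at h4
  obtain ⟨ψ, h5, h6⟩ := exists_irr_of_eigen ρ hK hz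
    ((minpoly (ZMod p) (ρ z)).rootSet (AlgebraicClosure (ZMod p))).toFinset
    (Finset.card_pos.1 (by omega)) fun a ha => aeval_eq_zero_of_dvd_aeval_eq_zero
      (LinearMap.minpoly_dvd_charpoly _) (aeval_eq_zero_of_mem_rootSet (Set.mem_toFinset.1 ha))
  exact ⟨ψ, (Nat.mul_le_mul_right _ (h4 ▸ h3)).trans h5, h6⟩

/-- `r` is a Zsigmondy prime divisor of `p ^ n - 1`. -/
structure Zs (p r n : ℕ) : Prop where
  prime : r.Prime
  pos : 0 < n
  dvd : r ∣ p ^ n - 1
  min : ∀ j, 0 < j → j < n → ¬ r ∣ p ^ j - 1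

namespace Zs

variable {r n : ℕ} (Z : Zs p r n)
include Z

theorem orderOf_eq : orderOf (p : ZMod r) = n := by
  have h3 : ∀ j, r ∣ p ^ j - 1 ↔ (p : ZMod r) ^ j = 1 := fun j => by
    rw [← ZMod.natCast_eq_zero_iff, Nat.cast_sub (Nat.one_le_pow _ _ hp.out.pos), sub_eq_zero]
    simp
  exact (orderOf_eq_iff Z.pos).2 ⟨(h3 n).1 Z.dvd, fun m hm hm0 h => Z.min m hm0 hm ((h3 m).2 h)⟩

theorem dvd_iff (j : ℕ) : r ∣ p ^ j - 1 ↔ n ∣ j := by
  rw [← ZMod.natCast_eq_zero_iff, Nat.cast_sub (Nat.one_le_pow _ _ hp.out.pos), sub_eq_zero,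
    ← Z.orderOf_eq, orderOf_dvd_iff_pow_eq_one]
  simp

theorem dvd_sub_one : n ∣ r - 1 := by
  haveI := Fact.mk Z.prime
  have h4 := Z.orderOf_eq
  rw [← h4]
  refine ZMod.orderOf_dvd_card_sub_one fun h => ?_
  rw [h, orderOf_zero] at h4
  have := Z.pos
  omega

theorem lt : n < r := by
  have := Z.prime.two_le
  have := Nat.le_of_dvd (by omega) Z.dvd_sub_one
  omega

theorem not_dvd : ¬ r ∣ Nat.card (ZMod p) := fun h => by
  rw [Nat.card_zmod] at h
  have h1 := Nat.dvd_sub (h.trans (dvd_pow_self p Z.pos.ne')) Z.dvd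
  rw [Nat.sub_sub_self (Nat.one_le_pow _ _ hp.out.pos)] at h1
  exact Z.prime.one_lt.ne' (Nat.dvd_one.1 h1)

theorem pow_inj {i j : ℕ} (hi : i < n) (hj : j < n) (h : p ^ i ≡ p ^ j [MOD r]) : i = j := by
  refine pow_injOn_Iio_orderOf (x := (p : ZMod r)) (Z.orderOf_eq ▸ hi) (Z.orderOf_eq ▸ hj) ?_
  simpa using (ZMod.natCast_eq_natCast_iff _ _ _).2 h

theorem dvd_finrank_sub {x : Module.End (ZMod p) V} (hx : x ^ r = 1) :
    n ∣ finrank (ZMod p) V - finrank (ZMod p) (LinearMap.ker (x - 1)) := by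
  have h3 := pow_finrank_modEq x Z.prime hx
  obtain ⟨d, hd⟩ := Nat.exists_eq_add_of_le (Submodule.finrank_le (LinearMap.ker (x - 1)))
  rw [hd, pow_add] at h3
  have h7 := Nat.ModEq.cancel_left_of_coprime (a := Nat.card (ZMod p) ^ d) (b := 1)
    (((Nat.Prime.coprime_iff_not_dvd Z.prime).2 Z.not_dvd).pow_right _) (by rwa [mul_one])
  rw [Nat.card_zmod] at h7
  rw [hd, Nat.add_sub_cancel_left, ← Z.dvd_iff]
  exact (Nat.modEq_iff_dvd' (Nat.one_le_pow _ _ hp.out.pos)).1 h7.symm

theorem exists_irr (ρ : Representation (ZMod p) K V) (hK : ¬ p ∣ Nat.card K) [Nontrivial V] {z : K}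
    (hz : z ∈ center K) (hr : ρ z ^ r = 1) (h : ∀ v, ρ z v = v → v = 0) :
    ∃ ψ : IrrCharacter K, n * charDegree ψ.1 ≤ finrank (ZMod p) V ∧
      ∃ v : V, v ≠ 0 ∧ ∀ g ∈ ker ψ.1, ρ g v = v := by
  classical
  let L := AlgebraicClosure (ZMod p)
  have hi : IsIntegral (ZMod p) (ρ z) := Algebra.IsIntegral.isIntegral _
  obtain ⟨ζ, hζ⟩ := IsAlgClosed.exists_aeval_eq_zero L _ (minpoly.degree_pos hi).ne'
  have h1 : ζ ^ r = 1 := by
    have := aeval_eq_zero_of_dvd_aeval_eq_zero (minpoly.dvd (ZMod p) (ρ z) (p := X ^ r - 1)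
      (by simp [hr])) hζ
    simpa [sub_eq_zero] using this
  have h2 : ζ ≠ 1 := by
    rintro rfl
    obtain ⟨v, hv⟩ := (Module.End.hasEigenvalue_of_isRoot (f := ρ z) (μ := 1) (by
      rw [← map_one (algebraMap (ZMod p) L), aeval_algebraMap_apply_eq_algebraMap_eval,
        map_eq_zero] at hζ
      exact hζ)).exists_hasEigenvector
    exact hv.2 (h v (by rw [hv.apply_eq_smul, one_smul]))
  haveI := Fact.mk Z.prime
  have h3 : orderOf ζ = r := orderOf_eq_prime h1 h2
  have h4 : ∀ i : ℕ, aeval (ζ ^ p ^ i) (ρ z).charpoly = 0 := fun i => by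
    induction i with
    | zero => simpa using aeval_eq_zero_of_dvd_aeval_eq_zero (LinearMap.minpoly_dvd_charpoly _) hζ
    | succ i ih =>
      have := aeval_algHom_apply (FiniteField.frobeniusAlgHom (ZMod p) L) (ζ ^ p ^ i)
        (ρ z).charpoly
      rw [ih, map_zero] at this
      rw [FiniteField.coe_frobeniusAlgHom, ZMod.card] at this
      rwa [pow_succ, pow_mul]
  have h5 := exists_irr_of_eigen ρ hK hz ((Finset.range n).image fun i => ζ ^ p ^ i)
    (by simpa using Z.pos.ne') fun a ha => by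
      obtain ⟨i, -, rfl⟩ := Finset.mem_image.1 ha
      exact h4 i
  have h6 : Set.InjOn (fun i => ζ ^ p ^ i) (Finset.range n) := fun i hi j hj e => by
    refine Z.pow_inj (by simpa using hi) (by simpa using hj) ?_
    have h7 : IsUnit ζ := IsUnit.of_pow_eq_one h1 Z.prime.ne_zero
    lift ζ to Lˣ using h7
    rw [← h3, orderOf_units, ← pow_eq_pow_iff_modEq]
    exact Units.ext (by simpa using e)
  rwa [Finset.card_image_of_injOn h6, Finset.card_range] at h5

end Zs

namespace Zs

variable {r : ℕ} (Z : Zs p r (finrank (ZMod p) V)) {x : Module.End (ZMod p) V} (hx : x ^ r = 1)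
  (h1 : x ≠ 1)
include Z hx h1

theorem eq_bot_or_top (W : Submodule (ZMod p) V) (hW : ∀ v ∈ W, x v ∈ W) : W = ⊥ ∨ W = ⊤ :=
  eq_bot_or_top_of_prime x Z.prime hx h1 Z.not_dvd (by simpa using Z.min) W hW

theorem isField : IsField (Subalgebra.centralizer (ZMod p) ({x} : Set (Module.End (ZMod p) V))) := by
  set R := Subalgebra.centralizer (ZMod p) ({x} : Set (Module.End (ZMod p) V))
  have hR : ∀ {a}, a ∈ R → x * a = a * x := fun ha =>
    (Subalgebra.mem_centralizer_iff _).1 ha x rfl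
  have : Nontrivial (Module.End (ZMod p) V) := ⟨⟨x, 1, h1⟩⟩
  have : NoZeroDivisors R := ⟨fun {a b} hab => by
    rcases Z.eq_bot_or_top hx h1 (LinearMap.ker (a : Module.End (ZMod p) V)) (fun v hv => by
      rw [LinearMap.mem_ker] at hv ⊢
      rw [← Module.End.mul_apply, ← hR a.2, Module.End.mul_apply, hv, map_zero]) with h | h
    · refine Or.inr (Subtype.ext (LinearMap.ext fun v => LinearMap.ker_eq_bot.1 h ?_))
      have h2 : (a : Module.End (ZMod p) V) * b = 0 := congrArg Subtype.val hab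
      rw [← Module.End.mul_apply, h2]
      simp
    · exact Or.inl (Subtype.ext (LinearMap.ker_eq_top.1 h))⟩
  have : IsDomain R := NoZeroDivisors.to_isDomain R
  have : Finite V := Module.finite_of_finite (ZMod p)
  have : Finite (Module.End (ZMod p) V) := Module.finite_of_finite (ZMod p)
  exact Finite.isDomain_to_isField R

theorem mem_comm {a : Module.End (ZMod p) V} (ha : a * x = x * a) :
    a ∈ Subalgebra.centralizer (ZMod p) ({x} : Set (Module.End (ZMod p) V)) :=
  (Subalgebra.mem_centralizer_iff _).2 fun y hy => by rw [hy, ha]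

theorem comm {a b : Module.End (ZMod p) V} (ha : a * x = x * a) (hb : b * x = x * b) :
    a * b = b * a :=
  congrArg Subtype.val ((Z.isField hx h1).mul_comm ⟨a, Z.mem_comm hx h1 ha⟩
    ⟨b, Z.mem_comm hx h1 hb⟩)

theorem card_le {P : (ZMod p)[X]} (hP : P.Monic) (T : Finset (Module.End (ZMod p) V))
    (hT : ∀ y ∈ T, y * x = x * y ∧ aeval y P = 0) : T.card ≤ P.natDegree := by
  classical
  set R := Subalgebra.centralizer (ZMod p) ({x} : Set (Module.End (ZMod p) V))
  have hF := Z.isField hx h1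
  letI : CommRing R := { (inferInstance : Ring R) with mul_comm := hF.mul_comm }
  haveI := hF.isDomain
  have h2 := card_le_degree_of_subset_roots (p := P.map (algebraMap (ZMod p) R))
    (Z := T.attach.image fun y => (⟨y.1, Z.mem_comm hx h1 (hT y.1 y.2).1⟩ : R)) (by
      intro y hy
      obtain ⟨z, -, rfl⟩ := Finset.mem_image.1 hy
      rw [mem_roots (hP.map _).ne_zero, IsRoot, eval_map_algebraMap]
      have := aeval_algHom_apply R.val ⟨z.1, Z.mem_comm hx h1 (hT z.1 z.2).1⟩ P
      exact Subtype.ext (this.symm.trans (hT z.1 z.2).2))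
  rwa [Finset.card_image_of_injective _ (fun a b e => Subtype.ext (Subtype.mk.inj e)),
    Finset.card_attach, hP.natDegree_map] at h2

theorem isCyclic {σ : Representation (ZMod p) K V} (hσ : Function.Injective σ)
    (h : ∀ g, σ g * x = x * σ g) : IsCyclic K := by
  set R := Subalgebra.centralizer (ZMod p) ({x} : Set (Module.End (ZMod p) V))
  have hF := Z.isField hx h1
  letI : CommRing R := { (inferInstance : Ring R) with mul_comm := hF.mul_comm }
  haveI := hF.isDomain
  exact isCyclic_of_injective_ringHom (R := R)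
    (σ.codRestrict R.toSubmonoid fun g => Z.mem_comm hx h1 (h g))
    fun a b e => hσ (congrArg Subtype.val e)

theorem eq_zero {v : V} (hv : x v = v) : v = 0 := by
  rcases Z.eq_bot_or_top hx h1 (LinearMap.ker (x - 1)) (fun v hv => by
    simpa [sub_eq_zero] using congrArg x (by simpa [sub_eq_zero] using hv : x v = v)) with h | h
  · rw [← Submodule.mem_bot (ZMod p), ← h]
    simpa [sub_eq_zero] using hv
  · exact absurd (sub_eq_zero.1 (LinearMap.ker_eq_top.1 h)) h1

end Zs

theorem Zs.eq_one {r : ℕ} (Z : Zs p r (finrank (ZMod p) V)) {x : Module.End (ZMod p) V} {k : ℕ}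
    (hx : x ^ r ^ k = 1) {v : V} (h0 : v ≠ 0) (hv : x v = v) : x = 1 := by
  induction k with
  | zero => simpa using hx
  | succ k ih =>
    refine ih (by_contra fun h => h0 (Z.eq_zero (by rw [← pow_mul, ← pow_succ, hx]) h ?_))
    rw [Module.End.pow_apply]
    exact Function.IsFixedPt.iterate hv _

theorem charpoly_eq_of_isConj (ρ : Representation (ZMod p) K V) {g h : K} (e : IsConj g h) :
    (ρ g).charpoly = (ρ h).charpoly := by
  classical
  obtain ⟨c, rfl⟩ := isConj_iff.1 e
  let b := Module.finBasis (ZMod p) V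
  rw [← LinearMap.charpoly_toMatrix _ b, ← LinearMap.charpoly_toMatrix _ b, map_mul ρ (c * g),
    LinearMap.toMatrix_mul, Matrix.charpoly_mul_comm, ← LinearMap.toMatrix_mul, ← map_mul,
    inv_mul_cancel_left]

theorem Zs.card_le_mul {W : Type*} [AddCommGroup W] [Module (ZMod p) W] [Module.Finite (ZMod p) W]
    {r : ℕ} (Z : Zs p r (finrank (ZMod p) W)) {x : Module.End (ZMod p) W} (hx : x ^ r = 1)
    (h1 : x ≠ 1) (ρ : Representation (ZMod p) K V) {ι : W →ₗ[ZMod p] V} (hι : Function.Injective ι)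
    (T : Finset (Module.End (ZMod p) W))
    (hT : ∀ y ∈ T, y * x = x * y ∧ ∃ g : K, ∀ w, ρ g (ι w) = ι (y w)) :
    T.card ≤ finrank (ZMod p) V * Nat.card (ConjClasses K) := by
  classical
  haveI := Fintype.ofFinite (ConjClasses K)
  choose! hc f hf using hT
  rw [Nat.card_eq_fintype_card, ← Finset.card_univ]
  refine Finset.card_le_mul_card_image_of_maps_to (f := fun y => ConjClasses.mk (f y))
    (fun _ _ => Finset.mem_univ _) _ fun c _ => ?_
  obtain ⟨g, rfl⟩ := ConjClasses.mk_surjective c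
  rw [← LinearMap.charpoly_natDegree (ρ g)]
  refine Z.card_le hx h1 (LinearMap.charpoly_monic _) _ fun y hy => ?_
  obtain ⟨hy, e⟩ := Finset.mem_filter.1 hy
  refine ⟨hc y hy, LinearMap.ext fun w => hι ?_⟩
  have h2 : ∀ (k : ℕ) w, (ρ (f y) ^ k) (ι w) = ι ((y ^ k) w) := fun k => by
    induction k with
    | zero => simp
    | succ k ih => simp [pow_succ, hf y hy, ih]
  have h3 := LinearMap.congr_fun (LinearMap.aeval_self_charpoly (ρ (f y))) (ι w)
  rw [charpoly_eq_of_isConj ρ (ConjClasses.mk_eq_mk_iff_isConj.1 e)] at h3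
  simpa [aeval_eq_sum_range, h2] using h3

theorem card_le_mul_of_eigen (ρ : Representation (ZMod p) K V) {v : V} (hv : v ≠ 0)
    (T : Finset (ZMod p)) (C : Finset (ConjClasses K))
    (hT : ∀ c ∈ T, ∃ g : K, ConjClasses.mk g ∈ C ∧ ρ g v = c • v) :
    T.card ≤ finrank (ZMod p) V * C.card := by
  classical
  choose! f hf hf' using hT
  refine Finset.card_le_mul_card_image_of_maps_to (f := fun y => ConjClasses.mk (f y)) hf _
    fun c _ => ?_
  obtain ⟨g, rfl⟩ := ConjClasses.mk_surjective c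
  rw [← LinearMap.charpoly_natDegree (ρ g)]
  refine card_le_degree_of_subset_roots fun y hy => ?_
  obtain ⟨hy, e⟩ := Finset.mem_filter.1 hy
  rw [mem_roots (LinearMap.charpoly_monic _).ne_zero,
    ← charpoly_eq_of_isConj ρ (ConjClasses.mk_eq_mk_iff_isConj.1 e),
    ← Module.End.hasEigenvalue_iff_isRoot_charpoly]
  exact Module.End.hasEigenvalue_of_hasEigenvector
    ⟨Module.End.mem_eigenspace_iff.2 (hf' y hy), hv⟩

theorem exists_mem_zpowers_orderOf {r : ℕ} [Fact r.Prime] {x : K} (hx : IsPElt r x) (h1 : x ≠ 1) :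
    ∃ y ∈ zpowers x, orderOf y = r := by
  obtain ⟨y, hy⟩ := exists_prime_orderOf_dvd_card' (G := zpowers x) r
    (by rw [Nat.card_zpowers]; exact hx.dvd_orderOf h1)
  exact ⟨y, y.2, by rw [orderOf_coe, hy]⟩

theorem unifCent_of_prime {r : ℕ} [Fact r.Prime] {R : Subgroup K} (hR : IsPGroup r R)
    (h : ∀ y ∈ R, orderOf y = r → centralizer ({y} : Set K) ≤ centralizer (R : Set K)) :
    UnifCent R := fun x hx hx1 => by
  refine le_antisymm ?_ (centralizer_le (Set.singleton_subset_iff.2 hx))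
  obtain ⟨y, hy, hyo⟩ := exists_mem_zpowers_orderOf (isPElt_of_mem hR hx) hx1
  refine le_trans (fun c hc => mem_centralizer_singleton_iff.2 ?_) (h y (zpowers_le.2 hx hy) hyo)
  exact (commute_of_mem_zpowers hy (mem_centralizer_singleton_iff.1 hc).symm).symm

theorem exists_central_orderOf {r : ℕ} [Fact r.Prime] {R : Subgroup K} (hR : IsPGroup r R)
    (h : R ≠ ⊥) : ∃ z ∈ R, orderOf z = r ∧ R ≤ centralizer ({z} : Set K) := by
  haveI := (nontrivial_iff_ne_bot _).2 h
  haveI := hR.center_nontrivial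
  obtain ⟨z, hz⟩ := exists_prime_orderOf_dvd_card' (G := Subgroup.center R) r
    ((hR.to_subgroup _).card_eq_or_dvd.resolve_left Finite.one_lt_card.ne')
  exact ⟨z, (z : R).2, by rw [orderOf_coe, orderOf_coe, hz], fun y hy =>
    mem_centralizer_singleton_iff.2 (congrArg Subtype.val (mem_center_iff.1 z.2 ⟨y, hy⟩))⟩

theorem invariants_apply_mem (ρ : Representation (ZMod p) K V) (N : Subgroup K) [hN : N.Normal]
    (g : K) {v : V} (hv : v ∈ Representation.invariants (ρ.comp N.subtype)) :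
    ρ g v ∈ Representation.invariants (ρ.comp N.subtype) := fun n => by
  have := congrArg (ρ g) (hv ⟨_, hN.conj_mem' n n.2 g⟩)
  simpa [← Module.End.mul_apply, ← map_mul, mul_assoc] using this

namespace Zs

variable {r : ℕ} (Z : Zs p r (finrank (ZMod p) V)) {ρ : Representation (ZMod p) K V}
  (hρ : Function.Injective ρ)
include Z hρ

theorem map_pow_eq {x : K} (hx : orderOf x = r) : ρ x ^ r = 1 ∧ ρ x ≠ 1 :=
  ⟨by rw [← map_pow, ← hx, pow_orderOf_eq_one, map_one], fun h => by
    rw [hρ (h.trans (map_one ρ).symm), orderOf_one] at hx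
    exact Z.prime.one_lt.ne hx⟩

theorem comm_centralizer {x : K} (hx : orderOf x = r) : ∀ a ∈ centralizer ({x} : Set K),
    ∀ b ∈ centralizer ({x} : Set K), a * b = b * a := fun a ha b hb => hρ (by
  rw [map_mul, map_mul]
  refine Z.comm (Z.map_pow_eq hρ hx).1 (Z.map_pow_eq hρ hx).2 ?_ ?_ <;> rw [← map_mul, ← map_mul]
  exacts [congrArg ρ (mem_centralizer_singleton_iff.1 ha),
    congrArg ρ (mem_centralizer_singleton_iff.1 hb)])

theorem exists_faithful (hK : ¬ p ∣ Nat.card K) {x : K} (hx : orderOf x = r) :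
    ∃ χ : IrrCharacter K, ker χ.1 = ⊥ ∧ charDegree χ.1 ≤ finrank (ZMod p) V := by
  haveI := Module.nontrivial_of_finrank_pos Z.pos
  obtain ⟨χ, h1, v, hv, h2⟩ := exists_irr_fix ρ hK
  refine ⟨χ, eq_bot_iff.2 fun g hg => hρ ?_, h1⟩
  rcases Z.eq_bot_or_top (Z.map_pow_eq hρ hx).1 (Z.map_pow_eq hρ hx).2 _
    (fun v hv => invariants_apply_mem ρ (ker χ.1) x hv) with h | h
  · exact absurd ((Submodule.eq_bot_iff _).1 h v fun g => h2 g g.2) hv
  · rw [map_one]
    exact LinearMap.ext fun w => (Submodule.eq_top_iff'.1 h w) ⟨g, hg⟩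

theorem sylow_normal [Fact r.Prime] (hK : ¬ p ∣ Nat.card K) (hr : r ∣ Nat.card K) (R : Sylow r K)
    (h : r ^ 2 ∣ Nat.card K ∨ 2 * finrank (ZMod p) V + 1 < r) : (R : Subgroup K).Normal := by
  obtain ⟨z, -, hzo, hRz⟩ := exists_central_orderOf R.isPGroup' (R.ne_bot_of_dvd_card hr)
  obtain ⟨χ, hk, hd⟩ := Z.exists_faithful hρ hK hzo
  rcases h with h | h
  · refine UnifCent.normal_of_faithful K (unifCent_of_prime R.isPGroup' fun y hy hyo c hc u hu =>
      Z.comm_centralizer hρ hyo u (mem_centralizer_singleton_iff.2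
        (Z.comm_centralizer hρ hzo _ (hRz hu) _ (hRz hy))) c hc) (irr_isCharacter χ) hk ?_
    have h3 := Nat.le_of_dvd Nat.card_pos (R.pow_dvd_card_of_pow_dvd_card h)
    have h5 := Nat.pow_le_pow_left Z.lt 2
    have h6 := Nat.pow_le_pow_left hd 2
    have := Z.pos
    rw [Nat.succ_eq_add_one] at h5
    nlinarith
  · exact sylow_normal_of_two_mul_lt (irr_isCharacter χ) hk (by omega) R

theorem exists_index_le [Fact r.Prime] (hr : r ∣ Nat.card K) (R : Sylow r K)
    (hN : (R : Subgroup K).Normal) :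
    ∃ x : K, orderOf x = r ∧ (centralizer ({x} : Set K)).index ≤ finrank (ZMod p) V := by
  classical
  obtain ⟨z, hz, hzo, hRz⟩ := exists_central_orderOf R.isPGroup' (R.ne_bot_of_dvd_card hr)
  refine ⟨z, hzo, ?_⟩
  haveI := Fintype.ofFinite K
  have h3 := Z.card_le (Z.map_pow_eq hρ hzo).1 (Z.map_pow_eq hρ hzo).2
    (LinearMap.charpoly_monic (ρ z)) ((Finset.univ.filter (IsConj z)).image ρ) fun y hy => by
      obtain ⟨g, hg, rfl⟩ := Finset.mem_image.1 hy
      replace hg := (Finset.mem_filter.1 hg).2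
      refine ⟨?_, by rw [charpoly_eq_of_isConj ρ hg, LinearMap.aeval_self_charpoly]⟩
      obtain ⟨c, rfl⟩ := isConj_iff.1 hg
      rw [← map_mul, ← map_mul]
      exact congrArg ρ (mem_centralizer_singleton_iff.1 (hRz (hN.conj_mem _ hz c)))
  rwa [Finset.card_image_of_injective _ hρ, ← Fintype.card_subtype, ← Nat.card_eq_fintype_card,
    card_conj_eq_index, LinearMap.charpoly_natDegree] at h3

end Zs

theorem isCompl_ker_range {x : Module.End (ZMod p) V} {r : ℕ} (hr : (r : ZMod p) ≠ 0)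
    (hx : x ^ r = 1) : IsCompl (LinearMap.ker (x - 1)) (LinearMap.range (x - 1)) := by
  have h1 : Disjoint (LinearMap.ker (x - 1)) (LinearMap.range (x - 1)) := by
    rw [Submodule.disjoint_def]
    rintro _ hw ⟨u, rfl⟩
    have h2 : x ((x - 1) u) = (x - 1) u := by simpa [sub_eq_zero] using hw
    have h3 := LinearMap.congr_fun (geom_sum_mul x r) u
    rw [hx, sub_self, Module.End.mul_apply, LinearMap.sum_apply, Finset.sum_congr rfl fun i _ =>
      show (x ^ i) ((x - 1) u) = (x - 1) u by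
        rw [Module.End.pow_apply]; exact Function.IsFixedPt.iterate h2 _] at h3
    rw [Finset.sum_const, Finset.card_range, ← Nat.cast_smul_eq_nsmul (ZMod p),
      LinearMap.zero_apply, smul_eq_zero] at h3
    exact h3.resolve_left hr
  refine ⟨h1, codisjoint_iff.2 (Submodule.eq_top_of_finrank_eq ?_)⟩
  have h2 := Submodule.finrank_sup_add_finrank_inf_eq (LinearMap.ker (x - 1))
    (LinearMap.range (x - 1))
  have h3 := LinearMap.finrank_range_add_finrank_ker (x - 1)
  rw [h1.eq_bot, finrank_bot] at h2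
  omega

end LG
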