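import Cfsg.Agent.Lib.Block.Robinson
import Cfsg.Agent.Lib.Block.Fong

/-!
# Faithful modular representations of `p'`-groups give faithful characters
-/

set_option autoImplicit false
set_option linter.unusedSectionVars false

namespace BT

open Cfsg CT GT
open scoped MonoidAlgebra ComplexConjugate

variable {p : ℕ} [Fact p.Prime] {M : Ideal AlgInt} (hM : IsPModular p M)
variable {G : Type*} [Group G] [Finite G]

attribute [local irreducible] instFieldResF

theorem _root_.CT.IsCentral.mul_setIdem_singleton {z : ℂ[G]} (hz : IsCentral z)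
    (χ : IrrCharacter G) : z * setIdem {χ} = omega χ.1 z • setIdem {χ} := by
  classical
  refine (hz.mul (isCentral_setIdem _)).ext_omega ((isCentral_setIdem _).smul _) fun ψ => ?_
  rw [omega_mul ψ hz, omega_smul, omega_setIdem]
  split_ifs with h
  · rw [Set.mem_singleton_iff.1 h]
  · simp

theorem sum_single_conj_mul_setIdem [Fintype G] (χ : IrrCharacter G) (y : G) :
    (χ.1 1 / Nat.card G) ^ 2 • ((∑ h : G, MonoidAlgebra.single (h * y * h⁻¹) (1 : ℂ)) *
      setIdem {χ}) = blockCoeff {χ} y⁻¹ • setIdem {χ} := by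
  have hz : IsCentral (∑ h : G, MonoidAlgebra.single (h * y * h⁻¹) (1 : ℂ)) :=
    isCentral_iff_cj.2 fun g => by
      rw [map_sum]
      refine Fintype.sum_equiv (Equiv.mulLeft g) _ _ fun h => ?_
      rw [cj_single]
      simp [mul_assoc]
  rw [hz.mul_setIdem_singleton, smul_smul, omega_sum, blockCoeff_singleton,
    (irr_isCharacter χ).apply_inv, Complex.conj_conj]
  congr 1
  have hG : (Nat.card G : ℂ) ≠ 0 := card_cast_ne_zero
  have h1 : χ.1 1 ≠ 0 := irr_apply_one_ne_zero χ
  simp only [omega_def, ev_single, one_mul, irr_isClassFunction χ y, Finset.sum_const,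
    Finset.card_univ, nsmul_eq_mul, ← Nat.card_eq_fintype_card]
  field_simp

theorem single_mul_setIdem_of_mem_ker (χ : IrrCharacter G) {g : G} (hg : g ∈ ker χ.1) :
    MonoidAlgebra.single g (1 : ℂ) * setIdem {χ} = setIdem {χ} := ga_ext fun x => by
  rw [MonoidAlgebra.coeff_single_mul_apply, one_mul, coeff_setIdem, coeff_setIdem,
    blockCoeff_singleton, blockCoeff_singleton, mem_ker_def.1 (inv_mem hg)]

theorem rank_setIdem_matrix [Fintype G] [DecidableEq G] {A : Set (IrrCharacter G)}
    (hA : IsInt hM (setIdem A)) :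
    (Matrix.of fun x y : G => red hM (blockCoeff A (x⁻¹ * y))).rank =
      ∑ χ ∈ bset A, charDegree χ.1 ^ 2 := by
  let E : Matrix G G ℂ := fun x y => (setIdem A).coeff (x⁻¹ * y)
  have hE : E * E = E := by
    ext x y
    rw [Matrix.mul_apply]
    conv_rhs => simp only [E]; rw [← Set.inter_self A, ← setIdem_mul, coeff_mul_eq_sum]
    rw [← Equiv.sum_comp (Equiv.mulLeft x)]
    simp [E, mul_assoc]
  refine (rank_map_red_of_idem hM (E := E) (fun x y => hA _) hE).trans ?_
  have hG : (Nat.card G : ℂ) ≠ 0 := card_cast_ne_zero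
  have h3 : E.trace = ∑ χ ∈ bset A, (charDegree χ.1 : ℂ) ^ 2 := by
    simp only [Matrix.trace, Matrix.diag, E, inv_mul_cancel, Finset.sum_const, Finset.card_univ,
      nsmul_eq_mul, coeff_setIdem, blockCoeff_eq_sum_bset, ← Nat.card_eq_fintype_card,
      mul_inv_cancel_left₀ hG, irr_apply_one, map_natCast, ← sq]
  rw [trace_eq_rank_of_idem hE] at h3
  exact_mod_cast h3

theorem exists_faithful_of_algebra (hG : ¬ p ∣ Nat.card G) {L : Type*} [Field L]
    [Algebra (ResF hM) L] {n : ℕ} (r : G →* Matrix (Fin n) (Fin n) L)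
    (hr : Function.Injective r) :
    ∃ χ : G → ℂ, IsCharacter G χ ∧ ker χ = ⊥ ∧ charDegree χ ≤ n * n := by
  classical
  have := Fintype.ofFinite G
  let π : (ResF hM)[G] →ₐ[ResF hM] Matrix (Fin n) (Fin n) L := MonoidAlgebra.lift _ _ _ r
  have hπ : ∀ g, π (MonoidAlgebra.single g 1) = r g := fun g => by simp [π]
  have hi := isInt_setIdem_of_not_dvd hM hG
  let A : Set (IrrCharacter G) := {χ | π (idem hM {χ}) ≠ 0}
  have hsum : ∀ B : Set (IrrCharacter G), setIdem B = ∑ χ ∈ bset B, setIdem {χ} := fun B =>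
    ga_ext fun g => by
      simp only [coeff_sum_apply, coeff_setIdem, blockCoeff_singleton]
      rw [blockCoeff_eq_sum_bset, Finset.mul_sum]
  refine ⟨∑ χ ∈ bset A, χ.1, isCharacter_sum _ _ fun χ _ => irr_isCharacter χ, ?_, ?_⟩
  · rw [ker_sum _ _ fun χ _ => irr_isCharacter χ, eq_bot_iff]
    intro g hg
    simp only [Subgroup.mem_iInf] at hg
    have h1 : ∀ χ, r g * π (idem hM {χ}) = π (idem hM {χ}) := fun χ => by
      by_cases h : χ ∈ A
      · have h2 := congrArg (redA hM) (single_mul_setIdem_of_mem_ker χ (hg χ (mem_bset.2 h)))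
        rw [redA_mul hM (isInt_single hM g (one_mem _)) (hi _), redA_single, red_one] at h2
        rw [← hπ, ← map_mul]
        exact congrArg π h2
      · rw [not_not.1 h, mul_zero]
    have h2 : ∑ χ ∈ bset Set.univ, π (idem hM {χ}) = 1 := by
      rw [← map_sum, ← map_one π, ← idem_univ hM, idem, hsum, redA_sum hM _ _ fun χ _ => hi _]
      rfl
    refine hr ?_
    rw [map_one, ← mul_one (r g), ← h2, Finset.mul_sum]
    exact Finset.sum_congr rfl fun χ _ => h1 χ
  · have h1 : ∀ χ ∈ bset A, ∃ S : Matrix (Fin n × Fin n) G L, ∀ x y : G,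
        algebraMap (ResF hM) L (red hM (blockCoeff {χ} (x⁻¹ * y))) =
          ∑ ij : Fin n × Fin n, r x ij.1 ij.2 * S ij y := fun χ hχ => by
      obtain ⟨a, b, hab⟩ : ∃ a b, π (idem hM {χ}) a b ≠ 0 := by
        by_contra h
        push Not at h
        exact mem_bset.1 hχ (Matrix.ext h)
      have ht : (χ.1 1 / Nat.card G) ^ 2 ∈ locRing hM := pow_mem (div_eq_mul_inv (χ.1 1) _ ▸
        mul_mem (mem_locRing_of_isIntegral hM (irr_isIntegral χ 1))
          (inv_natCast_mem_locRing hM hG)) 2
      refine ⟨fun ij y => algebraMap (ResF hM) L (red hM ((χ.1 1 / Nat.card G) ^ 2)) *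
        (∑ h, r (h * y⁻¹) a ij.1 * (r h⁻¹ * π (idem hM {χ})) ij.2 b) / π (idem hM {χ}) a b,
        fun x y => ?_⟩
      have hs : IsInt hM (∑ h : G, MonoidAlgebra.single (h * (y⁻¹ * x) * h⁻¹) (1 : ℂ)) :=
        (intAlg hM G).sum_mem fun h _ => isInt_single hM _ (one_mem _)
      have h2 := congrArg (fun z => π (redA hM z) a b) (sum_single_conj_mul_setIdem χ (y⁻¹ * x))
      simp only [mul_inv_rev, inv_inv] at h2
      rw [redA_smul hM ht (hs.mul hM (hi _)), redA_smul hM (c := blockCoeff _ _) (hi _ _) (hi _),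
        redA_mul hM hs (hi _),
        redA_sum hM _ _ fun h _ => isInt_single hM _ (one_mem _)] at h2
      simp only [redA_single, red_one, map_smul, map_mul, map_sum, hπ, Matrix.smul_apply,
        Finset.sum_mul, Matrix.sum_apply] at h2
      rw [Algebra.smul_def, Algebra.smul_def] at h2
      simp only [← mul_div_assoc, ← Finset.sum_div]
      rw [eq_div_iff hab]
      refine h2.symm.trans ?_
      simp only [mul_left_comm (r x _ _), ← Finset.mul_sum]
      congr 1
      simp only [Finset.mul_sum]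
      rw [Finset.sum_comm]
      refine Finset.sum_congr rfl fun h _ => ?_
      rw [← mul_assoc (r h), ← map_mul, mul_assoc, mul_assoc, Matrix.mul_apply,
        Fintype.sum_prod_type]
      refine Finset.sum_congr rfl fun i _ => ?_
      rw [Matrix.mul_apply, Finset.mul_sum]
      exact Finset.sum_congr rfl fun j _ => mul_left_comm _ _ _
    choose! S hS using h1
    have h2 : (Matrix.of fun x y : G => red hM (blockCoeff A (x⁻¹ * y))).map
        (algebraMap (ResF hM) L) =
        (Matrix.of fun x (ij : Fin n × Fin n) => r x ij.1 ij.2) * ∑ χ ∈ bset A, S χ := by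
      ext x y
      rw [Matrix.map_apply, Matrix.of_apply, ← coeff_setIdem, hsum, coeff_sum_apply,
        red_sum hM _ _ fun χ _ => hi _ _, map_sum, Matrix.mul_sum, Matrix.sum_apply]
      exact Finset.sum_congr rfl fun χ hχ => hS χ hχ x y
    have h3 := rank_map_field (algebraMap (ResF hM) L)
      (Matrix.of fun x y : G => red hM (blockCoeff A (x⁻¹ * y)))
    rw [rank_setIdem_matrix hM (hi A), h2] at h3
    have h4 := (Matrix.rank_mul_le_left _ _).trans (Matrix.rank_le_card_width
      (Matrix.of fun x (ij : Fin n × Fin n) => r x ij.1 ij.2)) |>.trans_eq' h3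
    rw [Fintype.card_prod, Fintype.card_fin] at h4
    rw [charDegree_eq_of_apply_one (n := ∑ χ ∈ bset A, charDegree χ.1)
      (by simp [irr_apply_one])]
    exact (Finset.sum_le_sum fun χ _ => Nat.le_self_pow two_ne_zero _).trans h4

theorem nonempty_ringHom_resF (L : Type*) [Field L] [CharP L p] [IsAlgClosed L] :
    Nonempty (ResF hM →+* L) := by
  letI : Algebra (ZMod p) (ResF hM) := ZMod.algebra _ p
  letI : Algebra (ZMod p) L := ZMod.algebra _ p
  haveI : Algebra.IsAlgebraic (ZMod p) (ResF hM) := ⟨fun x => by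
    obtain ⟨a, rfl⟩ := mkResF_surjective hM x
    have h1 : IsIntegral ℤ a := (isIntegral_algHom_iff (AlgInt.val) Subtype.val_injective).1 a.2
    have h2 : IsIntegral ℤ (mkResF hM a) := h1.map (mkResF hM).toIntAlgHom
    exact (h2.tower_top (A := ZMod p)).isAlgebraic⟩
  exact ⟨(IsAlgClosed.lift (R := ZMod p) (S := ResF hM) (M := L)).toRingHom⟩

omit hM in
/-- A `p'`-group with a faithful representation of degree `n` in characteristic `p` has a faithful
character of degree at most `n ^ 2`. -/
theorem exists_faithful_of_rep (hG : ¬ p ∣ Nat.card G) {F : Type*} [Field F] [CharP F p] {n : ℕ}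
    (ρ : Representation F G (Fin n → F)) (hρ : Function.Injective ρ) :
    ∃ χ : G → ℂ, IsCharacter G χ ∧ ker χ = ⊥ ∧ charDegree χ ≤ n * n := by
  obtain ⟨M, hM⟩ := exists_isPModular (Fact.out : p.Prime)
  obtain ⟨ι⟩ := nonempty_ringHom_resF hM (AlgebraicClosure F)
  letI := ι.toAlgebra
  refine exists_faithful_of_algebra hM hG (L := AlgebraicClosure F)
    (((algebraMap F (AlgebraicClosure F)).mapMatrix.toMonoidHom.comp
      LinearMap.toMatrixAlgEquiv'.toMulEquiv.toMonoidHom).comp ρ) ?_
  exact ((Matrix.map_injective (algebraMap F (AlgebraicClosure F)).injective).comp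
    LinearMap.toMatrixAlgEquiv'.injective).comp hρ

end BT
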