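import Cfsg.Agent.Lib.Lin.SLPattern
import Cfsg.Agent.Lib.Char.SetSum

/-!
# The product `Û Û⁻ Û` in the group algebra of `SL_n` in the defining characteristic
-/

set_option autoImplicit false
set_option linter.unusedSectionVars false

namespace LG

open Matrix CT
open scoped MonoidAlgebra

variable {F : Type*} [Field F] [Finite F] {n : ℕ}

theorem vecMul_single_of_row {A : Matrix (Fin n) (Fin n) F} {i : Fin n}
    (h : ∀ j, A i j = (1 : Matrix (Fin n) (Fin n) F) i j) :
    Pi.single i (1 : F) ᵥ* A = Pi.single i 1 := by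
  funext j
  rw [single_one_vecMul, Matrix.row_apply, h, one_apply, Pi.single_apply]
  simp only [eq_comm]

theorem mulVec_single_of_col {A : Matrix (Fin n) (Fin n) F} {j : Fin n}
    (h : ∀ i, A i j = (1 : Matrix (Fin n) (Fin n) F) i j) :
    A *ᵥ Pi.single j (1 : F) = Pi.single j 1 := by
  funext i
  rw [mulVec_single_one, Matrix.col_apply, h, one_apply, Pi.single_apply]

section products

variable {R : Type*} [CommRing R]

theorem ssum_colY_mul_upT {k : ℕ} (hk : k < n) :
    ssum R (colY F n k : Set (SpecialLinearGroup (Fin n) F)) * ssum R (upT F n k : Set _) =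
      ssum R (upT F n (k + 1) : Set _) := by
  refine ssum_mul_ssum_subgroup (fun g hg => mem_patSub.2 fun i j h => mem_patSub.1 hg i j ?_)
    (fun g hg => mem_patSub.2 fun i j h => mem_patSub.1 hg i j ?_) (fun g hg => ?_)
    (fun x hx hx' => slm_ext (Matrix.ext fun i j => ?_))
  · rw [Fin.lt_def] at h; omega
  · rw [Fin.lt_def] at h ⊢; omega
  · let κ : Fin n := ⟨k, hk⟩
    let v : Fin n → F := fun i => if i.val < k then - slm g i κ else 0
    have hv : Pi.single κ (1 : F) ⬝ᵥ v = 0 := by simp [v, κ]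
    have hy : trv v _ hv ∈ colY F n k := trv_mem_patSub hv fun i j hi hj => by
      constructor
      · by_contra h; exact hj (Pi.single_eq_of_ne (fun h' => h (by rw [h'])) _)
      · by_contra h; exact hi (if_neg h)
    refine ⟨_, (colY F n k).inv_mem hy, trv v _ hv * g, mem_patSub.2 fun i j hij => ?_, by simp⟩
    rw [slm_mul, slm_trv, add_mul, one_mul, vecMulVec_mul, vecMul_single_of_row
      (fun j => mem_patSub.1 hg κ j (by rw [Fin.lt_def]; simp only [κ]; omega)),
      Matrix.add_apply, vecMulVec_apply]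
    by_cases hj : j = κ
    · subst hj
      by_cases hi : i.val < k
      · simp only [v, if_pos hi, Pi.single_eq_same, mul_one, add_neg_cancel]
        rw [one_apply_ne]; intro h; rw [h] at hi; simp [κ] at hi
      · simp only [v, if_neg hi, zero_mul, add_zero]
        exact mem_patSub.1 hg _ _ (by rw [Fin.lt_def]; simp only [κ]; omega)
    · rw [Pi.single_eq_of_ne hj, mul_zero, add_zero]
      refine mem_patSub.1 hg _ _ fun h => hij ⟨h.1, ?_⟩
      have : j.val ≠ k := fun h' => hj (Fin.ext h')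
      omega
  · by_cases h : j.val = k
    · exact mem_patSub.1 hx' i j (by omega)
    · exact mem_patSub.1 hx i j (by omega)

theorem ssum_loT_mul_rowX {k : ℕ} (hk : k < n) :
    ssum R (loT F n k : Set (SpecialLinearGroup (Fin n) F)) * ssum R (rowX F n k : Set _) =
      ssum R (loT F n (k + 1) : Set _) := by
  refine ssum_mul_ssum_subgroup (fun g hg => mem_patSub.2 fun i j h => mem_patSub.1 hg i j ?_)
    (fun g hg => mem_patSub.2 fun i j h => mem_patSub.1 hg i j ?_) (fun g hg => ?_)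
    (fun x hx hx' => slm_ext (Matrix.ext fun i j => ?_))
  · rw [Fin.lt_def] at h ⊢; omega
  · rw [Fin.lt_def] at h; omega
  · let κ : Fin n := ⟨k, hk⟩
    let v : Fin n → F := fun j => if j.val < k then - slm g κ j else 0
    have hv : v ⬝ᵥ Pi.single κ (1 : F) = 0 := by simp [v, κ]
    have hy : trv _ v hv ∈ rowX F n k := trv_mem_patSub hv fun i j hi hj => by
      constructor
      · by_contra h; exact hi (Pi.single_eq_of_ne (fun h' => h (by rw [h'])) _)
      · by_contra h; exact hj (if_neg h)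
    refine ⟨g * trv _ v hv, mem_patSub.2 fun i j hij => ?_, _, (rowX F n k).inv_mem hy, by simp⟩
    rw [slm_mul, slm_trv, mul_add, mul_one, mul_vecMulVec, mulVec_single_of_col
      (fun i => mem_patSub.1 hg i κ (by rw [Fin.lt_def]; simp only [κ]; omega)),
      Matrix.add_apply, vecMulVec_apply]
    by_cases hi : i = κ
    · subst hi
      by_cases hj : j.val < k
      · simp only [v, if_pos hj, Pi.single_eq_same, one_mul, add_neg_cancel]
        rw [one_apply_ne]; intro h; rw [← h] at hj; simp [κ] at hj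
      · simp only [v, if_neg hj, mul_zero, add_zero]
        exact mem_patSub.1 hg _ _ (by rw [Fin.lt_def]; simp only [κ]; omega)
    · rw [Pi.single_eq_of_ne hi, zero_mul, add_zero]
      refine mem_patSub.1 hg _ _ fun h => hij ⟨h.1, ?_⟩
      have : i.val ≠ k := fun h' => hi (Fin.ext h')
      omega
  · by_cases h : i.val = k
    · exact mem_patSub.1 hx i j (by omega)
    · exact mem_patSub.1 hx' i j (by omega)

theorem mem_iff_conj_mem_of_forall {G : Type*} [Group G] {A S : Subgroup G}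
    (h : ∀ g ∈ A, ∀ x ∈ S, g * x * g⁻¹ ∈ S) {g : G} (hg : g ∈ A) (x : G) :
    x ∈ (S : Set G) ↔ g * x * g⁻¹ ∈ (S : Set G) :=
  ⟨h g hg x, fun hx => by simpa [mul_assoc] using h _ (A.inv_mem hg) _ hx⟩

theorem ssum_upT_mul_rowX (k : ℕ) :
    ssum R (upT F n k : Set (SpecialLinearGroup (Fin n) F)) * ssum R (rowX F n k : Set _) =
      ssum R (rowX F n k : Set _) * ssum R (upT F n k : Set _) := by
  refine ssum_mul_ssum_comm fun g hg => mem_iff_conj_mem_of_forall (fun g hg x hx => ?_) hg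
  refine conj_mem_patSub (msupp_of_mem_patSub hg) (msupp_of_mem_patSub ((upT F n k).inv_mem hg))
    hx fun i l m j h1 h2 h3 => ?_
  simp only [Fin.lt_def, Fin.ext_iff] at h1 h3
  omega

theorem ssum_upT_mul_colY (k : ℕ) :
    ssum R (upT F n k : Set (SpecialLinearGroup (Fin n) F)) * ssum R (colY F n k : Set _) =
      ssum R (colY F n k : Set _) * ssum R (upT F n k : Set _) := by
  refine ssum_mul_ssum_comm fun g hg => mem_iff_conj_mem_of_forall (fun g hg x hx => ?_) hg
  refine conj_mem_patSub (msupp_of_mem_patSub hg) (msupp_of_mem_patSub ((upT F n k).inv_mem hg))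
    hx fun i l m j h1 h2 h3 => ?_
  simp only [Fin.lt_def, Fin.ext_iff] at h1 h3
  omega

end products

theorem step_vanish {k : ℕ} (hk : k < n) {m x : SpecialLinearGroup (Fin n) F}
    (hm : m ∈ antiM F n k) (hx : x ∈ rowX F n k) {j : Fin n} (hj : j.val < k)
    (h0 : slm x ⟨k, hk⟩ j = 0) :
    ∃ t ∈ upT F n (k + 1), t ≠ 1 ∧ (m * x)⁻¹ * t * (m * x) ∈ upT F n (k + 1) := by
  set κ : Fin n := ⟨k, hk⟩ with hκ
  have hκv : κ.val = k := rfl
  have hrow : ∀ i l, i ≠ κ → slm x i l = (1 : Matrix (Fin n) (Fin n) F) i l := fun i l hi =>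
    mem_patSub.1 hx i l fun h => hi (Fin.ext h.1)
  have hrow' : ∀ l : Fin n, k ≤ l.val → slm x κ l = (1 : Matrix (Fin n) (Fin n) F) κ l :=
    fun l hl => mem_patSub.1 hx κ l (by omega)
  let φ : Fin n → F := fun i => if i = κ then 1 else
    if k - j.val ≤ i.val ∧ i.val < k then - slm x κ (rho k i) / slm m i (rho k i) else 0
  refine exists_mem_upT_conj (a := k - j.val) (b := j.val + 1) (y := Pi.single j 1) (φ := φ)
    (by simp) (fun h => ?_) (fun l hl => ?_) (fun i hi => ?_) (fun i hi => ?_) (fun l hl => ?_)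
  · have := congrFun h κ
    simp [φ] at this
  · by_contra h; exact hl (Pi.single_eq_of_ne (fun h' => h (by rw [h']; omega)) _)
  · rw [mulVec_single_one, Matrix.col_apply, slm_mul, hm.1.mul_apply] at hi
    have h1 := right_ne_zero_of_mul hi
    have h2 : rho k i ≠ κ := by rintro h; rw [h] at h1; exact h1 h0
    rw [hrow _ _ h2] at h1
    have h3 : rho k i = j := by by_contra h; exact h1 (one_apply_ne h)
    have h4 := congrArg Fin.val h3
    rw [rho_val hk.le] at h4
    split_ifs at h4 <;> omega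
  · by_cases h : i = κ
    · rw [h]; omega
    · simp only [φ, if_neg h] at hi
      by_contra h1
      exact hi (if_neg (by omega))
  · have h1 : (φ ᵥ* slm (m * x)) l = slm x κ l +
        (if l = κ then 0 else φ (rho k l) * slm m (rho k l) l) := by
      rw [slm_mul, ← vecMul_vecMul]
      have h2 : ∀ i, (φ ᵥ* slm m) i = φ (rho k i) * slm m (rho k i) i := fun i => by
        simp only [vecMul, dotProduct]
        rw [Finset.sum_eq_single (rho k i)]
        · intro l _ hl; rw [hm.1 l i (fun h1 => hl (by rw [h1, rho_rho])), mul_zero]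
        · simp
      conv_lhs => simp only [vecMul, dotProduct]
      change ∑ i, (φ ᵥ* slm m) i * slm x i l = _
      rw [← Finset.add_sum_erase _ _ (Finset.mem_univ κ), h2, rho_of_le hκv.ge, hm.2 κ hκv.ge]
      simp only [φ, if_pos, one_mul]
      congr 1
      rw [Finset.sum_congr rfl (g := fun i => (φ ᵥ* slm m) i * (1 : Matrix (Fin n) (Fin n) F) i l)
        (fun i hi => by rw [hrow i l (Finset.ne_of_mem_erase hi)])]
      by_cases hl : l = κ
      · rw [if_pos hl]
        exact Finset.sum_eq_zero fun i hi => by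
          rw [one_apply_ne (hl ▸ Finset.ne_of_mem_erase hi), mul_zero]
      · rw [if_neg hl, Finset.sum_eq_single l, h2, one_apply_eq, mul_one]
        · intro i _ hi; rw [one_apply_ne hi, mul_zero]
        · intro h; exact absurd (Finset.mem_erase.2 ⟨hl, Finset.mem_univ l⟩) h
    rw [h1] at hl
    by_contra h3
    apply hl
    by_cases hlκ : l = κ
    · exfalso; rw [hlκ] at h3; omega
    rw [if_neg hlκ]
    have hρ : rho k l ≠ κ := fun h => hlκ (by rw [rho_eq_iff, rho_of_le hκv.ge] at h; exact h)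
    have hρv := rho_val hk.le l
    simp only [φ, if_neg hρ, rho_rho]
    by_cases h4 : l.val < j.val
    · have := antiM_ne_zero hm (rho k l)
      rw [rho_rho] at this
      rw [if_pos (by rw [hρv]; split_ifs <;> omega), div_mul_cancel₀ _ this, add_neg_cancel]
    · rw [if_neg (by rw [hρv]; split_ifs <;> omega), zero_mul, add_zero]
      by_cases h5 : l = j
      · rw [h5, h0]
      · have : l.val ≠ j.val := fun h => h5 (Fin.ext h)
        rw [hrow' l (by omega), one_apply_ne (Ne.symm hlκ)]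

theorem step_entries {k : ℕ} (hk : k < n) {x : SpecialLinearGroup (Fin n) F}
    (hx : x ∈ rowX F n k) (h0 : ∀ j : Fin n, j.val < k → slm x ⟨k, hk⟩ j ≠ 0) :
    ∃ w ∈ upT F n (k + 1), ∀ A : Matrix (Fin n) (Fin n) F, IsAnti k A →
      (∀ i : Fin n, k ≤ i.val → A i i = 1) →
      (∀ i j, j ≠ rho (k + 1) i → ¬ (j < rho (k + 1) i ∧ i.val < k + 1) →
        (A * slm x * slm w) i j = 0) ∧
      (∀ i : Fin n, k + 1 ≤ i.val → (A * slm x * slm w) i i = 1) ∧
      (A * slm x * slm w) ⟨k, hk⟩ (rho (k + 1) ⟨k, hk⟩) = slm x ⟨k, hk⟩ (rho (k + 1) ⟨k, hk⟩) ∧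
      ∀ i : Fin n, i.val < k → (A * slm x * slm w) i (rho (k + 1) i) =
        - A i (rho k i) * (slm x ⟨k, hk⟩ (rho (k + 1) i) / slm x ⟨k, hk⟩ (rho k i)) := by
  set κ : Fin n := ⟨k, hk⟩ with hκ
  have hκv : κ.val = k := rfl
  have hrow : ∀ i l, i ≠ κ → slm x i l = (1 : Matrix (Fin n) (Fin n) F) i l := fun i l hi =>
    mem_patSub.1 hx i l fun h => hi (Fin.ext h.1)
  have hrow' : ∀ l : Fin n, k ≤ l.val → slm x κ l = (1 : Matrix (Fin n) (Fin n) F) κ l :=
    fun l hl => mem_patSub.1 hx κ l (by omega)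
  let N : Matrix (Fin n) (Fin n) F := Matrix.of fun i j =>
    if i.val + 1 = j.val ∧ j.val ≤ k then slm x κ j / slm x κ i else 0
  have hW : ∀ i j : Fin n, ¬ (i < j ∧ j.val < k + 1) →
      (1 - N) i j = (1 : Matrix (Fin n) (Fin n) F) i j := fun i j hij => by
    rw [Matrix.sub_apply, sub_eq_self]
    exact if_neg (by rw [Fin.lt_def] at hij; omega)
  refine ⟨mkSL (1 - N) (det_eq_one_of_upper fun i j hij => hW i j fun h => hij h.1),
    mem_patSub.2 hW, fun A hA hA1 => ?_⟩
  rw [slm_mkSL, Matrix.mul_assoc]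
  have hB1 : ∀ l j, l ≠ κ → (slm x * (1 - N)) l j = (1 - N) l j := fun l j hl => by
    rw [Matrix.mul_apply]
    simp only [hrow _ _ hl]
    rw [← Matrix.mul_apply, Matrix.one_mul]
  have hB2 : ∀ j : Fin n, (slm x * (1 - N)) κ j = if j.val = 0 then slm x κ j else 0 := fun j => by
    rw [mul_sub, mul_one, Matrix.sub_apply, Matrix.mul_apply]
    by_cases hj : 1 ≤ j.val ∧ j.val ≤ k
    · rw [if_neg (by omega), Finset.sum_eq_single ⟨j.val - 1, by omega⟩]
      · simp only [N, Matrix.of_apply]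
        rw [if_pos (by omega), mul_div_cancel₀ _ (h0 _ (by simp only; omega)), sub_self]
      · intro i _ hi
        have : i.val ≠ j.val - 1 := fun h => hi (Fin.ext h)
        simp only [N, Matrix.of_apply]
        rw [if_neg (by omega), mul_zero]
      · simp
    · rw [Finset.sum_eq_zero, sub_zero]
      · split_ifs with h
        · rfl
        · rw [hrow' j (by omega), one_apply_ne]
          intro h'; rw [← h'] at hj h; omega
      · intro i _
        simp only [N, Matrix.of_apply]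
        rw [if_neg (by omega), mul_zero]
  have hρκ : ∀ i, i ≠ κ → rho k i ≠ κ := fun i hi h =>
    hi (by rw [rho_eq_iff, rho_of_le hκv.ge] at h; exact h)
  have hk1 : k + 1 ≤ n := hk
  refine ⟨fun i j h1 h2 => ?_, fun i hi => ?_, ?_, fun i hi => ?_⟩
  · rw [hA.mul_apply]
    have h3 : j.val ≠ (rho (k + 1) i).val := fun h => h1 (Fin.ext h)
    rw [Fin.lt_def] at h2
    rw [rho_val hk1] at h2 h3
    by_cases hi : i = κ
    · rw [hi, rho_of_le hκv.ge, hB2, if_neg, mul_zero]
      rw [hi, hκv, if_pos (by omega)] at h3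
      omega
    · have h4 : i.val ≠ k := fun h => hi (Fin.ext h)
      have h5 := rho_val hk.le i
      rw [hB1 _ _ (hρκ i hi), Matrix.sub_apply, one_apply_ne]
      · simp only [N, Matrix.of_apply]
        rw [if_neg, sub_zero, mul_zero]
        split_ifs at h2 h3 h5 <;> omega
      · intro h; rw [← h] at h2 h3
        split_ifs at h2 h3 h5 <;> omega
  · have hi' : i ≠ κ := fun h => by rw [h] at hi; omega
    rw [hA.mul_apply, rho_of_le (by omega), hA1 i (by omega), hB1 _ _ hi', hW i i (by simp),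
      one_apply_eq, mul_one]
  · rw [hA.mul_apply, rho_of_le hκv.ge, hA1 κ hκv.ge, one_mul, hB2, if_pos]
    rw [rho_val hk1, hκv, if_pos (by omega)]
    omega
  · have hi' : i ≠ κ := fun h => by rw [h] at hi; omega
    have h5 := rho_val hk.le i
    have h6 := rho_val hk1 i
    rw [if_pos hi] at h5
    rw [if_pos (by omega)] at h6
    rw [hA.mul_apply, hB1 _ _ (hρκ i hi'), Matrix.sub_apply, one_apply_ne]
    · simp only [N, Matrix.of_apply]
      rw [if_pos (by omega)]
      ring
    · intro h; rw [h] at h5; omega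

/-- The relation between `m' ∈ M_k` and the element `m ∈ M_{k+1}` with `m' x ∈ U m U`. -/
def StepRel {k : ℕ} (hk : k < n) (x m' m : SpecialLinearGroup (Fin n) F) : Prop :=
  slm m ⟨k, hk⟩ (rho (k + 1) ⟨k, hk⟩) = slm x ⟨k, hk⟩ (rho (k + 1) ⟨k, hk⟩) ∧
    ∀ i : Fin n, i.val < k → slm m i (rho (k + 1) i) =
      - slm m' i (rho k i) * (slm x ⟨k, hk⟩ (rho (k + 1) i) / slm x ⟨k, hk⟩ (rho k i))

theorem step_exists {k : ℕ} (hk : k < n) {x : SpecialLinearGroup (Fin n) F}
    (hx : x ∈ rowX F n k) (h0 : ∀ j : Fin n, j.val < k → slm x ⟨k, hk⟩ j ≠ 0)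
    {m' : SpecialLinearGroup (Fin n) F} (hm' : m' ∈ antiM F n k) :
    ∃ m ∈ antiM F n (k + 1), StepRel hk x m' m ∧
      ∃ u ∈ upT F n (k + 1), ∃ u' ∈ upT F n (k + 1), m' * x = u * m * u' := by
  obtain ⟨w, hw, h⟩ := step_entries hk hx h0
  obtain ⟨h1, h2, h3, h4⟩ := h _ hm'.1 hm'.2
  obtain ⟨u, hu, m, hm, h5, h6⟩ := exists_upT_mul_antiM hk (g := m' * x * w) h2 h1
  refine ⟨m, hm, ⟨(h6 _).trans h3, fun i hi => (h6 i).trans (h4 i hi)⟩, u, hu, w⁻¹,
    (upT F n (k + 1)).inv_mem hw, by rw [← h5, mul_inv_cancel_right]⟩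

theorem rowX_ne_zero {k : ℕ} (hk : k < n) {x : SpecialLinearGroup (Fin n) F}
    (hx : x ∈ rowX F n k) (h0 : ∀ j : Fin n, j.val < k → slm x ⟨k, hk⟩ j ≠ 0)
    {j : Fin n} (hj : j.val ≤ k) : slm x ⟨k, hk⟩ j ≠ 0 := by
  rcases hj.lt_or_eq with h | h
  · exact h0 j h
  · rw [mem_patSub.1 hx _ j (by omega), show j = ⟨k, hk⟩ from Fin.ext h, one_apply_eq]
    exact one_ne_zero

theorem step_exists' {k : ℕ} (hk : k < n) {x : SpecialLinearGroup (Fin n) F}
    (hx : x ∈ rowX F n k) (h0 : ∀ j : Fin n, j.val < k → slm x ⟨k, hk⟩ j ≠ 0)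
    {m : SpecialLinearGroup (Fin n) F} (hm : m ∈ antiM F n (k + 1))
    (hmx : slm m ⟨k, hk⟩ (rho (k + 1) ⟨k, hk⟩) = slm x ⟨k, hk⟩ (rho (k + 1) ⟨k, hk⟩)) :
    ∃ m' ∈ antiM F n k, StepRel hk x m' m := by
  obtain ⟨w, hw, h⟩ := step_entries hk hx h0
  let A : Matrix (Fin n) (Fin n) F := Matrix.of fun i j => if j = rho k i then
    (if i.val < k then - slm m i (rho (k + 1) i) *
      (slm x ⟨k, hk⟩ (rho k i) / slm x ⟨k, hk⟩ (rho (k + 1) i)) else 1) else 0
  have hA : IsAnti k A := fun i j h => if_neg h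
  have hA1 : ∀ i : Fin n, k ≤ i.val → A i i = 1 := fun i hi => by
    simp only [A, Matrix.of_apply]
    rw [if_pos (rho_of_le hi).symm, if_neg (by omega)]
  have hk1 : k + 1 ≤ n := hk
  have hA2 : ∀ i : Fin n, i.val < k → slm m i (rho (k + 1) i) =
      - A i (rho k i) * (slm x ⟨k, hk⟩ (rho (k + 1) i) / slm x ⟨k, hk⟩ (rho k i)) := fun i hi => by
    have h1 := rowX_ne_zero hk hx h0 (j := rho k i) (by rw [rho_val hk.le, if_pos hi]; omega)
    have h2 := rowX_ne_zero hk hx h0 (j := rho (k + 1) i)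
      (by rw [rho_val hk1, if_pos (by omega)]; omega)
    simp only [A, Matrix.of_apply, if_pos, if_pos hi]
    field_simp
  obtain ⟨h1, h2, h3, h4⟩ := h _ hA hA1
  obtain ⟨u, hu, h5⟩ := exists_upT_mul hk1 hm.1 (antiM_ne_zero hm) (A := A * slm x * slm w)
    (fun i => by
      rcases lt_trichotomy i.val k with hi | hi | hi
      · rw [h4 i hi, hA2 i hi]
      · rw [show i = ⟨k, hk⟩ from Fin.ext hi, h3, hmx]
      · rw [rho_of_le hi, h2 i hi, hm.2 i hi]) h1
  have hdet : A.det = 1 := by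
    have := congrArg Matrix.det h5
    simpa only [det_mul, det_slm, mul_one] using this
  exact ⟨mkSL A hdet, ⟨hA, hA1⟩, hmx, hA2⟩

theorem StepRel.unique_right {k : ℕ} {hk : k < n} {x m' m₁ m₂ : SpecialLinearGroup (Fin n) F}
    (h₁ : StepRel hk x m' m₁) (h₂ : StepRel hk x m' m₂) (hm₁ : m₁ ∈ antiM F n (k + 1))
    (hm₂ : m₂ ∈ antiM F n (k + 1)) : m₁ = m₂ := by
  refine slm_ext (hm₁.1.ext hm₂.1 fun i => ?_)
  rcases lt_trichotomy i.val k with hi | hi | hi
  · rw [h₁.2 i hi, h₂.2 i hi]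
  · rw [show i = ⟨k, hk⟩ from Fin.ext hi, h₁.1, h₂.1]
  · rw [rho_of_le hi, hm₁.2 i hi, hm₂.2 i hi]

theorem StepRel.unique_left {k : ℕ} {hk : k < n} {x m₁ m₂ m : SpecialLinearGroup (Fin n) F}
    (hx : x ∈ rowX F n k) (h0 : ∀ j : Fin n, j.val < k → slm x ⟨k, hk⟩ j ≠ 0)
    (h₁ : StepRel hk x m₁ m) (h₂ : StepRel hk x m₂ m) (hm₁ : m₁ ∈ antiM F n k)
    (hm₂ : m₂ ∈ antiM F n k) : m₁ = m₂ := by
  refine slm_ext (hm₁.1.ext hm₂.1 fun i => ?_)
  rcases lt_or_ge i.val k with hi | hi
  · have hk1 : k + 1 ≤ n := hk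
    have h1 := rowX_ne_zero hk hx h0 (j := rho k i) (by rw [rho_val hk.le, if_pos hi]; omega)
    have h2 := rowX_ne_zero hk hx h0 (j := rho (k + 1) i)
      (by rw [rho_val hk1, if_pos (by omega)]; omega)
    have h3 := (h₁.2 i hi).symm.trans (h₂.2 i hi)
    exact neg_injective (mul_right_cancel₀ (div_ne_zero h2 h1) h3)
  · rw [rho_of_le hi, hm₁.2 i hi, hm₂.2 i hi]

theorem exists_rowX {k : ℕ} (hk : k < n) (ξ : Fin n → F)
    (hξ : ∀ j : Fin n, k ≤ j.val → ξ j = (1 : Matrix (Fin n) (Fin n) F) ⟨k, hk⟩ j) :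
    ∃ x ∈ rowX F n k, ∀ j, slm x ⟨k, hk⟩ j = ξ j := by
  let v : Fin n → F := fun j => if j.val < k then ξ j else 0
  have hv : v ⬝ᵥ Pi.single ⟨k, hk⟩ (1 : F) = 0 := by simp [v]
  refine ⟨trv _ v hv, trv_mem_patSub hv fun i j hi hj => ⟨?_, ?_⟩, fun j => ?_⟩
  · by_contra h; exact hi (Pi.single_eq_of_ne (fun h' => h (by rw [h'])) _)
  · by_contra h; exact hj (if_neg h)
  · rw [slm_trv, Matrix.add_apply, vecMulVec_apply, Pi.single_eq_same, one_mul]
    by_cases hj : j.val < k
    · simp only [v, if_pos hj]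
      rw [one_apply_ne, zero_add]
      intro h; rw [← h] at hj; simp at hj
    · simp only [v, if_neg hj, add_zero]
      exact (hξ j (by omega)).symm

theorem card_rowX_filter [Fintype F] [DecidableEq F] [Fintype (SpecialLinearGroup (Fin n) F)]
    {k : ℕ} (hk : k < n) (hk0 : 1 ≤ k) {a : F} (ha : a ≠ 0)
    [DecidablePred fun x : SpecialLinearGroup (Fin n) F => x ∈ rowX F n k ∧
      (∀ j : Fin n, j.val < k → slm x ⟨k, hk⟩ j ≠ 0) ∧
        a = slm x ⟨k, hk⟩ (rho (k + 1) ⟨k, hk⟩)] :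
    (Finset.univ.filter fun x : SpecialLinearGroup (Fin n) F => x ∈ rowX F n k ∧
      (∀ j : Fin n, j.val < k → slm x ⟨k, hk⟩ j ≠ 0) ∧
        a = slm x ⟨k, hk⟩ (rho (k + 1) ⟨k, hk⟩)).card =
      ∏ j : Fin n, if j.val = 0 then 1 else if j.val < k then Fintype.card F - 1 else 1 := by
  have hk1 : k + 1 ≤ n := hk
  have hρ : (rho (k + 1) (⟨k, hk⟩ : Fin n)).val = 0 := by
    rw [rho_val hk1, if_pos (by simp)]; simp
  let t : Fin n → Finset F := fun j => if j.val = 0 then {a} else if j.val < k then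
    Finset.univ.erase 0 else {(1 : Matrix (Fin n) (Fin n) F) ⟨k, hk⟩ j}
  have ht : (Fintype.piFinset t).card =
      ∏ j : Fin n, if j.val = 0 then 1 else if j.val < k then Fintype.card F - 1 else 1 := by
    rw [Fintype.card_piFinset]
    refine Finset.prod_congr rfl fun j _ => ?_
    simp only [t]
    split_ifs
    · simp
    · rw [Finset.card_erase_of_mem (Finset.mem_univ _), Finset.card_univ]
    · simp
  rw [← ht]
  refine Finset.card_bij (fun x _ => fun j => slm x ⟨k, hk⟩ j) (fun x hx => ?_)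
    (fun x hx y hy h => ?_) (fun ξ hξ => ?_)
  · obtain ⟨h1, h2, h3⟩ := (Finset.mem_filter.1 hx).2
    rw [Fintype.mem_piFinset]
    intro j
    simp only [t]
    split_ifs with h4 h5
    · rw [Finset.mem_singleton, h3, show j = rho (k + 1) ⟨k, hk⟩ from Fin.ext (h4.trans hρ.symm)]
    · exact Finset.mem_erase.2 ⟨h2 j h5, Finset.mem_univ _⟩
    · exact Finset.mem_singleton.2 (mem_patSub.1 h1 _ _ (by omega))
  · refine slm_ext (Matrix.ext fun i j => ?_)
    by_cases hi : i = ⟨k, hk⟩
    · rw [hi]; exact congrFun h j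
    · have : i.val ≠ k := fun h' => hi (Fin.ext h')
      rw [mem_patSub.1 (Finset.mem_filter.1 hx).2.1 i j (by omega),
        mem_patSub.1 (Finset.mem_filter.1 hy).2.1 i j (by omega)]
  · rw [Fintype.mem_piFinset] at hξ
    obtain ⟨x, hx, hxξ⟩ := exists_rowX hk ξ fun j hj => by
      have := hξ j
      simp only [t] at this
      rwa [if_neg (by omega), if_neg (by omega), Finset.mem_singleton] at this
    refine ⟨x, Finset.mem_filter.2 ⟨Finset.mem_univ _, hx, fun j hj => ?_, ?_⟩, funext hxξ⟩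
    · have := hξ j
      simp only [t] at this
      rw [hxξ]
      split_ifs at this
      · rw [Finset.mem_singleton.1 this]; exact ha
      · exact Finset.ne_of_mem_erase this
    · have := hξ (rho (k + 1) ⟨k, hk⟩)
      simp only [t] at this
      rw [if_pos hρ, Finset.mem_singleton] at this
      rw [hxξ, this]

variable {K : Type*} [Field K]

theorem step_sum (p : ℕ) [Fact p.Prime] [CharP F p] [CharP K p] {k : ℕ} (hk : k < n) (hk0 : 1 ≤ k) :
    ∃ c : K, c ≠ 0 ∧ ssum K (upT F n (k + 1) : Set (SpecialLinearGroup (Fin n) F)) *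
      (ssum K (antiM F n k) * ssum K (rowX F n k : Set _)) * ssum K (upT F n (k + 1) : Set _) =
      c • (ssum K (upT F n (k + 1) : Set _) * ssum K (antiM F n (k + 1)) *
        ssum K (upT F n (k + 1) : Set _)) := by
  classical
  have := Fintype.ofFinite F
  have := Fintype.ofFinite (SpecialLinearGroup (Fin n) F)
  set U := ssum K (upT F n (k + 1) : Set (SpecialLinearGroup (Fin n) F)) with hU
  refine ⟨((∏ j : Fin n, if j.val = 0 then 1 else if j.val < k then Fintype.card F - 1 else 1 : ℕ) :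
    K), ?_, ?_⟩
  · rw [Nat.cast_prod]
    refine Finset.prod_ne_zero_iff.2 fun j _ => ?_
    split_ifs
    · simp
    · have h1 : (Fintype.card F : K) = 0 := by
        obtain ⟨m, hp, hm⟩ := FiniteField.card F p
        rw [hm, Nat.cast_pow, CharP.cast_eq_zero, zero_pow m.ne_zero]
      rw [Nat.cast_sub Fintype.card_pos, h1]; simp
    · simp
  rw [ssum_eq_sum (S := antiM F n k) (s := Finset.univ.filter (· ∈ antiM F n k)) (by simp),
    ssum_eq_sum (S := antiM F n (k + 1)) (s := Finset.univ.filter (· ∈ antiM F n (k + 1)))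
      (by simp),
    ssum_eq_sum (S := (rowX F n k : Set (SpecialLinearGroup (Fin n) F)))
      (s := Finset.univ.filter (· ∈ rowX F n k)) (by simp)]
  simp only [Finset.mul_sum, Finset.sum_mul, Finset.smul_sum, gel_mul]
  have h1 : ∀ x ∈ Finset.univ.filter (· ∈ rowX F n k),
      ∑ m' ∈ Finset.univ.filter (· ∈ antiM F n k), U * gel K (m' * x) * U =
      ∑ m ∈ Finset.univ.filter (· ∈ antiM F n (k + 1)),
        if (∀ j : Fin n, j.val < k → slm x ⟨k, hk⟩ j ≠ 0) ∧
          slm m ⟨k, hk⟩ (rho (k + 1) ⟨k, hk⟩) = slm x ⟨k, hk⟩ (rho (k + 1) ⟨k, hk⟩) then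
          U * gel K m * U else 0 := fun x hx => by
    have hx' := (Finset.mem_filter.1 hx).2
    by_cases h0 : ∀ j : Fin n, j.val < k → slm x ⟨k, hk⟩ j ≠ 0
    · rw [← Finset.sum_filter]
      choose! f hf using fun m' (hm' : m' ∈ antiM F n k) => step_exists hk hx' h0 hm'
      refine Finset.sum_bij (fun m' _ => f m') (fun m' hm' => ?_) (fun a ha b hb h => ?_)
        (fun m hm => ?_) (fun m' hm' => ?_)
      · have := hf m' (Finset.mem_filter.1 hm').2
        exact Finset.mem_filter.2 ⟨Finset.mem_filter.2 ⟨Finset.mem_univ _, this.1⟩, h0, this.2.1.1⟩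
      · have ha' := (Finset.mem_filter.1 ha).2
        have hb' := (Finset.mem_filter.1 hb).2
        exact StepRel.unique_left hx' h0 (hf a ha').2.1 (h ▸ (hf b hb').2.1) ha' hb'
      · obtain ⟨h2, -, h3⟩ := Finset.mem_filter.1 hm
        have h2' := (Finset.mem_filter.1 h2).2
        obtain ⟨m', hm', h4⟩ := step_exists' hk hx' h0 h2' h3
        exact ⟨m', Finset.mem_filter.2 ⟨Finset.mem_univ _, hm'⟩,
          (hf m' hm').2.1.unique_right h4 (hf m' hm').1 h2'⟩
      · obtain ⟨-, -, u, hu, u', hu', h⟩ := hf m' (Finset.mem_filter.1 hm').2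
        rw [h, ← gel_mul, ← gel_mul, ← mul_assoc, ← mul_assoc, ssum_mul_gel_of_mem hu,
          mul_assoc _ _ U, gel_mul_ssum_of_mem hu']
    · rw [Finset.sum_eq_zero, Finset.sum_eq_zero]
      · intro m _; exact if_neg fun h => h0 h.1
      · intro m' hm'
        push Not at h0
        obtain ⟨j, hj, hj0⟩ := h0
        obtain ⟨t, ht, ht1, ht2⟩ := step_vanish hk (Finset.mem_filter.1 hm').2 hx' hj hj0
        exact ssum_mul_gel_mul_ssum_eq_zero (isPGroup_upT (p := p) _) ht ht1 ht2
  rw [Finset.sum_congr rfl h1, Finset.sum_comm]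
  refine Finset.sum_congr rfl fun m hm => ?_
  rw [← Finset.sum_filter, Finset.sum_const, Finset.filter_filter,
    card_rowX_filter hk hk0 (antiM_ne_zero (Finset.mem_filter.1 hm).2 _), Nat.cast_smul_eq_nsmul]

omit [Finite F] in
theorem antiM_one (hn : 1 ≤ n) : antiM F n 1 = {1} := by
  have hρ : ∀ i : Fin n, rho 1 i = i := fun i => by
    apply Fin.ext; rw [rho_val hn]; split_ifs <;> omega
  ext m
  constructor
  · intro hm
    refine slm_ext (hm.1.ext (fun i j h => ?_) fun i => ?_)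
    · rw [hρ] at h; exact one_apply_ne (Ne.symm h)
    · rw [hρ, slm_one, one_apply_eq]
      by_cases hi : 1 ≤ i.val
      · exact hm.2 i hi
      · have h1 := det_slm m
        rw [det_of_isUpperTriangular, Finset.prod_eq_single i] at h1
        · exact h1
        · intro j _ hj
          have : j.val ≠ i.val := fun h => hj (Fin.ext h)
          exact hm.2 j (by omega)
        · simp
        · intro a b hab
          exact hm.1 a b (by rw [hρ]; exact ne_of_lt hab)
  · rintro rfl
    exact ⟨fun i j h => by rw [hρ] at h; exact one_apply_ne (Ne.symm h),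
      fun i _ => one_apply_eq i⟩

theorem ssum_singleton_one {G : Type*} [Group G] [Finite G] {R : Type*} [CommRing R] :
    ssum R ({1} : Set G) = 1 := by
  rw [ssum_eq_sum (s := {1}) (by simp), Finset.sum_singleton, gel_one]

theorem upT_one : (upT F n 1 : Set (SpecialLinearGroup (Fin n) F)) = {1} := by
  ext g
  refine ⟨fun hg => slm_ext (Matrix.ext fun i j => mem_patSub.1 hg i j ?_), ?_⟩
  · rw [Fin.lt_def]; omega
  · rintro rfl; exact (upT F n 1).one_mem

theorem loT_one : (loT F n 1 : Set (SpecialLinearGroup (Fin n) F)) = {1} := by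
  ext g
  refine ⟨fun hg => slm_ext (Matrix.ext fun i j => mem_patSub.1 hg i j ?_), ?_⟩
  · rw [Fin.lt_def]; omega
  · rintro rfl; exact (loT F n 1).one_mem

theorem ssum_upT_loT_upT (p : ℕ) [Fact p.Prime] [CharP F p] [CharP K p] {k : ℕ} (hk0 : 1 ≤ k)
    (hk : k ≤ n) :
    ∃ c : K, c ≠ 0 ∧ ssum K (upT F n k : Set (SpecialLinearGroup (Fin n) F)) *
      ssum K (loT F n k : Set _) * ssum K (upT F n k : Set _) =
      c • (ssum K (upT F n k : Set _) * ssum K (antiM F n k) * ssum K (upT F n k : Set _)) := by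
  induction k, hk0 using Nat.le_induction with
  | base => exact ⟨1, one_ne_zero, by rw [antiM_one hk, loT_one, one_smul]⟩
  | succ k hk0 ih =>
    obtain ⟨c, hc0, hc⟩ := ih (by omega)
    obtain ⟨d, hd0, hd⟩ := step_sum (F := F) (K := K) p (k := k) hk hk0
    refine ⟨c * d, mul_ne_zero hc0 hd0, ?_⟩
    rw [mul_smul, ← hd, ← ssum_loT_mul_rowX hk]
    have h1 := ssum_colY_mul_upT (F := F) (R := K) hk
    have h2 := (ssum_upT_mul_colY (F := F) (n := n) (R := K) k).trans h1
    have h3 := ssum_upT_mul_rowX (F := F) (n := n) (R := K) k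
    generalize ssum K (upT F n (k + 1) : Set (SpecialLinearGroup (Fin n) F)) = U at *
    generalize ssum K (upT F n k : Set (SpecialLinearGroup (Fin n) F)) = U' at *
    generalize ssum K (loT F n k : Set (SpecialLinearGroup (Fin n) F)) = L at *
    generalize ssum K (rowX F n k : Set (SpecialLinearGroup (Fin n) F)) = X at *
    generalize ssum K (colY F n k : Set (SpecialLinearGroup (Fin n) F)) = Y at *
    generalize ssum K (antiM F n k) = M at *
    calc U * (L * X) * U = (Y * U') * (L * X) * (U' * Y) := by rw [h1, h2]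
      _ = Y * (U' * L * (X * U')) * Y := by simp only [mul_assoc]
      _ = Y * (U' * L * U') * X * Y := by rw [← h3]; simp only [mul_assoc]
      _ = c • (Y * U' * M * (U' * X) * Y) := by
        rw [hc]; simp only [mul_assoc, mul_smul_comm, smul_mul_assoc]
      _ = c • ((Y * U') * (M * X) * (U' * Y)) := by rw [h3]; simp only [mul_assoc]
      _ = _ := by rw [h1, h2]

theorem antiM_nonempty {k : ℕ} (hk0 : 1 ≤ k) (hk : k ≤ n) : (antiM F n k).Nonempty := by
  induction k, hk0 using Nat.le_induction with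
  | base => rw [antiM_one hk]; exact Set.singleton_nonempty _
  | succ k hk0 ih =>
    obtain ⟨m', hm'⟩ := ih (by omega)
    obtain ⟨x, hx, hx1⟩ := exists_rowX (F := F) hk
      (fun j => if j.val < k then 1 else (1 : Matrix (Fin n) (Fin n) F) ⟨k, hk⟩ j)
      (fun j hj => if_neg (by omega))
    obtain ⟨m, hm, -⟩ := step_exists hk hx
      (fun j hj => by rw [hx1, if_pos hj]; exact one_ne_zero) hm'
    exact ⟨m, hm⟩

theorem msupp_of_mem_diagH {h : SpecialLinearGroup (Fin n) F} (hh : h ∈ diagH F n) :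
    MSupp (fun i j => i = j) (slm h) :=
  (msupp_of_mem_patSub hh).mono fun _ _ h => h.elim id id

theorem mem_diagH_of_msupp {h : SpecialLinearGroup (Fin n) F}
    (hh : MSupp (fun i j => i = j) (slm h)) : h ∈ diagH F n :=
  mem_patSub.2 fun i j hij => by rw [hh i j hij, one_apply_ne hij]

omit [Finite F] in
theorem mem_antiM_iff {m : SpecialLinearGroup (Fin n) F} :
    m ∈ antiM F n n ↔ MSupp (fun i j => j = rho n i) (slm m) :=
  ⟨fun h => h.1, fun h => ⟨h, fun i hi => absurd i.2 (by omega)⟩⟩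

theorem antiM_mul_antiM {m m' : SpecialLinearGroup (Fin n) F} (hm : m ∈ antiM F n n)
    (hm' : m' ∈ antiM F n n) : m * m' ∈ diagH F n :=
  mem_diagH_of_msupp ((mem_antiM_iff.1 hm).mul (mem_antiM_iff.1 hm') fun i l j h1 h2 => by
    rw [h2, h1, rho_rho])

theorem antiM_mul_diagH {m h : SpecialLinearGroup (Fin n) F} (hm : m ∈ antiM F n n)
    (hh : h ∈ diagH F n) : m * h ∈ antiM F n n :=
  mem_antiM_iff.2 ((mem_antiM_iff.1 hm).mul (msupp_of_mem_diagH hh) fun i l j h1 h2 => by
    rw [← h2, h1])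

theorem inv_mem_antiM {m : SpecialLinearGroup (Fin n) F} (hm : m ∈ antiM F n n) :
    m⁻¹ ∈ antiM F n n := by
  have := antiM_mul_diagH hm ((diagH F n).inv_mem (antiM_mul_antiM hm hm))
  simpa using this

theorem conj_upT_mem_loT {m x : SpecialLinearGroup (Fin n) F} (hm : m ∈ antiM F n n)
    (hx : x ∈ upT F n n) : m * x * m⁻¹ ∈ loT F n n := by
  refine conj_mem_patSub (mem_antiM_iff.1 hm) (mem_antiM_iff.1 (inv_mem_antiM hm)) hx
    fun i l a j h1 h2 h3 => ⟨?_, i.2⟩
  have h4 := h2.1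
  rw [Fin.ext_iff, rho_val le_rfl, if_pos (Fin.is_lt _)] at h1 h3
  rw [Fin.lt_def] at h4 ⊢
  omega

theorem conj_loT_mem_upT {m x : SpecialLinearGroup (Fin n) F} (hm : m ∈ antiM F n n)
    (hx : x ∈ loT F n n) : m * x * m⁻¹ ∈ upT F n n := by
  refine conj_mem_patSub (mem_antiM_iff.1 hm) (mem_antiM_iff.1 (inv_mem_antiM hm)) hx
    fun i l a j h1 h2 h3 => ⟨?_, j.2⟩
  have h4 := h2.1
  rw [Fin.ext_iff, rho_val le_rfl, if_pos (Fin.is_lt _)] at h1 h3
  rw [Fin.lt_def] at h4 ⊢
  omega

theorem gel_antiM_mul_ssum_upT {m : SpecialLinearGroup (Fin n) F} (hm : m ∈ antiM F n n) :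
    gel K m * ssum K (upT F n n : Set _) = ssum K (loT F n n : Set _) * gel K m :=
  gel_mul_ssum_comm fun x => ⟨conj_upT_mem_loT hm, fun h => by
    simpa [mul_assoc] using conj_loT_mem_upT (inv_mem_antiM hm) h⟩

theorem gel_diagH_mul_ssum_upT {h : SpecialLinearGroup (Fin n) F} (hh : h ∈ diagH F n) :
    gel K h * ssum K (upT F n n : Set _) = ssum K (upT F n n : Set _) * gel K h := by
  refine gel_mul_ssum_comm (mem_iff_conj_mem_of_forall (A := diagH F n) (fun g hg x hx => ?_) hh)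
  exact conj_mem_patSub (msupp_of_mem_diagH hg) (msupp_of_mem_diagH ((diagH F n).inv_mem hg)) hx
    fun i l a j h1 h2 h3 => by rw [h1, ← h3]; exact h2

theorem ssum_antiM_mul_gel {h : SpecialLinearGroup (Fin n) F} (hh : h ∈ diagH F n) :
    ssum K (antiM F n n) * gel K h = ssum K (antiM F n n) :=
  ssum_mul_gel fun x => ⟨fun hx => antiM_mul_diagH hx ((diagH F n).inv_mem hh),
    fun hx => by simpa using antiM_mul_diagH hx hh⟩

theorem exists_hecke_const (p : ℕ) [Fact p.Prime] [CharP F p] [CharP K p] (hn : 1 ≤ n) :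
    ∃ c : K, c ≠ 0 ∧ ∀ m ∈ antiM F n n, ∀ m' ∈ antiM F n n,
      ssum K (upT F n n : Set (SpecialLinearGroup (Fin n) F)) * gel K m *
        ssum K (upT F n n : Set _) * gel K m' * ssum K (upT F n n : Set _) =
      c • (ssum K (upT F n n : Set _) * ssum K (antiM F n n) * ssum K (upT F n n : Set _)) := by
  obtain ⟨c, hc0, hc⟩ := ssum_upT_loT_upT (F := F) (K := K) p hn le_rfl
  refine ⟨c, hc0, fun m hm m' hm' => ?_⟩
  have h1 := antiM_mul_antiM hm hm'
  rw [mul_assoc _ (gel K m), gel_antiM_mul_ssum_upT hm, ← mul_assoc, mul_assoc _ (gel K m),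
    gel_mul, mul_assoc _ (gel K (m * m')), gel_diagH_mul_ssum_upT h1, ← mul_assoc, hc,
    smul_mul_assoc, mul_assoc _ _ (gel K (m * m')), ← gel_diagH_mul_ssum_upT h1, ← mul_assoc,
    mul_assoc _ _ (gel K (m * m')), ssum_antiM_mul_gel h1]

theorem ssum_mul_gel_mul_ssum_cases (p : ℕ) [Fact p.Prime] [CharP F p] [CharP K p]
    (g : SpecialLinearGroup (Fin n) F) :
    ssum K (upT F n n : Set _) * gel K g * ssum K (upT F n n : Set _) = 0 ∨
      ∃ m ∈ antiM F n n, ssum K (upT F n n : Set _) * gel K g * ssum K (upT F n n : Set _) =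
        ssum K (upT F n n : Set _) * gel K m * ssum K (upT F n n : Set _) := by
  rcases big_cell_or g with ⟨t, ht, ht1, ht2⟩ | ⟨u, hu, m, hm, u', hu', rfl⟩
  · exact Or.inl (ssum_mul_gel_mul_ssum_eq_zero (isPGroup_upT (p := p) _) ht ht1 ht2)
  · refine Or.inr ⟨m, hm, ?_⟩
    rw [← gel_mul, ← gel_mul, ← mul_assoc, ← mul_assoc, ssum_mul_gel_of_mem hu,
      mul_assoc _ (gel K u'), gel_mul_ssum_of_mem hu']

theorem exists_hecke_smul (p : ℕ) [Fact p.Prime] [CharP F p] [CharP K p] (hn : 1 ≤ n)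
    (g g' : SpecialLinearGroup (Fin n) F) :
    ∃ c : K, ssum K (upT F n n : Set (SpecialLinearGroup (Fin n) F)) * gel K g *
        ssum K (upT F n n : Set _) * gel K g' * ssum K (upT F n n : Set _) =
      c • (ssum K (upT F n n : Set _) * ssum K (antiM F n n) * ssum K (upT F n n : Set _)) := by
  obtain ⟨c, -, hc⟩ := exists_hecke_const (F := F) (K := K) p hn
  rcases ssum_mul_gel_mul_ssum_cases (K := K) p g with h | ⟨m, hm, h⟩
  · exact ⟨0, by rw [h]; simp⟩
  rw [h]
  rcases ssum_mul_gel_mul_ssum_cases (K := K) p g' with h' | ⟨m', hm', h'⟩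
  · refine ⟨0, ?_⟩
    rw [mul_assoc, mul_assoc, ← mul_assoc _ (gel K g'), h']; simp
  · refine ⟨c, ?_⟩
    rw [mul_assoc, mul_assoc, ← mul_assoc _ (gel K g'), h', ← hc m hm m' hm']
    simp only [mul_assoc]

theorem eq_one_of_mem_loT {u h : SpecialLinearGroup (Fin n) F} (hu : u ∈ upT F n n)
    (hh : h ∈ diagH F n) (hz : u * h ∈ loT F n n) : u * h = 1 := by
  refine slm_ext (Matrix.ext fun i j => ?_)
  by_cases hij : j < i
  · rw [slm_one, one_apply_ne hij.ne']
    refine (msupp_of_mem_patSub hu).mul (msupp_of_mem_diagH hh) (t := fun i j => i ≤ j)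
      (fun i l j h1 h2 => ?_) i j (not_le.2 hij)
    rw [← h2]; exact h1.elim le_of_eq fun h => h.1.le
  · exact mem_patSub.1 hz i j fun h => hij h.1

theorem ssum_upT_antiM_upT_ne_zero (hn : 1 ≤ n) :
    ssum K (upT F n n : Set (SpecialLinearGroup (Fin n) F)) * ssum K (antiM F n n) *
      ssum K (upT F n n : Set _) ≠ 0 := by
  obtain ⟨m₀, hm₀⟩ := antiM_nonempty (F := F) hn le_rfl
  rw [ssum_mul_ssum (C := {g | ∃ u ∈ upT F n n, ∃ m ∈ antiM F n n, u * m = g})
      (fun a ha b hb => ⟨a, ha, b, hb, rfl⟩) (fun c hc => hc) (fun a ha a' ha' b hb b' hb' h => ?_),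
    ssum_mul_ssum (C := {g | ∃ a ∈ {g | ∃ u ∈ upT F n n, ∃ m ∈ antiM F n n, u * m = g},
      ∃ v ∈ upT F n n, a * v = g})
      (fun a ha b hb => ⟨a, ha, b, hb, rfl⟩) (fun c hc => hc) ?_]
  · intro h
    have h1 := congrArg (fun a => a.coeff m₀) h
    rw [coeff_ssum_of_mem] at h1
    · simp at h1
    · exact ⟨m₀, ⟨1, (upT F n n).one_mem, m₀, hm₀, one_mul _⟩, 1, (upT F n n).one_mem, mul_one _⟩
  · rintro _ ⟨u, hu, m, hm, rfl⟩ _ ⟨u', hu', m', hm', rfl⟩ v hv v' hv' h
    have h1 : u'⁻¹ * u * (m * m'⁻¹) = m' * (v' * v⁻¹) * m'⁻¹ := by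
      calc u'⁻¹ * u * (m * m'⁻¹) = u'⁻¹ * (u * m * v) * v⁻¹ * m'⁻¹ := by group
        _ = _ := by rw [h]; group
    have h2 := eq_one_of_mem_loT ((upT F n n).mul_mem ((upT F n n).inv_mem hu') hu)
      (antiM_mul_antiM hm (inv_mem_antiM hm'))
      (h1 ▸ conj_upT_mem_loT hm' ((upT F n n).mul_mem hv' ((upT F n n).inv_mem hv)))
    calc u * m = u' * (u'⁻¹ * u * (m * m'⁻¹)) * m' := by group
      _ = u' * m' := by rw [h2, mul_one]
  · have h1 : a'⁻¹ * a = b' * b⁻¹ := by
      rw [inv_mul_eq_iff_eq_mul, ← mul_assoc, ← h, mul_inv_cancel_right]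
    have h2 : a'⁻¹ * a = 1 := by
      refine slm_ext (Matrix.ext fun i j => ?_)
      by_cases hij : i = j
      · exact mem_patSub.1 ((upT F n n).mul_mem ((upT F n n).inv_mem ha') ha) i j
          fun h => h.1.ne hij
      · exact mem_patSub.1 (h1 ▸ antiM_mul_antiM hb' (inv_mem_antiM hb)) i j hij
    exact (inv_mul_eq_one.1 h2).symm

theorem not_dvd_card_diagH (p : ℕ) [Fact p.Prime] [CharP F p] : ¬ p ∣ Nat.card (diagH F n) := by
  intro h
  obtain ⟨⟨g, hg⟩, hgp⟩ := exists_prime_orderOf_dvd_card' p h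
  have h1 : slm g = diagonal fun i => slm g i i := by
    ext i j
    by_cases hij : i = j
    · rw [hij, diagonal_apply_eq]
    · rw [diagonal_apply_ne _ hij, msupp_of_mem_diagH hg i j hij]
  have h2 : slm g ^ p = 1 := by
    have := pow_orderOf_eq_one (⟨g, hg⟩ : diagH F n)
    rw [hgp] at this
    exact congrArg (fun x : diagH F n => slm x.1) this
  have h3 : (⟨g, hg⟩ : diagH F n) = 1 := by
    refine Subtype.ext (slm_ext ?_)
    rw [h1, diagonal_pow] at h2
    change slm g = 1
    rw [h1, ← diagonal_one]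
    congr 1
    funext i
    have h4 := congrFun (congrFun h2 i) i
    rw [diagonal_apply_eq, one_apply_eq, Pi.pow_apply, ← one_pow p] at h4
    exact frobenius_inj F p h4
  rw [h3, orderOf_one] at hgp
  exact (Fact.out : p.Prime).one_lt.ne hgp

theorem card_antiM_ne_zero (p : ℕ) [Fact p.Prime] [CharP F p] [CharP K p] (hn : 1 ≤ n) :
    (Nat.card (antiM F n n) : K) ≠ 0 := by
  obtain ⟨m₀, hm₀⟩ := antiM_nonempty (F := F) hn le_rfl
  have : Nat.card (antiM F n n) = Nat.card (diagH F n) := Nat.card_congr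
    { toFun := fun m => ⟨m₀⁻¹ * m.1, antiM_mul_antiM (inv_mem_antiM hm₀) m.2⟩
      invFun := fun h => ⟨m₀ * h.1, antiM_mul_diagH hm₀ h.2⟩
      left_inv := fun m => Subtype.ext (by simp)
      right_inv := fun h => Subtype.ext (by simp) }
  rw [this, Ne, CharP.cast_eq_zero_iff K p]
  exact not_dvd_card_diagH p

theorem exists_hecke_ne_zero (p : ℕ) [Fact p.Prime] [CharP F p] [CharP K p] (hn : 1 ≤ n) :
    ∃ m : SpecialLinearGroup (Fin n) F,
      (ssum K (upT F n n : Set _) * ssum K (antiM F n n) * ssum K (upT F n n : Set _)) * gel K m *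
      (ssum K (upT F n n : Set _) * ssum K (antiM F n n) * ssum K (upT F n n : Set _)) ≠ 0 := by
  obtain ⟨m₀, hm₀⟩ := antiM_nonempty (F := F) hn le_rfl
  obtain ⟨c, hc0, hc⟩ := exists_hecke_const (F := F) (K := K) p hn
  have hT := ssum_upT_antiM_upT_ne_zero (F := F) (K := K) hn
  have hN := card_antiM_ne_zero (F := F) (K := K) p hn
  refine ⟨m₀, ?_⟩
  set U := ssum K (upT F n n : Set (SpecialLinearGroup (Fin n) F)) with hU
  set M := ssum K (antiM F n n) with hM
  have h1 : ∀ m' ∈ antiM F n n, U * M * (U * gel K m' * U) =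
      (Nat.card (antiM F n n) : K) • c • (U * M * U) := fun m' hm' =>
    mul_ssum_mul_of_gel fun m hm => by rw [← hc m hm m' hm']; simp only [mul_assoc]
  have h2 : U * M * U * M * U = (Nat.card (antiM F n n) : K) •
      (Nat.card (antiM F n n) : K) • c • (U * M * U) :=
    mul_ssum_mul_of_gel fun m hm => by rw [← h1 m hm]; simp only [mul_assoc]
  have h3 : U * M * U * gel K m₀ * (U * M * U) = U * M * (U * gel K m₀ * U) * M * U := by
    simp only [mul_assoc]
  rw [h3, h1 m₀ hm₀]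
  simp only [smul_mul_assoc]
  rw [h2]
  simp only [ne_eq, smul_eq_zero, hN, hc0, hT, or_self, not_false_eq_true]

end LG
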