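import Cfsg.Agent.Lib.Lin.ModDeg
import Cfsg.Agent.Lib.Grp.FpfCyc

/-!
# Zsigmondy primes for half the dimension
-/

set_option autoImplicit false
set_option linter.unusedSectionVars false
set_option linter.style.haveILetI false

namespace LG

open Cfsg CT GT BT Subgroup Module Polynomial
open scoped commutatorElement Matrix

variable {p : ℕ} [hp : Fact p.Prime] {K : Type*} [Group K] [Finite K]
variable {V : Type*} [AddCommGroup V] [Module (ZMod p) V] [Module.Finite (ZMod p) V]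

theorem exists_isCompl_subrep {ρ : Representation (ZMod p) K V} (hK : ¬ p ∣ Nat.card K)
    (A : Subrepresentation ρ) :
    ∃ B : Subrepresentation ρ, IsCompl A.toSubmodule B.toSubmodule := by
  haveI : NeZero (Nat.card K : ZMod p) := ⟨by rwa [Ne, CharP.cast_eq_zero_iff _ p]⟩
  obtain ⟨B, hB⟩ := exists_isCompl A
  exact ⟨B, disjoint_iff.2 (congrArg Subrepresentation.toSubmodule hB.inf_eq_bot),
    codisjoint_iff.2 (congrArg Subrepresentation.toSubmodule hB.sup_eq_top)⟩

theorem end_ext_of_isCompl {A B : Submodule (ZMod p) V} (h : IsCompl A B)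
    {f g : Module.End (ZMod p) V} (h1 : ∀ v ∈ A, f v = g v) (h2 : ∀ v ∈ B, f v = g v) : f = g :=
  LinearMap.ext fun v => by
    obtain ⟨a, ha, b, hb, rfl⟩ := Submodule.mem_sup.1 (h.sup_eq_top ▸ Submodule.mem_top (x := v))
    rw [map_add, map_add, h1 a ha, h2 b hb]

theorem le_center_of_small_degree {ψ : K → ℂ} (hψ : IsCharacter K ψ) (hk : ker ψ = ⊥) {r : ℕ}
    [hr : Fact r.Prime] (hd : charDegree ψ + 1 < r) (R : Sylow r K)
    (h : ∀ x ∈ (R : Subgroup K), orderOf x = r → x ∈ center K) : (R : Subgroup K) ≤ center K := by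
  have h1 : ∀ x ∈ commutator K, orderOf x ≠ r := fun x hx hxo => by
    have h2 : IsPElt r x := ⟨1, hxo.trans (pow_one r).symm⟩
    obtain ⟨g, -, hg⟩ := (isSylowIn_sylow R).exists_conj_mem h2 (mem_top x)
    have h3 : orderOf (g * x * g⁻¹) = r := (orderOf_eq_of_isConj (isConj_iff.2 ⟨g, rfl⟩)).symm.trans hxo
    rw [eq_one_of_mem_center_commutator hψ hk (by omega) ⟨1, h3.trans (pow_one r).symm⟩ (h _ hg h3)
      (Normal.conj_mem inferInstance x hx g), orderOf_one] at h3
    exact hr.out.one_lt.ne h3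
  have h2 : ¬ r ∣ (pCore r K).index := fun h2 => by
    obtain ⟨S, ι, φ, W⟩ := exists_linCore hψ hk hd h2 (feit_not_sq_dvd hψ hk hd)
    have h3 := W.perfect ((Nat.succ_le_succ (hψ.degree_le_of_ip_ne_zero φ W.mem)).trans_lt hd)
    refine h1 (ι (Multiplicative.ofAdd 1)) ?_ ?_
    · have h4 : ι (Multiplicative.ofAdd 1) ∈ commutator S := h3 ▸ mem_top _
      have h5 := mem_map_of_mem S.subtype h4
      rw [map_subtype_commutator] at h5
      exact commutator_mono le_top le_top h5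
    · rw [orderOf_coe, orderOf_injective ι W.syl.inj, orderOf_ofAdd_eq_addOrderOf,
        ZMod.addOrderOf_one]
  have h3 : pCore r K = R := (((isPGroup_pCore r K).toSylow h2).is_maximal' R.isPGroup'
      (pCore_le_sylow R)).symm
  have hN : (R : Subgroup K).Normal := h3 ▸ inferInstance
  intro x hx
  rw [mem_center_iff]
  intro g
  by_contra h4
  have h5 : ⁅g, x⁆ ∈ (R : Subgroup K) := mul_mem (hN.conj_mem x hx g) (inv_mem hx)
  obtain ⟨y, hy, hyo⟩ := exists_mem_zpowers_orderOf (isPElt_of_mem R.isPGroup' h5)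
    (mt commutatorElement_eq_one_iff_mul_comm.1 h4)
  exact h1 y (zpowers_le.2 (commutator_mem_commutator (mem_top g) (mem_top x)) hy) hyo

theorem index_centralizer_le_degree {χ : K → ℂ} (hχ : IsCharacter K χ) (hk : ker χ = ⊥) {r : ℕ}
    (hr : r.Prime) {y : K} (hy : orderOf y = r) (hN : (zpowers y).Normal) :
    (centralizer ({y} : Set K)).index ≤ charDegree χ := by
  classical
  obtain ⟨s, hs⟩ := exists_isEig hχ y
  obtain ⟨ζ, hζ, h1⟩ : ∃ ζ ∈ s, ζ ≠ 1 := by
    by_contra h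
    push Not at h
    have := hs.mem_ker hχ h
    rw [hk, mem_bot] at this
    rw [this, orderOf_one] at hy
    exact hr.one_lt.ne hy
  haveI := Fact.mk hr
  have h2 : IsPrimitiveRoot ζ (orderOf y) := by
    have h3 : orderOf ζ = r := orderOf_eq_prime (hy ▸ hs.pow_orderOf hχ hζ) h1
    rw [hy, ← h3]
    exact IsPrimitiveRoot.orderOf _
  have h3 : ∀ x : {x // IsConj y x}, ∃ j : ℕ, y ^ j = x ∧ ζ ^ j ∈ s.toFinset := fun x => by
    obtain ⟨x, hx⟩ := x
    obtain ⟨j, rfl⟩ : x ∈ Submonoid.powers y := by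
      obtain ⟨c, rfl⟩ := isConj_iff.1 hx
      exact mem_powers_iff_mem_zpowers.2 (hN.conj_mem _ (mem_zpowers y) c)
    refine ⟨j, rfl, Multiset.mem_toFinset.2 ?_⟩
    rw [(hs.of_isConj hχ.isClassFunction hx).unique (hs.pow j)]
    exact Multiset.mem_map_of_mem _ hζ
  choose j hj hj' using h3
  rw [← card_conj_eq_index, ← hs.card]
  refine le_trans ?_ s.toFinset_card_le
  rw [← Fintype.card_coe, ← Nat.card_eq_fintype_card]
  refine Nat.card_le_card_of_injective (fun x => ⟨_, hj' x⟩) fun x x' e => Subtype.ext ?_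
  rw [← hj, ← hj, pow_eq_pow_iff_modEq]
  have h4 : IsUnit ζ := (hs.ne ζ hζ).isUnit
  lift ζ to ℂˣ using h4
  rw [h2.eq_orderOf, orderOf_units, ← pow_eq_pow_iff_modEq]
  exact Units.ext (by simpa using e)

namespace Zs

variable {r m : ℕ} (Z : Zs p r m) (hV : finrank (ZMod p) V = 2 * m)
include Z hV

theorem natCast_ne_zero : (r : ZMod p) ≠ 0 := fun h => Z.not_dvd (by
  rw [CharP.cast_eq_zero_iff _ p, Nat.prime_dvd_prime_iff_eq hp.out Z.prime] at h
  rw [Nat.card_zmod, h])

theorem finrank_ker {x : Module.End (ZMod p) V} (hx : x ^ r = 1) (h1 : x ≠ 1) {v : V} (hv : v ≠ 0)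
    (h : x v = v) : finrank (ZMod p) (LinearMap.ker (x - 1)) = m ∧
      finrank (ZMod p) (LinearMap.range (x - 1)) = m := by
  have h2 := Z.dvd_finrank_sub hx
  have h3 := LinearMap.finrank_range_add_finrank_ker (x - 1)
  have h4 : finrank (ZMod p) (LinearMap.ker (x - 1)) < finrank (ZMod p) V :=
    Submodule.finrank_lt fun e => h1 (sub_eq_zero.1 (LinearMap.ker_eq_top.1 e))
  have h5 : finrank (ZMod p) (LinearMap.ker (x - 1)) ≠ 0 := fun e =>
    hv ((Submodule.eq_bot_iff _).1 (Submodule.finrank_eq_zero.1 e) v (by simpa [sub_eq_zero] using h))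
  obtain ⟨c, hc⟩ := h2
  have h6 : c = 1 := by
    rcases c with _ | _ | c
    · omega
    · rfl
    · have : m * (c + 1 + 1) = m * c + 2 * m := by ring
      omega
  subst h6
  omega

variable {ρ : Representation (ZMod p) K V} (hρ : Function.Injective ρ)
include hρ

theorem map_pow_eq' {x : K} (hx : orderOf x = r) : ρ x ^ r = 1 ∧ ρ x ≠ 1 :=
  ⟨by rw [← map_pow, ← hx, pow_orderOf_eq_one, map_one], fun h => by
    rw [hρ (h.trans (map_one ρ).symm), orderOf_one] at hx
    exact Z.prime.one_lt.ne hx⟩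

theorem isCyclic_of_fix {T : Subgroup K} (hT : IsPGroup r T) {v : V} (hv : v ≠ 0)
    (h : ∀ t ∈ T, ρ t v = v) : IsCyclic T := by
  haveI := Fact.mk Z.prime
  by_cases h0 : T = ⊥
  · subst h0; infer_instance
  obtain ⟨z, hz, hzo, hTz⟩ := exists_central_orderOf hT h0
  obtain ⟨h1, h2⟩ := Z.map_pow_eq' hV hρ hzo
  obtain ⟨h3, h4⟩ := Z.finrank_ker hV h1 h2 hv (h z hz)
  have hc : ∀ t : T, ρ t * ρ z = ρ z * ρ t := fun t => by
    rw [← map_mul, ← map_mul, mem_centralizer_singleton_iff.1 (hTz t.2)]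
  have hc' : ∀ (t : T) w, ρ t ((ρ z - 1) w) = (ρ z - 1) (ρ t w) := fun t w => by
    rw [← Module.End.mul_apply, ← Module.End.mul_apply, mul_sub, sub_mul, hc, mul_one, one_mul]
  let A : Subrepresentation (ρ.comp T.subtype) := ⟨LinearMap.ker (ρ z - 1), fun t w hw => by
    rw [LinearMap.mem_ker] at hw ⊢
    exact (hc' t w).symm.trans (by rw [hw, map_zero])⟩
  let B : Subrepresentation (ρ.comp T.subtype) := ⟨LinearMap.range (ρ z - 1), by
    rintro t _ ⟨w, rfl⟩
    exact ⟨_, (hc' t w).symm⟩⟩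
  have hAB := isCompl_ker_range (Z.natCast_ne_zero hV) h1
  have hA : ∀ t : T, A.toRepresentation t = 1 := fun t => by
    obtain ⟨k, hk⟩ := hT t
    refine (h3 ▸ Z).eq_one (k := k) (by rw [← map_pow, hk, map_one])
      (v := ⟨v, by simpa [A, sub_eq_zero] using h z hz⟩) (by simpa using hv) (Subtype.ext (h t t.2))
  have hB : Function.Injective B.toRepresentation := (injective_iff_map_eq_one _).2 fun t ht =>
    Subtype.ext (hρ ((end_ext_of_isCompl hAB
      (fun w hw => congrArg Subtype.val (LinearMap.congr_fun (hA t) ⟨w, hw⟩))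
      fun w hw => congrArg Subtype.val (LinearMap.congr_fun ht ⟨w, hw⟩)).trans (map_one ρ).symm))
  obtain ⟨h5, h6⟩ := (h4 ▸ Z).map_pow_eq hB (x := ⟨z, hz⟩) (by rw [← orderOf_coe, hzo])
  exact (h4 ▸ Z).isCyclic h5 h6 hB fun t => by
    rw [← map_mul, ← map_mul]
    exact congrArg _ (Subtype.ext (mem_centralizer_singleton_iff.1 (hTz t.2)))

theorem comm_or_exists_irr (hK : ¬ p ∣ Nat.card K) {y : K} (hy : orderOf y = r)
    (hc : y ∈ center K) (h : ∀ v, ρ y v = v → v = 0) : (∀ a b : K, a * b = b * a) ∨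
      ∃ ψ : IrrCharacter K, ker ψ.1 = ⊥ ∧ charDegree ψ.1 ≤ 2 := by
  have hm := Z.pos
  haveI : Nontrivial V := Module.nontrivial_of_finrank_pos (R := ZMod p) (by omega)
  obtain ⟨h1, -⟩ := Z.map_pow_eq' hV hρ hy
  obtain ⟨ψ, h2, v, hv, h3⟩ := Z.exists_irr ρ hK hc h1 h
  refine or_iff_not_imp_right.2 fun h4 => ?_
  have h5 : ker ψ.1 ≠ ⊥ := fun e => h4 ⟨ψ, e, by nlinarith⟩
  let A : Subrepresentation ρ := ⟨Representation.invariants (ρ.comp (ker ψ.1).subtype),
    fun g w hw => invariants_apply_mem ρ _ g hw⟩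
  obtain ⟨B, hAB⟩ := exists_isCompl_subrep hK A
  have key : ∀ C : Subrepresentation ρ, C.toRepresentation y ^ r = 1 ∧
      m ∣ finrank (ZMod p) C.toSubmodule ∧ (C.toSubmodule ≠ ⊥ → C.toRepresentation y ≠ 1) :=
    fun C => by
      have h6 : C.toRepresentation y ^ r = 1 := by
        rw [← map_pow, ← hy, pow_orderOf_eq_one, map_one]
      have h7 : LinearMap.ker (C.toRepresentation y - 1) = ⊥ := (Submodule.eq_bot_iff _).2
        fun w hw => Subtype.ext (h _ (congrArg Subtype.val (sub_eq_zero.1 hw)))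
      have h7' := Z.dvd_finrank_sub h6
      rw [h7, finrank_bot, Nat.sub_zero] at h7'
      refine ⟨h6, h7', fun h8 h9 => h8 ?_⟩
      exact (Submodule.eq_bot_iff _).2 fun w hw =>
        h _ (congrArg Subtype.val (LinearMap.congr_fun h9 ⟨w, hw⟩))
  have hA0 : A.toSubmodule ≠ ⊥ := fun e => hv ((Submodule.eq_bot_iff _).1 e v fun g => h3 g g.2)
  have hB0 : B.toSubmodule ≠ ⊥ := fun e => h5 (eq_bot_iff.2 fun g hg => hρ (by
    rw [map_one]
    refine end_ext_of_isCompl hAB (fun w hw => hw ⟨g, hg⟩) fun w hw => ?_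
    rw [e, Submodule.mem_bot] at hw
    simp [hw]))
  have h6 := Submodule.finrank_add_eq_of_isCompl hAB
  have h7 := Nat.le_of_dvd (Nat.pos_of_ne_zero (mt Submodule.finrank_eq_zero.1 hA0)) (key A).2.1
  have h8 := Nat.le_of_dvd (Nat.pos_of_ne_zero (mt Submodule.finrank_eq_zero.1 hB0)) (key B).2.1
  have key2 : ∀ C : Subrepresentation ρ, finrank (ZMod p) C.toSubmodule = m → C.toSubmodule ≠ ⊥ →
      ∀ a b : K, ∀ w ∈ C.toSubmodule, ρ (a * b) w = ρ (b * a) w := fun C h9 h10 a b w hw => by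
    have h11 : ∀ a, C.toRepresentation a * C.toRepresentation y =
        C.toRepresentation y * C.toRepresentation a := fun a => by
      rw [← map_mul, ← map_mul, mem_center_iff.1 hc]
    have := (h9 ▸ Z).comm (key C).1 ((key C).2.2 h10) (h11 a) (h11 b)
    rw [← map_mul, ← map_mul] at this
    exact congrArg Subtype.val (LinearMap.congr_fun this ⟨w, hw⟩)
  exact fun a b => hρ (end_ext_of_isCompl hAB (key2 A (by omega) hA0 a b)
    (key2 B (by omega) hB0 a b))

theorem centralizer_comm_or (hK : ¬ p ∣ Nat.card K) {y : K} (hy : orderOf y = r)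
    (h : ∀ v, ρ y v = v → v = 0) : (∀ a b : centralizer ({y} : Set K), a * b = b * a) ∨
      ∃ ψ : IrrCharacter (centralizer ({y} : Set K)), ker ψ.1 = ⊥ ∧ charDegree ψ.1 ≤ 2 :=
  Z.comm_or_exists_irr hV (ρ := ρ.comp (centralizer ({y} : Set K)).subtype)
    (hρ.comp Subtype.val_injective) (fun h => hK (h.trans (card_subgroup_dvd_card _)))
    (y := ⟨y, mem_centralizer_singleton_iff.2 rfl⟩) (by rw [← orderOf_coe, hy])
    (mem_center_iff.2 fun g => Subtype.ext (mem_centralizer_singleton_iff.1 g.2)) h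

theorem unifCent_of_fpf [Fact r.Prime] (hK : ¬ p ∣ Nat.card K) (hm : 3 ≤ m) (R : Sylow r K)
    (hR : (R : Subgroup K) ≠ ⊥) (h : ∀ z ∈ (R : Subgroup K), orderOf z = r →
      (R : Subgroup K) ≤ centralizer ({z} : Set K) → ∀ v, ρ z v = v → v = 0) :
    IsCyclic (R : Subgroup K) ∧ UnifCent (R : Subgroup K) ∧
      ∀ z ∈ (R : Subgroup K), orderOf z = r → ∀ v, ρ z v = v → v = 0 := by
  have hr := Z.lt
  have hab : ∀ x ∈ (R : Subgroup K), ∀ y ∈ (R : Subgroup K), x * y = y * x := by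
    obtain ⟨z, hz, hzo, hRz⟩ := exists_central_orderOf R.isPGroup' hR
    intro x hx y hy
    rcases Z.centralizer_comm_or hV hρ hK hzo (h z hz hzo hRz) with h1 | ⟨ψ, h1, h2⟩
    · exact congrArg Subtype.val (h1 ⟨x, hRz hx⟩ ⟨y, hRz hy⟩)
    · exact congrArg Subtype.val (comm_of_isPGroup_of_lt (irr_isCharacter ψ) h1 (by omega)
        (R.isPGroup'.comap_subtype (K := centralizer ({z} : Set K))) ⟨x, hRz hx⟩ hx ⟨y, hRz hy⟩ hy)
  have hRz : ∀ z ∈ (R : Subgroup K), (R : Subgroup K) ≤ centralizer ({z} : Set K) :=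
    fun z hz x hx => mem_centralizer_singleton_iff.2 (hab x hx z hz)
  have hf : ∀ z ∈ (R : Subgroup K), orderOf z = r → ∀ v, ρ z v = v → v = 0 :=
    fun z hz hzo => h z hz hzo (hRz z hz)
  have hcyc : IsCyclic (R : Subgroup K) := by
    haveI : IsMulCommutative (R : Subgroup K) := ⟨⟨fun a b => Subtype.ext (hab a a.2 b b.2)⟩⟩
    haveI : Nontrivial V := Module.nontrivial_of_finrank_pos (R := ZMod p) (by omega)
    haveI : Finite V := Module.finite_of_finite (ZMod p)
    let φ : (R : Subgroup K) →* MulAut (Multiplicative V) :=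
      { toFun := fun g => AddEquiv.toMultiplicative
          (LinearMap.GeneralLinearGroup.toLinearEquiv (ρ.asGroupHom g)).toAddEquiv
        map_one' := by ext; simp
        map_mul' := fun a b => by ext; simp }
    refine isCyclic_of_fpf φ ?_ fun s hs v hv => ?_
    · rw [Nat.card_congr Multiplicative.toAdd, Module.natCard_eq_pow_finrank (K := ZMod p),
        Nat.card_zmod]
      exact (hp.out.coprime_iff_not_dvd.2 fun h => hK (h.trans (card_subgroup_dvd_card _))).pow_left _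
    · obtain ⟨y, hy, hyo⟩ := exists_mem_zpowers_orderOf (isPElt_of_mem R.isPGroup' s.2)
        fun e => hs (Subtype.ext e)
      refine hf y (zpowers_le.2 s.2 hy) hyo v.toAdd ?_
      obtain ⟨j, rfl⟩ := mem_powers_iff_mem_zpowers.2 hy
      have hv' : ρ s v.toAdd = v.toAdd := congrArg Multiplicative.toAdd hv
      change ρ (s ^ j) _ = _
      rw [map_pow, Module.End.pow_apply]
      exact Function.IsFixedPt.iterate hv' _
  refine ⟨hcyc, unifCent_of_prime R.isPGroup' fun y hy hyo c hc u hu => ?_, hf⟩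
  rcases Z.centralizer_comm_or hV hρ hK hyo (hf y hy hyo) with h1 | ⟨ψ, h1, h2⟩
  · exact congrArg Subtype.val (h1 ⟨u, hRz y hy hu⟩ ⟨c, hc⟩)
  · have h3 := le_center_of_small_degree (irr_isCharacter ψ) h1 (r := r) (by omega)
      (isSylowIn_sylow_of_le R (hRz y hy)).toSylow fun x hx hxo => mem_center_iff.2 fun g => by
        have h4 : zpowers (x : K) = zpowers y := eq_of_card_eq_of_isCyclic (zpowers_le.2 hx)
          (zpowers_le.2 hy) (by rw [Nat.card_zpowers, Nat.card_zpowers, hyo, orderOf_coe, hxo])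
        exact Subtype.ext (commute_of_mem_zpowers (h4 ▸ mem_zpowers (x : K))
          (mem_centralizer_singleton_iff.1 g.2).symm).symm
    exact congrArg Subtype.val (mem_center_iff.1 (h3 (x := ⟨u, hRz y hy hu⟩) hu) ⟨c, hc⟩).symm

theorem exists_comm_of_fpf (hK : ¬ p ∣ Nat.card K) {χ : K → ℂ} (hχ : IsCharacter K χ)
    (hk : ker χ = ⊥) (hd : charDegree χ ≤ 2 * m) {y : K} (hy : orderOf y = r)
    (hN : (zpowers y).Normal) (h : ∀ v, ρ y v = v → v = 0) :
    ∃ A : Subgroup K, (∀ a ∈ A, ∀ b ∈ A, a * b = b * a) ∧ A.index ≤ 120 * m := by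
  have h1 := (index_centralizer_le_degree hχ hk Z.prime hy hN).trans hd
  rcases Z.centralizer_comm_or hV hρ hK hy h with h2 | ⟨ψ, h2, h3⟩
  · exact ⟨_, fun a ha b hb => congrArg Subtype.val (h2 ⟨a, ha⟩ ⟨b, hb⟩), by omega⟩
  · obtain ⟨A, h4, h5⟩ := exists_comm_of_degree_le_two h2 h3
    refine ⟨A.map (centralizer ({y} : Set K)).subtype, ?_, ?_⟩
    · rintro _ ⟨a, ha, rfl⟩ _ ⟨b, hb, rfl⟩
      exact congrArg Subtype.val (h4 a ha b hb)
    · rw [index_map_subtype]
      exact (Nat.mul_le_mul h5 h1).trans_eq (by ring)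

end Zs

end LG
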